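import Cfsg.Statements.S0977
import Cfsg.Agent.H6.Sieve2

set_option autoImplicit false
open Cfsg

namespace Cfsg.Agent.S0977

/-- No finite simple group has order 4320 = 2^5 * 3^3 * 5. -/
theorem result {G : Type*} [Group G] [Finite G] [IsSimpleGroup G] : Nat.card G ≠ 4320 := by
  exact H6.Sieve.ne_4320

end Cfsg.Agent.S0977
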