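import Cfsg.Statements.S0981
import Cfsg.Agent.H6.FewD

set_option autoImplicit false
open Cfsg

namespace Cfsg.Agent.S0981

/-- A simple group of order 4080 is isomorphic to the projective special linear group of dimension 2 over the field with 16 elements. -/
theorem result {G : Type*} [Group G] [Finite G] [IsSimpleGroup G] (h : Nat.card G = 4080) {F : Type*} [Field F] [Fintype F] (hF : Fintype.card F = 16) : Nonempty (G ≃* Matrix.ProjectiveSpecialLinearGroup (Fin 2) F) := by
  have : Fact (Nat.Prime 17) := ⟨by norm_num⟩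
  have h1 : ¬ IsMulCommutative G := H6.not_isMulCommutative_of_card (by rw [h]; norm_num)
  obtain ⟨D, B, n, h2, h3⟩ := H6.exists_few_of_lt (p := 17) h1 (by rw [h]; norm_num)
    (by rw [h]; norm_num)
  obtain ⟨-, ⟨h4, h5⟩ | ⟨m, h4, -, h5⟩⟩ := h2.main (H6.perfect_of_simple h1) h3
  · have h6 := D.card_G
    rw [h, h4] at h6
    omega
  · exact h5 F (by omega)

end Cfsg.Agent.S0981
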