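import Cfsg.Statements.S0983
import Cfsg.Agent.H6.Sieve2

set_option autoImplicit false
open Cfsg

namespace Cfsg.Agent.S0983

def ok (g : ℕ) : Bool :=
  H6.Sieve.elim 80 g || [4080, 4320, 4500, 4620, 4900, 5292, 5400, 5460, 5616, 6048, 6072].contains g

theorem chunk0 : (List.range 288).all (fun i => ok (3641 + i)) = true := by
  decide +kernel

theorem chunk1 : (List.range 288).all (fun i => ok (3929 + i)) = true := by
  decide +kernel

theorem chunk2 : (List.range 288).all (fun i => ok (4217 + i)) = true := by
  decide +kernel

theorem chunk3 : (List.range 288).all (fun i => ok (4505 + i)) = true := by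
  decide +kernel

theorem chunk4 : (List.range 288).all (fun i => ok (4793 + i)) = true := by
  decide +kernel

theorem chunk5 : (List.range 288).all (fun i => ok (5081 + i)) = true := by
  decide +kernel

theorem chunk6 : (List.range 288).all (fun i => ok (5369 + i)) = true := by
  decide +kernel

theorem chunk7 : (List.range 288).all (fun i => ok (5657 + i)) = true := by
  decide +kernel

theorem chunk8 : (List.range 288).all (fun i => ok (5945 + i)) = true := by
  decide +kernel

theorem ok_of {g : ℕ} (h1 : 3640 < g) (h2 : g ≤ 6232) : ok g = true := by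
  have key : ∀ a : ℕ, (List.range 288).all (fun i => ok (a + i)) = true → a ≤ g → g < a + 288 →
      ok g = true := fun a h h3 h4 => by
    have := List.all_eq_true.mp h (g - a) (List.mem_range.mpr (by omega))
    rwa [show a + (g - a) = g by omega] at this
  by_cases h10 : g < 3929
  · exact key _ chunk0 (by omega) (by omega)
  by_cases h11 : g < 4217
  · exact key _ chunk1 (by omega) (by omega)
  by_cases h12 : g < 4505
  · exact key _ chunk2 (by omega) (by omega)
  by_cases h13 : g < 4793
  · exact key _ chunk3 (by omega) (by omega)
  by_cases h14 : g < 5081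
  · exact key _ chunk4 (by omega) (by omega)
  by_cases h15 : g < 5369
  · exact key _ chunk5 (by omega) (by omega)
  by_cases h16 : g < 5657
  · exact key _ chunk6 (by omega) (by omega)
  by_cases h17 : g < 5945
  · exact key _ chunk7 (by omega) (by omega)
  exact key _ chunk8 (by omega) (by omega)


/-- A non-abelian finite simple group of order greater than 3640 and at most 6232 has order 4080, 5616, 6048 or 6072. -/
theorem result {G : Type*} [Group G] [Finite G] [IsSimpleGroup G] (hG : ¬ IsMulCommutative G) (h1 : 3640 < Nat.card G) (h2 : Nat.card G ≤ 6232) : Nat.card G = 4080 ∨ Nat.card G = 5616 ∨ Nat.card G = 6048 ∨ Nat.card G = 6072 := by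
  have h3 := ok_of h1 h2
  rw [ok, H6.Sieve.elim_sound hG, Bool.false_or] at h3
  simp only [List.contains_eq_mem, List.mem_cons, List.not_mem_nil, or_false, decide_eq_true_eq,
    H6.Sieve.ne_4320, H6.Sieve.ne_4500, H6.Sieve.ne_4620, H6.Sieve.ne_4900, H6.Sieve.ne_5292,
    H6.Sieve.ne_5400, H6.Sieve.ne_5460, false_or] at h3
  exact h3

end Cfsg.Agent.S0983
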