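import Cfsg.Statements.S1011
import Cfsg.Agent.H6.Sieve2
import Cfsg.Agent.H6.DefZero
import Cfsg.Agent.H6.PSLEven

set_option autoImplicit false
open Cfsg

namespace Cfsg.Agent.S1011

open Finset Subgroup Cfsg.Agent.L0 Cfsg.Agent.H6 in
theorem ncard_two {G : Type*} [Group G] [Finite G] [IsSimpleGroup G] (h : Nat.card G = 504) :
    {g : G | 2 ∣ orderOf g}.ncard = 63 ∧ ∀ g : G, 2 ∣ orderOf g → ¬ 3 ∣ orderOf g ∧ ¬ 7 ∣ orderOf g := by
  classical
  have : Fact (Nat.Prime 7) := ⟨by norm_num⟩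
  have := Fintype.ofFinite G
  have hG : ¬ IsMulCommutative G := not_isMulCommutative_of_card (by rw [h]; norm_num)
  obtain ⟨D, ⟨B⟩⟩ := Sieve.exists_brauer (p := 7) h (by norm_num) (by norm_num)
  obtain ⟨l, h3, h4⟩ := Sieve.elimOne_sound B hG (s := 30) (by rw [h]; norm_num) []
    (fun n e k l => !(n == 36 && e == 2 && k == 1 && l.all fun x => x == 8 || x == -9))
    (by rw [h]; decide +kernel)
  simp only [Bool.not_eq_false', beq_iff_eq, Bool.and_eq_true, List.all_eq_true,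
    Bool.or_eq_true] at h4
  obtain ⟨⟨⟨hn, he⟩, hK⟩, h4⟩ := h4
  obtain ⟨χ, h5⟩ := card_eq_one.mp (show (B.S.erase (irrOne G)).card = 1 by
    rw [card_erase_of_mem B.one_mem, B.card_S, he])
  have h6 : χ ∈ B.S := mem_of_mem_erase (h5 ▸ mem_singleton_self χ)
  have h7 : ∀ {M : Type} [AddCommMonoid M] (f : IrrCharacter G → M),
      ∑ ψ ∈ B.S, f ψ = f (irrOne G) + f χ := fun f => by
    rw [← add_sum_erase _ _ B.one_mem, h5, sum_singleton]
  have h8 := B.deg_eqn
  rw [h7, B.δ_one, deg_irrOne] at h8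
  have h9 : ∀ x ∈ Sieve.degs B, x = 8 ∨ x = -9 := fun x hx => h4 x (Multiset.mem_coe.mp (h3 ▸ hx))
  have h10 := h9 _ (Multiset.mem_cons_self _ _)
  have h5' : χ ∈ B.S.erase (irrOne G) := h5 ▸ mem_singleton_self χ
  have h11 := h9 (B.δ χ * deg χ) (Multiset.mem_cons_of_mem (Multiset.mem_map_of_mem _
    (mem_val.mpr (by convert h5'))))
  have h12 := B.dvd_deg_sub h6
  have h13 : B.δ χ = 1 ∧ deg χ = 8 := by rcases B.hδ χ h6 with h | h <;> rw [h] at h11 h12 <;> omega
  have h14 : B.δ0 = -1 ∧ deg (B.c 1) = 9 := by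
    rw [h13.1, h13.2] at h8
    rw [B.deg_c]
    rcases B.hδ0 with h | h <;> rw [h] at h8 <;> omega
  have h15 : ∀ g, ¬ 7 ∣ orderOf g → (B.c 1).1 g = 1 + χ.1 g := fun g hg => by
    have := B.eqn 1 hg
    rw [h7, B.δ_one, h13.1, h14.1] at this
    simp only [irrOne_val, Pi.one_apply] at this
    push_cast at this
    linear_combination -this
  have h16 : ∀ g, 2 ∣ orderOf g → χ.1 g = 0 := fun g =>
    eq_zero_of_defect_zero Nat.prime_two (by rw [h, h13.2]; norm_num)
  have h17 : ∀ g, 3 ∣ orderOf g → (B.c 1).1 g = 0 := fun g =>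
    eq_zero_of_defect_zero Nat.prime_three (by rw [h, h14.2]; norm_num)
  have h18 : ∀ q, q.Prime → q ≠ 7 → ∀ g : G, q ∣ orderOf g → ¬ 7 ∣ orderOf g := fun q hq h1 g =>
    D.not_dvd_orderOf hq h1 (by rw [hK]; simpa using hq.one_lt.ne')
  have h19 : ∀ g : G, 2 ∣ orderOf g → ¬ 3 ∣ orderOf g := fun g h1 h2 => by
    have := h15 g (h18 2 Nat.prime_two (by norm_num) g h1)
    rw [h16 g h1, h17 g h2] at this
    simp at this
  refine ⟨?_, fun g hg => ⟨h19 g hg, h18 2 Nat.prime_two (by norm_num) g hg⟩⟩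
  have h20 : ∀ g : G, χ.1 g = (if g = 1 then 8 else 0) + (if orderOf g = 7 then 1 else 0) -
      (if 3 ∣ orderOf g then 1 else 0) ∧ (1 : ℂ) = (if g = 1 then 1 else 0) +
      (if orderOf g = 7 then 1 else 0) + (if 3 ∣ orderOf g then 1 else 0) +
      (if 2 ∣ orderOf g then 1 else 0) := fun g => by
    by_cases h1 : g = 1
    · simp [h1, deg_eq, h13.2]
    obtain ⟨q, hq, h2⟩ := Nat.exists_prime_and_dvd (mt orderOf_eq_one_iff.mp h1)
    by_cases h7 : 7 ∣ orderOf g
    · obtain ⟨i, hi, k, hk, h3⟩ := D.exists_conj_of_dvd h7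
      rw [Subgroup.card_eq_one.mp hK, mem_bot] at hk
      rw [hk, one_mul] at h3
      have := (orderOf_eq_of_isConj h3).trans (D.orderOf_xp hi)
      simp [h1, this, B.val_S_of_dvd h6 h7, h13.1]
    have h7' : orderOf g ≠ 7 := fun h => h7 (h ▸ dvd_rfl)
    by_cases h3 : 3 ∣ orderOf g
    · have h4 := h15 g h7
      rw [h17 g h3] at h4
      simp only [h1, h7', h3, mt (h19 g) (not_not.mpr h3), if_true, if_false]
      exact ⟨by linear_combination -h4, by ring⟩
    have h4 : 2 ∣ orderOf g := by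
      have h4 := h2.trans (orderOf_dvd_natCard g)
      rw [h, show 504 = 2 ^ 3 * 3 ^ 2 * 7 by norm_num, hq.dvd_mul, hq.dvd_mul] at h4
      rcases h4 with (h4 | h4) | h4
      · exact (Nat.prime_dvd_prime_iff_eq hq Nat.prime_two).mp (hq.dvd_of_dvd_pow h4) ▸ h2
      · exact absurd ((Nat.prime_dvd_prime_iff_eq hq Nat.prime_three).mp
          (hq.dvd_of_dvd_pow h4) ▸ h2) h3
      · exact absurd ((Nat.prime_dvd_prime_iff_eq hq (by norm_num)).mp h4 ▸ h2) h7
    simp [h1, h7', h3, h4, h16 g h4]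
  have h21 : ∑ g, χ.1 g = 0 := by
    have h1 := classInner_irr χ (irrOne G)
    rw [if_neg (ne_of_mem_erase (h5 ▸ mem_singleton_self χ)), irrOne_val, classInner_one_right,
      mul_eq_zero] at h1
    exact h1.resolve_left (inv_ne_zero (natCard_ne_zero G))
  have h22 := ncard_orderOf_eq_prime D.P D.card_P
  have h23 : ∀ P : G → Prop, ∀ [DecidablePred P],
      ∑ g, (if P g then (1 : ℂ) else 0) = {g | P g}.ncard := fun P _ => by
    rw [sum_boole, ← Set.ncard_coe_finset, coe_filter_univ]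
  have h24 := sum_congr (rfl : (univ : Finset G) = univ) fun g _ => (h20 g).2
  simp only [sum_congr rfl fun g _ => (h20 g).1, sum_sub_distrib, sum_add_distrib, h23,
    sum_ite_eq', mem_univ, if_true, h22, hn] at h21
  simp only [sum_add_distrib, sum_ite_eq', mem_univ, if_true] at h24
  rw [h23, h23, h23, h22, hn, sum_const, card_univ, ← Nat.card_eq_fintype_card, h] at h24
  have h25 : ({g : G | 2 ∣ orderOf g}.ncard : ℂ) = (63 : ℕ) := by
    push_cast at h21 h24 ⊢
    rw [nsmul_eq_mul] at h24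
    push_cast at h24
    linear_combination h21 - h24
  exact_mod_cast h25

/-- A simple group of order 504 is isomorphic to the projective special linear group of dimension 2 over the field with 8 elements. -/
theorem result {G : Type*} [Group G] [Finite G] [IsSimpleGroup G] (h : Nat.card G = 504) {F : Type*} [Field F] [Fintype F] (hF : Fintype.card F = 8) : Nonempty (G ≃* Matrix.ProjectiveSpecialLinearGroup (Fin 2) F) := by
  obtain ⟨h1, h2⟩ := ncard_two h
  obtain ⟨s, hs, h3⟩ := H6.exists_central_in_sylow (G := G) Nat.prime_two (by rw [h]; norm_num)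
  have h4 : ∀ q : ℕ, q.Prime → q ≠ 2 → q ∣ Nat.card (Subgroup.centralizer ({s} : Set G)) →
      q ≠ 3 ∧ q ≠ 7 := fun q hq h4 h5 => by
    have := Fact.mk hq
    obtain ⟨y, -, -, h6⟩ := H6.exists_orderOf_mul h5
      (hs ▸ (Nat.coprime_primes Nat.prime_two hq).mpr h4.symm)
    rw [hs] at h6
    obtain ⟨h7, h8⟩ := h2 (s * y) (h6 ▸ dvd_mul_right _ _)
    exact ⟨fun h => h7 (h6 ▸ h ▸ dvd_mul_left _ _), fun h => h8 (h6 ▸ h ▸ dvd_mul_left _ _)⟩
  have h5 := (Subgroup.centralizer ({s} : Set G)).index_mul_card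
  have h6 : Nat.card (Subgroup.centralizer ({s} : Set G)) = 8 := by
    have h6 := fun h => (h4 3 (by norm_num) (by norm_num) h).1 rfl
    have h7 := fun h => (h4 7 (by norm_num) (by norm_num) h).2 rfl
    rw [h] at h5
    have h8 : Nat.card (Subgroup.centralizer ({s} : Set G)) ∣ 8 := by
      refine Nat.Coprime.dvd_of_dvd_mul_left (m := 3 ^ 2 * 7) (Nat.Coprime.mul_right
        (Nat.Coprime.pow_right 2 ?_) ?_) ⟨_, h5.symm.trans (mul_comm _ _)⟩
      · exact ((Nat.Prime.coprime_iff_not_dvd (by norm_num)).mpr h6).symm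
      · exact ((Nat.Prime.coprime_iff_not_dvd (by norm_num)).mpr h7).symm
    have h9 := Nat.le_of_dvd (by norm_num) h8
    generalize Nat.card (Subgroup.centralizer ({s} : Set G)) = c at *
    interval_cases c <;> omega
  have h7 : H6.cl s = {g : G | 2 ∣ orderOf g} := Set.eq_of_subset_of_ncard_le
    (fun g hg => hs ▸ (H6.orderOf_eq_of_isConj hg).dvd) (by
      rw [h1, H6.ncard_cl_eq_index]
      rw [h6, h] at h5
      omega)
  refine H6.psl_even (s := s) (by rw [← sq, ← hs, pow_orderOf_eq_one]) (fun y hy h8 => ?_) hF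
    (by rw [h]) (fun h => by simp [h] at hs) h6
  have h9 := Subgroup.orderOf_dvd_natCard _ (Subgroup.mem_centralizer_singleton_iff.mpr hy)
  rw [h6] at h9
  obtain ⟨q, hq, h10⟩ := Nat.exists_prime_and_dvd (mt orderOf_eq_one_iff.mp h8)
  obtain rfl := (Nat.prime_dvd_prime_iff_eq hq Nat.prime_two).mp
    (hq.dvd_of_dvd_pow (n := 3) (h10.trans h9))
  exact (h7 ▸ h10 : y ∈ H6.cl s)

end Cfsg.Agent.S1011
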