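import Cfsg.Statements.S1020
import Cfsg.Agent.H6.ZLine

set_option autoImplicit false
open Cfsg

namespace Cfsg.Agent.S1020

/-- A simple group of order 2448 is isomorphic to the projective special linear group of dimension 2 over the field with 17 elements. -/
theorem result {G : Type*} [Group G] [Finite G] [IsSimpleGroup G] (h : Nat.card G = 2448) {F : Type*} [Field F] [Fintype F] (hF : Fintype.card F = 17) : Nonempty (G ≃* Matrix.ProjectiveSpecialLinearGroup (Fin 2) F) := by
  have hG : ¬ IsMulCommutative G := H6.not_isMulCommutative_of_card (by rw [h]; norm_num)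
  have : Fact (Nat.Prime 17) := ⟨by norm_num⟩
  refine H6.psl_of_card_sylow hF hG ?_ (by rw [h])
  have h2 := card_sylow_modEq_one 17 G
  have h3 := H6.card_sylow_ne_one (p := 17) hG (by rw [h]; norm_num)
  have h4 := H6.card_sylow_dvd_of (p := 17) (k := 1) (m := 144) h (by norm_num)
  have h5 := Nat.le_of_dvd (by norm_num) h4
  obtain ⟨k, hk⟩ := (Nat.modEq_iff_dvd' Nat.card_pos).mp h2.symm
  have h6 : 0 < Nat.card (Sylow 17 G) := Nat.card_pos
  have h7 : Nat.card (Sylow 17 G) = 17 * k + 1 := by omega
  rw [h7] at h3 h4 h5 ⊢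
  have : k ≤ 11 := by omega
  interval_cases k <;> omega

end Cfsg.Agent.S1020
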