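import Cfsg.Statements.S1313
import Cfsg.Agent.H7.FStar

set_option autoImplicit false
open Cfsg

namespace Cfsg.Agent.S1313

open Subgroup Cfsg.Agent.H7


/-- For a finite group H, |H| ≤ |F*(H)|!. -/
theorem result {H : Type*} [Group H] [Finite H] : Nat.card H ≤ Nat.factorial (Nat.card ↥(Cfsg.generalizedFittingSubgroup H)) := by
  classical
  set F := Cfsg.generalizedFittingSubgroup H with hF
  -- conjugation action on the non-identity elements of `F`
  let φ : H →* MulAut F := MulAut.conjNormal
  let ψ : MulAut F →* Equiv.Perm {x : F // x ≠ 1} :=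
    { toFun := fun α => (α : F ≃ F).subtypeEquiv (fun x => by simp)
      map_one' := by ext x; simp
      map_mul' := by intro a b; ext x; simp }
  have hker : (ψ.comp φ).ker ≤ F := by
    refine le_trans ?_ centralizer_fstar_le
    intro g hg
    rw [mem_centralizer_iff]
    intro f hf
    by_cases hf1 : (⟨f, hf⟩ : F) = 1
    · have : f = 1 := congrArg Subtype.val hf1
      simp [this]
    · have h1 := congrArg (fun e : Equiv.Perm {x : F // x ≠ 1} => ((e ⟨⟨f, hf⟩, hf1⟩ : F) : H))
        (MonoidHom.mem_ker.mp hg)
      have h2 : g * f * g⁻¹ = f := by simpa [ψ, φ] using h1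
      calc f * g = (g * f * g⁻¹) * g := by rw [h2]
        _ = g * f := by group
  have h1 : Nat.card H = Nat.card (ψ.comp φ).ker * Nat.card (ψ.comp φ).range := by
    rw [← (ψ.comp φ).ker.card_mul_index, index_ker]
  have h2 : Nat.card (ψ.comp φ).ker ≤ Nat.card F := card_le_of_le hker
  have h3 : Nat.card (ψ.comp φ).range ≤ Nat.factorial (Nat.card F - 1) := by
    have h4 : Nat.card {x : F // x ≠ 1} = Nat.card F - 1 := by
      have := Fintype.ofFinite F
      simp only [Nat.card_eq_fintype_card, ne_eq]
      rw [Fintype.card_subtype_compl, Fintype.card_subtype_eq]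
    rw [← h4, ← Nat.card_perm]
    exact card_le_card_group _
  have h5 : 0 < Nat.card F := Nat.card_pos
  rw [h1, ← Nat.mul_factorial_pred h5.ne']
  exact Nat.mul_le_mul h2 h3

end Cfsg.Agent.S1313
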