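import Cfsg.Statements.S1315
import Cfsg.Agent.H1.CI3

set_option autoImplicit false
open Cfsg

namespace Cfsg.Agent.S1315

/-- Let G be finite and J ≠ K subgroups, each containing exactly one involution, z(J) resp. z(K), each a 2-component of the centralizer of its involution, with J / O(J) and K / O(K) both isomorphic to SL(2, F) for one finite field F of odd order, or both non-split double covers of A7. Then (i) every 2-element of K of order at least 4 centralizing z(J) normalizes J; (ii) if z(J) normalizes K then z(K) normalizes J. -/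
theorem result {G : Type*} [Group G] [Finite G] (J K : Subgroup G) (hJK : J ≠ K) (zJ zK : G) (hzJ : zJ ∈ J ∧ orderOf zJ = 2 ∧ ∀ t ∈ J, orderOf t = 2 → t = zJ) (hzK : zK ∈ K ∧ orderOf zK = 2 ∧ ∀ t ∈ K, orderOf t = 2 → t = zK) (hJ : J ≤ Subgroup.centralizer ({zJ} : Set G) ∧ Cfsg.IsPComponent 2 (J.subgroupOf (Subgroup.centralizer ({zJ} : Set G)))) (hK : K ≤ Subgroup.centralizer ({zK} : Set G) ∧ Cfsg.IsPComponent 2 (K.subgroupOf (Subgroup.centralizer ({zK} : Set G)))) (htype : (∃ (F : Type) (_ : Field F) (_ : Fintype F), Odd (Fintype.card F) ∧ Nonempty (↥J ⧸ Cfsg.oddCore ↥J ≃* Matrix.SpecialLinearGroup (Fin 2) F) ∧ Nonempty (↥K ⧸ Cfsg.oddCore ↥K ≃* Matrix.SpecialLinearGroup (Fin 2) F)) ∨ (Cfsg.IsNonsplitDoubleCover (↥J ⧸ Cfsg.oddCore ↥J) ↥(alternatingGroup (Fin 7)) ∧ Cfsg.IsNonsplitDoubleCover (↥K ⧸ Cfsg.oddCore ↥K) ↥(alternatingGroup (Fin 7)))) : (∀ y ∈ K, IsPGroup 2 ↥(Subgroup.zpowers y) → 4 ≤ orderOf y → y * zJ = zJ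 * y → y ∈ Subgroup.normalizer (J : Set G)) ∧ (zJ ∈ Subgroup.normalizer (K : Set G) → zK ∈ Subgroup.normalizer (J : Set G)) := by
  have : Fact (Nat.Prime 2) := Nat.fact_prime_two
  have k : ∀ {K : Subgroup G} {z : G}, (z ∈ K ∧ orderOf z = 2 ∧ ∀ t ∈ K, orderOf t = 2 → t = z) →
      (K ≤ Subgroup.centralizer ({z} : Set G) ∧ Cfsg.IsPComponent 2 (K.subgroupOf (Subgroup.centralizer ({z} : Set G)))) →
      H1.Ci.CI K z := fun {K z} h1 h2 =>
    have c := H7.pCompOf_iff.mpr h2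
    ⟨⟨c.perfect, h1.1, H9.mul_self_of_orderOf_two h1.2.1, H9.ne_one_of_orderOf_two h1.2.1, fun t ht e =>
      (em (t = 1)).imp_right fun n => h1.2.2 t ht (orderOf_eq_prime ((pow_two t).trans e) n)⟩, c⟩
  refine ⟨fun y hy h2 h4 hc => (k hzJ hJ).i (k hzK hK) hy (H1.Ci.p2 h2 (Subgroup.mem_zpowers y)) (fun e => ?_)
    (Subgroup.mem_centralizer_singleton_iff.mpr hc), (k hzJ hJ).ii (k hzK hK)⟩
  have := Nat.le_of_dvd two_pos (orderOf_dvd_of_pow_eq_one ((pow_two y).trans e))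
  omega

end Cfsg.Agent.S1315
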