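import Cfsg.Statements.S1349
import Cfsg.Agent.H8.OddPxQ
import Cfsg.Agent.H4.Dihedral

set_option autoImplicit false
open Cfsg

namespace Cfsg.Agent.S1349

open Subgroup Cfsg.Agent.H8 Cfsg.Agent.L0
open scoped commutatorElement

variable {G : Type*} [Group G]

/-- `x` is centralized or inverted by every element of `A`. -/
def Eig (A : Subgroup G) (x : G) : Prop := ∀ a ∈ A, a * x * a⁻¹ = x ∨ a * x * a⁻¹ = x⁻¹

theorem inv_mul_inv {a b x : G} (ha : a * x * a⁻¹ = x⁻¹) (hb : b * x * b⁻¹ = x⁻¹) :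
    a * b * x = x * (a * b) := by
  have h : a * x⁻¹ * a⁻¹ = x := by rw [← conj_inv, ha, inv_inv]
  calc a * b * x = a * (b * x * b⁻¹) * a⁻¹ * (a * b) := by group
    _ = _ := by rw [hb, h]

variable [Finite G]

theorem le_of_eig {A Y H : Subgroup G} (hA : IsElementaryAbelian 2 A) (hY : ¬ 2 ∣ Nat.card Y)
    (hAY : A ≤ normalizer (Y : Set G)) (hH : ∀ x ∈ Y, Eig A x → x ∈ H) : Y ≤ H := by
  haveI : Fact (Nat.Prime 2) := ⟨Nat.prime_two⟩
  have h := copAct_of_elemAb hA hY hAY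
  have h0 : Y ⊓ centralizer (A : Set G) ≤ H := fun x hx =>
    hH x hx.1 fun a ha => Or.inl (by rw [hx.2 a ha, mul_inv_cancel_right])
  rw [← h.commutator_sup_centralizer]
  refine sup_le (h.commutator_le_of_hyperplanes hA fun B hB hi => commutator_le.mpr
    fun y hy a ha => hH _ (H4.commutatorElement_mem_left hy.1 (hAY ha)) fun g hg => ?_) h0
  by_cases haB : a ∈ B
  · rw [commutatorElement_eq_one_iff_mul_comm.mpr (hy.2 a haB).symm]; simp
  have ha2 : a * a = 1 := by rw [← sq]; exact hA.2 a ha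
  have hinv : a⁻¹ = a := inv_eq_of_mul_eq_one_right ha2
  have hb : ∀ b ∈ B, b * ⁅y, a⁆ * b⁻¹ = ⁅y, a⁆ := fun b hb => by
    rw [conjugate_commutatorElement, hy.2 b hb, elemAb_mul_comm hA (hB hb) ha,
      mul_inv_cancel_right, mul_inv_cancel_right]
  rw [← sup_zpowers_eq_of_card hB (card_eq_of_relIndex hB hi) ha haB] at hg
  obtain ⟨b, hb', k, rfl⟩ := (H5.mem_sup_zpowers
    (le_normalizer_of_comm (elemAb_comm hA) hB ha)).mp hg
  have ha' : a * ⁅y, a⁆ * a⁻¹ = ⁅y, a⁆⁻¹ := by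
    rw [commutatorElement_inv, commutatorElement_def, commutatorElement_def, hinv]
    calc a * (y * a * y⁻¹ * a) * a = a * y * a * y⁻¹ * (a * a) := by group
      _ = _ := by rw [ha2, mul_one]
  rcases Int.even_or_odd' k with ⟨j, rfl | rfl⟩
  · left
    rw [zpow_mul, zpow_two, ha2, one_zpow, mul_one, hb b hb']
  · right
    rw [zpow_add, zpow_mul, zpow_two, ha2, one_zpow, one_mul, zpow_one]
    calc b * a * ⁅y, a⁆ * (b * a)⁻¹ = b * (a * ⁅y, a⁆ * a⁻¹) * b⁻¹ := by group
      _ = _ := by rw [ha', ← conj_inv, hb b hb']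

theorem exists_faithful_comm {L A : Subgroup G} (hLs : Group.IsSolvable L)
    (hL : ¬ 2 ∣ Nat.card L) (hA : IsElementaryAbelian 2 A) (hAL : A ≤ normalizer (L : Set G)) :
    ∃ V, V ≤ L ∧ IsMulCommutative V ∧ A ≤ normalizer (V : Set G) ∧
      A ⊓ centralizer (V : Set G) ≤ centralizer (L : Set G) := by
  haveI : Fact (Nat.Prime 2) := ⟨Nat.prime_two⟩
  set F := (fittingSubgroup L).map L.subtype with hF
  have hFL : F ≤ L := map_subtype_le _
  have hFn : Group.IsNilpotent F := map_fitting_isNilpotent L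
  have hAF : A ≤ normalizer (F : Set G) := hAL.trans (normalizer_le_normalizer_map_fitting L)
  obtain ⟨V, -, hV⟩ := Finite.exists_le_maximal (p := fun V : Subgroup G => V ≤ F ∧
    IsMulCommutative V ∧ A ≤ normalizer (V : Set G) ∧ F ≤ normalizer (V : Set G)) (a := ⊥)
    ⟨bot_le, inferInstance, le_normalizer_of_normal, le_normalizer_of_normal⟩
  obtain ⟨⟨h1, h2, h3, h4⟩, hmax⟩ := hV
  have hC : F ⊓ centralizer (V : Set G) ≤ V := by
    by_contra hc
    obtain ⟨Y, hY1, -, hY3, hY4⟩ := H5.exists_invariant_not_le_commutator_le F _ V inf_le_left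
      (le_normalizer_inf le_normalizer (le_normalizer_centralizer h4)) hc
    have hAY : A ≤ normalizer ((F ⊓ centralizer (V : Set G) ⊓ cmod V F : Subgroup G) : Set G) := by
      refine le_normalizer_inf (le_normalizer_inf hAF (le_normalizer_centralizer h3))
        (le_normalizer_iff.mpr fun a ha x hx => ⟨mul_mem (mul_mem (h3 ha) hx.1) (inv_mem (h3 ha)),
          fun u hu => ?_⟩)
      have h5 := conj_mem_of_le_normalizer h3 ha (hx.2 _ (conj_mem_of_le_normalizer' hAF ha hu))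
      rwa [conjugate_commutatorElement, show a * (a⁻¹ * u * a) * a⁻¹ = u by group] at h5
    refine hY3 ((le_inf hY1 (le_cmod ((hY1.trans inf_le_left).trans h4) hY4)).trans
      (le_of_eig hA (H8.not_dvd_card_of_le ((inf_le_left.trans inf_le_left).trans hFL) hL) hAY
      fun x hx he => ?_))
    refine hmax (y := V ⊔ zpowers x) ⟨sup_le h1 (zpowers_le_of_mem hx.1.1),
      H5.isMulCommutative_sup h2 inferInstance (zpowers_le_of_mem hx.1.2),
      le_normalizer_sup h3 (le_normalizer_iff.mpr fun a ha _ ⟨k, hk⟩ => ?_), ?_⟩ le_sup_left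
      (mem_sup_right (mem_zpowers x))
    · rw [← hk]
      simp only
      rw [← conj_zpow]
      rcases he a ha with h5 | h5 <;> rw [h5]
      · exact zpow_mem (mem_zpowers x) k
      · exact zpow_mem (inv_mem (mem_zpowers x)) k
    · refine le_normalizer_iff_commutator_le_left.mpr (le_trans ?_ le_sup_left)
      exact commutator_le_of_le_cmod (sup_le (le_cmod le_normalizer
        (le_normalizer_iff_commutator_le_left.mp h4)) (zpowers_le_of_mem hx.2))
  refine ⟨V, h1.trans hFL, h2, h3, le_centralizer_iff.mp ?_⟩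
  have h5 : CopAct (A ⊓ centralizer (V : Set G)) L :=
    (copAct_of_elemAb hA hL hAL).mono_left inf_le_left
  have h6 : F ≤ centralizer ((A ⊓ centralizer (V : Set G) : Subgroup G) : Set G) :=
    (h5.mono_right hFL (inf_le_left.trans hAF)).le_centralizer_of_nilpotent' hFn h1
      (le_centralizer_iff.mp inf_le_right) hC
  exact h5.le_centralizer_of_normal (le_normalizer_map_fitting L) h6
    (((inf_comm _ _).le.trans (centralizer_map_fitting_inf_le L)).trans h6)

theorem exists_dual {A V : Subgroup G} (hA : IsElementaryAbelian 2 A) (hV : ¬ 2 ∣ Nat.card V)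
    (hAV : A ≤ normalizer (V : Set G)) (hf : A ⊓ centralizer (V : Set G) = ⊥) (d : ℕ) :
    ∀ B, B ≤ A → Nat.card B = 2 ^ d → ∃ b x : Fin d → G, (∀ i, b i ∈ B ∧ x i ∈ V ∧ Eig A (x i) ∧
      x i ≠ 1 ∧ b i * x i * (b i)⁻¹ = (x i)⁻¹) ∧ (∀ i j, i ≠ j → b i * x j = x j * b i) ∧
      B ≤ ⨆ i, zpowers (b i) ∧ ∀ g ∈ A, ∃ c ∈ B, ∀ i, g * c * x i = x i * (g * c) := by
  haveI : Fact (Nat.Prime 2) := ⟨Nat.prime_two⟩
  induction d with
  | zero =>
    intro B _ hB
    refine ⟨Fin.elim0, Fin.elim0, fun i => i.elim0, fun i => i.elim0, ?_,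
      fun g _ => ⟨1, B.one_mem, fun i => i.elim0⟩⟩
    rw [pow_zero, card_eq_one] at hB
    rw [hB]; exact bot_le
  | succ d ih =>
    intro B' hB' hc
    obtain ⟨y, hy, hye, hyB⟩ : ∃ y ∈ V, Eig A y ∧ y ∉ centralizer (B' : Set G) := by
      by_contra h
      push Not at h
      have h1 := le_inf hB' (le_centralizer_iff.mp (le_of_eig hA hV hAV h))
      exact ne_bot_of_pow_le_card d.succ_ne_zero hc.ge (le_bot_iff.mp (hf ▸ h1))
    have hlt : B' ⊓ centralizer {y} < B' := inf_lt_left.mpr fun h =>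
      hyB fun b hb => mem_centralizer_singleton_iff.mp (h hb)
    have h1 := relIndex_centralizer_le (S := B') (u := y) (T := {y, y⁻¹}) (Set.toFinite _)
      fun b hb => hye b (hB' hb)
    have h2 := le_card_inf_of_relIndex_le (m := 2 ^ d) two_pos
      (h1.trans ((Set.ncard_insert_le y {y⁻¹}).trans (by simp))) (by rw [hc, pow_succ])
    have h3 : Nat.card ↥(B' ⊓ centralizer {y}) = 2 ^ d := by
      by_contra h
      exact (hc ▸ card_lt_of_lt hlt).not_ge (pow_succ_le_card_of_lt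
        ((elemAb_pgroup hA).to_le (hlt.le.trans hB')) (lt_of_le_of_ne h2 (Ne.symm h)))
    obtain ⟨b, x, hbx, hij, hgen, hadj⟩ := ih _ (hlt.le.trans hB') h3
    obtain ⟨a₀, ha₀, ha₀'⟩ := SetLike.exists_of_lt hlt
    obtain ⟨c, hc', hac⟩ := hadj a₀ (hB' ha₀)
    have haB : a₀ * c ∈ B' := B'.mul_mem ha₀ hc'.1
    have haB' : a₀ * c ∉ B' ⊓ centralizer {y} := fun h => ha₀' ((mul_mem_cancel_right hc').mp h)
    have hay : a₀ * c * y * (a₀ * c)⁻¹ = y⁻¹ := (hye _ (hB' haB)).resolve_left fun h =>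
      haB' ⟨haB, mem_centralizer_singleton_iff.mpr (mul_inv_eq_iff_eq_mul.mp h)⟩
    refine ⟨Fin.cons (a₀ * c) b, Fin.cons y x, fun i => ?_, fun i j hij' => ?_, ?_,
      fun g hg => ?_⟩
    · refine Fin.cases ⟨haB, hy, hye, ?_, hay⟩ (fun i => ?_) i
      · rintro (rfl : y = 1)
        exact hyB (one_mem _)
      · exact ⟨(hbx i).1.1, (hbx i).2⟩
    · revert hij'
      refine Fin.cases (Fin.cases (fun h => absurd rfl h) (fun j _ => hac j) j) (fun i => ?_) i
      refine Fin.cases (fun _ => mem_centralizer_singleton_iff.mp (hbx i).1.2) (fun j h => ?_) j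
      exact hij i j fun h' => h (h' ▸ rfl)
    · rw [← sup_zpowers_eq_of_card hlt.le (by rw [hc, h3, pow_succ]) haB haB']
      refine sup_le (hgen.trans (iSup_le fun i => le_iSup_of_le i.succ le_rfl))
        (le_iSup_of_le 0 le_rfl)
    · obtain ⟨c', hc1, hc2⟩ := hadj g hg
      rcases hye _ (A.mul_mem hg (hB' hc1.1)) with h | h
      · exact ⟨c', hc1.1, fun i => Fin.cases (mul_inv_eq_iff_eq_mul.mp h) hc2 i⟩
      · refine ⟨c' * (a₀ * c), B'.mul_mem hc1.1 haB, fun i => ?_⟩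
        rw [← mul_assoc]
        refine Fin.cases (inv_mul_inv h hay) (fun i => ?_) i
        exact (Commute.mul_left (hc2 i) (hac i) : _)

/-- Let G be finite, L ≤ G solvable of odd order, and A an elementary abelian 2-subgroup of order 2^d (d ≥ 1) normalizing L with C_A(L) = 1. Then there are subgroups A_1, …, A_d of A of order 2 generating A and subgroups L_1, …, L_d of L such that each A_i ⊔ L_i is dihedral of order 2 n_i with n_i odd and at least 3, and A_i ⊔ L_i commutes elementwise with A_j ⊔ L_j for i ≠ j. -/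
theorem result {G : Type*} [Group G] [Finite G] (L A : Subgroup G) (hLs : Group.IsSolvable ↥L) (hLodd : Odd (Nat.card ↥L)) (hA : Cfsg.IsElementaryAbelian 2 A) (d : ℕ) (hd : 1 ≤ d) (hAd : Nat.card ↥A = 2 ^ d) (hAL : A ≤ Subgroup.normalizer (L : Set G)) (hfaith : A ⊓ Subgroup.centralizer (L : Set G) = ⊥) : ∃ (Ai : Fin d → Subgroup G) (Li : Fin d → Subgroup G) (n : Fin d → ℕ), (∀ i, Ai i ≤ A ∧ Nat.card ↥(Ai i) = 2 ∧ Li i ≤ L ∧ Odd (n i) ∧ 3 ≤ n i ∧ Nonempty (↥(Ai i ⊔ Li i) ≃* DihedralGroup (n i))) ∧ (⨆ i, Ai i) = A ∧ ∀ i j, i ≠ j → ∀ x ∈ Ai i ⊔ Li i, ∀ y ∈ Ai j ⊔ Li j, x * y = y * x := by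
  have hL : ¬ 2 ∣ Nat.card L := hLodd.not_two_dvd_nat
  obtain ⟨V, hVL, hVc, hAV, hf⟩ := exists_faithful_comm hLs hL hA hAL
  obtain ⟨b, x, hbx, hij, hgen, -⟩ := exists_dual hA (H8.not_dvd_card_of_le hVL hL) hAV
    (le_bot_iff.mp (hfaith ▸ le_inf inf_le_left hf)) d A le_rfl hAd
  have hodd : ∀ i, Odd (orderOf (x i)) := fun i =>
    hLodd.of_dvd_nat (Subgroup.orderOf_dvd_natCard L (hVL (hbx i).2.1))
  have hb2 : ∀ i, b i * b i = 1 := fun i => by rw [← sq]; exact hA.2 _ (hbx i).1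
  have hx3 : ∀ i, 3 ≤ orderOf (x i) := fun i => by
    obtain ⟨k, hk⟩ := hodd i
    have h1 : orderOf (x i) ≠ 1 := fun h => (hbx i).2.2.2.1 (orderOf_eq_one_iff.mp h)
    omega
  have hnot : ∀ i, b i ∉ zpowers (x i) := by
    rintro i ⟨k, hk⟩
    have h1 := (hbx i).2.2.2.2
    simp only at hk
    rw [← hk, (Commute.zpow_left rfl k : Commute (x i ^ k) (x i)).eq, mul_inv_cancel_right,
      eq_inv_iff_mul_eq_one, ← sq] at h1
    have := Nat.le_of_dvd two_pos (orderOf_dvd_of_pow_eq_one h1)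
    have := hx3 i
    omega
  refine ⟨fun i => zpowers (b i), fun i => zpowers (x i), fun i => orderOf (x i), fun i =>
    ⟨zpowers_le_of_mem (hbx i).1, ?_, zpowers_le_of_mem (hVL (hbx i).2.1), hodd i, hx3 i, ?_⟩,
    le_antisymm (iSup_le fun i => zpowers_le_of_mem (hbx i).1) hgen, fun i j h => ?_⟩
  · rw [Nat.card_zpowers]
    exact H4.orderOf_eq_two_of (hb2 i) fun h => hnot i (h ▸ one_mem _)
  · rw [H5.zpowers_sup_zpowers]
    exact H4.nonempty_closure_equiv_dihedral_of_inverts (hb2 i) (hbx i).2.2.2.2 (hnot i)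
  · have h1 : zpowers (b j) ⊔ zpowers (x j) ≤
        centralizer ((zpowers (b i) ⊔ zpowers (x i) : Subgroup G) : Set G) := by
      rw [centralizer_sup_zpowers, centralizer_zpowers]
      refine sup_le (zpowers_le_of_mem ⟨?_, ?_⟩) (zpowers_le_of_mem ⟨?_, ?_⟩) <;>
        refine mem_centralizer_singleton_iff.mpr ?_
      · exact elemAb_mul_comm hA (hbx j).1 (hbx i).1
      · exact hij j i h.symm
      · exact (hij i j h).symm
      · exact comm_of_mem hVc (hbx j).2.1 (hbx i).2.1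
    exact fun u hu v hv => h1 hv u hu

end Cfsg.Agent.S1349
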