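import Cfsg.Statements.S1744
import Cfsg.Agent.H3.GT6
import Cfsg.Agent.H4.G2h

set_option autoImplicit false
open Cfsg

namespace Cfsg.Agent.S1744

/-- Let G be a finite simple group whose Sylow 2-subgroups are isomorphic to a Sylow 2-subgroup of the Chevalley group of type G₂ over a finite field of odd order, in which all involutions are conjugate. Let S be a Sylow 2-subgroup, t an involution in the centre of S, C its centralizer and Q the quotient of C by its largest normal subgroup of odd order. Then Q has normal subgroups L₁ and L₂, isomorphic to special linear groups of dimension 2 over fields of odd orders, which commute elementwise and whose product is the commutator subgroup of Q. -/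
theorem result {G : Type*} [Group G] [Finite G] [IsSimpleGroup G]
    {F : Type*} [Field F] [Fintype F] (hF : Odd (Fintype.card F)) (S : Sylow 2 G) (P : Sylow 2 ↥(Cfsg.Lie.chevG2.group F))
    (hS : Nonempty (↥(S : Subgroup G) ≃* ↥(P : Subgroup ↥(Cfsg.Lie.chevG2.group F))))
    (h1 : ∀ x y : G, orderOf x = 2 → orderOf y = 2 → IsConj x y) (t : G) (ht : orderOf t = 2) (htS : t ∈ (S : Subgroup G))
    (htZ : ∀ s ∈ (S : Subgroup G), s * t = t * s) :
    ∃ L₁ L₂ : Subgroup (↥(Subgroup.centralizer ({t} : Set G)) ⧸ Cfsg.oddCore ↥(Subgroup.centralizer ({t} : Set G))),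
      L₁.Normal ∧ L₂.Normal ∧
      (∃ (F₁ : Type) (_ : Field F₁) (_ : Fintype F₁), Odd (Fintype.card F₁) ∧ Nonempty (↥L₁ ≃* Matrix.SpecialLinearGroup (Fin 2) F₁)) ∧
      (∃ (F₂ : Type) (_ : Field F₂) (_ : Fintype F₂), Odd (Fintype.card F₂) ∧ Nonempty (↥L₂ ≃* Matrix.SpecialLinearGroup (Fin 2) F₂)) ∧
      ⁅L₁, L₂⁆ = ⊥ ∧ L₁ ⊔ L₂ = commutator _ := by
  obtain ⟨m, ⟨e⟩⟩ := H4.G2.exists_model hF P
  obtain ⟨e'⟩ := hS
  let ι := e.trans e'.symm
  obtain ⟨v, hv⟩ := ι.surjective ⟨t, htS⟩
  have h2 := (H4.G2.zh m).central (g := v) (ι.injective (Subtype.ext (by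
    rw [map_mul, hv, map_one]; exact H9.mul_self_of_orderOf_two ht))) fun x => ι.injective (Subtype.ext (by
    rw [map_mul, map_mul, hv]; exact htZ _ (ι x).2))
  rcases h2 with rfl | rfl
  · rw [map_one, Subtype.ext_iff] at hv
    exact absurd hv.symm (H9.ne_one_of_orderOf_two ht)
  exact H3.GT.main (H4.G2.zh m) ⟨(S : Subgroup G).subtype.comp ι.toMonoidHom, Subtype.val_injective.comp ι.injective, by
    rw [MonoidHom.range_comp, MonoidHom.range_eq_top.2 ι.surjective, ← MonoidHom.range_eq_map, Subgroup.range_subtype]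
    exact H8.isSylowIn_top S⟩ h1 (fun i => ⟨i.val, (ZMod.natCast_zmod_val i).symm⟩)
    (congrArg (fun t => Subgroup.centralizer {t}) (congrArg Subtype.val hv).symm)

end Cfsg.Agent.S1744
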