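import Cfsg.Statements.S3144
import Cfsg.Agent.WA.O8Main
import Cfsg.Agent.WA.O8Iso

set_option autoImplicit false
open Cfsg

namespace Cfsg.Agent.S3144

/-- Let G be a finite group with no nontrivial normal subgroup of odd order and L a standard subgroup of G which is a double cover of the simple orthogonal group PΩ⁺ of dimension 8 over the field with 2 elements (the centre of L has order 2 and L modulo its centre is isomorphic to that group), and suppose the centralizer of L in G has cyclic Sylow 2-subgroups. Then L is normal in G. -/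
theorem result {G : Type*} [Group G] [Finite G] (hO : Cfsg.oddCore G = ⊥) (L : Subgroup G) (hL : Cfsg.IsStandardSubgroup L)
    {F : Type*} [Field F] [Fintype F] (hF : Fintype.card F = 2)
    (hZ : Nat.card ↥(Subgroup.center ↥L) = 2) (hLX : Nonempty ((↥L ⧸ Subgroup.center ↥L) ≃* Cfsg.POmega F (Cfsg.quadFormPlus 4 F)))
    (hR : ∀ R : Sylow 2 ↥(Subgroup.centralizer (L : Set G)), IsCyclic ↥(R : Subgroup ↥(Subgroup.centralizer (L : Set G)))) :
    L.Normal := by
  obtain ⟨e⟩ := hLX
  obtain ⟨f⟩ := WA.O8.exists_iso hF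
  obtain ⟨π, z, h⟩ := WA.O8.exists_cov hZ hL.1.1.commutator_eq_top e f
  refine h.normal hO (fun g hg => ?_) hR
  rw [hL.2.2.2]
  by_contra hn
  have h1 := hL.2.1.2 g hn
  have h0 : (z : G) ∈ Subgroup.centralizer (L : Set G) :=
    Subgroup.mem_centralizer_iff.2 fun x hx => congrArg Subtype.val (h.zc ⟨x, hx⟩)
  have h2 : (z : G) ∈ Subgroup.centralizer (L : Set G) ⊓
      (Subgroup.centralizer (L : Set G)).map (MulAut.conj g).toMonoidHom := ⟨h0, _, h0, mul_inv_eq_iff_eq_mul.2 hg⟩
  have h3 := Subgroup.orderOf_dvd_natCard _ h2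
  rw [orderOf_eq_prime ((pow_two _).trans (congrArg Subtype.val h.z2)) fun e => h.z1 (Subtype.ext e)] at h3
  exact (Nat.not_even_iff_odd.2 h1) (even_iff_two_dvd.2 h3)

end Cfsg.Agent.S3144
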