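import Cfsg.Statements.S3150
import Cfsg.Agent.H5.Co8

set_option autoImplicit false
open Cfsg

namespace Cfsg.Agent.S3150

/-- Let G be a finite group with no nontrivial normal subgroup of odd order and A a standard subgroup of G isomorphic to the automorphism group of the Leech lattice (the double cover of the first Conway group). If the centralizer of A in G has cyclic Sylow 2-subgroups, then A is normal in G. -/
theorem result {G : Type*} [Group G] [Finite G] (hO : Cfsg.oddCore G = ⊥) (A : Subgroup G) (hA : Cfsg.IsStandardSubgroup A)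
    (hAX : Nonempty (↥A ≃* ↥Cfsg.Co0)) (hR : ∀ R : Sylow 2 ↥(Subgroup.centralizer (A : Set G)), IsCyclic ↥(R : Subgroup ↥(Subgroup.centralizer (A : Set G)))) : A.Normal := by
-----
  obtain ⟨e⟩ := hAX
  let ι : Co0 →* G := A.subtype.comp e.symm.toMonoidHom
  have hr : ι.range = A := by
    rw [MonoidHom.range_comp, MonoidHom.range_eq_top_of_surjective _ e.symm.surjective, ← MonoidHom.range_eq_map,
      Subgroup.range_subtype]
  have hi : Function.Injective ι := A.subtype_injective.comp e.symm.injective
  rw [← hr] at hA hR ⊢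
  refine H5.Co.St.normal ⟨hi, fun g hg => ?_, fun R h => ?_⟩ hO
  · rw [hA.2.2.2]
    by_contra hn
    have h1 := hA.2.1.2 g hn
    have h2 : ι H3.negCo ∈ Subgroup.centralizer (ι.range : Set G) ⊓
        (Subgroup.centralizer (ι.range : Set G)).map (MulAut.conj g).toMonoidHom :=
      ⟨H5.Co.t_mem ι, _, H5.Co.t_mem ι, mul_inv_eq_iff_eq_mul.2 (Subgroup.mem_centralizer_singleton_iff.1 hg)⟩
    have h3 := Subgroup.orderOf_dvd_natCard _ h2
    rw [orderOf_eq_prime ((pow_two _).trans (H5.Co.t_sq ι))
      fun e => H3.negCo_ne_one ((map_eq_one_iff ι hi).1 e)] at h3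
    exact (Nat.not_even_iff_odd.2 h1) (even_iff_two_dvd.2 h3)
  · obtain ⟨S, rfl⟩ := h.exists_sylow
    haveI := hR S
    exact isCyclic_of_surjective _ (Subgroup.equivMapOfInjective _ _ (Subgroup.subtype_injective _)).surjective

end Cfsg.Agent.S3150
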