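import Cfsg.Statements.S3153
import Cfsg.Agent.H7.Pump

set_option autoImplicit false
open Cfsg

namespace Cfsg.Agent.S3153

open Subgroup Cfsg.Agent.H7
open scoped commutatorElement


/-- Let X be a finite group and P a standard subgroup of X whose centralizer has 2-rank at most 1 and whose centre has odd order. Let S be a Sylow 2-subgroup of N_X(P) and t an involution of S centralizing P. Suppose some element g of X normalizes S, does not lie in S, has its square in S, and conjugates t into P·C_X(P). Then P commutes elementwise with the largest normal odd-order subgroup O(X) of X; consequently every t-invariant 2-component of X containing P is quasisimple. -/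
theorem result {X : Type*} [Group X] [Finite X] (P : Subgroup X) (hP : Cfsg.IsStandardSubgroup P)
    (hr : Cfsg.PRankLE 2 1 ↥(Subgroup.centralizer (P : Set X))) (hZ : Odd (Nat.card ↥(Subgroup.center ↥P)))
    (S : Sylow 2 ↥(Subgroup.normalizer (P : Set X))) (t : X) (ht : orderOf t = 2) (htS : t ∈ (S : Subgroup ↥(Subgroup.normalizer (P : Set X))).map (Subgroup.normalizer (P : Set X)).subtype)
    (htP : t ∈ Subgroup.centralizer (P : Set X))
    (g : X) (hgN : ∀ s ∈ (S : Subgroup ↥(Subgroup.normalizer (P : Set X))).map (Subgroup.normalizer (P : Set X)).subtype, g * s * g⁻¹ ∈ (S : Subgroup ↥(Subgroup.normalizer (P : Set X))).map (Subgroup.normalizer (P : Set X)).subtype)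
    (hgS : g ∉ (S : Subgroup ↥(Subgroup.normalizer (P : Set X))).map (Subgroup.normalizer (P : Set X)).subtype) (hg2 : g ^ 2 ∈ (S : Subgroup ↥(Subgroup.normalizer (P : Set X))).map (Subgroup.normalizer (P : Set X)).subtype)
    (hgt : g * t * g⁻¹ ∈ P ⊔ Subgroup.centralizer (P : Set X)) :
    ⁅P, Cfsg.oddCore X⁆ = ⊥ ∧
      ∀ L : Subgroup X, Cfsg.IsPComponent 2 L → P ≤ L → (∀ l ∈ L, t * l * t⁻¹ ∈ L) → Cfsg.IsQuasisimple ↥L := by
  have hS := H8.isSylowIn_map_subtype S
  set T := (S : Subgroup ↥(Subgroup.normalizer (P : Set X))).map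
    (Subgroup.normalizer (P : Set X)).subtype with hT
  have ht2 := H4.mul_self_of_orderOf_two ht
  have htT : ∀ s ∈ T, s * t * s⁻¹ = t := fun s hs => by
    have h1 : s * t * s⁻¹ ∈ centralizer (P : Set X) :=
      (mem_normalizer_iff.mp (normalizer_le_normalizer_centralizer P (hS.le hs)) t).mp htP
    obtain ⟨z, hz, hz2, hzT, -⟩ := H5.exists_mem_centralizer_of_isPGroup
      (hS.pgroup.to_le (inf_le_left : T ⊓ centralizer (P : Set X) ≤ T)) hS.pgroup
      (le_normalizer_inf le_normalizer (hS.le.trans (normalizer_le_normalizer_centralizer P)))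
      (fun e => H4.ne_one_of_orderOf_two ht (mem_bot.mp (e ▸ ⟨htS, htP⟩)))
    rw [← eq_of_prank_one' hr hz.2 htP hz2 ht (hzT t htS).symm, hzT s hs, mul_inv_cancel_right]
  have hgP : g ∉ normalizer (P : Set X) := fun hg => by
    obtain ⟨k, hk⟩ := H5.IsPGroup_pow_eq_one hS.pgroup hg2
    obtain ⟨j, -, hj⟩ := (Nat.dvd_prime_pow Nat.prime_two).mp
      (orderOf_dvd_of_pow_eq_one (show g ^ 2 ^ (k + 1) = 1 by rw [pow_succ', pow_mul, hk]))
    exact hgS (hS.le_of_le_normalizer' (isPGroup_zpowers_of_orderOf hj) (zpowers_le.mpr hg)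
      (zpowers_le.mpr (H5.mem_normalizer_of_conj_mem hgN)) (mem_zpowers g))
  have hsC : g * t * g⁻¹ ∉ centralizer (P : Set X) := fun h => hgP (Std.mem_normalizer hP ht htP h)
  have hsT := hgN t htS
  have hs2 : orderOf (g * t * g⁻¹) = 2 := by rw [orderOf_conj', ht]
  have hswap : g * (g * t * g⁻¹) * g⁻¹ = t := by
    refine Eq.trans ?_ (htT _ hg2)
    rw [pow_two]; group
  generalize hs : g * t * g⁻¹ = s at hsC hsT hs2 hswap hgt
  have hc : Commute t s := (mul_inv_eq_iff_eq_mul.mp (htT s hsT)).symm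
  obtain ⟨a, ha, c, hcP, rfl⟩ := mem_sup_of_normalizes (Or.inr (centralizer_le_normalizer _)) hgt
  have hac : Commute a c := hcP a ha
  have hsq : a ^ 2 * c ^ 2 = 1 := by rw [← hac.mul_pow, ← hs2, pow_orderOf_eq_one]
  have ha2 : a ^ 2 ∈ P ⊓ centralizer (P : Set X) :=
    ⟨pow_mem ha 2, by rw [eq_inv_of_mul_eq_one_left hsq]; exact Subgroup.inv_mem _ (pow_mem hcP 2)⟩
  obtain ⟨m, hm⟩ : Odd (orderOf (a ^ 2)) := by
    rw [← card_map_of_injective P.subtype_injective, map_subtype_center] at hZ
    exact hZ.of_dvd_nat (Subgroup.orderOf_dvd_natCard _ ha2)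
  have e1 : a ^ (2 * m + 1) * c ^ (2 * m + 1) = a * c := by
    rw [← hac.mul_pow, pow_succ, pow_mul, ← hs2, pow_orderOf_eq_one, one_pow, one_mul]
  have e2 : a ^ (2 * m + 1) * a ^ (2 * m + 1) = 1 := by
    rw [← pow_add, ← two_mul, pow_mul, ← hm, pow_orderOf_eq_one]
  have e3 : c ^ (2 * m + 1) * c ^ (2 * m + 1) = 1 := by
    rw [← pow_add, ← two_mul, pow_mul, eq_inv_of_mul_eq_one_right hsq, inv_pow, ← hm,
      pow_orderOf_eq_one, inv_one]
  have ha' : a ^ (2 * m + 1) ∈ P := pow_mem ha _
  have hc' : c ^ (2 * m + 1) ∈ centralizer (P : Set X) := pow_mem hcP _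
  rw [← e1] at hs hsC hsT hs2 hswap hc
  generalize a ^ (2 * m + 1) = a' at *
  generalize c ^ (2 * m + 1) = c' at *
  have hP2 : 2 ∣ Nat.card P := two_dvd_card_of_mem ha' (H4.orderOf_eq_two_of e2 fun e =>
    hsC (by rwa [e, one_mul]))
  have hc't : c' = 1 ∨ c' = t := by
    by_cases h1 : c' = 1
    · exact Or.inl h1
    · refine Or.inr (eq_of_prank_one' hr hc' htP (H4.orderOf_eq_two_of e3 h1) ht ?_)
      have := (show Commute t a'⁻¹ from (show Commute a' t from htP a' ha').symm.inv_right).mul_right hc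
      rw [inv_mul_cancel_left] at this
      exact this.symm
  have h1 := mul_mem_centralizer_of_swap (L0.not_dvd_card_pPrimeCore (p := 2) (G := X)) ht hs
    hswap hc (fun e => hsC (e ▸ htP)) fun o ho => by
      have h2 : Commute a' o := Std.inf_centralizer_le hP hP2 ht htP ho _ ha'
      have h3 : Commute c' o := by
        rcases hc't with rfl | rfl
        · exact Commute.one_left o
        · exact (mem_centralizer_singleton_iff.mp ho.2).symm
      exact mem_centralizer_singleton_iff.mpr (h2.mul_left h3).symm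
  have h2 : P ≤ centralizer (pPrimeCore 2 X : Set X) := QS.le_of_mem_normal hP.1
    (hS.le (mul_mem htS hsT))
    (fun h => hsC (((centralizer (P : Set X)).mul_mem_cancel_left htP).mp h)) h1
  refine ⟨commutator_eq_bot_iff_le_centralizer.mpr h2, fun L hL hPL _ => ?_⟩
  have hL' := pCompOf_top_iff.mpr hL
  have h3 : P ≤ L ⊓ centralizer (opp 2 L : Set X) :=
    le_inf hPL (h2.trans (centralizer_le (hL'.opp_le_opp.trans opp_top.le)))
  rcases hL'.pqs.normal _ inf_le_left (le_normalizer_inf le_normalizer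
    (H8.le_normalizer_centralizer (le_normalizer_opp (p := 2) L))) with h4 | h4
  · exact hL'.pqs.qs_iff.mpr (commutator_eq_bot_iff_le_centralizer.mpr (h4.ge.trans inf_le_right))
  · exact absurd hP2 (H8.not_dvd_card_of_le ((QS.perfect hP.1).ge.trans
      ((commutator_mono h3 hPL).trans h4)) (not_dvd_card_opp L))

end Cfsg.Agent.S3153
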