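import Cfsg.Statements.S3154
import Cfsg.Agent.H2.Cv1
import Cfsg.Agent.WA.WJ1
import Cfsg.Agent.H1.SLn

set_option autoImplicit false
open Cfsg

namespace Cfsg.Agent.S3154

/-- Let X be a finite quasisimple group whose centre is an elementary abelian 2-group and whose central quotient is isomorphic to the projective special linear group of dimension 3 over the field with 4 elements. Let T be a Sylow 2-subgroup of X and H ≠ K subgroups of T containing the centre Z(X) whose images in X/Z(X) are elementary abelian of order 16 (the two such subgroups of a Sylow 2-subgroup of the quotient). Then H and K are elementary abelian, H ∩ K is the centre of the subgroup they generate, and each of N_X(H), N_X(K) is a split extension of H, respectively K, by the projective special linear group of dimension 2 over the field with 4 elements (there is a complement isomorphic to that group). -/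
theorem result {X : Type*} [Group X] [Finite X] (hq : Cfsg.IsQuasisimple X) (hZ : Cfsg.IsElementaryAbelian 2 (Subgroup.center X))
    {F : Type*} [Field F] [Fintype F] (hF : Fintype.card F = 4) (hXL : Nonempty ((X ⧸ Subgroup.center X) ≃* Matrix.ProjectiveSpecialLinearGroup (Fin 3) F))
    (T : Sylow 2 X) (H K : Subgroup X) (hHK : H ≠ K) (hHT : H ≤ T) (hKT : K ≤ T) (hZH : Subgroup.center X ≤ H) (hZK : Subgroup.center X ≤ K)
    (hH : Cfsg.IsElementaryAbelian 2 (H.map (QuotientGroup.mk' (Subgroup.center X))) ∧ Nat.card ↥(H.map (QuotientGroup.mk' (Subgroup.center X))) = 16)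
    (hK : Cfsg.IsElementaryAbelian 2 (K.map (QuotientGroup.mk' (Subgroup.center X))) ∧ Nat.card ↥(K.map (QuotientGroup.mk' (Subgroup.center X))) = 16) :
    Cfsg.IsElementaryAbelian 2 H ∧ Cfsg.IsElementaryAbelian 2 K ∧
      H ⊓ K = (Subgroup.center ↥(H ⊔ K)).map (H ⊔ K).subtype ∧
      (∃ C : Subgroup X, C ≤ Subgroup.normalizer (H : Set X) ∧ C ⊓ H = ⊥ ∧ H ⊔ C = Subgroup.normalizer (H : Set X) ∧
        Nonempty (↥C ≃* Matrix.ProjectiveSpecialLinearGroup (Fin 2) F)) ∧
      (∃ C : Subgroup X, C ≤ Subgroup.normalizer (K : Set X) ∧ C ⊓ K = ⊥ ∧ K ⊔ C = Subgroup.normalizer (K : Set X) ∧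
        Nonempty (↥C ≃* Matrix.ProjectiveSpecialLinearGroup (Fin 2) F)) := by
  obtain ⟨e⟩ := hXL
  haveI := hq.2
  set π := QuotientGroup.mk' (Subgroup.center X)
  have hπ : Function.Surjective π := QuotientGroup.mk'_surjective _
  have hc : π.ker = Subgroup.center X := QuotientGroup.ker_mk' _
  have hk : ∀ y ∈ π.ker, y * y = 1 := fun y hy => by rw [← pow_two, hZ.2 y (hc ▸ hy)]
  have hS := (H8.isSylowIn_top T).map π
  rw [Subgroup.map_top_of_surjective _ hπ] at hS
  obtain ⟨⟨Z, E, U, p⟩, h1, h2⟩ := H2.L4.psl3 hF e hS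
  have eH := Subgroup.comap_map_eq_self (hc.trans_le hZH)
  have eK := Subgroup.comap_map_eq_self (hc.trans_le hZK)
  obtain ⟨h⟩ : Nonempty (H2.L4.T2 Z (H.map π) (K.map π) ((T : Subgroup X).map π)) := by
    have ne : H.map π ≠ K.map π := fun e => hHK (by rw [← eH, e, eK])
    rcases p.eq_or (Subgroup.map_mono hHT) (fun x hx => by rw [← pow_two, hH.1.2 x hx]) hH.2 with e1 | e1 <;>
      rcases p.eq_or (Subgroup.map_mono hKT) (fun x hx => by rw [← pow_two, hK.1.2 x hx]) hK.2 with e2 | e2
    · exact absurd (e1.trans e2.symm) ne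
    · exact ⟨by rw [e1, e2]; exact p.t2 hS⟩
    · exact ⟨by rw [e1, e2]; exact p.symm.t2 hS⟩
    · exact absurd (e1.trans e2.symm) ne
  haveI : CharP F 2 := charP_of_card_eq_prime_pow (f := 2) hF
  haveI : IsSimpleGroup (Matrix.ProjectiveSpecialLinearGroup (Fin 2) F) := H1.SLn.isSimpleGroup_PSL (Or.inr ⟨by simp, by
    classical
    by_contra! hn
    have := Finset.card_le_card (s := Finset.univ) (t := ({0, 1} : Finset F)) fun a _ => by
      by_cases h0 : a = 0
      · simp [h0]
      · simpa [h0, CharTwo.neg_eq] using hn a h0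
    have := Finset.card_le_two (a := (0 : F)) (b := 1)
    rw [Finset.card_univ] at *
    omega⟩)
  obtain ⟨e2⟩ := H5.equiv_A5_of_card (G := Matrix.ProjectiveSpecialLinearGroup (Fin 2) F)
    (by rw [WA.W.card_PSL2_even, hF]; rfl)
  have k : ∀ {E U S}, H2.L4.T2 Z E U S → ∃ C : Subgroup X, C ≤ Subgroup.normalizer (E.comap π : Set X) ∧
      C ⊓ E.comap π = ⊥ ∧ E.comap π ⊔ C = Subgroup.normalizer (E.comap π : Set X) ∧
      Nonempty (↥C ≃* Matrix.ProjectiveSpecialLinearGroup (Fin 2) F) := fun h => by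
    obtain ⟨C, c1, c2, c3, c4, c5⟩ := h.lift_compl h1 h2 hπ hc.le hk
    obtain ⟨e1⟩ := H5.equiv_A5_of_card c5
    exact ⟨C, c1, c2, c3, ⟨e1.trans e2.symm⟩⟩
  refine ⟨WA.GS.elem_of_sq fun a ha => h.lift_sq hπ hc.le hk a (h.p.sE _ ⟨a, ha, rfl⟩),
    WA.GS.elem_of_sq fun a ha => h.lift_sq hπ hc.le hk a (h.p.sU _ ⟨a, ha, rfl⟩), ?_, ?_, ?_⟩
  · have := h.lift_center hπ hc.le hk
    rwa [eH, eK] at this
  · have := k h
    rwa [eH] at this
  · have := k h.symm
    rwa [eK] at this

end Cfsg.Agent.S3154
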