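import Cfsg.Statements.S3155
import Mathlib

set_option autoImplicit false
open Cfsg

namespace Cfsg.Agent.S3155

/-- Let B be the direct product of three cyclic groups of order 4. Then the automorphism of B inverting every element is not the square of any automorphism of B. -/
theorem result {B : Type*} [CommGroup B] [Finite B] (hB : Nonempty (B ≃* Multiplicative (ZMod 4 × ZMod 4 × ZMod 4)))
    (τ : B ≃* B) : τ.trans τ ≠ MulEquiv.inv B := by
  obtain ⟨e⟩ := hB
  intro h
  let M := ZMod 4 × ZMod 4 × ZMod 4
  let f : M →+ M := (MulEquiv.toAdditiveRight (((e.symm.trans τ).trans e))).toAddMonoidHom.comp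
    (AddEquiv.additiveMultiplicative M).symm.toAddMonoidHom
  have hf : ∀ x : M, f x = Multiplicative.toAdd (e (τ (e.symm (Multiplicative.ofAdd x)))) :=
    fun _ => rfl
  have hτ : ∀ b, τ (τ b) = b⁻¹ := fun b => DFunLike.congr_fun h b
  have hff : ∀ x : M, f (f x) = -x := by
    intro x
    rw [hf, hf]
    simp [hτ]
  let F : M →ₗ[ZMod 4] M := f.toZModLinearMap 4
  have hF : F ∘ₗ F = (-1 : ZMod 4) • LinearMap.id := by
    apply LinearMap.ext
    intro x
    rw [LinearMap.smul_apply, neg_smul, one_smul]
    exact hff x
  have hdet := congrArg LinearMap.det hF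
  rw [LinearMap.det_comp, LinearMap.det_smul, LinearMap.det_id] at hdet
  have hr : Module.finrank (ZMod 4) M = 3 := by
    haveI : Nontrivial (ZMod 4) := ⟨⟨0, 1, by decide⟩⟩
    show Module.finrank (ZMod 4) (ZMod 4 × ZMod 4 × ZMod 4) = 3
    rw [Module.finrank_prod, Module.finrank_prod, Module.finrank_self]
  rw [hr] at hdet
  revert hdet
  generalize LinearMap.det F = d
  revert d
  decide

end Cfsg.Agent.S3155
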