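import Cfsg.Statements.S3156
import Cfsg.Agent.H1.U3b

set_option autoImplicit false
open Cfsg

namespace Cfsg.Agent.S3156

/-- If a finite group T is isomorphic to a Sylow 2-subgroup of the projective special unitary group of dimension 3 with parameter 4 (realised over the field with 16 elements), then no subgroup of the automorphism group of T is isomorphic to the symmetric group of degree 3. -/
theorem result {T : Type*} [Group T] [Finite T] (hT : (∃ (F : Type) (_ : Field F) (_ : Fintype F), Fintype.card F = 16 ∧ ∃ S : Sylow 2 (Cfsg.PSU 3 F 4), Nonempty (T ≃* ↥(S : Subgroup (Cfsg.PSU 3 F 4))))) (H : Subgroup (MulAut T)) : ¬ Nonempty (↥H ≃* Equiv.Perm (Fin 3)) := by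
  obtain ⟨F, _, _, hF, S, ⟨e1⟩⟩ := hT
  rintro ⟨f⟩
  obtain ⟨σ, hσ, hq⟩ := H1.U3.exists_ctx (n := 2) (by omega) hF
  obtain ⟨e2⟩ := H1.U3.nonempty_sylow_PSU_equiv (q := 4) hq S
  let φ : Equiv.Perm (Fin 3) →* MulAut (H1.U3.US σ) :=
    (MulAut.congr (e1.trans e2)).toMonoidHom.comp (H.subtype.comp f.symm.toMonoidHom)
  have hφ : Function.Injective φ :=
    (MulAut.congr (e1.trans e2)).injective.comp (Subtype.val_injective.comp f.symm.injective)
  let r : Equiv.Perm (Fin 3) := Equiv.swap 0 1 * Equiv.swap 1 2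
  let s : Equiv.Perm (Fin 3) := Equiv.swap 0 1
  have r3 : φ r * φ r * φ r = 1 := by
    rw [← map_mul, ← map_mul, show r * r * r = 1 by decide, map_one]
  have s2 : φ s * φ s = 1 := by rw [← map_mul, show s * s = 1 by decide, map_one]
  have rs : φ s * φ r * φ s * φ r = 1 := by
    rw [← map_mul, ← map_mul, ← map_mul, show s * r * s * r = 1 by decide, map_one]
  obtain ⟨c, τ, hc, h1, -⟩ := H1.U3.exists_semilinear (φ r)
  obtain ⟨d, υ, hd, h2, -⟩ := H1.U3.exists_semilinear (φ s)
  have ev : ∀ α : MulAut (H1.U3.US σ), α = 1 → ∀ x, (α (H1.U3.lift σ x)).a = x := by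
    rintro _ rfl x; simp
  have a1 := ev _ r3
  have a2 := ev _ s2
  have a3 := ev _ rs
  simp only [MulAut.mul_apply, h1, h2, H1.U3.lift_a, map_mul] at a1 a2 a3
  have b1 := a1 1
  have b2 := a2 1
  simp only [map_one, mul_one] at b1 b2
  have hτ : (τ : RingAut F) = 1 := by
    have t3 : (τ : RingAut F) ^ 3 = 1 := RingEquiv.ext fun x => by
      have := a1 x
      rw [← mul_assoc, ← mul_assoc, mul_assoc c, b1, one_mul] at this
      exact this
    have t4 : (τ : RingAut F) ^ 4 = 1 := by
      rw [← H1.U3.card_ringAut (m := 4) hF, pow_card_eq_one']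
    rwa [pow_succ, t3, one_mul] at t4
  have hτ' : ∀ x, τ x = x := fun x => DFunLike.congr_fun hτ x
  simp only [hτ'] at a3 b1
  have hυ : (υ : RingAut F) ^ 2 = 1 := RingEquiv.ext fun x => by
    have := a2 x
    rw [← mul_assoc, b2, one_mul] at this
    exact this
  have hυc : υ c = c := by
    rcases H1.U3.eq_one_or_sig (σ := σ) υ hυ with h | h
    · rw [h]; rfl
    · rw [h, H1.U3.sigAut_apply, hq]
      linear_combination c * b1
  have b3 := a3 1
  simp only [map_one, mul_one, hυc] at b3
  have hc1 : c = 1 := by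
    have : c * c = 1 := by linear_combination b3 - c * c * b2
    linear_combination b1 - c * this
  have hm : φ r ∈ H1.U3.cAut σ := fun u => by rw [h1, hτ', hc1, one_mul]
  have := H1.U3.cAut_elementary.2 _ hm
  rw [← map_pow, ← map_one φ] at this
  exact absurd (hφ this) (by decide)

end Cfsg.Agent.S3156
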