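import Cfsg.Statements.S3157
import Cfsg.Agent.H1.Fpf3
import Cfsg.Agent.H1.SingInv

set_option autoImplicit false
open Cfsg

namespace Cfsg.Agent.S3157

open scoped commutatorElement
open Cfsg.Agent.H1 Cfsg.Agent.H1.Fpf3 Cfsg.Agent.H1.Singer Cfsg.Agent.H1.Squares

theorem coords {T : Type*} [Group T] [Finite T] {ρ : T →* T} (h : F3 ρ)
    (hZ : Nat.card (Subgroup.center T) ≤ 4) (hcc : ∀ u v : T, ⁅u, v⁆ ∈ Subgroup.center T)
    {w : T} (hw : w ∈ Subgroup.center T) (hw1 : w ≠ 1) (hww : w * w = 1) :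
    ∃ (z : F4 → T) (c : T → T → F4) (s : T → F4), z 0 = 1 ∧ z 1 = w ∧ z om = ρ (ρ w) ∧
      z (om + 1) = ρ w ∧ (∀ s t, z (s + t) = z s * z t) ∧ Function.Injective z ∧
      (∀ u, u ∈ Subgroup.center T ↔ ∃ t, u = z t) ∧ (∀ u v, ⁅u, v⁆ = z (c u v)) ∧
      (∀ u, u * u = z (s u)) ∧ (∀ u u' v, c (u * u') v = c u v + c u' v) ∧ (∀ u v, c u v = c v u) ∧
      (∀ u v, c (ρ u) v = om * c u v) ∧ (∀ u v, s (u * v) = s u + s v + c u v) ∧
      ∀ u, s (ρ u) = (om + 1) * s u := by
  obtain ⟨z, z0, z1, z2, z3, zadd, zinj, zc, zρ⟩ := h.exists_z hw hw1 hww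
  obtain ⟨ρ', h', hρ⟩ := h.center
  have h2 : ∀ t : F4, t + t = 0 := by decide
  have zz : ∀ t, z t * z t = 1 := fun t => by rw [← zadd, h2, z0]
  have hc : ∀ u, u ∈ Subgroup.center T ↔ ∃ t, u = z t := by
    refine fun u => ⟨fun hu => ?_, by rintro ⟨t, rfl⟩; exact zc t⟩
    rcases h'.enum hZ (g := ⟨w, hw⟩) (fun e => hw1 (congrArg Subtype.val e)) ⟨u, hu⟩ with e | e | e | e <;>
      have e' := congrArg Subtype.val e
    · exact ⟨0, z0 ▸ e'⟩
    · exact ⟨1, z1 ▸ e'⟩
    · exact ⟨om + 1, by rw [z3, ← hρ ⟨w, hw⟩]; exact e'⟩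
    · exact ⟨om, by rw [z2, ← hρ ⟨w, hw⟩, ← hρ]; exact e'⟩
  choose c hcz using fun u v => (hc _).mp (hcc u v)
  have c1 : ∀ u u' v, c (u * u') v = c u v + c u' v := fun u u' v => zinj (by
    rw [← hcz, comm_mul_left (hcc _ _), hcz, hcz, ← zadd, add_comm])
  have c2 : ∀ u v v', c u (v * v') = c u v + c u v' := fun u v v' => zinj (by
    rw [← hcz, comm_mul_right (hcc _ _), hcz, hcz, ← zadd])
  have c3 : ∀ u v, c u v = c v u := fun u v => zinj (by
    rw [← hcz, ← commutatorElement_inv, hcz]; exact inv_eq_of_mul_eq_one_right (zz _))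
  have hsq : ∀ u : T, u * u ∈ Subgroup.center T := fun u => by
    rw [Subgroup.mem_center_iff]
    intro v
    rw [eq_comm, ← commutatorElement_eq_one_iff_mul_comm, hcz, c1, h2, z0]
  choose s hs using fun u => (hc _).mp (hsq u)
  have c4 : ∀ u v, c (ρ u) (ρ v) = (om + 1) * c u v := fun u v => zinj (by
    rw [← hcz, ← map_commutatorElement, hcz, zρ])
  have c5 : ∀ u, c u (ρ u) = 0 := fun u => zinj (by
    rw [← hcz, z0, commutatorElement_eq_one_iff_mul_comm, h.cm])
  have c6 : ∀ u v, c u (ρ v) = c (ρ u) v := fun u v => by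
    have := c5 (u * v)
    rw [map_mul, c1, c2, c2, c5, c5, zero_add, add_zero, c3 v] at this
    exact (by decide : ∀ s t : F4, s + t = 0 → s = t) _ _ this
  refine ⟨z, c, s, z0, z1, z2, z3, zadd, zinj, hc, hcz, hs, c1, c3, fun u v => ?_, fun u v => zinj ?_,
    fun u => zinj (by rw [← hs, ← map_mul, hs, zρ])⟩
  · rw [← h.r3 (ρ u), ← c6, c4, ← c6, c4, ← mul_assoc]; congr 1
  · rw [← hs, SingInv.sq_mul_of_comm (hcc _ _), hs, hs, hcz, ← zadd, ← zadd, c3]


/-- Let T be a non-abelian group of order 64 admitting automorphisms ρ of order 3 and x of order 2 with x ρ x⁻¹ = ρ⁻¹ (so they generate a symmetric group of degree 3), where ρ fixes only the identity. Then T is isomorphic to a Sylow 2-subgroup of the projective special linear group of dimension 3 over the field with 4 elements, and the subgroup of fixed points of x is dihedral of order 8 or quaternion of order 8. -/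
theorem result {T : Type*} [Group T] [Finite T] (hT : Nat.card T = 64) (hna : ¬ IsMulCommutative T) (ρ x : MulAut T) (hρ : orderOf ρ = 3) (hx : orderOf x = 2)
    (hxr : x * ρ * x⁻¹ = ρ⁻¹) (hfp : ∀ y : T, ρ y = y → y = 1) (C : Subgroup T) (hC : ∀ y : T, y ∈ C ↔ x y = y) :
    (∃ (F : Type) (_ : Field F) (_ : Fintype F), Fintype.card F = 4 ∧
        ∃ S : Sylow 2 (Matrix.ProjectiveSpecialLinearGroup (Fin 3) F), Nonempty (T ≃* ↥(S : Subgroup (Matrix.ProjectiveSpecialLinearGroup (Fin 3) F)))) ∧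
      (Nonempty (↥C ≃* DihedralGroup 4) ∨ Nonempty (↥C ≃* QuaternionGroup 2)) := by
  have h2T : IsPGroup 2 T := IsPGroup.of_card (n := 6) hT
  have r3 : ∀ g, ρ (ρ (ρ g)) = g := fun g => by
    have : ρ * (ρ * ρ) = 1 := by rw [← pow_three, ← hρ, pow_orderOf_eq_one]
    exact DFunLike.congr_fun this g
  have h : F3 ρ.toMonoidHom := f3_of_fpf h2T r3 hfp
  have hxx : ∀ g, x (x g) = g := fun g => by
    have : x * x = 1 := by rw [← sq, ← hx, pow_orderOf_eq_one]
    exact DFunLike.congr_fun this g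
  have hxρ : ∀ g, x (ρ g) = ρ (ρ (x g)) := fun g => by
    apply ρ.injective
    have := DFunLike.congr_fun hxr (x g)
    simp only [MulAut.mul_apply, MulAut.inv_apply, MulEquiv.symm_apply_apply] at this
    rw [r3, this, MulEquiv.apply_symm_apply]
  have hxρ2 : ∀ g, x (ρ (ρ g)) = ρ (x g) := fun g => by rw [hxρ, hxρ, r3]
  have hnc : ¬ ∀ g : T, g ∈ Subgroup.center T := fun hh =>
    hna ⟨⟨fun a b => Subgroup.mem_center_iff.mp (hh b) a⟩⟩
  haveI : Nontrivial T := Finite.one_lt_card_iff_nontrivial.mp (by rw [hT]; norm_num)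
  obtain ⟨ρq, hq, hρq⟩ := h.quot
  obtain ⟨ρc, hc', hρc⟩ := h.center
  have e64 := Subgroup.card_eq_card_quotient_mul_card_subgroup (Subgroup.center T)
  rw [hT] at e64
  have hi : 4 < Nat.card (T ⧸ Subgroup.center T) := by
    by_contra hle
    exact hnc (h.comm_of_card (by omega))
  have hZ : Nat.card (Subgroup.center T) = 4 := by
    haveI := h2T.center_nontrivial
    have a1 := hc'.four_le
    have a2 := hc'.card_mod
    have a3 : Nat.card (Subgroup.center T) ∣ 64 := Dvd.intro_left _ e64.symm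
    have a4 : Nat.card (Subgroup.center T) < 16 := by nlinarith
    interval_cases Nat.card (Subgroup.center T) <;> omega
  have hcc : ∀ u v : T, ⁅u, v⁆ ∈ Subgroup.center T := by
    intro u v
    haveI : Nontrivial (T ⧸ Subgroup.center T) := Finite.one_lt_card_iff_nontrivial.mp (by omega)
    haveI := hq.p.center_nontrivial
    obtain ⟨ρ2, h2, -⟩ := hq.center
    have a1 := h2.four_le
    have a2 := Subgroup.card_eq_card_quotient_mul_card_subgroup (Subgroup.center (T ⧸ Subgroup.center T))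
    have a3 := hq.comm_of_card (by rw [hZ] at e64; nlinarith) (v : T ⧸ Subgroup.center T)
    rw [← QuotientGroup.eq_one_iff]
    change QuotientGroup.mk' _ ⁅u, v⁆ = 1
    rw [map_commutatorElement, commutatorElement_eq_one_iff_mul_comm]
    exact Subgroup.mem_center_iff.mp a3 _
  have xc : ∀ g ∈ Subgroup.center T, x g ∈ Subgroup.center T := fun g hg => by
    rw [Subgroup.mem_center_iff] at hg ⊢
    intro u
    rw [← hxx u, ← map_mul, ← map_mul, hg]
  have lift : ∀ u, u⁻¹ * x u ∈ Subgroup.center T → ∃ w ∈ Subgroup.center T, x (u * w) = u * w := by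
    intro u hu
    set t := u⁻¹ * x u with ht
    have e1 : x t = t⁻¹ := by rw [ht, map_mul, map_inv, hxx]; group
    have e2 : x u = u * t := by rw [ht]; group
    have e3 : t * ρ t * ρ (ρ t) = 1 := h.n1 t
    have e4 : ρ t * ρ (ρ t) = ρ (ρ t) * ρ t := h.cm (ρ t)
    clear_value t
    refine ⟨(ρ t)⁻¹, inv_mem (h.map_center hu), ?_⟩
    rw [map_mul, map_inv, hxρ, e1, e2, map_inv, map_inv, inv_inv, mul_assoc, mul_left_cancel_iff,
      eq_inv_iff_mul_eq_one, mul_assoc, ← e4, ← mul_assoc, e3]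
  obtain ⟨w0, -, hw0, hw0c⟩ := H5.exists_mem_center_of_normal h2T (N := ⊤) top_ne_bot
  have hall : (∀ g ∈ Subgroup.center T, g * g = 1) ∧ ∃ e1 e2 : T, x e1 = e1 ∧ x e2 = e2 ∧ ⁅e1, e2⁆ ≠ 1 := by
    obtain ⟨z, c, s, z0, z1, z2, z3, zadd, zinj, hc, hcz, hs, c1, c3, cρ, -, -⟩ := coords h hZ.le hcc hw0c
      (by rintro rfl; simp at hw0) (by rw [← sq, ← hw0, pow_orderOf_eq_one])
    have h2 : ∀ t : F4, t + t = 0 := by decide
    refine ⟨fun g hg => ?_, ?_⟩
    · obtain ⟨t, rfl⟩ := (hc g).mp hg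
      rw [← zadd, h2, z0]
    by_contra hne
    push Not at hne
    have c0 : ∀ w ∈ Subgroup.center T, ∀ v, c w v = 0 := fun w hw v => zinj (by
      rw [← hcz, z0, commutatorElement_eq_one_iff_mul_comm, Subgroup.mem_center_iff.mp hw])
    have k1 : ∀ u, ∃ a, x a = a ∧ ∀ v, c (u * x u) v = c a v := by
      intro u
      obtain ⟨w, hw, e⟩ := lift (u * x u) (by
        have := hcc (x u)⁻¹ u⁻¹
        rw [map_mul, hxx]
        convert this using 1
        simp only [commutatorElement_def]; group)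
      exact ⟨_, e, fun v => by rw [c1 _ w, c0 w hw, add_zero]⟩
    have k2 : ∀ v, (∀ a, x a = a → c a v = 0) → ∀ u, c u v = 0 := by
      intro v hv u
      obtain ⟨a, ha, e⟩ := k1 u
      obtain ⟨b, hb, e'⟩ := k1 (ρ u)
      have e1 := e v
      have e2 := e' v
      rw [hv a ha, c1] at e1
      rw [hv b hb, c1, hxρ] at e2
      have e3 := cρ u v
      have e4 := cρ (x u) v
      have e5 := cρ (ρ (x u)) v
      simp only [MulEquiv.coe_toMonoidHom] at e3 e4 e5
      rw [e5, e4, e3] at e2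
      exact (by decide : ∀ s t : F4, s + t = 0 → om * s + om * (om * t) = 0 → s = 0) _ _ e1 e2
    have k3 : ∀ a, x a = a → ∀ u, c u a = 0 := fun a ha => k2 a (fun b hb => zinj (by
      rw [← hcz, hne b a hb ha, z0]))
    apply hnc
    intro g
    rw [Subgroup.mem_center_iff]
    intro u
    rw [← commutatorElement_eq_one_iff_mul_comm, hcz, k2 g (fun a ha => by rw [c3, k3 a ha]), z0]
  obtain ⟨hel, e1, e2, x1, x2, hne⟩ := hall
  obtain ⟨z, c, s, z0, z1, z2, z3, zadd, zinj, hc, hcz, hs, c1, c3, cρ, sm, sρ⟩ :=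
    coords h hZ.le hcc (hcc e1 e2) hne (hel _ (hcc e1 e2))
  simp only [MulEquiv.coe_toMonoidHom] at z2 z3 cρ sρ
  have xw : x ⁅e1, e2⁆ = ⁅e1, e2⁆ := by rw [map_commutatorElement, x1, x2]
  have zx : ∀ t, x (z t) = z t → t = 0 ∨ t = 1 := by
    intro t ht
    rcases f4_cases t with rfl | rfl | rfl | rfl
    · exact Or.inl rfl
    · exact Or.inr rfl
    · rw [z2, hxρ2, xw, ← z2, ← z3] at ht
      exact absurd (zinj ht) (by decide)
    · rw [z3, hxρ, xw, ← z2, ← z3] at ht
      exact absurd (zinj ht) (by decide)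
  have c0 : ∀ w ∈ Subgroup.center T, ∀ v, c w v = 0 := fun w hw v => zinj (by
    rw [← hcz, z0, commutatorElement_eq_one_iff_mul_comm, Subgroup.mem_center_iff.mp hw])
  have cuu : ∀ u, c u u = 0 := fun u => zinj (by rw [← hcz, z0, commutatorElement_self])
  have c12 : c e1 e2 = 1 := zinj (by rw [← hcz, z1])
  have s0 : ∀ w ∈ Subgroup.center T, s w = 0 := fun w hw => zinj (by rw [← hs, hel w hw, z0])
  have line : ∀ e a, ∃ m, (∀ v, c m v = a * c e v) ∧ s m = a ^ 2 * s e := by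
    intro e a
    rcases f4_cases a with rfl | rfl | rfl | rfl
    · exact ⟨1, fun v => by rw [c0 1 (one_mem _), zero_mul], by rw [s0 1 (one_mem _)]; simp⟩
    · exact ⟨e, by simp, by simp⟩
    · exact ⟨ρ e, cρ e, by rw [sρ]; congr 1⟩
    · exact ⟨ρ (ρ e), fun v => by rw [cρ, cρ, ← mul_assoc]; congr 1, by
        rw [sρ, sρ, ← mul_assoc]; congr 1⟩
  have plane : ∀ a b, ∃ u, c u e2 = a ∧ c u e1 = b ∧ s u = s e1 * a ^ 2 + a * b + s e2 * b ^ 2 := by
    intro a b
    obtain ⟨m, m1, m2⟩ := line e1 a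
    obtain ⟨n, n1, n2⟩ := line e2 b
    refine ⟨m * n, ?_, ?_, ?_⟩
    · rw [c1, m1, n1, c12, cuu]; ring
    · rw [c1, m1, n1, c3 e2, c12, cuu]; ring
    · rw [sm, m2, n2, m1, c3, n1, c3 e2, c12]; ring
  let π : T →* Multiplicative (F4 × F4) := MonoidHom.mk' (fun u => Multiplicative.ofAdd (c u e2, c u e1))
    (fun u v => by rw [← ofAdd_add, c1, c1]; rfl)
  have hker : Subgroup.center T = π.ker := by
    apply Subgroup.eq_of_le_of_card_ge
    · intro w hw
      change Multiplicative.ofAdd (c w e2, c w e1) = 1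
      rw [c0 w hw, c0 w hw]; rfl
    · have a1 := Subgroup.card_eq_card_quotient_mul_card_subgroup π.ker
      rw [Nat.card_congr (QuotientGroup.quotientKerEquivOfSurjective π (fun p => by
        obtain ⟨u, u1, u2, -⟩ := plane p.toAdd.1 p.toAdd.2
        exact ⟨u, by change Multiplicative.ofAdd (c u e2, c u e1) = p; rw [u1, u2]; rfl⟩)).toEquiv, hT,
        Nat.card_eq_fintype_card (α := Multiplicative (F4 × F4))] at a1
      have : Fintype.card (Multiplicative (F4 × F4)) = 16 := rfl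
      rw [this] at a1
      omega
  have hk : ∀ u, (c u e2 = 0 ∧ c u e1 = 0) ↔ u ∈ Subgroup.center T := fun u => by
    rw [hker, ← Prod.mk_eq_zero]; rfl
  have h2 : ∀ s t : F4, s = s + t → t = 0 := by decide
  have hsq : ∀ u, s u = s e1 * c u e2 ^ 2 + c u e2 * c u e1 + s e2 * c u e1 ^ 2 := by
    intro u
    obtain ⟨v, v1, v2, v3⟩ := plane (c u e2) (c u e1)
    have a1 := c1 v (v⁻¹ * u) e2
    have a2 := c1 v (v⁻¹ * u) e1
    have a3 := sm v (v⁻¹ * u)
    rw [mul_inv_cancel_left] at a1 a2 a3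
    rw [v1] at a1
    rw [v2] at a2
    have := (hk _).mp ⟨h2 _ _ a1, h2 _ _ a2⟩
    rw [a3, s0 _ this, c3, c0 _ this, v3, add_zero, add_zero]
  have E : Ext (fun p : F4 × F4 => s e1 * p.1 ^ 2 + p.1 * p.2 + s e2 * p.2 ^ 2)
      (fun u => (c u e2, c u e1)) z := by
    refine ⟨fun u v => by rw [c1, c1]; rfl, fun p => ?_, zadd, zinj,
      fun t u => Subgroup.mem_center_iff.mp ((hc _).mpr ⟨t, rfl⟩) u, fun u => ?_, fun u => ?_⟩
    · obtain ⟨u, u1, u2, -⟩ := plane p.1 p.2
      exact ⟨u, Prod.ext u1 u2⟩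
    · rw [Prod.mk_eq_zero, hk, hc]
    · rw [hs, hsq]
  have sx : ∀ u, x u = u → s u = 0 ∨ s u = 1 := fun u hu => zx _ (by rw [← hs, map_mul, hu])
  have cx : ∀ u v, x u = u → x v = v → c u v = 0 ∨ c u v = 1 := fun u v hu hv =>
    zx _ (by rw [← hcz, map_commutatorElement, hu, hv])
  constructor
  · obtain ⟨P⟩ : Nonempty (Sylow 2 (Matrix.ProjectiveSpecialLinearGroup (Fin 3) F4)) := inferInstance
    obtain ⟨i2⟩ := Heis.nonempty_sylow_PSL_equiv (n := 2) (by omega) F4.card_F4 P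
    have : Nonempty (T ≃* Heis.HS F4) := by
      have a1 := sx e1 x1
      have a2 := sx e2 x2
      generalize s e1 = a at E a1
      generalize s e2 = b at E a2
      refine (ext_comp E (fun p => (p.1 + (if a = 1 ∧ b = 1 then om else b) * p.2,
        a * p.1 + (if a = 1 ∧ b = 1 then om + 1 else 1) * p.2)) ?_ ?_ ?_ ?_).nonempty_equiv
        (ext_HS (by decide)) <;> rcases a1 with rfl | rfl <;> rcases a2 with rfl | rfl <;> clear E <;> decide
    obtain ⟨i1⟩ := this
    exact ⟨F4, inferInstance, inferInstance, rfl, P, ⟨i1.trans i2.symm⟩⟩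
  · let f : F4 → ZMod 2 := fun t => (t.val : ZMod 2)
    let g : ZMod 2 → F4 := fun t => if t = 0 then 0 else 1
    have fadd : ∀ a b, f (a + b) = f a + f b := by decide
    have gadd : ∀ a b, g (a + b) = g a + g b := by decide
    have zC : ∀ t, z (g t) ∈ C := fun t => (hC _).mpr (by
      by_cases ht : t = 0
      · simp only [g, if_pos ht, z0, map_one]
      · simp only [g, if_neg ht, z1, xw])
    refine eight (a := f (s e1)) (b := f (s e2)) (π := fun u : C => (f (c u e2), f (c u e1)))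
      (z := fun t => ⟨z (g t), zC t⟩) ⟨?_, ?_, ?_, ?_, ?_, ?_, ?_⟩
    · intro u v
      simp only [Subgroup.coe_mul, c1, fadd]; rfl
    · have m1 : e1 ∈ C := (hC _).mpr x1
      have m2 : e2 ∈ C := (hC _).mpr x2
      have c21 : c e2 e1 = 1 := by rw [c3, c12]
      intro p
      have : p = (0, 0) ∨ p = (1, 0) ∨ p = (0, 1) ∨ p = (1, 1) := by revert p; decide
      rcases this with rfl | rfl | rfl | rfl
      · exact ⟨1, by simp only [OneMemClass.coe_one, c0 1 (one_mem _)]; rfl⟩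
      · exact ⟨⟨e1, m1⟩, by simp only [c12, cuu]; rfl⟩
      · exact ⟨⟨e2, m2⟩, by simp only [c21, cuu]; rfl⟩
      · exact ⟨⟨e1 * e2, mul_mem m1 m2⟩, by simp only [c1, c12, c21, cuu]; rfl⟩
    · intro a b
      exact Subtype.ext (by simp only [gadd, zadd]; rfl)
    · intro a b e
      exact (by decide : ∀ a b, g a = g b → a = b) a b (zinj (congrArg Subtype.val e))
    · intro t u
      exact Subtype.ext (Subgroup.mem_center_iff.mp ((hc _).mpr ⟨_, rfl⟩) u)
    · intro u
      have hu := (hC _).mp u.2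
      have k : ∀ t : F4, (t = 0 ∨ t = 1) → f t = 0 → t = 0 := by decide
      rw [Prod.mk_eq_zero]
      constructor
      · rintro ⟨a1, a2⟩
        obtain ⟨t, ht⟩ := (hc _).mp ((hk u).mp ⟨k _ (cx _ _ hu x2) a1, k _ (cx _ _ hu x1) a2⟩)
        refine ⟨f t, Subtype.ext ?_⟩
        rw [ht] at hu
        change _ = z (g (f t))
        rw [ht, (by decide : ∀ t : F4, (t = 0 ∨ t = 1) → g (f t) = t) t (zx t hu)]
      · rintro ⟨t, rfl⟩
        have := (hc _).mpr ⟨g t, rfl⟩
        simp only [c0 _ this]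
        exact ⟨rfl, rfl⟩
    · intro u
      have hu := (hC _).mp u.2
      apply Subtype.ext
      change (u : T) * u = z (g _)
      rw [hs, hsq]
      congr 1
      exact (by decide : ∀ a b p q : F4, (a = 0 ∨ a = 1) → (b = 0 ∨ b = 1) → (p = 0 ∨ p = 1) →
        (q = 0 ∨ q = 1) → a * p ^ 2 + p * q + b * q ^ 2 = g (f a * f p ^ 2 + f p * f q + f b * f q ^ 2))
        _ _ _ _ (sx _ x1) (sx _ x2) (cx _ _ hu x2) (cx _ _ hu x1)

end Cfsg.Agent.S3157
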