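import Cfsg.Statements.S3161
import Cfsg.Agent.H1.SingInv

set_option autoImplicit false
open Cfsg

namespace Cfsg.Agent.S3161

/-- Let Q be a non-abelian finite 2-group admitting commuting automorphisms α of order 2 and ρ of order 2^n − 1, where n ≥ 2, such that the fixed points of α form an elementary abelian subgroup of order 2^n on whose nonidentity elements the group generated by ρ acts transitively. Then Q is isomorphic to a Sylow 2-subgroup of the projective special unitary group of dimension 3 with parameter 2^n (realised over the field with 4^n elements) or of the projective special linear group of dimension 3 over the field with 2^n elements. -/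
theorem result {Q : Type*} [Group Q] [Finite Q] (hQ : IsPGroup 2 Q) (hna : ¬ IsMulCommutative Q) (n : ℕ) (hn : 2 ≤ n)
    (α ρ : MulAut Q) (hα : orderOf α = 2) (hρ : orderOf ρ = 2 ^ n - 1) (hc : Commute α ρ)
    (C : Subgroup Q) (hC : ∀ x : Q, x ∈ C ↔ α x = x) (hCE : Cfsg.IsElementaryAbelian 2 C ∧ Nat.card ↥C = 2 ^ n)
    (htr : ∀ x y : Q, x ∈ C → y ∈ C → x ≠ 1 → y ≠ 1 → ∃ k : ℕ, (ρ ^ k) x = y) :
    (∃ (F : Type) (_ : Field F) (_ : Fintype F), Fintype.card F = 4 ^ n ∧
        ∃ S : Sylow 2 (Cfsg.PSU 3 F (2 ^ n)), Nonempty (Q ≃* ↥(S : Subgroup (Cfsg.PSU 3 F (2 ^ n))))) ∨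
      (∃ (F : Type) (_ : Field F) (_ : Fintype F), Fintype.card F = 2 ^ n ∧
        ∃ S : Sylow 2 (Matrix.ProjectiveSpecialLinearGroup (Fin 3) F), Nonempty (Q ≃* ↥(S : Subgroup (Matrix.ProjectiveSpecialLinearGroup (Fin 3) F)))) := by
  classical
  have h2n : 4 ≤ 2 ^ n := by
    calc 4 = 2 ^ 2 := rfl
      _ ≤ 2 ^ n := Nat.pow_le_pow_right (by norm_num) hn
  have hVc : ∀ a b : C, a * b = b * a := fun a b => hCE.1.1.is_comm.comm a b
  letI : CommGroup C := { (inferInstance : Group C) with mul_comm := hVc }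
  have hαρ : ∀ u, α (ρ u) = ρ (α u) := fun u => DFunLike.congr_fun hc.eq u
  let yV : C →* C := (ρ.toMonoidHom.comp C.subtype).codRestrict C (fun v => by
    rw [hC]; change α (ρ v) = ρ v; rw [hαρ, (hC _).mp v.2])
  have hyVc : ∀ v : C, (yV v : Q) = ρ v := fun v => rfl
  have hit : ∀ (k : ℕ) (v : C), ((yV^[k] v : C) : Q) = (ρ ^ k) v := by
    intro k v
    induction k with
    | zero => rfl
    | succ k ih => rw [Function.iterate_succ_apply', hyVc, ih, pow_succ', MulAut.mul_apply]
  have hyi : Function.Injective yV := fun a b h => Subtype.ext (ρ.injective (congrArg Subtype.val h))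
  haveI : Nontrivial C := Finite.one_lt_card_iff_nontrivial.mp (by rw [hCE.2]; omega)
  obtain ⟨e, he⟩ := exists_ne (1 : C)
  have htr' : ∀ v : C, v ≠ 1 → ∃ k : ℕ, yV^[k] e = v := by
    intro v hv
    obtain ⟨k, hk⟩ := htr e v e.2 v.2 (fun h => he (Subtype.ext h)) (fun h => hv (Subtype.ext h))
    exact ⟨k, Subtype.ext (by rw [hit, hk])⟩
  let K := GaloisField 2 n
  letI : Fintype K := Fintype.ofFinite K
  have hK' : Fintype.card K = 2 ^ n := by
    rw [← Nat.card_eq_fintype_card, GaloisField.card 2 n (by omega)]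
  have hK : Fintype.card K = Nat.card C := by rw [hK', hCE.2]
  obtain ⟨z, l, hl, hz⟩ := Cfsg.Agent.H1.Singer.exists_coord yV hyi he htr' K hK
  have h2 : (2 : K) = 0 := by exact_mod_cast CharP.cast_eq_zero K 2
  have hF : Cfsg.Agent.H1.SingInv.Fld l n := ⟨h2, hl, by omega⟩
  have H : Cfsg.Agent.H1.SingInv.Hyp l n α.toMonoidHom ρ.toMonoidHom
      (fun x => (z (Multiplicative.ofAdd x) : Q)) := by
    refine ⟨hQ, fun u => ?_, hαρ, fun u => ?_, ρ.surjective, fun a b => by rw [ofAdd_add, map_mul]; rfl,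
      fun a b h => Multiplicative.ofAdd.injective (z.injective (Subtype.ext h)),
      fun x => by rw [← hz]; rfl, fun u => ?_⟩
    · have : α * α = 1 := by rw [← sq, ← hα, pow_orderOf_eq_one]
      exact DFunLike.congr_fun this u
    · have e1 : ∀ k, (ρ.toMonoidHom)^[k] u = (ρ ^ k) u := fun k => by
        induction k with
        | zero => rfl
        | succ k ih => rw [Function.iterate_succ_apply', ih, pow_succ', MulAut.mul_apply]; rfl
      have e2 : ρ ^ 2 ^ n = ρ := by
        rw [show 2 ^ n = (2 ^ n - 1) + 1 by omega, pow_succ, ← hρ, pow_orderOf_eq_one, one_mul]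
      rw [e1, e2]; rfl
    · change α u = u ↔ _
      rw [← hC]
      constructor
      · intro hu
        obtain ⟨t, ht⟩ := z.surjective ⟨u, hu⟩
        exact ⟨t.toAdd, (congrArg Subtype.val ht).symm⟩
      · rintro ⟨x, rfl⟩; exact Subtype.prop _
  obtain ⟨s, hs0, hs1⟩ : ∃ s : K, s ≠ 0 ∧ s ≠ 1 := by
    by_contra hne
    push Not at hne
    have : (Finset.univ : Finset K) ⊆ {0, 1} := fun s _ => by
      by_cases h : s = 0
      · simp [h]
      · simp [hne s h]
    have h3 := (Finset.card_le_card this).trans Finset.card_le_two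
    rw [Finset.card_univ, hK'] at h3
    omega
  rcases Cfsg.Agent.H1.SingInv.Hyp.main hF hs0 hs1 _ le_rfl H with hcm | ⟨k, b, px, py, S⟩
  · exact absurd ⟨⟨hcm⟩⟩ hna
  have E := S.ext hF H
  by_cases hr : ∃ r : K, r ^ 2 = b / k + r
  · right
    obtain ⟨r, hr⟩ := hr
    obtain ⟨e1⟩ := Cfsg.Agent.H1.Squares.nonempty_equiv_HS h2 hr E
    haveI : Fact (Nat.Prime 2) := ⟨Nat.prime_two⟩
    obtain ⟨P⟩ : Nonempty (Sylow 2 (Matrix.ProjectiveSpecialLinearGroup (Fin 3) K)) := inferInstance
    obtain ⟨e2⟩ := Cfsg.Agent.H1.Heis.nonempty_sylow_PSL_equiv (by omega) hK' P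
    exact ⟨K, inferInstance, inferInstance, hK', P, ⟨e1.trans e2.symm⟩⟩
  · left
    exact Cfsg.Agent.H1.Squares.nonempty_equiv_PSU (by omega) hK' h2
      (fun r h => hr ⟨r, by rw [h, one_mul]⟩) E

end Cfsg.Agent.S3161
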