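import Cfsg.Statements.S3162
import Cfsg.Agent.H1.U3b

set_option autoImplicit false
open Cfsg

namespace Cfsg.Agent.S3162

/-- Let S be a Sylow 2-subgroup of the special unitary group of dimension 3 with parameter q = 2^n (n ≥ 2; realised over the field with q² elements). Then the largest normal 2-subgroup of the automorphism group of S is elementary abelian of order 2^(2n²), and the automorphism group has order 2^(2n²) · 2n(q² − 1). -/
theorem result {S : Type*} [Group S] [Finite S] (n : ℕ) (hn : 2 ≤ n) {F : Type*} [Field F] [Fintype F] (hF : Fintype.card F = 4 ^ n)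
    (P : Sylow 2 ↥(Cfsg.SU 3 F (2 ^ n))) (hS : Nonempty (S ≃* ↥(P : Subgroup ↥(Cfsg.SU 3 F (2 ^ n))))) :
    Cfsg.IsElementaryAbelian 2 (Cfsg.pCore 2 (MulAut S)) ∧ Nat.card ↥(Cfsg.pCore 2 (MulAut S)) = 2 ^ (2 * n ^ 2) ∧
      Nat.card (MulAut S) = 2 ^ (2 * n ^ 2) * (2 * n * ((2 ^ n) ^ 2 - 1)) := by
  obtain ⟨σ, hσ, hq⟩ := H1.U3.exists_ctx (by omega) hF
  obtain ⟨e1⟩ := hS
  obtain ⟨e2⟩ := H1.U3.nonempty_sylow_equiv hq P
  have : Finite (MulAut S) := Finite.of_injective _ (DFunLike.coe_injective (F := S ≃* S))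
  have : Finite (MulAut (H1.U3.US σ)) :=
    Finite.of_injective _ (DFunLike.coe_injective (F := H1.U3.US σ ≃* H1.U3.US σ))
  let e : MulAut (H1.U3.US σ) ≃* MulAut S := (MulAut.congr (e1.trans e2)).symm
  have h1 := L0.map_pCore_equiv (p := 2) e
  rw [H1.U3.pCore_aut] at h1
  have h2 : Nat.card (pCore 2 (MulAut S)) = 2 ^ (2 * n ^ 2) := by
    rw [← h1, Subgroup.card_map_of_injective e.injective, H1.U3.card_cAut hF]
  refine ⟨?_, h2, ?_⟩
  · rw [← h1]
    obtain ⟨h3, h4⟩ := H1.U3.cAut_elementary (σ := σ)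
    refine ⟨inferInstance, ?_⟩
    rintro _ ⟨a, ha, rfl⟩
    rw [← map_pow, h4 a ha, map_one]
  · rw [← Nat.card_congr e.toEquiv, ← (H1.U3.cAut σ).card_mul_index, H1.U3.card_cAut hF,
      H1.U3.index_cAut hF]

end Cfsg.Agent.S3162
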