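import Cfsg.Statements.S3169
import Cfsg.Agent.H1.M24S

set_option autoImplicit false
open Cfsg

namespace Cfsg.Agent.S3169

section
open Subgroup Cfsg.Agent.S3171 Cfsg.Agent.FT Cfsg.Agent.L0 Cfsg.Agent.H8 Cfsg.Agent.WA.GS Cfsg.Agent.H1.MQ
open Cfsg.Agent.H7 (opp)
open scoped commutatorElement

local instance f2 : Fact (Nat.Prime 2) := Nat.fact_prime_two

variable {G : Type*} [Group G] [Finite G] {A B K J X : Subgroup G} {a b u x y z : G}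

structure Cx (A : Subgroup G) : Prop where
  hy : Hy G
  el : El A
  op : opp 2 (⊤ : Subgroup G) = ⊥

namespace Cx
variable (h : Cx A)
include h

theorem img (hB : B ≤ A) (hx : x ∈ St A B ⊥) (hy : y ∈ St A B ⊥) (e : ∀ a ∈ A, ∃ b ∈ A, ⁅x, a⁆ = ⁅y, b⁆) :
    x ∈ 𝐂(A) ∨ ∀ a ∈ A, ⁅x, a⁆ = ⁅y, a⁆ := by
  obtain ⟨P, hP, e1⟩ := exists_isSylowIn_ge (K := St A B ⊥) h.el.pg fun a ha => mem_St bot_le hB
    (fun f hf => cone h.el.sq ha hf ▸ one_mem _) (fun f hf => cone h.el.sq ha (hB hf) ▸ one_mem _)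
    fun f hf => cone h.el.sq ha (bot_le (a := A) hf)
  obtain ⟨φ, i, e2⟩ := h.hy P hP.pgroup
  have k : ∀ x ∈ St A B ⊥, ∃ s, (∀ a ∈ A, ⁅x, a⁆ = ⁅φ s, a⁆) ∧ ∀ a ∈ A, ⁅φ s, ⁅φ s, a⁆⁆ = 1 := fun x hx => by
    obtain ⟨c, hc, p, hp, rfl⟩ := St_le h.el.sq hP hx
    obtain ⟨s, rfl⟩ := e2 hp
    exact ⟨s, fun a ha => ccj hc (hP.le hp).1.1.1 ha, fun a ha => (hP.le hp).1.2.2 _ ((hP.le hp).1.1.2.2 a ha)⟩
  obtain ⟨s, s1, s2⟩ := k x hx
  obtain ⟨t, t1, t2⟩ := k y hy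
  have q := h.el.eq i (e1.trans e2)
  have m : ∀ {a}, a ∈ pD.ker → φ a ∈ A := fun ha => q ▸ mem_map_of_mem φ ha
  refine (H1.MQ.img (x := s) (y := t) (fun a ha => i (by simpa using s2 _ (m ha))) (fun a ha => i (by simpa using t2 _ (m ha)))
    fun a ha => ?_).imp (fun e => cent_of fun a ha => (s1 a ha).trans (cone h.el.sq (m e) ha)) fun e a ha => ?_
  · obtain ⟨b, hb, e⟩ := e _ (m ha)
    obtain ⟨b, b1, rfl⟩ := q.ge hb
    exact ⟨b, b1, i (by rw [map_commutatorElement, map_commutatorElement, ← s1 _ (m ha), e, t1 _ hb])⟩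
  · obtain ⟨a, a1, rfl⟩ := q.ge ha
    rw [s1 _ ha, t1 _ ha, ← map_commutatorElement, e a a1, map_commutatorElement]

theorem ex : ∃ x ∈ 𝐍(A), x * x * (x * x) = 1 ∧ (∀ a ∈ A, ⁅x, ⁅x * x, a⁆⁆ = 1) ∧
    ∀ b ∈ A, ⁅x * x, b⁆ = 1 → ∃ a ∈ A, b = ⁅x, a⁆ := by
  obtain ⟨φ, i, e⟩ := h.hy A h.el.pg
  obtain rfl := h.el.eq i e
  refine ⟨φ tx, norm_of ?_, by simp only [← map_mul, tx4, map_one], ?_, ?_⟩
  · rintro _ ⟨a, ha, rfl⟩
    exact ⟨_, cmem (F := pD.ker) (normalizer_eq_top pD.ker ▸ mem_top tx) ha, map_commutatorElement φ _ _⟩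
  · rintro _ ⟨a, ha, rfl⟩
    rw [← map_mul, ← map_commutatorElement, ← map_commutatorElement, tx3 ha, map_one]
  · rintro _ ⟨b, hb, rfl⟩ e
    obtain ⟨a, ha, rfl⟩ := tx1 hb (i (by rw [map_commutatorElement, map_mul, e, map_one]))
    exact ⟨_, mem_map_of_mem φ ha, map_commutatorElement φ _ _⟩

theorem sc : SC A ⊤ := h.hy.sc h.el

theorem kc (hK : AC A K ⊤) : KC A K := hK.kc (ih_all _) (Nat.lt_succ_self _) h.sc

theorem cB (hK : AC A K ⊤) (hu : u ∈ K) (hb : b ∈ cm K) : ⁅u, b⁆ = 1 :=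
  mem_bot.mp (h.op ▸ hK.comp.opp_le_opp (hb.2 u hu))

theorem two_mem (hK : AC A K ⊤) (hu : u ∈ K ⊓ 𝐍(A)) (h2 : ∃ k, u ^ 2 ^ k = 1) : u ∈ A := by
  have m : ∀ u ∈ K ⊓ 𝐍(A), (∃ k, u ^ 2 ^ k = 1) → u ∈ St A (BB A K) ⊥ := fun u hu h2 => mem_St bot_le inf_le_left
    (fun a ha => ⟨cmem hu.2 ha, by
      rw [← commutatorElement_inv]
      exact (cm K).inv_mem ((h.kc hK).two_comm (H9.isPGroup_zpowers h2) (zpowers_le.mpr hu)
        (commutator_mem_commutator ha (mem_zpowers u)))⟩)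
    (fun b hb => h.cB hK hu.1 hb.2) fun f hf => by rw [mem_bot.mp hf, commutatorElement_one_right]
  obtain ⟨c, hc, s⟩ := (h.kc hK).sing
  have n : ∀ {a}, a ∈ A → c * a * c⁻¹ ∈ A := conj_mem_of_le_normalizer le_rfl s.norm
  have e : ∀ a ∈ A, ⁅u, a⁆ = ⁅c * u * c⁻¹, c * a * c⁻¹⁆ := fun a ha => by
    rw [← conjugate_commutatorElement, s.cent _ ((m u hu h2).1.1.2.2 a ha), mul_inv_cancel_right]
  refine h.hy.cent h.el (pg2 h.el.pg hu.2 (H9.isPGroup_zpowers h2)) le_sup_left (mem_sup_right (mem_zpowers u))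
    ((h.img inf_le_left (m u hu h2) (m _ (conj_mem_of_le_normalizer le_normalizer ⟨hc, s.norm⟩ hu)
      (h2.imp fun k e => by rw [conj_pow, e, mul_one, mul_inv_cancel])) fun a ha => ⟨_, n ha, e a ha⟩).elim id
      fun e1 => cent_of fun a ha => ?_)
  have e2 : ∀ i : ℕ, ∀ a ∈ A, ⁅u, c ^ i * a * (c ^ i)⁻¹⁆ = ⁅u, a⁆ := fun i => by
    induction i with
    | zero => simp
    | succ i ih =>
      intro a ha
      rw [e a ha, ← e1 _ (n ha), ← ih _ (n ha), pow_succ, mul_inv_rev]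
      simp only [mul_assoc]
  have e3 : ∀ a ∈ A, a ∉ BB A K → ∀ b ∈ A, b ∉ BB A K → ⁅u, a⁆ = ⁅u, b⁆ := fun a ha a1 b hb b1 => by
    obtain ⟨i, hi⟩ := s.trans a ha a1 b hb b1
    rw [← e2 i a ha, ← inv_mul_cancel_right (c ^ i * a * (c ^ i)⁻¹) b, cmul h.el.sq hu.2 hi.1 hb, h.cB hK hu.1 hi.2, one_mul]
  by_cases a1 : a ∈ BB A K
  · exact h.cB hK hu.1 a1.2
  have c1 := (ext2 (B := BB A K) (fun b hb => h.el.sq b hb.1) (h.el.sq a ha)
    (mem_centralizer_iff.mpr fun b hb => comm_of_sq h.el.sq hb.1 ha) a1).2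
  obtain ⟨b, hb, b1⟩ := SetLike.exists_of_lt (lt_of_le_of_ne (sup_le inf_le_left (zpowers_le.mpr ha) :
    BB A K ⊔ zpowers a ≤ A) fun e => by have := s.four; have := h.el.card; rw [e] at c1; omega)
  have := e3 _ (mul_mem ha hb) (fun e => b1 ((mul_mem_cancel_left (mem_sup_right (mem_zpowers a))).mp
    (mem_sup_left e))) b hb fun e => b1 (mem_sup_left e)
  rwa [cmul h.el.sq hu.2 ha hb, mul_eq_right] at this

theorem syl (hK : AC A K ⊤) : A ⊓ K ⊓ cm K = ⊥ ∧ AA A K = A ⊓ K := by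
  obtain ⟨P, hP, e⟩ := exists_isSylowIn_ge h.el.pg (le_top : A ≤ ⊤)
  have := H7.IsSylowIn.inf_of_sn hP hK.comp.1
  rw [show P ⊓ K = A ⊓ K from le_antisymm (fun x hx => ⟨h.two_mem hK ⟨hx.2, h.hy.norm h.el hP.pgroup e hx.1⟩
    ((hP.pgroup ⟨x, hx.1⟩).imp fun k e => congrArg Subtype.val e), hx.2⟩) (inf_le_inf_right _ e)] at this
  exact ⟨((h.kc hK).of_sylow this).1, ((h.kc hK).of_sylow this).2.1⟩

/-- an involution acts trivially or freely on `A ⊓ K` -/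
theorem free (hK : AC A K ⊤) (hz : z ∈ 𝐍(K) ⊓ 𝐍(A)) (z2 : z * z = 1) (ha : a ∈ A ⊓ K) (a1 : ⁅z, a⁆ ≠ 1) (hb : b ∈ A ⊓ K)
    (b1 : b ≠ 1) (hc : ⁅z, b⁆ = 1) : ∃ a ∈ A, b = ⁅z, a⁆ := by
  obtain ⟨c, cK, s⟩ := (h.kc hK).sing
  have n : ∀ {w}, w ∈ A ⊓ K → w ≠ 1 → w ∉ BB A K := fun hw w1 e => w1 (mem_bot.mp ((h.syl hK).1 ▸ mem_inf.mpr ⟨hw, e.2⟩))
  have hw : ⁅z, a⁆ ∈ A ⊓ K := ⟨cmem hz.2 ha.1, cmem hz.1 ha.2⟩
  obtain ⟨i, hi⟩ := s.trans _ hw.1 (n hw a1) b hb.1 (n hb b1)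
  have hg : c ^ i ∈ K ⊓ 𝐍(A) := pow_mem (mem_inf.mpr ⟨cK, s.norm⟩) i
  generalize c ^ i = g at hi hg
  have e1 : g * ⁅z, a⁆ * g⁻¹ = b := mul_inv_eq_one.mp (by_contra fun e =>
    n ⟨hi.1, mul_mem (conj_mem_of_le_normalizer le_normalizer hg.1 hw.2) (K.inv_mem hb.2)⟩ e hi)
  have zi : z⁻¹ = z := inv_eq_of_mul_eq_one_right z2
  have hd : ⁅z, g⁆ ∈ K ⊓ 𝐍(A) := ⟨cmem hz.1 hg.1, cmem (le_normalizer hz.2) hg.2⟩
  have e2 : g * z * g⁻¹ = z * ⁅z, g⁆ := by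
    rw [commutatorElement_def, zi, ← mul_assoc, ← mul_assoc, ← mul_assoc, z2, one_mul]
  have e3 : SemiconjBy z ⁅z, g⁆ ⁅z, g⁆⁻¹ := by
    rw [SemiconjBy, ← e2, commutatorElement_inv, commutatorElement_def, zi, mul_assoc _ z z, z2, mul_one]
  have e4 : ⁅⁅z, g⁆, b⁆ = 1 := by
    rw [show ⁅z, g⁆ = z * (z * ⁅z, g⁆) by rw [← mul_assoc, z2, one_mul], commutatorElement_eq_one_iff_commute]
    refine (commutatorElement_eq_one_iff_commute.mp hc).mul_left (commutatorElement_eq_one_iff_commute.mp ?_)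
    rw [← e2, ← e1, ← conjugate_commutatorElement, ← csq h.el.sq hz.2 ha.1, z2]
    simp
  rw [conjugate_commutatorElement, e2] at e1
  generalize ⁅z, g⁆ = d at *
  obtain ⟨k, m, ⟨j, rfl⟩, e⟩ := Nat.exists_eq_two_pow_mul_odd (orderOf_pos d).ne'
  have m1 := h.two_mem hK (pow_mem hd (2 * j + 1)) ⟨k, by rw [← pow_mul, mul_comm, ← e, pow_orderOf_eq_one]⟩
  have m2 := conj_mem_of_le_normalizer le_rfl hg.2 ha.1
  refine ⟨_, conj_mem_of_le_normalizer le_rfl (pow_mem hd.2 (j + 1)) m2, ?_⟩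
  have e5 : z = d ^ (j + 1) * (z * d * d ^ (2 * j + 1)) * (d ^ (j + 1))⁻¹ := by
    rw [mul_assoc z, ← pow_succ', show 2 * j + 1 + 1 = j + 1 + (j + 1) by ring, pow_add d (j + 1), ← mul_assoc z,
      (e3.pow_right (j + 1)).eq, inv_pow]
    group
  nth_rw 1 [e5]
  rw [← conjugate_commutatorElement, commutatorElement_mul_left_eq_conj_mul, cone h.el.sq m1 m2, mul_one, mul_inv_cancel,
    one_mul, e1, ((commutatorElement_eq_one_iff_commute.mp e4).pow_left _).eq, mul_inv_cancel_right]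

theorem drop (hK : AC A K ⊤) (h1 : AA A K ≤ X) (h2 : X ≤ A) : 4 * #|(BB A K ⊓ X : Subgroup G)| ≤ #|X| := by
  obtain ⟨c, -, s⟩ := (h.kc hK).sing
  have e := H8.card_sup_mul_card_inf (N := BB A K) (H := X) fun x hx =>
    norm_of fun f hf => cone h.el.sq (h2 hx) hf.1 ▸ one_mem _
  rw [le_antisymm (sup_le inf_le_left h2) ((h.kc hK).le_sup.trans (sup_le (h1.trans le_sup_right) le_sup_left)),
    h.el.card] at e
  have := Nat.mul_le_mul_right #|X| (h.el.card ▸ s.four)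
  rw [mul_assoc, ← e] at this
  omega

theorem no_comp (K : Subgroup G) : ¬ AC A K ⊤ := fun hK => by
  obtain ⟨x, hx, x4, x3, x1⟩ := h.ex
  have c : ∀ {K n}, AC A K ⊤ → n ∈ 𝐍(A) → AC A (cj n K) ⊤ := fun hK hn => by simpa only [cj_top] using hK.cj' hn
  have ne := @AC.aa_le_of_ne G _ _ A ⊤
  have hz : cj x (cj x K) = K := by
    by_contra e
    have k1 := c hK hx
    have k2 := c k1 hx
    have k3 := c k2 hx
    have n1 : cj x K ≠ K := fun e' => e (by rw [e', e'])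
    have n2 : cj x (cj x (cj x K)) ≠ K := fun e' => n1 (by
      rw [← e', ← cj_mul, ← cj_mul, ← cj_mul, mul_assoc (x * x), x4, cj_one, e'])
    have i : ∀ {J L : Subgroup G}, J ≠ L → cj x J ≠ cj x L := fun e e' => e (cj_injective _ e')
    have l : ∀ {J}, AC A J ⊤ → AA A J ≤ A := fun hJ => (h.syl hJ).2.le.trans inf_le_left
    have d0 := h.drop hK (l hK) le_rfl
    have d1 := h.drop k1 (le_inf (ne h.sc k1 hK n1) (l k1)) inf_le_right
    have d2 := h.drop k2 (le_inf (ne h.sc k2 k1 (i n1)) (le_inf (ne h.sc k2 hK e) (l k2)))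
      (inf_le_right.trans inf_le_right)
    have d3 := h.drop k3 (le_inf (ne h.sc k3 k2 (i (i n1))) (le_inf (ne h.sc k3 k1 (i e)) (le_inf (ne h.sc k3 hK n2) (l k3))))
      (inf_le_right.trans (inf_le_right.trans inf_le_right))
    have := h.el.card
    have := Nat.card_pos (α := (BB A (cj x (cj x (cj x K))) ⊓ (BB A (cj x (cj x K)) ⊓ (BB A (cj x K) ⊓ (BB A K ⊓ A))) :
      Subgroup G))
    omega
  have zK : x * x ∈ 𝐍(K) ⊓ 𝐍(A) := ⟨cj_eq_self_iff.mp ((cj_mul x x K).trans hz), mul_mem hx hx⟩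
  have k1 : ∀ a ∈ A ⊓ K, ⁅x * x, a⁆ = 1 := fun a ha => by_contra fun a1 => by
    have hw : ⁅x * x, a⁆ ∈ A ⊓ K := ⟨cmem zK.2 ha.1, cmem zK.1 ha.2⟩
    have xK : x ∈ 𝐍(K) := cj_eq_self_iff.mp (by_contra fun e => a1 (mem_bot.mp ((h.syl hK).1 ▸ mem_inf.mpr ⟨hw,
      (ne h.sc (c hK hx) hK e ((h.syl (c hK hx)).2.ge (mem_inf.mpr ⟨hw.1, by
        simpa only [commutatorElement_eq_one_iff_mul_comm.mp (x3 a ha.1), mul_inv_cancel_right]
          using conj_mem_cj x hw.2⟩))).2⟩)))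
    refine a1 ((csq h.el.sq hx ha.1).trans (by_contra fun e => ?_))
    obtain ⟨b, hb, e'⟩ := h.free hK zK x4 ha a1 ⟨cmem hx ha.1, cmem xK ha.2⟩ (fun e' => e (by
      rw [e', commutatorElement_one_right])) (by rw [csq h.el.sq hx (cmem hx ha.1), ← csq h.el.sq hx ha.1, x3 a ha.1])
    exact e (e' ▸ x3 b hb)
  have k2 : ∀ a ∈ A ⊓ cj x K, ⁅x * x, a⁆ = 1 := fun a ha => by
    have := k1 _ ⟨conj_mem_of_le_normalizer' le_rfl hx ha.1, mem_cj.mp ha.2⟩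
    rw [show ⁅x * x, a⁆ = x * ⁅x * x, x⁻¹ * a * x⁆ * x⁻¹ by group, this, mul_one, mul_inv_cancel]
  have xY : x ∈ 𝐍((BB A K ⊓ BB A (cj x K) : Subgroup G)) :=
    cj_eq_self_iff.mp (by rw [cj_inf, cj_BB hx, cj_BB hx, hz, inf_comm])
  have D : ∀ a ∈ A, ∃ b ∈ A, ∃ y ∈ BB A K ⊓ BB A (cj x K), ⁅x * x, b⁆ = 1 ∧ b * y = a := fun a ha => by
    obtain ⟨u, hu, v, hv, rfl⟩ := (h.kc hK).dec ha
    have hu := (h.syl hK).2.le hu
    by_cases e : cj x K = K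
    · exact ⟨u, hu.1, v, by rwa [e, inf_idem], k1 u hu, rfl⟩
    obtain ⟨u', hu', v, hv', rfl⟩ := (h.kc (c hK hx)).dec hv.1
    have m := (h.syl (c hK hx)).2.le hu'
    exact ⟨u * u', mul_mem hu.1 m.1, v, ⟨(mul_mem_cancel_left (ne h.sc (c hK hx) hK e hu')).mp hv, hv'⟩, by
      rw [cmul h.el.sq zK.2 hu.1 m.1, k1 u hu, k2 u' m, one_mul], mul_assoc _ _ _⟩
  refine hK.ne fun a ha => (?_ : a ∈ BB A K ⊓ BB A (cj x K)).1.2
  obtain ⟨b, hb, y, hy, e, rfl⟩ := D a ha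
  obtain ⟨a1, h1, rfl⟩ := x1 b hb e
  obtain ⟨b1, h2, y', hy', e1, rfl⟩ := D a1 h1
  obtain ⟨a2, h3, rfl⟩ := x1 b1 h2 e1
  obtain ⟨b2, h4, y'', hy'', e2, rfl⟩ := D a2 h3
  rw [cmul h.el.sq hx (cmem hx h3) hy'.1.1, ← csq h.el.sq hx h3, cmul h.el.sq zK.2 h4 hy''.1.1, e2, one_mul]
  exact mul_mem (mul_mem (cmem (mul_mem xY xY) hy'') (cmem xY hy')) hy

theorem normal : A.Normal := by
  have := (h.sc.struct (ih_all _) (Nat.lt_succ_self _)).1
  rwa [top_le_iff, normalizer_eq_top_iff, Set.eq_empty_of_forall_notMem (s := {K | AC A K ⊤}) h.no_comp, sSup_empty,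
    sup_bot_eq, h.op, bot_sup_eq] at this

end Cx

theorem normal_of (hO : oddCore G = ⊥) (S : Sylow 2 G) (e : S ≃* T) (hA : A ≤ S) (hc : IsMulCommutative A)
    (h : #|A| = 64) : A.Normal := by
  have i : Function.Injective ((S : Subgroup G).subtype.comp e.symm.toMonoidHom) :=
    (subtype_injective _).comp e.symm.injective
  have r : (S : Subgroup G) ≤ ((S : Subgroup G).subtype.comp e.symm.toMonoidHom).range := fun x hx =>
    ⟨e ⟨x, hx⟩, by simp⟩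
  generalize (S : Subgroup G).subtype.comp e.symm.toMonoidHom = φ at i r
  refine Cx.normal ⟨fun P hP => ?_, ⟨fun a ha => ?_, h⟩, (H7.opp_top ..).trans hO⟩
  · obtain ⟨Q, hQ⟩ := hP.exists_le_sylow
    obtain ⟨g, rfl⟩ := MulAction.exists_smul_eq G S Q
    refine ⟨(MulAut.conj g).toMonoidHom.comp φ, (MulAut.conj g).injective.comp i, fun x hx => ?_⟩
    obtain ⟨y, hy, rfl⟩ := hQ hx
    obtain ⟨y, rfl⟩ := r hy
    exact ⟨y, rfl⟩
  · obtain ⟨a, rfl⟩ := r (hA ha)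
    have := (part3 (A.comap φ) (A.comap_injective_isMulCommutative i) (by
      rw [← card_map_of_injective i, map_comap_eq_self (hA.trans r), h])).le ha
    rw [← map_mul, ← φ.map_one, mem_ker_pD] at *
    congr 1
    ext <;> simp [T.mul_def, T.one_def, this, CharTwo.add_self_eq_zero]

end

/-- Let P be a Sylow 2-subgroup of the Mathieu group of degree 24 and let G be a finite group with no nontrivial normal subgroup of odd order whose Sylow 2-subgroup S is isomorphic to the quotient of P by its centre. If A is an abelian subgroup of S of order 64 and is the only abelian subgroup of S of that order, then A is normal in G. -/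
theorem result {G : Type*} [Group G] [Finite G]
    (hO : Cfsg.oddCore G = ⊥) (S : Sylow 2 G) (P : Sylow 2 ↥Cfsg.M24)
    (hS : Nonempty (↥(S : Subgroup G) ≃* (↥(P : Subgroup ↥Cfsg.M24) ⧸ Subgroup.center ↥(P : Subgroup ↥Cfsg.M24))))
    (A : Subgroup G) (hA : A ≤ (S : Subgroup G)) (hAc : IsMulCommutative ↥A) (hA64 : Nat.card ↥A = 64)
    (huniq : ∀ B : Subgroup G, B ≤ (S : Subgroup G) → IsMulCommutative ↥B → Nat.card ↥B = 64 → B = A) :
    A.Normal :=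
  normal_of hO S (hS.some.trans (S3171.quot_equiv P).some) hA hAc hA64

end Cfsg.Agent.S3169
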