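import Cfsg.Statements.S3170
import Cfsg.Agent.S3169
import Cfsg.Agent.H4.FF

set_option autoImplicit false
open Cfsg

namespace Cfsg.Agent.S3170

open Subgroup Cfsg.Agent.S3171 in
/-- Let H be a finite group with no nontrivial normal subgroup of odd order whose Sylow 2-subgroup T is isomorphic to a Sylow 2-subgroup of the Mathieu group of degree 24, and suppose that the centre of T lies in the centre of H. If E is a subgroup of T that is normal in T and extraspecial of order 2^7, and E is the only such subgroup of T, then E is normal in H. -/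
theorem result {H : Type*} [Group H] [Finite H]
    (hO : Cfsg.oddCore H = ⊥) (T : Sylow 2 H) (P : Sylow 2 ↥Cfsg.M24)
    (hT : Nonempty (↥(T : Subgroup H) ≃* ↥(P : Subgroup ↥Cfsg.M24)))
    (hZ : ∀ z ∈ (T : Subgroup H), (∀ t ∈ (T : Subgroup H), z * t = t * z) → z ∈ Subgroup.center H)
    (E : Subgroup H) (hE : E ≤ (T : Subgroup H)) (hEn : (E.subgroupOf (T : Subgroup H)).Normal)
    (hEx : Cfsg.IsExtraspecial 2 ↥E) (hE7 : Nat.card ↥E = 2 ^ 7)
    (huniq : ∀ E' : Subgroup H, E' ≤ (T : Subgroup H) → (E'.subgroupOf (T : Subgroup H)).Normal →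
      Cfsg.IsExtraspecial 2 ↥E' → Nat.card ↥E' = 2 ^ 7 → E' = E) :
    E.Normal := by
  haveI := Nat.fact_prime_two
  obtain ⟨e⟩ := hT
  let Z := (center (T : Subgroup H)).map (T : Subgroup H).subtype
  have hc : Z ≤ center H := by
    rintro _ ⟨z, hz, rfl⟩
    exact hZ z z.2 fun t ht => congrArg Subtype.val (mem_center_iff.mp hz ⟨t, ht⟩).symm
  haveI : Z.Normal := ⟨fun z hz g => by rwa [mem_center_iff.mp (hc hz) g, mul_inv_cancel_right]⟩
  have pZ : IsPGroup 2 Z := T.isPGroup'.to_le (map_subtype_le _)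
  have k : ((QuotientGroup.mk' Z).comp (T : Subgroup H).subtype).ker = center (T : Subgroup H) := by
    rw [← MonoidHom.comap_ker, QuotientGroup.ker_mk', comap_map_eq_self_of_injective (subtype_injective _)]
  have e1 := (QuotientGroup.congr _ _ e (H1.map_center_eq e)).trans (quot_equiv P).some
  have c1 : Nat.card Z = 2 := by
    have := card_eq_card_quotient_mul_card_subgroup (center (T : Subgroup H))
    rw [Nat.card_congr e1.toEquiv, S3171.T.card, Nat.card_congr (e.trans (sylow_equiv P).some).toEquiv, U.card] at this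
    rw [card_map_of_injective (subtype_injective _)]
    omega
  have hn : (T : Subgroup H) ≤ normalizer (E : Set H) := (normal_subgroupOf_iff_le_normalizer hE).mp hEn
  have ZE : Z ≤ E := by
    obtain ⟨z, hz, z1⟩ := H8.exists_mem_ne_one (H4.inf_centralizer_ne_bot_of_isPGroup hEx.1.1 T.isPGroup' hn
      fun e => by rw [e, card_bot] at hE7; omega)
    have m : z ∈ Z := ⟨⟨z, hE hz.1⟩, mem_center_iff.mpr fun t => Subtype.ext (mem_centralizer_iff.mp hz.2 t t.2), rfl⟩
    rw [← H4.eq_of_le_of_card_prime c1 (zpowers_le.mpr m) (by simpa)]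
    exact zpowers_le.mpr hz.1
  have c2 : Z.subgroupOf E = center E := eq_of_le_of_card_ge (fun z hz => mem_center_iff.mpr fun g =>
    Subtype.ext (mem_center_iff.mp (hc hz) g)) (by rw [hEx.2, Nat.card_congr (subgroupOfEquivOfLe ZE).toEquiv, c1])
  have := S3169.normal_of (A := E.map (QuotientGroup.mk' Z)) (H7.pPrimeCore_quotient_central pZ hc hO)
    (T.mapSurjective (QuotientGroup.mk'_surjective Z))
    ((MulEquiv.subgroupCongr (by rw [Sylow.coe_mapSurjective, MonoidHom.range_comp, range_subtype])).trans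
      ((QuotientGroup.quotientKerEquivRange _).symm.trans ((QuotientGroup.quotientMulEquivOfEq k).trans e1)))
    (map_mono hE) ⟨⟨by
      rintro ⟨_, a, ha, rfl⟩ ⟨_, b, hb, rfl⟩
      refine Subtype.ext (commutatorElement_eq_one_iff_mul_comm.mp ?_)
      rw [← map_commutatorElement, QuotientGroup.mk'_apply, QuotientGroup.eq_one_iff]
      exact (hEx.1.2.2.trans c2.symm).le (commutator_mem_commutator (mem_top (⟨a, ha⟩ : E)) (mem_top ⟨b, hb⟩))⟩⟩ (by
      have := L0.card_eq_card_inf_ker_mul_card_map (QuotientGroup.mk' Z) E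
      rw [QuotientGroup.ker_mk', inf_eq_right.mpr ZE, c1, hE7] at this
      omega)
  have := this.comap (QuotientGroup.mk' Z)
  rwa [comap_map_eq, QuotientGroup.ker_mk', sup_eq_left.mpr ZE] at this

end Cfsg.Agent.S3170
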