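import Cfsg.Statements.S3174
import Cfsg.Agent.H9.Ru2

set_option autoImplicit false
open Cfsg

namespace Cfsg.Agent.S3174

open Subgroup Cfsg.Agent.H9

/-- Let T be a finite 2-group of order at least 2^14 in which the fourth term of the upper central series has order 16. Let W be the centralizer in T of the third term Z₃(T), and suppose the Frattini subgroup of W has order at most 8 and lies in every subgroup of W of index at most 16. Then T has order exactly 2^14; the derived subgroup of W and the Frattini subgroup of W both equal Z₃(T), which is elementary abelian of order 8; the centre of W has order 8; W is normal in T with quotient dihedral of order 8; and W modulo its derived subgroup is elementary abelian of order 2^8. -/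
theorem result {T : Type*} [Group T] [Finite T]
    (hT : IsPGroup 2 T) (ha : 2 ^ 14 ≤ Nat.card T) (hb : Nat.card ↥(Subgroup.upperCentralSeries T 4) = 16)
    (W : Subgroup T) (hW : W = Subgroup.centralizer ((Subgroup.upperCentralSeries T 3 : Subgroup T) : Set T))
    (hc : Nat.card ↥(frattini ↥W) ≤ 8) (hd : ∀ U : Subgroup ↥W, U.index ≤ 16 → frattini ↥W ≤ U) :
    Nat.card T = 2 ^ 14 ∧
      (commutator ↥W).map W.subtype = Subgroup.upperCentralSeries T 3 ∧
      (frattini ↥W).map W.subtype = Subgroup.upperCentralSeries T 3 ∧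
      Nat.card ↥(Subgroup.center ↥W) = 8 ∧
      Nat.card ↥(Subgroup.upperCentralSeries T 3) = 8 ∧ (∀ z ∈ Subgroup.upperCentralSeries T 3, z ^ 2 = 1) ∧
      (∃ (_ : W.Normal), Nonempty (T ⧸ W ≃* DihedralGroup 4)) ∧
      Nat.card (↥W ⧸ commutator ↥W) = 2 ^ 8 ∧ (∀ x : ↥W ⧸ commutator ↥W, x ^ 2 = 1) := by
  have h : RuH W := ⟨hT, ha, hb, hW, hc, hd⟩
  obtain ⟨h1, -, h2, h3, -⟩ := h.main
  obtain ⟨e1, e2, e3, a, p, c, E⟩ := h.exists_ruE
  have h4 : _root_.commutator W = (Zs T 3).subgroupOf W := by
    rw [← h.commutator_eq, subgroupOf, comap_map_eq_self_of_injective W.subtype_injective]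
  refine ⟨h1, h.commutator_eq, h3, ?_, h.cards.2.2, fun z hz => by rw [pow_two, h.elem hz],
    h.dihedral E, ?_, fun x => ?_⟩
  · rw [← card_map_of_injective W.subtype_injective, h.center_eq, h.cards.2.2]
  · rw [← index_eq_card, h4]; exact h2
  · obtain ⟨y, rfl⟩ := QuotientGroup.mk_surjective x
    rw [← QuotientGroup.mk_pow, QuotientGroup.eq_one_iff, h4, pow_two]
    exact h.sq_mem y.2

end Cfsg.Agent.S3174
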