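import Cfsg.Statements.S3175
import Cfsg.Agent.H9.Ru2

set_option autoImplicit false
open Cfsg

namespace Cfsg.Agent.S3175

open Subgroup Cfsg.Agent.H9

theorem exists_fixed {T : Type*} [Group T] [Finite T] (hT : IsPGroup 2 T) {σ : MulAut T} {r : ℕ}
    (hr : r.Prime) (hr2 : r ≠ 2) (hσ : σ ^ r = 1) {N : Subgroup T} (hN : ∀ x ∈ N, σ x ∈ N) {t : T}
    (ht : t⁻¹ * σ t ∈ N) : ∃ x, t⁻¹ * x ∈ N ∧ σ x = x := by
  haveI := Fact.mk hr
  haveI := Fact.mk Nat.prime_two
  refine exists_aut_fixed_of_not_dvd (p := r) ⟨1, by rwa [pow_one]⟩ {x | t⁻¹ * x ∈ N}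
    (fun x hx => ?_) ?_
  · have := mul_mem ht (hN _ hx)
    rwa [map_mul, map_inv, mul_assoc, mul_inv_cancel_left] at this
  · obtain ⟨n, hn⟩ := (hT.to_subgroup N).exists_card_eq
    rw [show Nat.card {x | t⁻¹ * x ∈ N} = Nat.card N from
      Nat.card_congr ((Equiv.mulLeft t⁻¹).subtypeEquiv fun x => Iff.rfl), hn]
    exact fun h => hr2 ((Nat.prime_dvd_prime_iff_eq hr Nat.prime_two).mp (hr.dvd_of_dvd_pow h))

theorem aut_eq_one {T : Type*} [Group T] [Finite T] {W : Subgroup T} (h : RuH W) {σ : MulAut T}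
    {r : ℕ} (hr : r.Prime) (hr2 : r ≠ 2) (hσ : σ ^ r = 1) : σ = 1 := by
  haveI := Fact.mk Nat.prime_two
  have hch : ∀ (N : Subgroup T) [hN : N.Characteristic], ∀ x, σ x ∈ N ↔ x ∈ N := fun N hN x => by
    nth_rewrite 2 [← hN.fixed σ]; rfl
  let F : Subgroup T := σ.toMonoidHom.eqLocus (MonoidHom.id T)
  have hZ : ∀ i ≤ 3, Zs T i ≤ F := by
    intro i hi
    induction i with
    | zero => simp
    | succ i ih =>
      obtain ⟨e, he, he'⟩ := h.exists_e (i := i) (by omega)
      obtain ⟨x, hx, hσx⟩ := exists_fixed h.pg hr hr2 hσ (fun x => (hch (Zs T i) x).mpr) (t := e)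
        (mul_mem_of_relIndex_two (h.rel (by omega)) (inv_mem he) ((hch _ e).mpr he)
          (fun h1 => he' (inv_mem_iff.mp h1)) fun h1 => he' ((hch _ e).mp h1))
      exact le_of_relIndex_two (h.rel (by omega))
        ((mul_mem_cancel_left (inv_mem he)).mp (Zs_mono (Nat.le_succ i) hx))
        (fun h1 => he' (inv_mem_iff.mp ((mul_mem_cancel_right h1).mp hx)))
        (fun y _ hy => ih (by omega) hy) hσx
  haveI : W.Characteristic := h.hW ▸ inferInstance
  obtain ⟨v, hv, gen⟩ := h.main.2.2.2.2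
  have h3 : Zs T 3 ≤ _root_.commutator T := by
    rw [← h.commutator_eq, map_le_iff_le_comap]
    exact commutator_le.mpr fun a _ b _ => commutator_mem_commutator trivial trivial
  have hv2 : ∀ w ∈ W, w ∈ _root_.commutator T ∨ v⁻¹ * w ∈ _root_.commutator T := fun w hw => by
    obtain ⟨b, ⟨k, rfl⟩, d, hd, rfl⟩ := (mem_sup_of_le_normalizer (H := zpowers v)
      (N := _root_.commutator T) (by rw [normalizer_eq_top]; exact le_top)).mp (gen _ (le_sup_of_le_right h3)
        (fun t => by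
          rw [show t * v * t⁻¹ = v * (v⁻¹ * t * v⁻¹⁻¹ * t⁻¹) by group]
          exact mul_mem (mem_sup_left (mem_zpowers v))
            (mem_sup_right (commutator_mem_commutator trivial trivial))) hw)
    have h4 : ∀ j : ℤ, v ^ (2 * j) ∈ _root_.commutator T := fun j => by
      rw [zpow_mul, zpow_two]; exact zpow_mem (h3 (h.sq_mem hv)) j
    obtain ⟨j, rfl | rfl⟩ := Int.even_or_odd' k
    · exact Or.inl (mul_mem (h4 j) hd)
    · right
      simp only
      rw [add_comm, zpow_one_add, mul_assoc, inv_mul_cancel_left]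
      exact mul_mem (h4 j) hd
  have hF : F = ⊤ := H5.eq_top_of_forall_le h.pg fun M hM hM' _ => eq_top_iff.mpr fun t _ => by
    obtain ⟨x, hx, hσx⟩ := exists_fixed h.pg hr hr2 hσ (fun x => (hch W x).mpr) (t := t) (by
      rw [h.hW]
      intro z hz
      have h1 : σ (t⁻¹ * z * t) = t⁻¹ * z * t :=
        hZ 3 le_rfl ((inferInstance : (Zs T 3).Normal).conj_mem' z hz t)
      have h4 : t * z * t⁻¹ ∈ Zs T 3 := (inferInstance : (Zs T 3).Normal).conj_mem z hz t
      have h2 : σ (t * z * t⁻¹) = t * z * t⁻¹ := hZ 3 le_rfl h4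
      rw [map_mul, map_mul, map_inv, show σ z = z from hZ 3 le_rfl hz] at h2
      calc z * (t⁻¹ * σ t) = t⁻¹ * (t * z * t⁻¹) * σ t := by group
        _ = _ := by rw [← h2]; group)
    obtain ⟨y, hy, hσy⟩ := exists_fixed h.pg hr hr2 hσ (fun x => (hch (_root_.commutator T) x).mpr)
      (t := t⁻¹ * x) (by
        by_cases h1 : t⁻¹ * x ∈ _root_.commutator T
        · exact mul_mem (inv_mem h1) ((hch _ _).mpr h1)
        · have := mul_mem (inv_mem ((hv2 _ hx).resolve_left h1))
            ((hv2 _ ((hch W _).mpr hx)).resolve_left fun h2 => h1 ((hch _ _).mp h2))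
          simpa [mul_assoc] using this)
    have h1 := (mul_mem_cancel_right (hM hσy)).mp (hM' hy)
    exact inv_mem_iff.mp ((mul_mem_cancel_right (hM hσx)).mp (inv_mem_iff.mp h1))
  exact MulEquiv.ext fun x => (hF ▸ mem_top x : x ∈ F)

/-- Let G be a finite group whose Sylow 2-subgroup T has order at least 2^14 and whose upper central series has fourth term of order 16; let W be the centralizer in T of the third term, and suppose the Frattini subgroup of W has order at most 8 and lies in every subgroup of W of index at most 16. Then the normalizer of T in G has a normal 2-complement, and W is weakly closed in T with respect to G. -/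
theorem result {G : Type*} [Group G] [Finite G]
    (T : Sylow 2 G) (ha : 2 ^ 14 ≤ Nat.card ↥(T : Subgroup G))
    (hb : Nat.card ↥(Subgroup.upperCentralSeries ↥(T : Subgroup G) 4) = 16)
    (W : Subgroup ↥(T : Subgroup G))
    (hW : W = Subgroup.centralizer ((Subgroup.upperCentralSeries ↥(T : Subgroup G) 3 : Subgroup ↥(T : Subgroup G)) : Set ↥(T : Subgroup G)))
    (hc : Nat.card ↥(frattini ↥W) ≤ 8)
    (hd : ∀ U : Subgroup ↥W, U.index ≤ 16 → frattini ↥W ≤ U) :
    Cfsg.HasNormalPComplement 2 ↥(Subgroup.normalizer ((T : Subgroup G) : Set G)) ∧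
      Cfsg.IsWeaklyClosed (W.map (T : Subgroup G).subtype) (T : Subgroup G) := by
  have h : RuH W := ⟨T.isPGroup', ha, hb, hW, hc, hd⟩
  haveI := Fact.mk Nat.prime_two
  refine ⟨H6.hasNormalPComplement_of_controls_fusion (T.subtype le_normalizer) fun x hx g _ => ?_,
    map_subtype_le _, fun g hg => ?_⟩
  · obtain ⟨c, hc, s, hs, hg⟩ := H6.exists_centralizer_mul_of_sylow (p := 2) (Q := T) (S := T)
      (fun n (hn : n ∈ normalizer ((T : Subgroup G) : Set G)) hn2 => by
        have h1 : (T : Subgroup G).normalizerMonoidHom ⟨n, hn⟩ = 1 := by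
          by_contra h1
          obtain ⟨r, hr, hd⟩ := Nat.exists_prime_and_dvd (mt orderOf_eq_one_iff.mp h1)
          have h2 := orderOf_pow_orderOf_div (orderOf_pos _).ne' hd
          have h3 := aut_eq_one h hr (fun h3 => Nat.Coprime.eq_one_of_dvd hn2.symm
            ((h3 ▸ hd).trans ((orderOf_map_dvd _ _).trans (orderOf_coe _).symm.dvd)) |>.not_gt
              (by omega)) (h2 ▸ pow_orderOf_eq_one _)
          rw [h3, orderOf_one] at h2
          exact hr.one_lt.ne h2
        have h2 : (⟨n, hn⟩ : normalizer ((T : Subgroup G) : Set G)) ∈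
          (T : Subgroup G).normalizerMonoidHom.ker := h1
        rwa [normalizerMonoidHom_ker] at h2)
      ((H8.isSylowIn_top T).of_le le_normalizer le_top) g.2
    refine ⟨⟨s, le_normalizer hs⟩, hs, Subtype.ext ?_⟩
    show s * x * s⁻¹ = g * x * (g : G)⁻¹
    rw [← hg, show c * s * x * (c * s)⁻¹ = c * (s * x * s⁻¹) * c⁻¹ by group,
      ← hc (s * x * s⁻¹) (mul_mem (mul_mem hs hx) (inv_mem hs)), mul_inv_cancel_right]
  let ψ : W →* (T : Subgroup G) := (((MulAut.conj g).toMonoidHom.comp (T : Subgroup G).subtype).comp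
    W.subtype).codRestrict _ fun w => hg (mem_map_of_mem _ (mem_map_of_mem _ w.2))
  have hψ : Function.Injective ψ := fun a b hab => Subtype.ext (Subtype.ext
    ((MulAut.conj g).injective (congrArg Subtype.val hab)))
  have h1 : ψ.range.relIndex W ≤ 8 := by
    have h2 := ψ.range.card_mul_index
    rw [← Nat.card_congr (MonoidHom.ofInjective hψ).toEquiv, ← W.card_mul_index, h.main.2.1] at h2
    rw [← Nat.eq_of_mul_eq_mul_left Nat.card_pos h2, ← relIndex_top_right]
    exact relIndex_le_of_le_right le_top (by simpa using index_ne_zero_of_finite)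
  have h2 : Zs _ 3 ≤ ((Zs _ 3).subgroupOf W).map ψ := by
    by_contra h2
    obtain ⟨z, hz, hz'⟩ := SetLike.not_le_iff_exists.mp h2
    obtain ⟨U, -, hU, hU2, hzU⟩ := exists_relIndex_two_not_mem
      (H := Zs _ 3 ⊓ ((Zs _ 3).subgroupOf W).map ψ) (Q := ψ.range ⊓ W)
      (le_inf (inf_le_right.trans (map_le_range _ _)) (inf_le_left.trans h.le)) (by
        rintro _ ⟨⟨w, rfl⟩, hw⟩
        exact ⟨h.sq_mem hw, w * w, h.sq_mem w.2, map_mul _ _ _⟩)
      ⟨h.le_of_relIndex_le (by omega) hz, h.le hz⟩ fun h3 => hz' h3.2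
    refine hzU (h.le_of_relIndex_le ?_ hz)
    rw [← relIndex_mul_relIndex U _ W hU inf_le_right, hU2, inf_relIndex_right]
    omega
  refine eq_of_le_of_card_ge ?_ (card_map_conj _ g).ge
  rintro _ ⟨_, ⟨w, hw, rfl⟩, rfl⟩
  refine ⟨ψ ⟨w, hw⟩, hW.ge fun z hz => ?_, rfl⟩
  obtain ⟨y, hy, rfl⟩ := h2 hz
  rw [← map_mul, ← map_mul]
  exact congrArg ψ (Subtype.ext (h.comm hw hy))

end Cfsg.Agent.S3175
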