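import Cfsg.Statements.S3178
import Cfsg.Agent.H9.Fusion

set_option autoImplicit false
open Cfsg

namespace Cfsg.Agent.S3178

open Subgroup Cfsg.Agent.H9

/-- Groups with a modular Sylow 2-subgroup have a normal 2-complement. Let S, of order 2^(n+1) with n ≥ 3, be a Sylow 2-subgroup of a finite group G, and suppose S contains an element a of order 2^n and an involution b with b a b⁻¹ = a^(2^(n-1) + 1); so S is the non-abelian 2-group with a cyclic subgroup of index 2 that is neither dihedral, semidihedral nor generalized quaternion. Then G has a normal 2-complement. -/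
theorem result {G : Type*} [Group G] [Finite G]
    (S : Sylow 2 G) (n : ℕ) (hn : 3 ≤ n) (hS : Nat.card ↥(S : Subgroup G) = 2 ^ (n + 1))
    (a b : G) (ha : a ∈ (S : Subgroup G)) (hb : b ∈ (S : Subgroup G))
    (hao : orderOf a = 2 ^ n) (hbo : orderOf b = 2) (hrel : b * a * b⁻¹ = a ^ (2 ^ (n - 1) + 1)) :
    Cfsg.HasNormalPComplement 2 G := by
  obtain ⟨k, rfl⟩ : ∃ k, n = k + 3 := ⟨n - 3, by omega⟩
  have hb2 := mul_self_of_orderOf_two hbo
  have hb1 := ne_one_of_orderOf_two hbo
  have e1 : k + 3 - 1 = k + 2 := by omega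
  rw [e1] at hrel
  have hao' : orderOf a = 2 * 2 ^ (k + 2) := by rw [hao]; ring
  obtain ⟨z, hz⟩ : ∃ z, z = a ^ 2 ^ (k + 2) := ⟨_, rfl⟩
  have hz2 : z * z = 1 := by rw [hz, ← pow_add, ← two_mul, ← hao', pow_orderOf_eq_one]
  have hz1 : z ≠ 1 := by
    intro h
    rw [hz] at h
    have := Nat.le_of_dvd (by positivity) (orderOf_dvd_of_pow_eq_one h)
    rw [hao'] at this
    have : 0 < 2 ^ (k + 2) := by positivity
    omega
  have hrel' : b * a * b⁻¹ = z * a := by rw [hrel, pow_succ, hz]
  have hza : Commute z a := hz ▸ Commute.pow_self a _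
  have hconj : ∀ i : ℤ, b * a ^ i * b⁻¹ = z ^ i * a ^ i := by
    intro i
    rw [← conj_zpow, hrel', hza.mul_zpow]
  have hzeven : ∀ i : ℤ, z ^ (2 * i) = 1 := by
    intro i; rw [zpow_mul, zpow_two, hz2, one_zpow]
  have hconj2 : ∀ i : ℤ, b * a ^ (2 * i) = a ^ (2 * i) * b := by
    intro i
    have := hconj (2 * i)
    rw [hzeven, one_mul] at this
    exact mul_inv_eq_iff_eq_mul.mp this
  have hba : b ∉ zpowers a := by
    intro h
    obtain ⟨i, rfl⟩ := mem_zpowers_iff.mp h
    apply hz1
    have : a ^ i * a * (a ^ i)⁻¹ = a := by group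
    rw [this] at hrel'
    simpa using hrel'.symm
  have hM : (zpowers a).relIndex (S : Subgroup G) = 2 := by
    apply relIndex_eq_of_card (zpowers_le.mpr ha)
    rw [Nat.card_zpowers, hS, hao]; ring
  have hform : ∀ s ∈ (S : Subgroup G), ∃ i : ℤ, s = a ^ i ∨ s = a ^ i * b := by
    intro s hs
    by_cases h : s ∈ zpowers a
    · obtain ⟨i, rfl⟩ := mem_zpowers_iff.mp h; exact ⟨i, Or.inl rfl⟩
    · obtain ⟨i, hi⟩ := mem_zpowers_iff.mp (mul_mem_of_relIndex_two hM hs hb h hba)
      refine ⟨i, Or.inr ?_⟩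
      rw [hi, mul_assoc, hb2, mul_one]
  have hbz : b * z = z * b := by
    have := hconj2 (2 ^ (k + 1))
    have e : (2 : ℤ) * 2 ^ (k + 1) = ((2 ^ (k + 2) : ℕ) : ℤ) := by push_cast; ring
    rwa [e, zpow_natCast, ← hz] at this
  have hzc : ∀ s ∈ (S : Subgroup G), s * z = z * s := by
    intro s hs
    obtain ⟨i, rfl | rfl⟩ := hform s hs
    · exact ((hza.zpow_right i).eq).symm
    · rw [mul_assoc, hbz, ← mul_assoc, ← (hza.zpow_right i).eq, mul_assoc]
  -- b is not conjugate into ⟨a⟩
  have hnc : ∀ g : G, g⁻¹ * b * g ∉ zpowers a := by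
    intro g hg
    have hg2 : g⁻¹ * b * g * (g⁻¹ * b * g) = 1 := by
      calc g⁻¹ * b * g * (g⁻¹ * b * g) = g⁻¹ * (b * b) * g := by group
        _ = 1 := by rw [hb2]; group
    rcases eq_pow_of_mem_zpowers_of_mul_self hao' (by positivity) hg hg2 with h | h
    · apply hb1
      calc b = g * (g⁻¹ * b * g) * g⁻¹ := by group
        _ = 1 := by rw [h]; group
    · rw [← hz] at h
      obtain ⟨w, hw⟩ : ∃ w, w = a ^ 2 ^ (k + 1) := ⟨_, rfl⟩
      have hw2 : w * w = z := by rw [hw, hz, ← pow_add]; congr 1; ring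
      have hwb : w * b = b * w := by
        have := hconj2 (2 ^ k)
        have e : (2 : ℤ) * 2 ^ k = ((2 ^ (k + 1) : ℕ) : ℤ) := by push_cast; ring
        rw [e, zpow_natCast, ← hw] at this
        exact this.symm
      obtain ⟨u, hu1, hu2⟩ := exists_extremal_conj S hzc h (R := zpowers w)
        (isPGroup_zpowers ⟨2, by
          rw [show 2 ^ 2 = 2 * 2 by norm_num, pow_mul, pow_two w, hw2, pow_two, hz2]⟩)
        (by
          intro r hr
          obtain ⟨i, rfl⟩ := mem_zpowers_iff.mp hr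
          exact (Commute.zpow_left hwb i).eq)
      have h1 := hu2 w (mem_zpowers w)
      have h2 := mul_self_mem_of_relIndex_two hM h1
      have h3 : u⁻¹ * w * u * (u⁻¹ * w * u) = u⁻¹ * z * u := by rw [← hw2]; group
      rw [h3] at h2
      have h4 : u⁻¹ * z * u * (u⁻¹ * z * u) = 1 := by
        calc u⁻¹ * z * u * (u⁻¹ * z * u) = u⁻¹ * (z * z) * u := by group
          _ = 1 := by rw [hz2]; group
      rcases eq_pow_of_mem_zpowers_of_mul_self hao' (by positivity) h2 h4 with h5 | h5
      · apply hz1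
        calc z = u * (u⁻¹ * z * u) * u⁻¹ := by group
          _ = 1 := by rw [h5]; group
      · rw [← hz] at h5
        have : z = b := by simpa using h5.trans hu1.symm
        apply hba
        rw [← this, hz]
        exact pow_mem (mem_zpowers a) _
  obtain ⟨K, hK, hbK⟩ := Cfsg.Agent.H6.exists_index_two_of_not_conj (H := (S : Subgroup G))
    (M := zpowers a) (Cfsg.Agent.H6.sylow_two_index_odd S) hM (x := b)
    ⟨1, by rw [pow_one, pow_two, hb2]⟩ hnc (by
      intro j g hj _
      obtain ⟨j, rfl⟩ : ∃ i, j = i + 1 := ⟨j - 1, by omega⟩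
      rw [pow_succ', pow_mul, pow_two b, hb2, one_pow]
      simp)
  haveI : K.Normal := normal_of_index_eq_two hK
  apply hasNormalPComplement_of_normal_subgroup (K := K) (k := 1) (by rw [hK]; norm_num)
  by_cases haK : a ∈ K
  · apply hasNormalPComplement_two_of_isCyclic_inf S (a := a)
    intro s hs hsK
    obtain ⟨i, rfl | rfl⟩ := hform s hs
    · exact zpow_mem (mem_zpowers a) i
    · exact absurd (by simpa using mul_mem (inv_mem (zpow_mem haK i)) hsK) hbK
  · apply hasNormalPComplement_two_of_isCyclic_inf S (a := a * b)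
    have hsq : (a * b) ^ 2 = z * a ^ 2 := by
      calc (a * b) ^ 2 = a * (b * a * b⁻¹) * (b * b) := by rw [pow_two]; group
        _ = z * a ^ 2 := by rw [hrel', hb2, mul_one, ← mul_assoc, ← hza.eq, pow_two, mul_assoc]
    have hzm : z ∈ zpowers (a * b) := by
      have : (a * b) ^ 2 ^ (k + 2) = z := by
        rw [pow_succ', pow_mul, hsq, (hza.pow_right 2).mul_pow, ← pow_mul a, ← pow_succ', ← hz,
          pow_succ', pow_mul, pow_two, hz2, one_pow, one_mul]
      rw [← this]; exact pow_mem (mem_zpowers _) _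
    have ha2 : a ^ 2 ∈ zpowers (a * b) := by
      have := mul_mem (inv_mem hzm) (pow_mem (mem_zpowers (a * b)) 2)
      rwa [hsq, inv_mul_cancel_left] at this
    have ha2' : ∀ i : ℤ, a ^ (2 * i) ∈ zpowers (a * b) := by
      intro i; rw [zpow_mul, zpow_ofNat]; exact zpow_mem ha2 i
    have ha2K : ∀ i : ℤ, a ^ (2 * i) ∈ K := by
      intro i; rw [zpow_mul, zpow_ofNat]; exact zpow_mem (sq_mem_of_index_two hK a) i
    intro s hs hsK
    obtain ⟨i, rfl | rfl⟩ := hform s hs
    · rcases Int.even_or_odd' i with ⟨j, rfl | rfl⟩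
      · exact ha2' j
      · rw [zpow_add_one] at hsK
        exact absurd (by simpa using mul_mem (inv_mem (ha2K j)) hsK) haK
    · rcases Int.even_or_odd' i with ⟨j, rfl | rfl⟩
      · exact absurd (by simpa using mul_mem (inv_mem (ha2K j)) hsK) hbK
      · rw [zpow_add_one, mul_assoc]
        exact mul_mem (ha2' j) (mem_zpowers _)

end Cfsg.Agent.S3178
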