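import Cfsg.Statements.S3179
import Cfsg.Agent.H1.F8
import Cfsg.Agent.H1.F4
import Cfsg.Agent.H5.SL2Facts

set_option autoImplicit false
open Cfsg

namespace Cfsg.Agent.S3179

open Cfsg.Agent.H1 Matrix

def a1 : Matrix (Fin 4) (Fin 4) F8 := !![F8.mk 7, F8.mk 3, F8.mk 0, F8.mk 1; F8.mk 3, F8.mk 0, F8.mk 1, F8.mk 0; F8.mk 0, F8.mk 1, F8.mk 0, F8.mk 0; F8.mk 1, F8.mk 0, F8.mk 0, F8.mk 0]
def a2 : Matrix (Fin 4) (Fin 4) F8 := !![F8.mk 7, F8.mk 2, F8.mk 3, F8.mk 7; F8.mk 2, F8.mk 4, F8.mk 0, F8.mk 3; F8.mk 3, F8.mk 0, F8.mk 1, F8.mk 0; F8.mk 7, F8.mk 3, F8.mk 0, F8.mk 1]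
def a4 : Matrix (Fin 4) (Fin 4) F8 := !![F8.mk 1, F8.mk 4, F8.mk 1, F8.mk 2; F8.mk 4, F8.mk 7, F8.mk 6, F8.mk 1; F8.mk 1, F8.mk 6, F8.mk 4, F8.mk 2; F8.mk 2, F8.mk 1, F8.mk 2, F8.mk 7]
def a8 : Matrix (Fin 4) (Fin 4) F8 := !![F8.mk 2, F8.mk 1, F8.mk 4, F8.mk 1; F8.mk 1, F8.mk 6, F8.mk 7, F8.mk 4; F8.mk 4, F8.mk 7, F8.mk 1, F8.mk 2; F8.mk 1, F8.mk 4, F8.mk 2, F8.mk 2]
def a12 : Matrix (Fin 4) (Fin 4) F8 := !![F8.mk 0, F8.mk 0, F8.mk 0, F8.mk 1; F8.mk 0, F8.mk 0, F8.mk 1, F8.mk 0; F8.mk 0, F8.mk 1, F8.mk 0, F8.mk 3; F8.mk 1, F8.mk 0, F8.mk 3, F8.mk 7]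
def b1 : Matrix (Fin 4) (Fin 4) F32 := !![F32.mk 22, F32.mk 6, F32.mk 0, F32.mk 1; F32.mk 6, F32.mk 0, F32.mk 1, F32.mk 0; F32.mk 0, F32.mk 1, F32.mk 0, F32.mk 0; F32.mk 1, F32.mk 0, F32.mk 0, F32.mk 0]
def b2 : Matrix (Fin 4) (Fin 4) F32 := !![F32.mk 12, F32.mk 27, F32.mk 6, F32.mk 22; F32.mk 27, F32.mk 21, F32.mk 0, F32.mk 6; F32.mk 6, F32.mk 0, F32.mk 1, F32.mk 0; F32.mk 22, F32.mk 6, F32.mk 0, F32.mk 1]
def b4 : Matrix (Fin 4) (Fin 4) F32 := !![F32.mk 21, F32.mk 10, F32.mk 11, F32.mk 21; F32.mk 10, F32.mk 10, F32.mk 16, F32.mk 11; F32.mk 11, F32.mk 16, F32.mk 21, F32.mk 27; F32.mk 21, F32.mk 11, F32.mk 27, F32.mk 12]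
def b8 : Matrix (Fin 4) (Fin 4) F32 := !![F32.mk 1, F32.mk 26, F32.mk 5, F32.mk 17; F32.mk 26, F32.mk 2, F32.mk 12, F32.mk 5; F32.mk 5, F32.mk 12, F32.mk 28, F32.mk 19; F32.mk 17, F32.mk 5, F32.mk 19, F32.mk 11]
def b16 : Matrix (Fin 4) (Fin 4) F32 := !![F32.mk 31, F32.mk 13, F32.mk 4, F32.mk 19; F32.mk 13, F32.mk 12, F32.mk 20, F32.mk 4; F32.mk 4, F32.mk 20, F32.mk 20, F32.mk 8; F32.mk 19, F32.mk 4, F32.mk 8, F32.mk 26]
def b32 : Matrix (Fin 4) (Fin 4) F32 := !![F32.mk 17, F32.mk 5, F32.mk 26, F32.mk 1; F32.mk 5, F32.mk 12, F32.mk 2, F32.mk 26; F32.mk 26, F32.mk 2, F32.mk 26, F32.mk 3; F32.mk 1, F32.mk 26, F32.mk 3, F32.mk 17]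
def b40 : Matrix (Fin 4) (Fin 4) F32 := !![F32.mk 0, F32.mk 0, F32.mk 0, F32.mk 1; F32.mk 0, F32.mk 0, F32.mk 1, F32.mk 0; F32.mk 0, F32.mk 1, F32.mk 0, F32.mk 6; F32.mk 1, F32.mk 0, F32.mk 6, F32.mk 22]

theorem a_pow : a1 ^ 13 = 1 := by
  have h2 : a1 ^ 2 = a2 := by rw [sq]; decide +kernel
  have h4 : a1 ^ 4 = a4 := (pow_add a1 2 2).trans (by rw [h2]; decide +kernel)
  have h8 : a1 ^ 8 = a8 := by rw [show 8 = 4 + 4 from rfl, pow_add, h4]; decide +kernel
  have h12 : a1 ^ 12 = a12 := by rw [show 12 = 8 + 4 from rfl, pow_add, h4, h8]; decide +kernel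
  rw [pow_succ, h12]; decide +kernel

theorem b_pow : b1 ^ 41 = 1 := by
  have h2 : b1 ^ 2 = b2 := by rw [sq]; decide +kernel
  have h4 : b1 ^ 4 = b4 := (pow_add b1 2 2).trans (by rw [h2]; decide +kernel)
  have h8 : b1 ^ 8 = b8 := by rw [show 8 = 4 + 4 from rfl, pow_add, h4]; decide +kernel
  have h16 : b1 ^ 16 = b16 := by rw [show 16 = 8 + 8 from rfl, pow_add, h8]; decide +kernel
  have h32 : b1 ^ 32 = b32 := by rw [show 32 = 16 + 16 from rfl, pow_add, h16]; decide +kernel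
  have h40 : b1 ^ 40 = b40 := by rw [show 40 = 32 + 8 from rfl, pow_add, h32, h8]; decide +kernel
  rw [pow_succ, h40]; decide +kernel

def JJ (F : Type*) [Field F] : Matrix (Fin 4) (Fin 4) F := !![0, 0, 0, 1; 0, 0, 1, 0; 0, 1, 0, 0; 1, 0, 0, 0]

theorem alt_eq {F : Type*} [Field F] (u v : Fin 4 → F) : Cfsg.Lie.altForm4 u v = u ⬝ᵥ (JJ F *ᵥ v) := by
  simp [Cfsg.Lie.altForm4, JJ, dotProduct, mulVec, Fin.sum_univ_four]

theorem mem_Sz {F : Type*} [Field F] {e : ℕ} (g : GL (Fin 4) F)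
    (h1 : (g : Matrix (Fin 4) (Fin 4) F)ᵀ * JJ F * g = JJ F)
    (h2 : Cfsg.Lie.star4 (g : Matrix (Fin 4) (Fin 4) F) = (g : Matrix (Fin 4) (Fin 4) F).map (fun x => x ^ e)) :
    g ∈ Cfsg.Lie.Sz F e := by
  refine Subgroup.subset_closure ⟨fun u v => ?_, h2⟩
  change Cfsg.Lie.altForm4 ((g : Matrix (Fin 4) (Fin 4) F) *ᵥ u) ((g : Matrix (Fin 4) (Fin 4) F) *ᵥ v) = _
  rw [alt_eq, alt_eq, mulVec_mulVec, ← vecMul_transpose, ← dotProduct_mulVec, mulVec_mulVec,
    ← Matrix.mul_assoc, h1]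

theorem dvd_card_Sz {K F : Type*} [Field K] [Field F] [Finite F] (φ : K →+* F) {e p : ℕ} (hp : p.Prime)
    (M : Matrix (Fin 4) (Fin 4) K) (h0 : M ^ p = 1) (h0' : M ≠ 1) (h1 : Mᵀ * JJ K * M = JJ K)
    (h2 : Cfsg.Lie.star4 M = M.map (fun x => x ^ e)) : p ∣ Nat.card (Cfsg.Lie.Sz F e) := by
  let g : GL (Fin 4) F := Units.ofPowEqOne (φ.mapMatrix M) p (by rw [← map_pow, h0, map_one]) hp.ne_zero
  have hg : (g : Matrix (Fin 4) (Fin 4) F) = φ.mapMatrix M := rfl
  have hJ : φ.mapMatrix (JJ K) = JJ F := by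
    ext i j; fin_cases i <;> fin_cases j <;> simp [JJ]
  have hm : g ∈ Cfsg.Lie.Sz F e := mem_Sz g (by
    have := congrArg φ.mapMatrix h1
    rw [map_mul, map_mul, hJ] at this
    exact this) (by
    ext i j
    have := congrArg φ (congrFun (congrFun h2 i) j)
    simpa [Cfsg.Lie.star4, hg] using this)
  haveI := Fact.mk hp
  have : orderOf (⟨g, hm⟩ : Cfsg.Lie.Sz F e) = p := by
    apply orderOf_eq_prime
    · apply Subtype.ext; apply Units.ext
      change (g : Matrix (Fin 4) (Fin 4) F) ^ p = 1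
      rw [hg, ← map_pow, h0, map_one]
    · intro h
      have h3 : φ.mapMatrix M = φ.mapMatrix 1 := by
        rw [map_one, ← hg]; exact congrArg (fun x : Cfsg.Lie.Sz F e => (x.1 : Matrix (Fin 4) (Fin 4) F)) h
      exact h0' (Matrix.map_injective φ.injective h3)
  rw [← this]; exact orderOf_dvd_natCard _

theorem torus_dvd_Sz {F : Type*} [Field F] [Fintype F] {m : ℕ} (hF : Fintype.card F = 2 ^ (2 * m + 1)) :
    2 ^ (2 * m + 1) - 1 ∣ Nat.card (Cfsg.Lie.Sz F (2 ^ (m + 1))) := by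
  classical
  obtain ⟨a, ha⟩ := IsCyclic.exists_generator (α := Fˣ)
  have ho : orderOf a = 2 ^ (2 * m + 1) - 1 := by
    rw [orderOf_eq_card_of_forall_mem_zpowers ha, Nat.card_eq_fintype_card, Fintype.card_units, hF]
  set e := 2 ^ (m + 1) with he
  have hee : ∀ x : F, (x ^ e) ^ e = x ^ 2 := by
    intro x
    rw [← pow_mul, he, ← pow_add, show m + 1 + (m + 1) = (2 * m + 1) + 1 by ring, pow_succ, pow_mul,
      ← hF, FiniteField.pow_card]
  let d : Fˣ → Fin 4 → F := fun a => ![a, a ^ e / a, a / a ^ e, 1 / a]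
  have dmul : ∀ a b, diagonal (d a) * diagonal (d b) = diagonal (d (a * b)) := by
    intro a b
    rw [diagonal_mul_diagonal]
    congr 1
    ext i; fin_cases i <;> simp [d, mul_pow] <;> field_simp
  have d1 : diagonal (d 1) = 1 := by
    rw [← diagonal_one]; congr 1
    ext i; fin_cases i <;> simp [d]
  let f : Fˣ →* GL (Fin 4) F := MonoidHom.mk' (fun a => ⟨diagonal (d a), diagonal (d a⁻¹),
    by rw [dmul, mul_inv_cancel, d1], by rw [dmul, inv_mul_cancel, d1]⟩)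
    (fun a b => Units.ext (dmul a b).symm)
  have hf : Function.Injective f := fun a b h => Units.ext (by
    simpa [f, d] using congrArg (fun g : GL (Fin 4) F => (g : Matrix (Fin 4) (Fin 4) F) 0 0) h)
  have hm : f a ∈ Cfsg.Lie.Sz F e := by
    have h0 : (a : F) ≠ 0 := a.ne_zero
    have he0 : e ≠ 0 := by positivity
    apply mem_Sz
    · change (diagonal (d a))ᵀ * JJ F * diagonal (d a) = JJ F
      ext i j
      rw [diagonal_transpose, mul_diagonal, diagonal_mul]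
      fin_cases i <;> fin_cases j <;> simp [JJ, d]
    · change Cfsg.Lie.star4 (diagonal (d a)) = (diagonal (d a)).map (fun x => x ^ e)
      ext i j
      fin_cases i <;> fin_cases j <;>
        simp [Cfsg.Lie.star4, Cfsg.Lie.pairOf, d, diagonal, he0, div_pow, hee] <;> field_simp
  rw [← ho, ← orderOf_injective f hf, ← Subgroup.orderOf_mk _ hm]
  exact orderOf_dvd_natCard _

theorem sq_dvd_PSU {F : Type*} [Field F] [Fintype F] {q : ℕ} (hq : 1 ≤ q) (hF : Fintype.card F = q ^ 2) :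
    (q + 1) ^ 2 ∣ 6 * Nat.card (Cfsg.PSU 3 F q) := by
  classical
  obtain ⟨g, hg⟩ := IsCyclic.exists_generator (α := Fˣ)
  have ho : orderOf g = (q + 1) * (q - 1) := by
    rw [orderOf_eq_card_of_forall_mem_zpowers hg, Nat.card_eq_fintype_card, Fintype.card_units, hF,
      ← Nat.sq_sub_sq]
  have hq1 : q - 1 ≠ 0 := fun h => by
    rw [h, mul_zero] at ho; exact (orderOf_pos g).ne' ho
  have ho' : orderOf (g ^ (q - 1)) = q + 1 := by
    rw [orderOf_pow' _ hq1, ho, Nat.gcd_mul_left_left, Nat.mul_div_cancel _ (Nat.pos_of_ne_zero hq1)]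
  let A := Subgroup.zpowers (g ^ (q - 1))
  have hA : Nat.card A = q + 1 := by rw [Nat.card_zpowers, ho']
  have hAq : ∀ a : A, ((a : Fˣ) : F) ^ q = ((a : Fˣ) : F)⁻¹ := by
    intro a
    have : a ^ (q + 1) = 1 := by rw [← hA, pow_card_eq_one']
    have h2 : ((a : Fˣ) : F) ^ (q + 1) = 1 := by
      have := congrArg (fun x : A => ((x : Fˣ) : F)) this
      simpa only [SubgroupClass.coe_pow, Units.val_pow_eq_pow_val, OneMemClass.coe_one, Units.val_one] using this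
    exact eq_inv_of_mul_eq_one_left (by rw [← pow_succ, h2])
  let d : A × A → Fin 3 → F := fun p => ![(p.1 : Fˣ), (p.2 : Fˣ), (((p.1 : Fˣ) : F) * (p.2 : Fˣ))⁻¹]
  let f : A × A →* Cfsg.SU 3 F q := MonoidHom.mk' (fun p => ⟨⟨diagonal (d p), by
      simp [d, Fin.prod_univ_three]; field_simp⟩, by
      intro u v
      change Cfsg.hermForm 3 F q (diagonal (d p) *ᵥ u) (diagonal (d p) *ᵥ v) = _
      simp [Cfsg.hermForm, Fin.sum_univ_three, mulVec_diagonal, d, mul_pow, hAq]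
      field_simp⟩) (fun a b => by
      apply Subtype.ext; apply Subtype.ext
      change diagonal (d (a * b)) = diagonal (d a) * diagonal (d b)
      rw [diagonal_mul_diagonal]
      congr 1
      ext i; fin_cases i <;> simp [d]
      ring)
  let w : Cfsg.SU 3 F q := ⟨⟨!![0, 0, 1; 1, 0, 0; 0, 1, 0], by simp [det_fin_three]⟩, by
      intro u v
      change Cfsg.hermForm 3 F q ((!![0, 0, 1; 1, 0, 0; 0, 1, 0] : Matrix _ _ F) *ᵥ u)
        ((!![0, 0, 1; 1, 0, 0; 0, 1, 0] : Matrix _ _ F) *ᵥ v) = _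
      simp [Cfsg.hermForm, Fin.sum_univ_three, mulVec, dotProduct]
      ring⟩
  let f' := (QuotientGroup.mk' (Subgroup.center (Cfsg.SU 3 F q))).comp f
  have hk : Nat.card f'.ker ≤ 3 := by
    let j : f'.ker → rootsOfUnity 3 F := fun p => ⟨p.1.1, by
      have h1 := Subgroup.mem_center_iff.mp ((QuotientGroup.eq_one_iff _).mp p.2) w
      have h2 : (!![0, 0, 1; 1, 0, 0; 0, 1, 0] : Matrix _ _ F) * diagonal (d p.1) =
          diagonal (d p.1) * !![0, 0, 1; 1, 0, 0; 0, 1, 0] :=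
        congrArg (fun x : Cfsg.SU 3 F q => (x.1 : Matrix (Fin 3) (Fin 3) F)) h1
      have e1 := congrFun (congrFun h2 1) 0
      have e2 := congrFun (congrFun h2 0) 2
      simp [d] at e1 e2
      rw [mem_rootsOfUnity]
      apply Units.ext
      rw [← e1] at e2
      have h0 : ((p.1.1 : Fˣ) : F) ≠ 0 := Units.ne_zero _
      push_cast
      field_simp at e2
      exact e2.symm⟩
    have hj : Function.Injective j := by
      have key : ∀ p : f'.ker, p.1.2 = p.1.1 := by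
        intro p
        have h1 := Subgroup.mem_center_iff.mp ((QuotientGroup.eq_one_iff _).mp p.2) w
        have h2 : (!![0, 0, 1; 1, 0, 0; 0, 1, 0] : Matrix _ _ F) * diagonal (d p.1) =
            diagonal (d p.1) * !![0, 0, 1; 1, 0, 0; 0, 1, 0] :=
          congrArg (fun x : Cfsg.SU 3 F q => (x.1 : Matrix (Fin 3) (Fin 3) F)) h1
        have e1 := congrFun (congrFun h2 1) 0
        simp [d] at e1
        exact Subtype.ext (Units.ext e1.symm)
      intro p p' h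
      have e : p.1.1 = p'.1.1 := Subtype.ext (congrArg (fun x : rootsOfUnity 3 F => (x : Fˣ)) h)
      exact Subtype.ext (Prod.ext e (by rw [key, key, e]))
    exact (Nat.card_le_card_of_injective j hj).trans (card_rootsOfUnity F 3)
  have e := Subgroup.card_eq_card_quotient_mul_card_subgroup f'.ker
  rw [Nat.card_congr (QuotientGroup.quotientKerEquivRange _).toEquiv, Nat.card_prod, hA, ← sq] at e
  rw [e, mul_comm 6]
  refine Nat.mul_dvd_mul (Subgroup.card_subgroup_dvd_card _) ?_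
  have := Nat.card_pos (α := f'.ker)
  interval_cases Nat.card f'.ker <;> norm_num

theorem card_GL5 : Nat.card (GL (Fin 5) (ZMod 2)) = 9999360 := by
  rw [card_GL_field]; simp [Fin.prod_univ_five]

def c1 : Matrix (Fin 5) (Fin 5) (ZMod 2) :=
  !![0, 1, 0, 0, 0; 1, 1, 0, 0, 0; 0, 0, 1, 0, 0; 0, 0, 0, 1, 0; 0, 0, 0, 0, 1]
def c2 : Matrix (Fin 5) (Fin 5) (ZMod 2) :=
  !![1, 0, 0, 0, 0; 0, 1, 0, 0, 0; 0, 0, 0, 1, 0; 0, 0, 1, 1, 0; 0, 0, 0, 0, 1]

theorem no_nine' {G : Type*} [Group G] [Finite G] (hG : Nat.card G = 9999360) (a b : G) (ha : a ^ 3 = 1)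
    (hb : b ^ 3 = 1) (hab : Commute a b) (n1 : 1 ≠ a) (n2 : 1 ≠ b) (n3 : 1 ≠ a * b) (n4 : a ≠ b)
    (g : G) (h : g ^ 9 = 1) : g ^ 3 = 1 := by
  classical
  by_contra hne
  haveI : Fact (Nat.Prime 3) := ⟨Nat.prime_three⟩
  have ho : orderOf g = 3 ^ 2 := orderOf_eq_prime_pow (p := 3) (n := 1) hne h
  have h1 : IsPGroup 3 (Subgroup.zpowers g) := IsPGroup.of_card (n := 2) (by rw [Nat.card_zpowers, ho])
  have h2 : ¬ 3 ∣ (Subgroup.zpowers g).index := by
    have := (Subgroup.zpowers g).index_mul_card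
    rw [Nat.card_zpowers, ho, hG] at this
    omega
  have h3 : IsPGroup 3 (Subgroup.closure {a, b} : Subgroup G) := by
    intro x
    refine ⟨1, Subtype.ext ?_⟩
    obtain ⟨x, hx⟩ := x
    change x ^ (3 ^ 1) = 1
    rw [pow_one]
    have hc : ∀ x ∈ Subgroup.closure {a, b}, ∀ y ∈ Subgroup.closure {a, b}, Commute x y := by
      intro x hx y hy
      letI := Subgroup.closureCommGroupOfComm (k := {a, b}) (by
        rintro x (rfl | rfl) y (rfl | rfl)
        · rfl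
        · exact hab
        · exact hab.symm
        · rfl)
      exact congrArg Subtype.val (mul_comm (⟨x, hx⟩ : Subgroup.closure {a, b}) ⟨y, hy⟩)
    induction hx using Subgroup.closure_induction with
    | mem x hx => rcases hx with rfl | rfl <;> assumption
    | one => simp
    | mul x y hx hy ihx ihy => rw [(hc x hx y hy).mul_pow, ihx, ihy, one_mul]
    | inv x hx ih => rw [inv_pow, ih, inv_one]
  obtain ⟨P, hP⟩ := h3.exists_le_sylow
  haveI : IsCyclic (h1.toSylow h2) := (inferInstance : IsCyclic (Subgroup.zpowers g))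
  haveI : IsCyclic P := isCyclic_of_surjective (Sylow.equiv (h1.toSylow h2) P) (MulEquiv.surjective _)
  have := Fintype.ofFinite P
  have h4 := IsCyclic.card_pow_eq_one_le (α := P) (n := 3) (by norm_num)
  have ma : a ∈ P := hP (Subgroup.subset_closure (by simp))
  have mb : b ∈ P := hP (Subgroup.subset_closure (by simp))
  have h5 : ({1, ⟨a, ma⟩, ⟨b, mb⟩, ⟨a * b, mul_mem ma mb⟩} : Finset P) ⊆ Finset.univ.filter (fun x => x ^ 3 = 1) := by
    intro x hx
    simp only [Finset.mem_insert, Finset.mem_singleton] at hx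
    rw [Finset.mem_filter_univ]
    rcases hx with rfl | rfl | rfl | rfl
    · simp
    · exact Subtype.ext ha
    · exact Subtype.ext hb
    · exact Subtype.ext (by change (a * b) ^ 3 = 1; rw [hab.mul_pow, ha, hb, one_mul])
  have h6 := (Finset.card_le_card h5).trans h4
  have ne : ∀ x y : P, (x : G) ≠ y → x ≠ y := fun x y h e => h (by rw [e])
  rw [Finset.card_eq_four.mpr ⟨_, _, _, _, ne _ _ n1, ne _ _ n2, ne _ _ n3, ne _ _ n4,
    ne _ _ (fun e => n2 (Eq.symm (by simpa using e))), ne _ _ (fun e => n1 (Eq.symm (by simpa using e))), rfl⟩] at h6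
  omega

def u1 : GL (Fin 5) (ZMod 2) := ⟨c1, c1 * c1, by decide +kernel, by decide +kernel⟩
def u2 : GL (Fin 5) (ZMod 2) := ⟨c2, c2 * c2, by decide +kernel, by decide +kernel⟩

theorem no_nine (g : GL (Fin 5) (ZMod 2)) (h : g ^ 9 = 1) : g ^ 3 = 1 := by
  have ne : ∀ x y : GL (Fin 5) (ZMod 2), (x : Matrix (Fin 5) (Fin 5) (ZMod 2)) ≠ y → x ≠ y :=
    fun x y h e => h (by rw [e])
  refine no_nine' card_GL5 u1 u2 ?_ ?_ ?_ (ne _ _ ?_) (ne _ _ ?_) (ne _ _ ?_) (ne _ _ ?_) g h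
  · rw [pow_three]; exact Units.ext (by change c1 * (c1 * c1) = 1; decide +kernel)
  · rw [pow_three]; exact Units.ext (by change c2 * (c2 * c2) = 1; decide +kernel)
  · exact Units.ext (by change c1 * c2 = c2 * c1; decide +kernel)
  · change 1 ≠ c1; decide +kernel
  · change 1 ≠ c2; decide +kernel
  · change 1 ≠ c1 * c2; decide +kernel
  · change c1 ≠ c2; decide +kernel

theorem exp_GL5 (g : GL (Fin 5) (ZMod 2)) : g ^ 3333120 = 1 := by
  rw [show 3333120 = 1111040 * 3 from rfl, pow_mul]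
  apply no_nine
  rw [← pow_mul, show 1111040 * 9 = 9999360 from rfl, ← card_GL5, pow_card_eq_one']

theorem center_SL2 {F : Type*} [Field F] (h2 : (2 : F) = 0) :
    Subgroup.center (SpecialLinearGroup (Fin 2) F) = ⊥ := by
  rw [eq_bot_iff]
  intro A hA
  obtain ⟨r, hr, hr'⟩ := Matrix.SpecialLinearGroup.mem_center_iff.mp hA
  have : r = 1 := by
    have : (r - 1) ^ 2 = 0 := by
      rw [Fintype.card_fin] at hr
      linear_combination hr + (1 - r) * h2
    exact sub_eq_zero.mp (pow_eq_zero_iff two_ne_zero |>.mp this)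
  rw [Subgroup.mem_bot]
  apply Subtype.ext
  rw [← hr', this, map_one]; rfl

def m9 : Matrix (Fin 2) (Fin 2) F8 := !![0, 1; 1, F8.mk 2]


/-- Let X be a section of the general linear group GL(5, 2), that is, a quotient of a subgroup of it. If X is isomorphic to PSL(2, 2^n) for some n ≥ 2, to a Suzuki group over the field with 2^(2m+1) elements for some m ≥ 1, or to PSU(3, 2^n) for some n ≥ 2, then X is isomorphic to PSL(2, 4). -/
theorem result {H : Subgroup (GL (Fin 5) (ZMod 2))}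
    {K : Subgroup ↥H} [K.Normal]
    (hX : (∃ (n : ℕ) (F : Type) (_ : Field F) (_ : Fintype F), 2 ≤ n ∧ Fintype.card F = 2 ^ n ∧
        Nonempty (↥H ⧸ K ≃* Matrix.ProjectiveSpecialLinearGroup (Fin 2) F)) ∨
      (∃ (m : ℕ) (F : Type) (_ : Field F) (_ : Fintype F), 1 ≤ m ∧ Fintype.card F = 2 ^ (2 * m + 1) ∧
        Nonempty (↥H ⧸ K ≃* ↥(Cfsg.Lie.Sz F (2 ^ (m + 1))))) ∨
      (∃ (n : ℕ) (F : Type) (_ : Field F) (_ : Fintype F), 2 ≤ n ∧ Fintype.card F = 4 ^ n ∧
        Nonempty (↥H ⧸ K ≃* Cfsg.PSU 3 F (2 ^ n)))) :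
    ∃ (F : Type) (_ : Field F) (_ : Fintype F), Fintype.card F = 4 ∧
      Nonempty (↥H ⧸ K ≃* Matrix.ProjectiveSpecialLinearGroup (Fin 2) F) := by
  have hdvd : Nat.card (↥H ⧸ K) ∣ 9999360 := by
    rw [← card_GL5]
    exact (Subgroup.card_quotient_dvd_card K).trans (Subgroup.card_subgroup_dvd_card H)
  have hexp : ∀ x : ↥H ⧸ K, x ^ 3333120 = 1 := by
    intro x
    obtain ⟨x, rfl⟩ := QuotientGroup.mk_surjective x
    rw [← QuotientGroup.mk_pow, show x ^ 3333120 = 1 from Subtype.ext (exp_GL5 _)]; rfl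
  have bound : ∀ n, 2 ^ n ≤ 60000000 → n < 26 := fun n h => by
    by_contra hn
    have : 2 ^ 26 ≤ 2 ^ n := Nat.pow_le_pow_right (by norm_num) (by omega)
    omega
  rcases hX with ⟨n, F, _, _, hn, hF, ⟨e⟩⟩ | ⟨m, F, _, _, hm, hF, ⟨e⟩⟩ | ⟨n, F, _, _, hn, hF, ⟨e⟩⟩
  · have : CharP F 2 := charP_of_card_eq_prime_pow hF
    have h2 : (2 : F) = 0 := by exact_mod_cast CharP.cast_eq_zero F 2
    let e' : (↥H ⧸ K) ≃* SpecialLinearGroup (Fin 2) F :=
      e.trans ((QuotientGroup.quotientMulEquivOfEq (center_SL2 h2)).trans QuotientGroup.quotientBot)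
    rw [Nat.card_congr e'.toEquiv, H5.card_SL2, hF] at hdvd
    have h3 := bound n ((Nat.le_of_dvd (by norm_num) (Dvd.dvd.trans (Dvd.intro _ rfl) hdvd)).trans
      (by norm_num))
    have h4 : n = 2 ∨ n = 3 := by interval_cases n <;> first | omega | (exfalso; norm_num at hdvd)
    rcases h4 with rfl | rfl
    · exact ⟨F, inferInstance, inferInstance, hF, ⟨e⟩⟩
    · exfalso
      let φ : F8 ≃+* F := FiniteField.ringEquivOfCardEq (by rw [hF]; rfl)
      let M : SpecialLinearGroup (Fin 2) F8 := ⟨m9, by rw [det_fin_two]; decide +kernel⟩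
      let x := e'.symm (slCongr φ M)
      have h9 : M ^ 9 = 1 := by
        apply Subtype.ext
        change m9 ^ (3 * 3) = 1
        rw [pow_mul, show m9 ^ 3 = !![F8.mk 2, F8.mk 5; F8.mk 5, F8.mk 3] by rw [pow_three]; decide +kernel,
          pow_three]
        decide +kernel
      have h3 : M ^ 3333120 = 1 := by
        apply (slCongr φ).injective
        apply e'.symm.injective
        rw [map_pow, map_pow, hexp, map_one, map_one]
      rw [show 3333120 = 9 * 370346 + 6 from rfl, pow_add, pow_mul, h9, one_pow, one_mul] at h3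
      have h5 : m9 ^ (3 * 2) = 1 := congrArg Subtype.val h3
      rw [pow_mul, show m9 ^ 3 = !![F8.mk 2, F8.mk 5; F8.mk 5, F8.mk 3] by rw [pow_three]; decide +kernel,
        sq] at h5
      revert h5; decide +kernel
  · exfalso
    rw [Nat.card_congr e.toEquiv] at hdvd
    have h1 := (torus_dvd_Sz hF).trans hdvd
    have h3 := bound (2 * m + 1) (by have := Nat.le_of_dvd (by norm_num) h1; omega)
    have h4 : m = 1 ∨ m = 2 := by
      have : m < 13 := by omega
      interval_cases m <;> first | omega | (exfalso; norm_num at h1)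
    rcases h4 with rfl | rfl
    · let φ : F8 ≃+* F := FiniteField.ringEquivOfCardEq (by rw [hF]; rfl)
      have := (dvd_card_Sz φ.toRingHom (e := 2 ^ (1 + 1)) (p := 13) (by norm_num) a1 a_pow
        (by decide +kernel) (by decide +kernel) (by decide +kernel)).trans hdvd
      norm_num at this
    · let φ : F32 ≃+* F := FiniteField.ringEquivOfCardEq (by rw [hF]; rfl)
      have := (dvd_card_Sz φ.toRingHom (e := 2 ^ (2 + 1)) (p := 41) (by norm_num) b1 b_pow
        (by decide +kernel) (by decide +kernel) (by decide +kernel)).trans hdvd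
      norm_num at this
  · exfalso
    rw [Nat.card_congr e.toEquiv] at hdvd
    have h1 := (sq_dvd_PSU (q := 2 ^ n) (Nat.one_le_two_pow) (by
      rw [hF, ← pow_mul, mul_comm, pow_mul]; rfl)).trans (Nat.mul_dvd_mul_left 6 hdvd)
    have h3 := bound n (by have := Nat.le_of_dvd (by norm_num) h1; nlinarith)
    interval_cases n <;> norm_num at h1

end Cfsg.Agent.S3179
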