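import Cfsg.Statements.S3182
import Cfsg.Agent.WA.GMain
import Cfsg.Agent.WA.WF1

set_option autoImplicit false
open Cfsg

namespace Cfsg.Agent.S3182

open Subgroup Cfsg.Agent.H8 Cfsg.Agent.WA in
theorem ci_of {G : Type*} [Group G] [Finite G] (h : ∀ S T : Sylow 2 G, S ≠ T → ∃ U : Sylow 2 G,
      (S : Subgroup G) ⊓ (T : Subgroup G) ≤ (Subgroup.center ↥(U : Subgroup G)).map (U : Subgroup G).subtype) :
    W.CI G := fun S T hS hT hne x hx hx' y hy => by
  have := Nat.fact_prime_two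
  obtain ⟨D, ⟨T', hT', hne', hx'', rfl⟩, hm⟩ := (wellFounded_gt (α := Subgroup G)).has_min
    {D : Subgroup G | ∃ T', IsSylowIn 2 T' ⊤ ∧ S ≠ T' ∧ x ∈ T' ∧ S ⊓ T' = D} ⟨_, T, hT, hne, hx', rfl⟩
  obtain ⟨S₀, e₀⟩ := hS.exists_sylow_top
  obtain ⟨T₀, e₁⟩ := hT'.exists_sylow_top
  obtain ⟨U, hU⟩ := h S₀ T₀ fun e => hne' (by rw [← e₀, ← e₁, e])
  rw [e₀, e₁] at hU
  have hC : (U : Subgroup G) ≤ centralizer ((S ⊓ T' : Subgroup G) : Set G) := fun u hu =>
    mem_centralizer_iff.mpr fun d hd => by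
      obtain ⟨d, hd', rfl⟩ := hU hd
      exact congrArg Subtype.val (mem_center_iff.mp hd' ⟨u, hu⟩).symm
  have hN := hC.trans (centralizer_le_normalizer _)
  obtain ⟨P, hP, h1⟩ := exists_isSylowIn_ge (hS.pgroup.to_le inf_le_left)
    (inf_le_right : S ⊓ normalizer ((S ⊓ T' : Subgroup G) : Set G) ≤ _)
  obtain ⟨k, hk, rfl⟩ := ((isSylowIn_top U).of_le hN le_top).exists_cj_eq hP
  have h2 := lt_inf_normalizer_of_pgroup hS.pgroup (lt_of_le_of_ne (inf_le_left : S ⊓ T' ≤ S)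
    fun e => hne' (hS.max T' le_top hT'.pgroup (inf_eq_left.mp e)).symm)
  have h3 : S = cj k U := by
    by_contra e
    exact hm _ ⟨_, cj_top k ▸ (isSylowIn_top U).cj k, e, h1 (h2.le ⟨hx, hx''⟩), rfl⟩
      (h2.trans_le (le_inf inf_le_left h1))
  exact mem_centralizer_iff.mp (cj_le_of_mem_normalizer (H8.normalizer_le_normalizer_centralizer _ hk) hC (h3 ▸ hy))
    x ⟨hx, hx''⟩

open Cfsg.Agent.H8 Cfsg.Agent.WA Cfsg.Agent.H2.SC in
/-- Simple groups with central Sylow 2-intersections. Let G be a non-abelian finite simple group in which the intersection of any two distinct Sylow 2-subgroups is contained in the centre of some Sylow 2-subgroup. Then G is isomorphic to PSL(2, q) for some prime power q ≡ 0, 3 or 5 mod 8; or G has abelian Sylow 2-subgroups and an involution t whose centralizer is a maximal subgroup of G and is the direct product of the subgroup generated by t with a subgroup E having a normal subgroup isomorphic to PSL(2,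 q), q odd and greater than 3, with trivial centralizer in E; or G is isomorphic to a Suzuki group Sz(2^(2m+1)) with m ≥ 1, or to PSU(3, 2^n) with n ≥ 2. -/
theorem result {G : Type*} [Group G] [Finite G] [IsSimpleGroup G]
    (hG : ¬ IsMulCommutative G)
    (hCI : ∀ S T : Sylow 2 G, S ≠ T → ∃ U : Sylow 2 G,
      (S : Subgroup G) ⊓ (T : Subgroup G) ≤ (Subgroup.center ↥(U : Subgroup G)).map (U : Subgroup G).subtype) :
    (∃ (F : Type) (_ : Field F) (_ : Fintype F),
        (Fintype.card F % 8 = 0 ∨ Fintype.card F % 8 = 3 ∨ Fintype.card F % 8 = 5) ∧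
        Nonempty (G ≃* Matrix.ProjectiveSpecialLinearGroup (Fin 2) F)) ∨
    ((∀ S : Sylow 2 G, IsMulCommutative ↥(S : Subgroup G)) ∧
      ∃ t : G, orderOf t = 2 ∧ IsCoatom (Subgroup.centralizer ({t} : Set G)) ∧
        ∃ E : Subgroup G, Cfsg.IsInternalDirectProduct (Subgroup.zpowers t) E (Subgroup.centralizer ({t} : Set G)) ∧
          ∃ (F : Type) (_ : Field F) (_ : Fintype F), Odd (Fintype.card F) ∧ 3 < Fintype.card F ∧
            ∃ N : Subgroup ↥E, N.Normal ∧ Nonempty (↥N ≃* Matrix.ProjectiveSpecialLinearGroup (Fin 2) F) ∧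
              Subgroup.centralizer (N : Set ↥E) = ⊥) ∨
    (∃ (m : ℕ) (F : Type) (_ : Field F) (_ : Fintype F), 1 ≤ m ∧ Fintype.card F = 2 ^ (2 * m + 1) ∧
        Nonempty (G ≃* ↥(Cfsg.Lie.Sz F (2 ^ (m + 1))))) ∨
    (∃ (n : ℕ) (F : Type) (_ : Field F) (_ : Fintype F), 2 ≤ n ∧ Fintype.card F = 4 ^ n ∧
        Nonempty (G ≃* Cfsg.PSU 3 F (2 ^ n))) := by
  have := Nat.fact_prime_two
  obtain ⟨S, hS⟩ := exists_isSylowIn 2 (⊤ : Subgroup G)
  have hc : GS.SC (omZ S) ⊤ := GS.SC.of_sylow hS (omZ_le S) (fun _ ha => ha.2.1) fun a ha g _ hg => by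
    have h1 : g * a * g⁻¹ ∈ omZ (cj g S) := cj_omZ g S ▸ conj_mem_cj g ha
    by_cases e : S = cj g S
    · rwa [← e] at h1
    · exact ⟨hg, h1.2.1, fun s hs => (ci_of hCI S _ hS (cj_top g ▸ hS.cj g) e _ hg h1.1 s hs).symm⟩
  refine W.final hG ((GS.gs hG hc (omZ_ne_bot hS.pgroup (sylow_ne_bot hG hS))).imp (fun h => ⟨_, h⟩)
    (Or.imp (fun h T hT => (hT.card_eq_card h.1).trans h.2) fun h => h.2))

end Cfsg.Agent.S3182
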