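import Cfsg.Statements.S3183
import Cfsg.Agent.H9.Basic

set_option autoImplicit false
open Cfsg

namespace Cfsg.Agent.S3183

open Cfsg.Agent.H9 Subgroup

theorem central_of_central {G : Type*} [Group G] [Finite G]
    (hCI : ∀ S T : Sylow 2 G, S ≠ T → ∃ U : Sylow 2 G,
      (S : Subgroup G) ⊓ (T : Subgroup G) ≤ (Subgroup.center ↥(U : Subgroup G)).map (U : Subgroup G).subtype)
    (S U₀ : Sylow 2 G) {x : G} (hx : x ∈ (S : Subgroup G))
    (hU₀ : (U₀ : Subgroup G) ≤ centralizer ({x} : Set G)) :
    (S : Subgroup G) ≤ centralizer ({x} : Set G) := by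
  by_contra hne
  set C := (S : Subgroup G) ⊓ centralizer ({x} : Set G) with hC
  have hC2 : IsPGroup 2 C := S.isPGroup'.to_inf_left
  obtain ⟨h, hh, hh'⟩ := exists_conj_mem_sylow U₀ hC2 inf_le_right hU₀
  let U : Sylow 2 G := h • U₀
  have hU : ∀ y, y ∈ (U : Subgroup G) ↔ h⁻¹ * y * h ∈ (U₀ : Subgroup G) := fun y => mem_map_conj
  have hUx : (U : Subgroup G) ≤ centralizer ({x} : Set G) := by
    intro y hy
    have := mul_mem (mul_mem hh (hU₀ ((hU y).1 hy))) (inv_mem hh)
    simpa [mul_assoc] using this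
  have hSU : S ≠ U := by
    rintro rfl
    exact hne hUx
  obtain ⟨U', hU'⟩ := hCI S U hSU
  have hCU' : ∀ c ∈ C, ∀ y ∈ (U' : Subgroup G), y * c = c * y := fun c hc =>
    (mem_center_map_subtype.1 (hU' ⟨hc.1, (hU c).2 (hh' c hc)⟩)).2
  have hU'N : (U' : Subgroup G) ≤ normalizer (C : Set G) := by
    intro y hy
    apply mem_normalizer_of_conj_mem
    intro c hc
    rw [hCU' c hc y hy]
    simpa using hc
  obtain ⟨s, hs, hsC, hsN⟩ := exists_mem_normalizer_not_mem (K := S) (H := C)
    S.isPGroup'.isNilpotent inf_le_left (fun h => hne (h.trans inf_le_right))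
  obtain ⟨k, hk, hk'⟩ := exists_conj_mem_sylow U' (R := zpowers s)
    (isPGroup_zpowers (exists_pow_eq_one_of_mem S.isPGroup' hs)) (zpowers_le.2 hsN) hU'N
  apply hsC
  refine mem_inf.2 ⟨hs, ?_⟩
  rw [mem_centralizer_singleton_iff]
  have hxC : x ∈ C := mem_inf.2 ⟨hx, mem_centralizer_singleton_iff.2 rfl⟩
  have := hCU' _ (conj_mem_of_mem_normalizer' hk hxC) _ (hk' s (mem_zpowers s))
  have e : s * x = k * (k⁻¹ * s * k * (k⁻¹ * x * k)) * k⁻¹ := by group
  rw [e, this]
  group

/-- Let G be a finite group in which the intersection of any two distinct Sylow 2-subgroups is contained in the centre of some Sylow 2-subgroup, and let S be a Sylow 2-subgroup. Then for every x in S the centralizer of x in S is a Sylow 2-subgroup of the centralizer of x in G (no 2-subgroup centralizing x is larger), and for every other Sylow 2-subgroup T the intersection S ∩ T lies in both the centre of S and the centre of T. -/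
theorem result {G : Type*} [Group G] [Finite G]
    (hCI : ∀ S T : Sylow 2 G, S ≠ T → ∃ U : Sylow 2 G,
      (S : Subgroup G) ⊓ (T : Subgroup G) ≤ (Subgroup.center ↥(U : Subgroup G)).map (U : Subgroup G).subtype)
    (S : Sylow 2 G) :
    (∀ x ∈ (S : Subgroup G), ∀ P : Subgroup G, IsPGroup 2 ↥P → P ≤ Subgroup.centralizer ({x} : Set G) →
        Nat.card ↥P ≤ Nat.card ↥((S : Subgroup G) ⊓ Subgroup.centralizer ({x} : Set G))) ∧
    (∀ T : Sylow 2 G, T ≠ S →
        (S : Subgroup G) ⊓ (T : Subgroup G) ≤
          (Subgroup.center ↥(S : Subgroup G)).map (S : Subgroup G).subtype ⊓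
            (Subgroup.center ↥(T : Subgroup G)).map (T : Subgroup G).subtype) := by
  have key : ∀ S T : Sylow 2 G, S ≠ T → ∀ x ∈ (S : Subgroup G), x ∈ (T : Subgroup G) →
      (S : Subgroup G) ≤ centralizer ({x} : Set G) := by
    intro S T hST x hxS hxT
    obtain ⟨U, hU⟩ := hCI S T hST
    refine central_of_central hCI S U hxS fun y hy => ?_
    rw [mem_centralizer_singleton_iff]
    exact (mem_center_map_subtype.1 (hU ⟨hxS, hxT⟩)).2 y hy
  constructor
  · intro x hx P hP hPx
    by_cases h : (S : Subgroup G) ≤ centralizer ({x} : Set G)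
    · rw [inf_of_le_left h]
      exact card_le_of_not_dvd_relIndex (sylow_not_dvd_relIndex S h) hPx hP
    · apply card_le_of_le
      refine le_inf ?_ hPx
      apply le_of_not_dvd_relIndex_of_le_normalizer S.isPGroup' le_top
        (sylow_not_dvd_relIndex S le_top) le_top hP
      intro g hg
      apply Sylow.smul_eq_iff_mem_normalizer.1
      by_contra hg'
      apply h
      apply key S (g • S) (Ne.symm hg') x hx
      apply (mem_map_conj (H := (S : Subgroup G))).2
      have := mem_centralizer_singleton_iff.1 (hPx hg)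
      rw [mul_assoc, ← this]
      simpa using hx
  · intro T hT x hx
    refine ⟨mem_center_map_subtype.2 ⟨hx.1, fun y hy => ?_⟩,
      mem_center_map_subtype.2 ⟨hx.2, fun y hy => ?_⟩⟩
    · exact mem_centralizer_singleton_iff.1 (key S T hT.symm x hx.1 hx.2 hy)
    · exact mem_centralizer_singleton_iff.1 (key T S hT x hx.2 hx.1 hy)

end Cfsg.Agent.S3183
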