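import Cfsg.Statements.S3184
import Cfsg.Agent.H9.Sylow2
import Cfsg.Agent.H9.Extra
import Cfsg.Agent.H7.ZStar

set_option autoImplicit false
open Cfsg

namespace Cfsg.Agent.S3184

open Subgroup Cfsg.Agent.H9

/-- Let G be a finite group in which the intersection of any two distinct Sylow 2-subgroups is contained in the centre of some Sylow 2-subgroup, and let S be a Sylow 2-subgroup. If C is a nontrivial cyclic characteristic subgroup of S, then the involution of C is central modulo the largest normal subgroup of odd order of G: each of its conjugates has the same image in G/O(G). -/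
theorem result {G : Type*} [Group G] [Finite G]
    (hCI : ∀ S T : Sylow 2 G, S ≠ T → ∃ U : Sylow 2 G,
      (S : Subgroup G) ⊓ (T : Subgroup G) ≤ (Subgroup.center ↥(U : Subgroup G)).map (U : Subgroup G).subtype)
    (S : Sylow 2 G) (C : Subgroup ↥(S : Subgroup G)) (hC : C ≠ ⊥) (hCc : IsCyclic ↥C) (hCh : C.Characteristic)
    (c : ↥(S : Subgroup G)) (hc : c ∈ C) (hc2 : orderOf c = 2) :
    ∀ g : G, (QuotientGroup.mk (s := Cfsg.oddCore G) (g * (c : G) * g⁻¹)) =
      QuotientGroup.mk (s := Cfsg.oddCore G) (c : G) := by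
  have hc2' : orderOf (c : G) = 2 := by rw [orderOf_coe, hc2]
  have hcc := mul_self_of_orderOf_two hc2'
  have hfix : ∀ n ∈ normalizer ((S : Subgroup G) : Set G), n * c = c * n := by
    intro n hn
    let φ : MulAut (S : Subgroup G) := (S : Subgroup G).normalizerMonoidHom ⟨n, hn⟩
    have h1 : φ c ∈ C := by
      have := (characteristic_iff_map_eq.mp hCh) φ
      rw [← this]; exact mem_map_of_mem _ hc
    have h2 : orderOf (⟨φ c, h1⟩ : C) = 2 := by
      rw [← orderOf_coe, MulEquiv.orderOf_eq, hc2]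
    have h3 : orderOf (⟨c, hc⟩ : C) = 2 := by rw [← orderOf_coe, hc2]
    obtain ⟨a, ha⟩ := IsCyclic.exists_generator (α := C)
    have h4 : orderOf a = 2 * (orderOf a / 2) :=
      (Nat.mul_div_cancel' (h3.symm.dvd.trans (orderOf_dvd_of_mem_zpowers (ha _)))).symm
    have h5 : 0 < orderOf a / 2 := by have := orderOf_pos a; omega
    have e1 := (eq_pow_of_mem_zpowers_of_mul_self h4 h5 (ha _)
      (mul_self_of_orderOf_two h2)).resolve_left (ne_one_of_orderOf_two h2)
    have e2 := (eq_pow_of_mem_zpowers_of_mul_self h4 h5 (ha _)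
      (mul_self_of_orderOf_two h3)).resolve_left (ne_one_of_orderOf_two h3)
    have e3 : ((φ c : (S : Subgroup G)) : G) = c :=
      congrArg (fun x : C => ((x : (S : Subgroup G)) : G)) (e1.trans e2.symm)
    exact mul_inv_eq_iff_eq_mul.mp e3
  refine (H7.Isolated.of_sylow S hcc fun g hg => ?_).mk_conj
  have hT : ∀ t ∈ ((g • S : Sylow 2 G) : Subgroup G), t * (g * c * g⁻¹) = g * c * g⁻¹ * t := by
    intro t ht
    have := hfix _ (le_normalizer (mem_smul_sylow.mp ht))
    calc t * (g * c * g⁻¹) = g * (g⁻¹ * t * g * c) * g⁻¹ := by group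
      _ = _ := by rw [this]; group
  obtain ⟨h, hh, hh'⟩ := exists_conj_mem_sylow (g • S) (H := centralizer ({g * c * g⁻¹} : Set G))
    (R := zpowers (c : G)) (isPGroup_zpowers ⟨1, by rw [pow_one, pow_two, hcc]⟩)
    (zpowers_le.mpr (mem_centralizer_singleton_iff.mpr (hfix _ (le_normalizer hg)).symm))
    (fun t ht => mem_centralizer_singleton_iff.mpr (hT t ht))
  have h1 : h * g * c * (h * g)⁻¹ = g * c * g⁻¹ := by
    have := mem_centralizer_singleton_iff.mp hh
    calc h * g * c * (h * g)⁻¹ = h * (g * c * g⁻¹) * h⁻¹ := by group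
      _ = _ := by rw [this]; group
  by_cases he : S = (h * g) • S
  · rw [← h1, hfix _ (Sylow.smul_eq_iff_mem_normalizer.mp he.symm), mul_inv_cancel_right]
  obtain ⟨U, hU⟩ := hCI _ _ he
  have h2 := mem_center_map_subtype.mp (hU (x := c) ⟨c.2, by
    rw [mul_smul]; exact mem_smul_sylow.mpr (hh' _ (mem_zpowers _))⟩)
  have h3 := mem_center_map_subtype.mp (hU (x := g * c * g⁻¹) ⟨hg, by
    refine mem_smul_sylow.mpr ?_
    rw [← h1]; simp [mul_assoc]⟩)
  exact conj_eq_of_central (S := U) (fun n hn => comm_of_mem_normalizer_sylow hfix h2.2 hn) h3.2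

end Cfsg.Agent.S3184
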