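import Cfsg.Statements.S3186
import Cfsg.Agent.H9.AI5
import Cfsg.Agent.WA.GMain

set_option autoImplicit false
open Cfsg Subgroup Cfsg.Agent.FT Cfsg.Agent.H8 Cfsg.Agent.H9 Cfsg.Agent.WA
open scoped commutatorElement

namespace Cfsg.Agent.S3186

/-- Let G be a non-abelian finite simple group in which the intersection of any two distinct Sylow 2-subgroups is abelian. Then a Sylow 2-subgroup of G is either dihedral (of order at least 4) or of nilpotency class at most two (its derived subgroup is central). -/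
theorem result {G : Type*} [Group G] [Finite G] [IsSimpleGroup G]
    (hG : ¬ IsMulCommutative G)
    (hA : ∀ S T : Sylow 2 G, S ≠ T → IsMulCommutative ↥((S : Subgroup G) ⊓ (T : Subgroup G))) (S : Sylow 2 G) :
    (∃ m : ℕ, 2 ≤ m ∧ Nonempty (↥(S : Subgroup G) ≃* DihedralGroup m)) ∨
      commutator ↥(S : Subgroup G) ≤ Subgroup.center ↥(S : Subgroup G) := by
  refine or_iff_not_imp_right.mpr fun h => AI.St.main ?_
  have h3 : ∃ x ∈ (S : Subgroup G), ∃ y ∈ (S : Subgroup G), ⁅x, y⁆ ∉ 𝐂((S : Subgroup G)) := by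
    by_contra e
    push Not at e
    exact h (commutator_le.mpr fun x _ y _ => mem_center_iff.mpr fun g => Subtype.ext (e x x.2 y y.2 g g.2))
  have hS := isSylowIn_top S
  refine ⟨fun P Q hP hQ e => ?_, hS, H6.perfect_of_simple hG, h3, fun A h1 h2 h4 h5 => ?_⟩
  · obtain ⟨P, rfl⟩ := hP.exists_sylow_top
    obtain ⟨Q, rfl⟩ := hQ.exists_sylow_top
    exact fun a ha b hb => comm_of_isMulCommutative (hA P Q fun e' => e (e' ▸ rfl)) hb ha
  obtain ⟨x, hx, y, hy, h6⟩ := h3
  have sc : GS.SC A ⊤ := GS.SC.of_sylow hS h1 h4 fun a ha g _ => h5 a ha g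
  have k : IsSylowIn 2 A ⊤ → False := fun e => by
    obtain rfl := e.max _ le_top hS.pgroup h1
    exact h6 (commutatorElement_eq_one_iff_mul_comm.mpr (sc.comm hx hy) ▸ one_mem _)
  rcases GS.gs hG sc h2 with e | e | e
  · obtain ⟨X, e1, e2⟩ := sc.exists_suz0 hG h2 e
    have h7 : (S : Subgroup G) ≤ X.Q := fun s hs => by
      obtain ⟨k, hk⟩ := exists_pow_eq_one_of_mem hS.pgroup hs
      exact X.mem_Q_of_two (e1 ▸ sc.le_norm hS.pgroup h1 le_top hs) hk
    have h8 : ∀ s ∈ (S : Subgroup G), s * s ∈ 𝐂((S : Subgroup G)) := fun s hs t ht =>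
      (X.Z_comm (X.struct.sq s (h7 hs)) (h7 ht)).symm
    refine h6 ?_
    rw [show ⁅x, y⁆ = x * y * (x * y) * (y⁻¹ * (x⁻¹ * x⁻¹)) * y⁻¹ by simp [commutatorElement_def, mul_assoc],
      h8 _ (inv_mem hx) _ (inv_mem hy), mul_assoc, mul_assoc (x⁻¹ * x⁻¹)]
    exact mul_mem (h8 _ (mul_mem hx hy)) (mul_mem (h8 _ (inv_mem hx)) (h8 _ (inv_mem hy)))
  · exact k e.1
  · exact k e.1

end Cfsg.Agent.S3186
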