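import Cfsg.Statements.S3188
import Cfsg.Agent.H8.Clos7
import Cfsg.Agent.WA.IR2

set_option autoImplicit false
open Cfsg

namespace Cfsg.Agent.S3188

/-- Let G be a finite group with abelian Sylow 2-subgroups in which the centralizer of every involution is solvable. Then either G is solvable, or G modulo its largest normal subgroup of odd order has a normal subgroup isomorphic to PSL(2, q) with trivial centralizer (so that the quotient embeds in the automorphism group of PSL(2, q)), where q ≡ 3 or 5 mod 8 with q ≥ 5, or q = 2^n with n ≥ 2. -/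
theorem result {G : Type*} [Group G] [Finite G]
    (S : Sylow 2 G) (hS : IsMulCommutative ↥(S : Subgroup G))
    (hC : ∀ t : G, orderOf t = 2 → Group.IsSolvable ↥(Subgroup.centralizer ({t} : Set G))) :
    Group.IsSolvable G ∨
      ∃ (F : Type) (_ : Field F) (_ : Fintype F),
        (((Fintype.card F % 8 = 3 ∨ Fintype.card F % 8 = 5) ∧ 5 ≤ Fintype.card F) ∨
          (∃ n : ℕ, 2 ≤ n ∧ Fintype.card F = 2 ^ n)) ∧
        ∃ N : Subgroup (G ⧸ Cfsg.oddCore G), N.Normal ∧
          Nonempty (↥N ≃* Matrix.ProjectiveSpecialLinearGroup (Fin 2) F) ∧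
          Subgroup.centralizer (N : Set (G ⧸ Cfsg.oddCore G)) = ⊥ := by
  exact Cfsg.Agent.H8.Clos.ab_main (fun _ _ _ _ h S h1 h2 => Cfsg.Agent.WA.rank2 h S h1 h2) S hS hC

end Cfsg.Agent.S3188
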