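import Cfsg.Statements.S3190
import Cfsg.Agent.H8.Factor
import Cfsg.Agent.H5.Rank

set_option autoImplicit false
open Cfsg

namespace Cfsg.Agent.S3190

open Subgroup Cfsg.Agent.H8 Cfsg.Agent.L0

theorem center_map {G : Type*} [Group G] (H : Subgroup G) :
    (center H).map H.subtype = H ⊓ centralizer (H : Set G) := by
  ext x
  constructor
  · rintro ⟨y, hy, rfl⟩
    exact ⟨y.2, fun z hz => congrArg Subtype.val (mem_center_iff.mp hy ⟨z, hz⟩)⟩
  · rintro ⟨h1, h2⟩
    exact ⟨⟨x, h1⟩, mem_center_iff.mpr fun z => Subtype.ext (h2 z z.2), rfl⟩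

/-- Let p be an odd prime and, inside a finite group, let P be a p-subgroup normalized by a Klein four-group T. Let R be a subgroup of P, normal in P and normalized by T, such that P is the product of R with the centralizer of T in P. If T centralizes the centre of P, then T centralizes the centre of R. -/
theorem result {X : Type*} [Group X] [Finite X]
    {p : ℕ} (hp : p.Prime) (hodd : Odd p) (P T R : Subgroup X) (hP : IsPGroup p ↥P) (hT : IsKleinFour ↥T)
    (hTP : T ≤ Subgroup.normalizer (P : Set X)) (hRP : R ≤ P) (hRn : (R.subgroupOf P).Normal)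
    (hTR : T ≤ Subgroup.normalizer (R : Set X)) (hfac : R ⊔ (P ⊓ Subgroup.centralizer (T : Set X)) = P)
    (hZ : T ≤ Subgroup.centralizer (((Subgroup.center ↥P).map P.subtype : Subgroup X) : Set X)) :
    T ≤ Subgroup.centralizer (((Subgroup.center ↥R).map R.subtype : Subgroup X) : Set X) := by
  haveI : Fact p.Prime := ⟨hp⟩
  haveI : Fact (Nat.Prime 2) := ⟨Nat.prime_two⟩
  rw [center_map] at hZ ⊢
  have hT2 : IsPGroup 2 T := IsPGroup.of_card (n := 2) hT.card_four
  have hPR : P ≤ normalizer (R : Set X) := (normal_subgroupOf_iff_le_normalizer hRP).mp hRn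
  have hp2 : p ≠ 2 := by rintro rfl; exact absurd hodd (by decide)
  have hZT : T ≤ normalizer ((R ⊓ centralizer (R : Set X) : Subgroup X) : Set X) :=
    le_normalizer_inf hTR (le_normalizer_centralizer hTR)
  have hZP : P ≤ normalizer ((R ⊓ centralizer (R : Set X) : Subgroup X) : Set X) :=
    le_normalizer_inf hPR (le_normalizer_centralizer hPR)
  have hc : CopAct T (R ⊓ centralizer (R : Set X)) := CopAct.of_pgroup hT2
    (not_dvd_card_of_pgroup hp2 (hP.to_le (inf_le_left.trans hRP))) hZT
  have h1 := hc.commutator_inf_centralizer_eq_bot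
    (isMulCommutative_of fun a ha b hb => hb.2 a ha.1)
  rw [le_centralizer_iff, ← commutator_eq_bot_iff_le_centralizer]
  by_contra hne
  have hn : P ≤ normalizer ((⁅R ⊓ centralizer (R : Set X), T⁆ : Subgroup X) : Set X) := by
    rw [← hfac]
    refine sup_le ?_ (le_normalizer_commutator (inf_le_left.trans hZP)
      (inf_le_right.trans (centralizer_le_normalizer _)))
    exact (le_centralizer_iff.mp (hc.commutator_le.trans inf_le_right)).trans
      (centralizer_le_normalizer _)
  have hle : ⁅R ⊓ centralizer (R : Set X), T⁆ ≤ P := hc.commutator_le.trans (inf_le_left.trans hRP)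
  obtain ⟨x, hx, hxo, hxP, -⟩ := H5.exists_mem_centralizer_of_isPGroup (hP.to_le hle) hP hn hne
  have h2 : x ∈ ⁅R ⊓ centralizer (R : Set X), T⁆ ⊓ centralizer (T : Set X) :=
    ⟨hx, le_centralizer_iff.mp hZ ⟨hle hx, hxP⟩⟩
  rw [h1, mem_bot] at h2
  rw [h2, orderOf_one] at hxo
  exact hp.one_lt.ne hxo

end Cfsg.Agent.S3190
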