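import Cfsg.Statements.S3191
import Cfsg.Agent.KO.Bridge

set_option autoImplicit false
open Cfsg

namespace Cfsg.Agent.S3191

/-- Let n ≥ 1 and r = 2 or 3, and let H be the centralizer in the alternating group of degree 4n + r of an involution moving exactly 4n points (a product of 2n disjoint transpositions). Let G be a finite group that has no normal subgroup of index 2 and that contains an involution t which is central in some Sylow 2-subgroup of G and whose centralizer is isomorphic to H. Then G has exactly n conjugacy classes of involutions. -/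
theorem result (n r : ℕ) (hn : 1 ≤ n) (hr : r = 2 ∨ r = 3)
    (α : ↥(alternatingGroup (Fin (4 * n + r)))) (hα : orderOf α = 2)
    (hα4 : (α : Equiv.Perm (Fin (4 * n + r))).support.card = 4 * n)
    {G : Type*} [Group G] [Finite G] (h2 : ∀ H : Subgroup G, H.Normal → H.index ≠ 2)
    (t : G) (ht : orderOf t = 2) (S : Sylow 2 G) (htS : t ∈ (S : Subgroup G))
    (htZ : ∀ s ∈ (S : Subgroup G), s * t = t * s)
    (hiso : Nonempty (↥(Subgroup.centralizer ({t} : Set G)) ≃*
      ↥(Subgroup.centralizer ({α} : Set ↥(alternatingGroup (Fin (4 * n + r))))))) :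
    Nat.card {c : ConjClasses G // ∃ x ∈ c.carrier, orderOf x = 2} = n := by
  obtain ⟨ψ⟩ := hiso
  have hodd : Odd (Subgroup.centralizer ({t} : Set G)).index :=
    Odd.of_dvd_nat (H6.sylow_two_index_odd S) (Subgroup.index_dvd_of_le fun s hs =>
      Subgroup.mem_centralizer_singleton_iff.mpr (htZ s hs))
  obtain ⟨T⟩ := KO.exists_setup n r hn hr α hα hα4 t ht hodd ψ
  exact KO.card_classes hn T fun K hK => h2 K (Subgroup.normal_of_index_eq_two hK) hK

end Cfsg.Agent.S3191
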