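import Cfsg.Statements.S3192
import Cfsg.Agent.H7.CA6

set_option autoImplicit false
open Cfsg

namespace Cfsg.Agent.S3192

/-- Simple groups of conjugate type rank three. For a finite group G consider the set of indices of the centralizers of the non-central elements of G. Then G is a non-abelian simple group for which this set has exactly three members if and only if G is isomorphic to PSL(2, 2^m) for some m ≥ 2. -/
theorem result (G : Type*) [Group G] [Finite G] :
    (IsSimpleGroup G ∧ ¬ IsMulCommutative G ∧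
        Set.ncard {m : ℕ | ∃ x : G, x ∉ Subgroup.center G ∧ m = (Subgroup.centralizer ({x} : Set G)).index} = 3) ↔
      ∃ (m : ℕ) (F : Type) (_ : Field F) (_ : Fintype F), 2 ≤ m ∧ Fintype.card F = 2 ^ m ∧
        Nonempty (G ≃* Matrix.ProjectiveSpecialLinearGroup (Fin 2) F) := by
  have hcount : Subgroup.center G = ⊥ →
      Set.ncard {m : ℕ | ∃ x : G, x ∉ Subgroup.center G ∧
        m = (Subgroup.centralizer ({x} : Set G)).index} =
      Set.ncard {c | ∃ x : G, x ≠ 1 ∧ c = H7.CA.co x} := by
    intro hZ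
    have hdiv : ∀ x : G, Nat.card G / H7.CA.co x = (Subgroup.centralizer ({x} : Set G)).index :=
      fun x => Nat.div_eq_of_eq_mul_left Nat.card_pos (Subgroup.index_mul_card _).symm
    have hinj : Set.InjOn (fun c => Nat.card G / c) {c | ∃ x : G, x ≠ 1 ∧ c = H7.CA.co x} := by
      rintro _ ⟨x, -, rfl⟩ _ ⟨y, -, rfl⟩ h
      simp only [hdiv] at h
      have h1 := (Subgroup.centralizer ({x} : Set G)).index_mul_card
      rw [← (Subgroup.centralizer ({y} : Set G)).index_mul_card, h] at h1
      exact Nat.eq_of_mul_eq_mul_left (Nat.pos_of_ne_zero Subgroup.index_ne_zero_of_finite) h1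
    rw [← hinj.ncard_image]
    congr 1
    ext m
    simp only [hZ, Subgroup.mem_bot, Set.mem_ofPred_eq, Set.mem_image]
    constructor
    · rintro ⟨x, hx, rfl⟩
      exact ⟨_, ⟨x, hx, rfl⟩, hdiv x⟩
    · rintro ⟨_, ⟨x, hx, rfl⟩, rfl⟩
      exact ⟨x, hx, hdiv x⟩
  have hZ : IsSimpleGroup G → ¬ IsMulCommutative G → Subgroup.center G = ⊥ := fun _ hG =>
    (inferInstance : (Subgroup.center G).Normal).eq_bot_or_eq_top.resolve_right fun h =>
      hG ⟨⟨fun a b => Subgroup.mem_center_iff.mp (h ▸ Subgroup.mem_top b) a⟩⟩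
  constructor
  · rintro ⟨hs, hG, h3⟩
    rw [hcount (hZ hs hG)] at h3
    refine H7.CA.psl_of_three' hG fun x y z w hx hy hz hw h1 h2 h4 => ?_
    have : ({H7.CA.co x, H7.CA.co y, H7.CA.co z} : Set ℕ) =
        {c | ∃ x : G, x ≠ 1 ∧ c = H7.CA.co x} := by
      refine Set.eq_of_subset_of_ncard_le ?_ ?_ (Set.finite_of_ncard_ne_zero (by omega))
      · rintro _ (rfl | rfl | rfl)
        exacts [⟨x, hx, rfl⟩, ⟨y, hy, rfl⟩, ⟨z, hz, rfl⟩]
      · rw [h3, Set.ncard_eq_three.mpr ⟨_, _, _, h1, h2, h4, rfl⟩]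
    exact this.ge ⟨w, hw, rfl⟩
  · rintro ⟨m, F, _, _, hm, hF, ⟨e⟩⟩
    have hF4 : 4 ≤ Nat.card F := by
      rw [Nat.card_eq_fintype_card, hF]
      exact Nat.pow_le_pow_right (n := 2) (by norm_num) hm
    have h2 : (2 : F) = 0 := by
      have h := FiniteField.cast_card_eq_zero F
      rw [hF] at h
      exact (pow_eq_zero_iff (n := m) (by omega)).mp (by exact_mod_cast h)
    have hgood : H1.SLn.Good (Fin 2) F := Or.inr ⟨by simp, H1.SLn.exists_sq_ne_one hF4⟩
    have hs : IsSimpleGroup G := by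
      have := H1.SLn.isSimpleGroup_PSL hgood
      exact e.isSimpleGroup
    have hc : Subgroup.center (Matrix.SpecialLinearGroup (Fin 2) F) = ⊥ := by
      refine eq_bot_iff.mpr fun a ha => ?_
      rcases H7.SL2_mem_center_iff.mp ha with h | h
      · exact h
      · rw [h, Subgroup.mem_bot]
        ext i j
        fin_cases i <;> fin_cases j <;> simp <;> linear_combination -h2
    let e' : G ≃* Matrix.SpecialLinearGroup (Fin 2) F :=
      e.trans ((QuotientGroup.quotientMulEquivOfEq hc).trans QuotientGroup.quotientBot)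
    have hset : {c | ∃ x : G, x ≠ 1 ∧ c = H7.CA.co x} =
        {Nat.card F - 1, Nat.card F, Nat.card F + 1} := by
      rw [← H7.CA.co_SL2 h2 hF4]
      ext c
      constructor
      · rintro ⟨x, hx, rfl⟩
        exact ⟨e' x, by simpa using hx, (H7.CA.co_equiv e' x).symm⟩
      · rintro ⟨x, hx, rfl⟩
        exact ⟨e'.symm x, by simpa using hx, (H7.CA.co_equiv e'.symm x).symm⟩
    have hG : ¬ IsMulCommutative G := by
      intro hG
      have key : ∀ c ∈ {c | ∃ x : G, x ≠ 1 ∧ c = H7.CA.co x}, c = Nat.card G := by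
        rintro _ ⟨x, -, rfl⟩
        have : Subgroup.centralizer ({x} : Set G) = ⊤ :=
          eq_top_iff.mpr fun y _ => H7.CA.mem_cen.mpr (hG.is_comm.comm y x)
        rw [H7.CA.co, this, Subgroup.card_top]
      rw [hset] at key
      have h1 := key (Nat.card F) (by simp)
      have h3 := key (Nat.card F + 1) (by simp)
      omega
    refine ⟨hs, hG, ?_⟩
    rw [hcount (hZ hs hG), hset]
    exact Set.ncard_eq_three.mpr ⟨_, _, _, by omega, by omega, by omega, rfl⟩

end Cfsg.Agent.S3192
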