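import Cfsg.Statements.S3195
import Cfsg.Agent.H9.Invol
import Cfsg.Agent.H4.Dihedral

set_option autoImplicit false
open Cfsg

namespace Cfsg.Agent.S3195

open Subgroup Cfsg.Agent.H9

section
variable {G : Type*} [Group G]

theorem commute_of_sq {x y : G} (hx : Odd (orderOf x)) (h : Commute (x * x) y) : Commute x y := by
  obtain ⟨k, hk⟩ := hx
  have h1 : x = (x * x) ^ (k + 1) := by
    rw [← pow_two, ← pow_mul, show 2 * (k + 1) = orderOf x + 1 by omega, pow_succ,
      pow_orderOf_eq_one, one_mul]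
  rw [h1]; exact h.pow_left _

theorem eq_one_of_sq {x : G} (hx : Odd (orderOf x)) (h : x * x = 1) : x = 1 := by
  obtain ⟨k, hk⟩ := hx
  have h1 : x = (x * x) ^ (k + 1) := by
    rw [← pow_two, ← pow_mul, show 2 * (k + 1) = orderOf x + 1 by omega, pow_succ,
      pow_orderOf_eq_one, one_mul]
  rw [h1, h, one_pow]

theorem odd_sq {x : G} (hx : Odd (orderOf x)) : Odd (orderOf (x * x)) := by
  rw [← pow_two]
  exact Odd.of_dvd_nat hx (orderOf_pow_dvd 2)

theorem eq_one_of_inv_comm {a x : G} (hx : Odd (orderOf x)) (h : a * x * a⁻¹ = x⁻¹)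
    (hc : Commute a (x * x)) : x = 1 := by
  have h1 : Commute a x := (commute_of_sq hx hc.symm).symm
  rw [h1.eq, mul_inv_cancel_right] at h
  apply eq_one_of_sq hx
  nth_rewrite 2 [h]; simp

def Hyp (a b : G) : Prop := a * a = 1 ∧ b * b = 1 ∧ Commute a b ∧
  ∀ t, (t = a ∨ t = b ∨ t = a * b) → ∀ g : G,
    Commute (g * t * g⁻¹) a ∨ Commute (g * t * g⁻¹) b ∨ Commute (g * t * g⁻¹) (a * b)

theorem Hyp.symm {a b : G} (h : Hyp a b) : Hyp b a := by
  obtain ⟨ha, hb, hab, h⟩ := h
  refine ⟨hb, ha, hab.symm, fun t ht g => ?_⟩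
  rw [← hab.eq] at ht ⊢
  have := h t (by tauto) g
  tauto

theorem Hyp.mul {a b : G} (h : Hyp a b) : Hyp (a * b) b := by
  obtain ⟨ha, hb, hab, h⟩ := h
  have e : a * b * b = a := by rw [mul_assoc, hb, mul_one]
  refine ⟨?_, hb, hab.mul_left (Commute.refl b), fun t ht g => ?_⟩
  · rw [← mul_assoc, mul_assoc a b a, ← hab.eq, ← mul_assoc, ha, one_mul, hb]
  · rw [e] at ht ⊢
    have := h t (by tauto) g
    tauto

theorem conj_eq {a x : G} (h : a * x * a⁻¹ = x⁻¹) : x⁻¹ * a * x⁻¹⁻¹ = a * (x * x) := by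
  rw [inv_inv]; nth_rewrite 1 [← h]; group

theorem L1 {a b x : G} (H : Hyp a b) (h : a * x * a⁻¹ = x⁻¹) (hx : Odd (orderOf x)) (hx1 : x ≠ 1) :
    Commute b x ∨ Commute (a * b) x := by
  obtain ⟨ha, hb, hab, H⟩ := H
  have := H a (Or.inl rfl) x⁻¹
  rw [conj_eq h] at this
  have key : ∀ c, Commute a c → Commute (a * (x * x)) c → Commute (x * x) c := by
    intro c h1 h2
    simpa using h1.inv_left.mul_left h2
  rcases this with h1 | h1 | h1
  · exact absurd (eq_one_of_inv_comm hx h (key _ (Commute.refl a) h1).symm) hx1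
  · exact Or.inl (commute_of_sq hx (key _ hab h1)).symm
  · exact Or.inr (commute_of_sq hx (key _ ((Commute.refl a).mul_right hab) h1)).symm

theorem L2 {a b x y : G} (H : Hyp a b) (h : a * x * a⁻¹ = x⁻¹) (hx : Odd (orderOf x)) (hx1 : x ≠ 1)
    (h' : b * y * b⁻¹ = y⁻¹) (hy : Odd (orderOf y)) (hy1 : y ≠ 1) (hbx : Commute b x)
    (hay : Commute a y) : False := by
  obtain ⟨ha, hb, hab, H⟩ := H
  have hcx : a * b * x * (a * b)⁻¹ = x⁻¹ := by
    rw [← h, mul_assoc a b x, hbx.eq]; group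
  have hcy : a * b * y * (a * b)⁻¹ = y⁻¹ := by
    calc a * b * y * (a * b)⁻¹ = a * (b * y * b⁻¹) * a⁻¹ := by group
      _ = y⁻¹ := by rw [h', hay.inv_right.eq]; group
  have key : ∀ c u v : G, Commute u c → Commute (u * v) c → Commute v c := by
    intro c u v h1 h2
    simpa using h1.inv_left.mul_left h2
  have cj : ∀ u v g : G, Commute (g * u * g⁻¹) v → Commute u (g⁻¹ * v * g⁻¹⁻¹) := by
    intro u v g h1
    have := h1.conj g⁻¹
    simpa [mul_assoc] using this
  have hxy : Commute x y := by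
    have := H b (Or.inr (Or.inl rfl)) (x * y⁻¹)
    rw [show x * y⁻¹ * b * (x * y⁻¹)⁻¹ = x * (y⁻¹ * b * y⁻¹⁻¹) * x⁻¹ by group, conj_eq h'] at this
    rcases this with h1 | h1 | h1
    · have h2 := cj _ _ _ h1
      rw [conj_eq h] at h2
      have h3 := key _ _ _ (hab.symm.mul_right (hbx.mul_right hbx)) h2
      have h4 := key _ _ _ (hay.mul_right hay) h3.symm
      exact (commute_of_sq hy (commute_of_sq hx h4).symm).symm
    · have h2 := cj _ _ _ h1
      rw [hbx.inv_right.symm.eq, inv_inv, inv_mul_cancel_right] at h2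
      exact absurd (eq_one_of_inv_comm hy h' (key _ _ _ (Commute.refl b) h2).symm) hy1
    · have h2 := cj _ _ _ h1
      rw [conj_eq hcx] at h2
      have h3 := key _ _ _ ((hab.symm.mul_right (Commute.refl b)).mul_right (hbx.mul_right hbx)) h2
      have h4 := commute_of_sq hy h3
      have h5 : x * x * y * (x * x)⁻¹ = y⁻¹ := by
        have e1 : (a * b)⁻¹ * y * (a * b) = y⁻¹ := by
          have : (a * b) * y⁻¹ * (a * b)⁻¹ = y := by rw [← conj_inv, hcy, inv_inv]
          calc (a * b)⁻¹ * y * (a * b) = (a * b)⁻¹ * ((a * b) * y⁻¹ * (a * b)⁻¹) * (a * b) := by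
                rw [this]
            _ = _ := by group
        calc x * x * y * (x * x)⁻¹ = (a * b)⁻¹ * (a * b * (x * x) * y) * (x * x)⁻¹ := by group
          _ = (a * b)⁻¹ * (y * (a * b * (x * x))) * (x * x)⁻¹ := by rw [h4.eq]
          _ = (a * b)⁻¹ * y * (a * b) := by group
          _ = _ := e1
      have h6 : Commute (x * x * (x * x)) y := by
        have : x * x * (x * x) * y * (x * x * (x * x))⁻¹ = y := by
          calc x * x * (x * x) * y * (x * x * (x * x))⁻¹
              = x * x * (x * x * y * (x * x)⁻¹) * (x * x)⁻¹ := by group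
            _ = x * x * y⁻¹ * (x * x)⁻¹ := by rw [h5]
            _ = (x * x * y * (x * x)⁻¹)⁻¹ := by rw [conj_inv]
            _ = y := by rw [h5, inv_inv]
        exact mul_inv_eq_iff_eq_mul.mp this
      exact commute_of_sq hx (commute_of_sq (odd_sq hx) h6)
  have hc : a * b * (x * y) * (a * b)⁻¹ = (x * y)⁻¹ := by
    calc a * b * (x * y) * (a * b)⁻¹ = (a * b * x * (a * b)⁻¹) * (a * b * y * (a * b)⁻¹) := by group
      _ = _ := by rw [hcx, hcy, hxy.eq, mul_inv_rev]
  have := H (a * b) (Or.inr (Or.inr rfl)) (x * y)⁻¹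
  rw [conj_eq hc] at this
  have e : x * y * (x * y) = x * x * (y * y) := by
    rw [mul_assoc, ← mul_assoc y, ← hxy.eq]; group
  have hodd : Odd (orderOf (x * y)) :=
    Odd.of_dvd_nat (hx.mul hy) hxy.orderOf_mul_dvd_mul_orderOf
  rcases this with h1 | h1 | h1
  · have h2 := key _ _ _ ((Commute.refl a).mul_left hab.symm) h1
    rw [e, (((hxy.mul_right hxy).mul_left (hxy.mul_right hxy))).eq] at h2
    exact hx1 (eq_one_of_inv_comm hx h (key _ _ _ (hay.mul_right hay).symm h2).symm)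
  · have h2 := key _ _ _ (hab.mul_left (Commute.refl b)) h1
    rw [e] at h2
    exact hy1 (eq_one_of_inv_comm hy h' (key _ _ _ (hbx.mul_right hbx).symm h2).symm)
  · have h2 := key _ _ _ (Commute.refl _) h1
    have h3 := eq_one_of_inv_comm hodd hc h2.symm
    have h4 : x = y⁻¹ := eq_inv_of_mul_eq_one_left h3
    exact hx1 (eq_one_of_inv_comm hx h (h4 ▸ hay.inv_right.mul_right hay.inv_right))

theorem odd_of_prime {x : G} (h : (orderOf x).Prime) (h2 : orderOf x ≠ 2) :
    Odd (orderOf x) ∧ x ≠ 1 :=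
  ⟨h.odd_of_ne_two h2, by rintro rfl; simp at h; exact Nat.not_prime_one h⟩

theorem L3 [Finite G] {a b x : G} (H : Hyp a b) (h : a * x * a⁻¹ = x⁻¹) (hx : Odd (orderOf x))
    (hx1 : x ≠ 1) (hbx : Commute b x) (hb : b ∉ Cfsg.pCore 2 G) : False := by
  obtain ⟨y, hy1, hy2, hy3, -⟩ :=
    Cfsg.Agent.H4.exists_odd_prime_order_inverted_of_not_mem_pCore H.2.1 hb
  obtain ⟨hy, hy'⟩ := odd_of_prime hy1 hy2
  rcases L1 H.symm hy3 hy hy' with h1 | h1
  · exact L2 H h hx hx1 hy3 hy hy' hbx h1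
  · rw [← H.2.2.1.eq] at h1
    refine L2 H.mul ?_ hx hx1 hy3 hy hy' hbx h1
    rw [← h, mul_assoc a b x, hbx.eq]; group

end

/-- Let A be a Klein four-subgroup of a finite group G. If every G-conjugate of every involution of A commutes with some involution of A (its centralizer meets A nontrivially), then A meets the largest normal 2-subgroup O₂(G) nontrivially. -/
theorem result {G : Type*} [Group G] [Finite G]
    (A : Subgroup G) (hA : IsKleinFour ↥A)
    (h : ∀ a ∈ A, a ≠ 1 → ∀ g : G, A ⊓ Subgroup.centralizer ({g * a * g⁻¹} : Set G) ≠ ⊥) :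
    A ⊓ Cfsg.pCore 2 G ≠ ⊥ := by
  intro hbot
  have hno : ∀ a ∈ A, a ≠ 1 → a ∉ Cfsg.pCore 2 G := by
    intro a ha ha1 h'
    exact ha1 (mem_bot.mp (hbot ▸ mem_inf.mpr ⟨ha, h'⟩))
  haveI : Nontrivial A := Finite.one_lt_card_iff_nontrivial.mp (by rw [IsKleinFour.card_four]; norm_num)
  obtain ⟨a, ha1⟩ := exists_ne (1 : A)
  obtain ⟨b, hb1, hba⟩ : ∃ b : A, b ≠ 1 ∧ b ≠ a := by
    by_contra hc
    push Not at hc
    have : (Set.univ : Set A) ⊆ {1, a} := by
      intro x _
      by_cases hx : x = 1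
      · exact Or.inl hx
      · exact Or.inr (hc x hx)
    have h2 := Set.ncard_le_ncard this
    rw [Set.ncard_univ, IsKleinFour.card_four] at h2
    have := Set.ncard_insert_le (1 : A) {a}
    rw [Set.ncard_singleton] at this
    omega
  have hab1 : a * b ≠ 1 := fun h' => hba (by
    rw [← IsKleinFour.inv_eq_self a]; exact eq_inv_of_mul_eq_one_right h')
  have hH : Hyp (a : G) (b : G) := by
    refine ⟨by rw [← coe_mul, IsKleinFour.mul_self]; rfl,
      by rw [← coe_mul, IsKleinFour.mul_self]; rfl, ?_, fun t ht g => ?_⟩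
    · have : a * b = b * a := by
        rw [← IsKleinFour.inv_eq_self (a * b), mul_inv_rev, IsKleinFour.inv_eq_self,
          IsKleinFour.inv_eq_self]
      exact congrArg Subtype.val this
    · have htA : t ∈ A ∧ t ≠ 1 := by
        rcases ht with rfl | rfl | rfl
        · exact ⟨a.2, by simpa using ha1⟩
        · exact ⟨b.2, by simpa using hb1⟩
        · exact ⟨(a * b).2, fun h' => hab1 (Subtype.ext h')⟩
      obtain ⟨⟨u, hu⟩, hu1⟩ := (ne_bot_iff_exists_ne_one).mp (h t htA.1 htA.2 g)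
      obtain ⟨huA, huc⟩ := mem_inf.mp hu
      rw [mem_centralizer_singleton_iff] at huc
      have hu1' : (⟨u, huA⟩ : A) ≠ 1 := by simpa using hu1
      by_cases h1 : (⟨u, huA⟩ : A) = a
      · left; rw [← h1]; exact huc.symm
      · by_cases h2 : (⟨u, huA⟩ : A) = b
        · right; left; rw [← h2]; exact huc.symm
        · right; right
          have := IsKleinFour.eq_mul_of_ne_all ha1 hb1 hba.symm hu1' h1 h2
          rw [← coe_mul, ← this]; exact huc.symm
  obtain ⟨x, hx1, hx2, hx3, -⟩ :=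
    Cfsg.Agent.H4.exists_odd_prime_order_inverted_of_not_mem_pCore hH.1
      (hno _ a.2 (by simpa using ha1))
  obtain ⟨hx, hx'⟩ := odd_of_prime hx1 hx2
  rcases L1 hH hx3 hx hx' with h1 | h1
  · exact L3 hH hx3 hx hx' h1 (hno _ b.2 (by simpa using hb1))
  · have H2 := hH.symm.mul.symm
    rw [← hH.2.2.1.eq] at H2
    exact L3 H2 hx3 hx hx' h1 (hno _ (a * b).2 (fun h' => hab1 (Subtype.ext h')))

end Cfsg.Agent.S3195
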