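import Cfsg.Statements.S3196
import Cfsg.Agent.H9.Invol
import Cfsg.Agent.H4.BaerSuzuki

set_option autoImplicit false
open Cfsg

namespace Cfsg.Agent.S3196

open Subgroup Cfsg.Agent.H9

section
variable {G : Type*} [Group G]

theorem mem_zpowers_of_prime {p : ℕ} (hp : p.Prime) {x c : G} (hx : orderOf x = p)
    (hc : c ∈ zpowers x) (hc1 : c ≠ 1) : x ∈ zpowers c := by
  haveI : Fact p.Prime := ⟨hp⟩
  have h1 : Nat.card (zpowers x) = p := by rw [Nat.card_zpowers, hx]
  have h2 := mem_zpowers_of_prime_card h1 (g := ⟨c, hc⟩) (g' := ⟨x, mem_zpowers x⟩)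
    (fun h => hc1 (congrArg Subtype.val h))
  obtain ⟨k, hk⟩ := mem_zpowers_iff.mp h2
  exact mem_zpowers_iff.mpr ⟨k, congrArg Subtype.val hk⟩

theorem commute_of_mem_zpowers {x c t : G} (h : x ∈ zpowers c) (hc : Commute c t) :
    Commute x t := by
  obtain ⟨k, rfl⟩ := mem_zpowers_iff.mp h
  exact hc.zpow_left k

theorem polar {p : ℕ} (hp : p.Prime) (E : Set G) (hE : ∀ x ∈ E, orderOf x = p)
    (hc : ∀ x ∈ E, ∀ g : G, g * x * g⁻¹ ∈ E)
    (ha : ∀ x ∈ E, ∀ y ∈ E, Commute x y → y ∉ zpowers x → ∀ i j : ℤ, x ^ i * y ^ j ≠ 1 →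
      x ^ i * y ^ j ∈ E)
    (hb : ∀ x ∈ E, ∀ y ∈ E, Commute x y → y ∉ zpowers x → ∀ w ∈ E, ∃ i j : ℤ, x ^ i * y ^ j ≠ 1 ∧
      Commute (x ^ i * y ^ j) w)
    {x0 y0 : G} (hx0 : x0 ∈ E) (hy0 : y0 ∈ E) (hxy0 : Commute x0 y0) (hn0 : y0 ∉ zpowers x0)
    (hnd : ∀ v ∈ E, ∃ t ∈ E, ¬ Commute v t) : False := by
  have A : ∀ x ∈ E, ∀ y ∈ E, Commute x y → y ∉ zpowers x → ∀ t ∈ E, ¬ Commute x t →
      ∃ i : ℤ, x ^ i * y ∈ E ∧ Commute (x ^ i * y) t := by
    intro x hx y hy hxy hn t ht hxt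
    obtain ⟨i, j, h1, h2⟩ := hb x hx y hy hxy hn t ht
    have hj : y ^ j ≠ 1 := by
      intro h
      rw [h, mul_one] at h1 h2
      exact hxt (commute_of_mem_zpowers
        (mem_zpowers_of_prime hp (hE x hx) (zpow_mem (mem_zpowers x) i) h1) h2)
    obtain ⟨k, hk⟩ := mem_zpowers_iff.mp
      (mem_zpowers_of_prime hp (hE y hy) (zpow_mem (mem_zpowers y) j) hj)
    refine ⟨i * k, ?_, ?_⟩
    · have := ha x hx y hy hxy hn (i * k) 1 (by
        rw [zpow_one]
        intro h
        apply hn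
        rw [eq_inv_of_mul_eq_one_right h]
        exact inv_mem (zpow_mem (mem_zpowers x) _))
      rwa [zpow_one] at this
    · have := h2.zpow_left k
      rwa [(hxy.zpow_zpow i j).mul_zpow, hk, ← zpow_mul] at this
  have key : ∀ c u v : G, Commute u c → Commute (u * v) c → Commute v c := by
    intro c u v h1 h2
    simpa using h1.inv_left.mul_left h2
  have nz : ∀ a b t : G, Commute a t → ¬ Commute b t → b ∉ zpowers a :=
    fun a b t h1 h2 h => h2 (commute_of_mem_zpowers h h1)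
  obtain ⟨w0, hw0, hxw0⟩ := hnd x0 hx0
  obtain ⟨i0, hy, hyw0⟩ := A x0 hx0 y0 hy0 hxy0 hn0 w0 hw0 hxw0
  have hyx0 : Commute (x0 ^ i0 * y0) x0 := ((Commute.refl x0).zpow_left i0).mul_left hxy0.symm
  generalize x0 ^ i0 * y0 = y at hy hyw0 hyx0
  obtain ⟨u, hu, hyu⟩ := hnd y hy
  obtain ⟨a, hx, hxu⟩ := A y hy x0 hx0 hyx0 (nz _ _ _ hyw0 hxw0) u hu hyu
  obtain ⟨b, hw, hwu⟩ := A y hy w0 hw0 hyw0 (nz _ _ _ hyx0 (fun h => hxw0 h.symm)) u hu hyu
  have hxy : Commute (y ^ a * x0) y := ((Commute.refl y).zpow_left a).mul_left hyx0.symm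
  have hwy : Commute (y ^ b * w0) y := ((Commute.refl y).zpow_left b).mul_left hyw0.symm
  have hxw : ¬ Commute (y ^ a * x0) (y ^ b * w0) := by
    intro h
    have h1 := key _ _ _ (hwy.symm.zpow_left a) h
    exact hxw0 (key _ _ _ (hyx0.zpow_left b) h1.symm).symm
  generalize y ^ a * x0 = x at hx hxu hxy hxw
  generalize y ^ b * w0 = w at hw hwu hwy hxw
  have hxyE : x * y ∈ E := by
    have := ha x hx y hy hxy (nz _ _ _ hxu hyu) 1 1 (by
      rw [zpow_one, zpow_one]
      intro h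
      rw [eq_inv_of_mul_eq_one_right h] at hyu
      exact hyu hxu.inv_left)
    rwa [zpow_one, zpow_one] at this
  obtain ⟨j, -, hj⟩ := A u hu w hw hwu.symm (nz _ _ _ hxu.symm (fun h => hxw h.symm)) _ hxyE
    (fun h => hyu (key _ _ _ hxu h.symm))
  have hxv : Commute x (u ^ j) := hxu.zpow_right j
  have hwv : Commute w (u ^ j) := hwu.zpow_right j
  generalize u ^ j = v at hj hxv hwv
  obtain ⟨c, hc'⟩ : ∃ c, c = v * y * (y * v)⁻¹ := ⟨_, rfl⟩
  have hxc : Commute x c := hc' ▸ (hxv.mul_right hxy).mul_right (hxy.mul_right hxv).inv_right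
  have hwc : Commute w c := hc' ▸ (hwv.mul_right hwy).mul_right (hwy.mul_right hwv).inv_right
  have hrel : x * w = w * x * c := by
    have e1 : v * w * (x * y) = w * x * (v * y) := by
      rw [← hwv.eq, mul_assoc, ← mul_assoc v, ← hxv.eq]; group
    have e2 : x * y * (v * w) = x * w * (y * v) := by
      rw [← hwv.eq, mul_assoc, ← mul_assoc y, ← hwy.eq]; group
    rw [hc', ← mul_assoc, ← e1, hj.eq, e2]; group
  have hc1 : c ≠ 1 := by
    intro h; rw [h, mul_one] at hrel; exact hxw hrel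
  have hwcE : w * c ∈ E := by
    have := hc w hw x
    rwa [hrel, mul_assoc w, hxc.eq, mul_assoc, mul_inv_cancel_right] at this
  have hcE : c ∈ E := by
    have := ha w hw _ hwcE ((Commute.refl w).mul_right hwc) (by
      intro h
      have h1 : c ∈ zpowers w := by simpa using mul_mem (inv_mem (mem_zpowers w)) h
      exact hxw (commute_of_mem_zpowers (mem_zpowers_of_prime hp (hE w hw) h1 hc1) hxc.symm).symm)
      (-1) 1 (by simpa using hc1)
    simpa using this
  obtain ⟨t, ht, hct⟩ := hnd c hcE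
  obtain ⟨k, -, hk⟩ := A c hcE x hx hxc.symm (nz _ _ _ hwc.symm hxw) t ht hct
  obtain ⟨l, -, hl⟩ := A c hcE w hw hwc.symm (nz _ _ _ hxc.symm (fun h => hxw h.symm)) t ht hct
  apply hct
  have e : c ^ k * x * (c ^ l * w) = c ^ l * w * (c ^ k * x) * c := by
    calc c ^ k * x * (c ^ l * w) = c ^ k * (x * c ^ l) * w := by group
      _ = c ^ k * c ^ l * (x * w) := by rw [(hxc.zpow_right l).eq]; group
      _ = c ^ l * (c ^ k * w) * x * c := by rw [hrel]; group
      _ = _ := by rw [← (hwc.zpow_right k).eq]; group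
  have := hk.mul_left hl
  rw [e] at this
  exact key _ _ _ (hl.mul_left hk) this

end

/-- Let p be a prime and K a set of subgroups of order p of a finite group G, closed under conjugation, such that at least two distinct members of K commute elementwise, and whenever two distinct members X, Y of K commute: every subgroup of order p of the group XY they generate belongs to K, and every member W of K has centralizer meeting XY nontrivially. Then some member V of K commutes elementwise with every member of K and lies in O_p(G); in particular G is not simple. -/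
theorem result {G : Type*} [Group G] [Finite G]
    {p : ℕ} (hp : p.Prime) (K : Set (Subgroup G)) (hK : ∀ X ∈ K, Nat.card ↥X = p)
    (hKc : ∀ X ∈ K, ∀ g : G, X.map (MulAut.conj g).toMonoidHom ∈ K)
    (hex : ∃ X ∈ K, ∃ Y ∈ K, X ≠ Y ∧ ∀ x ∈ X, ∀ y ∈ Y, x * y = y * x)
    (ha : ∀ X ∈ K, ∀ Y ∈ K, X ≠ Y → (∀ x ∈ X, ∀ y ∈ Y, x * y = y * x) →
      ∀ Z : Subgroup G, Z ≤ X ⊔ Y → Nat.card ↥Z = p → Z ∈ K)
    (hb : ∀ X ∈ K, ∀ Y ∈ K, X ≠ Y → (∀ x ∈ X, ∀ y ∈ Y, x * y = y * x) →
      ∀ W ∈ K, (X ⊔ Y) ⊓ Subgroup.centralizer (W : Set G) ≠ ⊥) :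
    (∃ V ∈ K, (∀ W ∈ K, ∀ v ∈ V, ∀ w ∈ W, v * w = w * v) ∧ V ≤ Cfsg.pCore p G) ∧ ¬ IsSimpleGroup G := by
  haveI : Fact p.Prime := ⟨hp⟩
  have gen : ∀ X ∈ K, ∃ x : G, X = zpowers x := by
    intro X hX
    haveI := isCyclic_of_prime_card (hK X hX)
    obtain ⟨x, hx⟩ := (Subgroup.isCyclic_iff_exists_zpowers_eq_top X).mp inferInstance
    exact ⟨x, hx.symm⟩
  have hord : ∀ x : G, zpowers x ∈ K → orderOf x = p := fun x hx => by
    rw [← Nat.card_zpowers, hK _ hx]
  have hcomm : ∀ x y : G, Commute x y → ∀ a ∈ zpowers x, ∀ b ∈ zpowers y, a * b = b * a :=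
    fun x y h a ha b hb => (commute_of_mem_zpowers ha (commute_of_mem_zpowers hb h.symm).symm).eq
  have hne : ∀ x y : G, y ∉ zpowers x → zpowers x ≠ zpowers y := fun x y h h' =>
    h (h' ▸ mem_zpowers y)
  obtain ⟨X, hX, Y, hY, hXY, hXYc⟩ := hex
  have hV : ∃ V ∈ K, ∀ W ∈ K, ∀ v ∈ V, ∀ w ∈ W, v * w = w * v := by
    by_contra hcon
    push Not at hcon
    obtain ⟨x, rfl⟩ := gen X hX
    obtain ⟨y, rfl⟩ := gen Y hY
    refine polar hp {x | zpowers x ∈ K} hord ?_ ?_ ?_ hX hY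
      (hXYc _ (mem_zpowers x) _ (mem_zpowers y)) ?_ ?_
    · intro x hx g
      have := hKc _ hx g
      rwa [MonoidHom.map_zpowers] at this
    · intro x hx y hy hxy hn i j h1
      refine ha _ hx _ hy (hne _ _ hn) (hcomm _ _ hxy) _ (zpowers_le.mpr (mul_mem_sup
        (zpow_mem (mem_zpowers x) i) (zpow_mem (mem_zpowers y) j))) ?_
      rw [Nat.card_zpowers]
      apply orderOf_eq_prime _ h1
      rw [(hxy.zpow_zpow i j).mul_pow, ← zpow_natCast, ← zpow_natCast, ← zpow_mul, ← zpow_mul,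
        mul_comm i, mul_comm j, zpow_mul, zpow_mul, zpow_natCast, zpow_natCast]
      nth_rewrite 1 [← hord x hx]
      rw [← hord y hy]
      simp
    · intro x hx y hy hxy hn w hw
      obtain ⟨⟨z, hz⟩, hz1⟩ := ne_bot_iff_exists_ne_one.mp
        (hb _ hx _ hy (hne _ _ hn) (hcomm _ _ hxy) _ hw)
      obtain ⟨hz2, hz3⟩ := mem_inf.mp hz
      obtain ⟨a, ha', b, hb', rfl⟩ := (mem_sup_of_le_normalizer (by
        intro a ha'
        apply centralizer_le_normalizer
        intro b hb'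
        exact (hcomm _ _ hxy a ha' b hb').symm)).mp hz2
      obtain ⟨i, rfl⟩ := mem_zpowers_iff.mp ha'
      obtain ⟨j, rfl⟩ := mem_zpowers_iff.mp hb'
      exact ⟨i, j, fun h => hz1 (Subtype.ext h), (hz3 w (mem_zpowers w)).symm⟩
    · intro h
      apply hXY
      have h1 : y ≠ 1 := by
        intro h'
        have := hord y hY
        rw [h', orderOf_one] at this
        exact hp.ne_one this.symm
      exact le_antisymm (zpowers_le.mpr (mem_zpowers_of_prime hp (hord x hX) h h1))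
        (zpowers_le.mpr h)
    · intro v hv
      obtain ⟨W, hW, a, ha', b, hb', hab⟩ := hcon _ hv
      obtain ⟨w, rfl⟩ := gen W hW
      exact ⟨w, hW, fun h => hab (hcomm _ _ h a ha' b hb')⟩
  obtain ⟨V, hVK, hV⟩ := hV
  have hpK : ∀ X ∈ K, IsPGroup p X := fun X hX =>
    IsPGroup.of_card (n := 1) (by rw [hK X hX, pow_one])
  have hle : V ≤ Cfsg.pCore p G := by
    apply Cfsg.Agent.H4.le_pCore_of_forall_isPGroup_sup
    intro g
    apply IsPGroup.to_sup_of_normal_right' (hpK _ hVK) (hpK _ (hKc _ hVK g))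
    intro a ha'
    apply centralizer_le_normalizer
    intro b hb'
    exact (hV _ (hKc _ hVK g) a ha' b hb').symm
  refine ⟨⟨V, hVK, hV, hle⟩, fun hs => ?_⟩
  have hnb : ∀ X ∈ K, X ≠ ⊥ := by
    intro X hX h
    have := hK X hX
    rw [h, card_bot] at this
    exact hp.ne_one this.symm
  have htop : Cfsg.pCore p G = ⊤ := by
    rcases (inferInstance : (Cfsg.pCore p G).Normal).eq_bot_or_eq_top with h | h
    · exact absurd (le_bot_iff.mp (h ▸ hle)) (hnb V hVK)
    · exact h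
  have hG : IsPGroup p G := by
    have := Cfsg.Agent.H4.isPGroup_pCore p G
    rw [htop] at this
    exact this.of_equiv topEquiv
  have hcen : center G = ⊤ := by
    rcases (inferInstance : (center G).Normal).eq_bot_or_eq_top with h | h
    · exact absurd h hG.bot_lt_center.ne'
    · exact h
  have hall : ∀ X ∈ K, X = ⊤ := by
    intro X hX
    have : X.Normal := ⟨fun a ha g => by
      have : a ∈ center G := hcen ▸ mem_top a
      rwa [mem_center_iff.mp this g, mul_inv_cancel_right]⟩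
    exact this.eq_bot_or_eq_top.resolve_left (hnb X hX)
  exact hXY ((hall X hX).trans (hall Y hY).symm)

end Cfsg.Agent.S3196
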