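import Cfsg.Statements.S3197
import Cfsg.Agent.WA.GMain
import Cfsg.Agent.WA.GM3a
import Cfsg.Agent.H5.A5Facts
import Cfsg.Agent.H5.AutRank
import Cfsg.Agent.H4.Quadratic

set_option autoImplicit false
open Cfsg

namespace Cfsg.Agent.S3197

section
open Subgroup Cfsg.Agent.FT Cfsg.Agent.L0 Cfsg.Agent.H8 Cfsg.Agent.WA.GS
open Cfsg.Agent.H7 (opp)
open Cfsg.Agent.H2.SC (omZ)

local instance f2 : Fact (Nat.Prime 2) := Nat.fact_prime_two
local instance f5 : Fact (Nat.Prime 5) := ⟨Nat.prime_five⟩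

abbrev A5 := alternatingGroup (Fin 5)
abbrev A8 := alternatingGroup (Fin 8)

theorem a5_five : ∀ x : A5, x * x = 1 → x ≠ 1 → ∀ y : A5, y * y = 1 → y ≠ 1 →
    ∃ g : A5, x * (g * y * g⁻¹) ≠ 1 ∧ (x * (g * y * g⁻¹)) ^ 5 = 1 := by decide +kernel

theorem a5_ex : ∃ x : A5, x ≠ 1 ∧ x ^ 5 = 1 := by decide +kernel

def qi : A8 := ⟨c[0, 1, 2, 3] * c[4, 5, 6, 7], Equiv.Perm.mem_alternatingGroup.mpr (by decide +kernel)⟩
def qj : A8 := ⟨c[0, 4, 2, 6] * c[1, 7, 3, 5], Equiv.Perm.mem_alternatingGroup.mpr (by decide +kernel)⟩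

theorem q_pg : IsPGroup 2 (zpowers qi ⊔ zpowers qj : Subgroup A8) :=
  (H9.isPGroup_zpowers ⟨2, by decide +kernel⟩).to_sup_of_normal_left' (H9.isPGroup_zpowers ⟨2, by decide +kernel⟩)
    (zpowers_le.mpr (mem_normalizer_of_cj_le (cj_le_iff.mpr (zpowers_le.mpr (mem_cj.mpr (by
      rw [show qj⁻¹⁻¹ * qi * qj⁻¹ = qi⁻¹ by decide +kernel]; exact inv_mem (mem_zpowers _)))))))

def pi8 : Fin 8 → Fin 8 := ![1, 2, 3, 0, 5, 6, 7, 4]
def pj8 : Fin 8 → Fin 8 := ![4, 7, 6, 5, 2, 1, 0, 3]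

theorem q_val : (∀ x, qi.1 x = pi8 x) ∧ ∀ x, qj.1 x = pj8 x := by decide +kernel

theorem q_aux (f : Fin 8 → Fin 8) (e1 : ∀ x, f (pi8 x) = pi8 (f x)) (e2 : ∀ x, f (pj8 x) = pj8 (f x))
    (h : f (f 0) = 0) : (∀ x, f x = x) ∨ ∀ x, f x = pi8 (pi8 x) := by
  have : f = ![f 0, pi8 (f 0), pi8 (pi8 (f 0)), pi8 (pi8 (pi8 (f 0))), pj8 (f 0), pi8 (pj8 (f 0)),
      pi8 (pi8 (pj8 (f 0))), pi8 (pi8 (pi8 (pj8 (f 0))))] := by
    simp only [← e1, ← e2]
    funext x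
    fin_cases x <;> rfl
  rw [this] at h ⊢
  generalize f 0 = k at h ⊢
  revert k
  decide +kernel

theorem q_cent {s : A8} (h1 : qi * s = s * qi) (h2 : qj * s = s * qj) (h : s * s = 1) : s = 1 ∨ s = qi * qi :=
  (q_aux s.1 (fun x => by rw [← q_val.1, ← q_val.1]; exact (congrArg (fun g : A8 => g.1 x) h1).symm)
    (fun x => by rw [← q_val.2, ← q_val.2]; exact (congrArg (fun g : A8 => g.1 x) h2).symm)
    (congrArg (fun g : A8 => g.1 0) h)).imp (fun e => Subtype.ext (Equiv.ext e))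
      fun e => Subtype.ext (Equiv.ext fun x => by rw [e, ← q_val.1, ← q_val.1, Subgroup.coe_mul, Equiv.Perm.mul_apply])

/-- at most one central involution -/
def U1 (X : Type*) [Group X] : Prop :=
  ∀ z w : X, z * z = 1 → w * w = 1 → z ≠ 1 → w ≠ 1 → (∀ x, x * z = z * x) → (∀ x, x * w = w * x) → z = w

theorem U1.of_equiv {X Y : Type*} [Group X] [Group Y] (h : U1 Y) (e : X ≃* Y) : U1 X :=
  fun z w z2 w2 z1 w1 hz hw => e.injective (h _ _ (by rw [← map_mul, z2, map_one]) (by rw [← map_mul, w2, map_one])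
    (by simpa using z1) (by simpa using w1)
    (fun y => by obtain ⟨x, rfl⟩ := e.surjective y; rw [← map_mul, hz, map_mul])
    fun y => by obtain ⟨x, rfl⟩ := e.surjective y; rw [← map_mul, hw, map_mul])

theorem a8_u1 (P : Sylow 2 A8) : U1 P := by
  obtain ⟨Q, hQ⟩ := q_pg.exists_le_sylow
  refine U1.of_equiv (fun z w z2 w2 z1 w1 hz hw => ?_) (P.equiv Q)
  have k : ∀ z : Q, z * z = 1 → z ≠ 1 → (∀ x, x * z = z * x) → z.1 = qi * qi := fun z z2 z1 hz =>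
    (q_cent (congrArg Subtype.val (hz ⟨qi, hQ (mem_sup_left (mem_zpowers _))⟩))
      (congrArg Subtype.val (hz ⟨qj, hQ (mem_sup_right (mem_zpowers _))⟩)) (congrArg Subtype.val z2)).resolve_left
        fun e => z1 (Subtype.ext e)
  exact Subtype.ext ((k z z2 z1 hz).trans (k w w2 w1 hw).symm)

theorem a8_card (P : Sylow 2 A8) : Nat.card P = 64 := by
  have h := two_mul_nat_card_alternatingGroup (α := Fin 8)
  rw [Nat.card_perm, Nat.card_fin] at h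
  rw [show Nat.factorial 8 = 40320 by decide] at h
  rw [P.card_eq_multiplicity, show Nat.card A8 = 2 ^ 6 * 315 from Nat.eq_of_mul_eq_mul_left two_pos h, Nat.factorization_mul (by norm_num) (by norm_num),
    Finsupp.add_apply, Nat.Prime.factorization_pow Nat.prime_two, Finsupp.single_eq_same,
    Nat.factorization_eq_zero_of_not_dvd (by norm_num)]
  rfl

variable {G : Type*} [Group G] [Finite G] {A T : Subgroup G} {φ : 𝐍(A) →* A5} {a b t : G}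

theorem dvd_ncard {p : ℕ} [Fact p.Prime] {P : Subgroup G} (hP : IsPGroup p P) {S : Set G}
    (h : ∀ g ∈ P, ∀ x ∈ S, g * x * g⁻¹ ∈ S) (h0 : ∀ x ∈ S, ¬ P ≤ 𝐂[x]) : p ∣ S.ncard := by
  letI : MulAction P G := MulAction.compHom G (MulAut.conj.comp P.subtype)
  have h1 := H9.card_modEq_card_fixed hP S fun g x hx => h g g.2 x hx
  have : IsEmpty {x // x ∈ S ∧ ∀ g : P, g • x = x} := ⟨fun x => h0 x x.2.1 fun g hg =>
    mem_centralizer_singleton_iff.mpr (mul_inv_eq_iff_eq_mul.mp (x.2.2 ⟨g, hg⟩))⟩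
  rwa [Nat.card_of_isEmpty (α := {x // x ∈ S ∧ _}), Nat.modEq_zero_iff_dvd] at h1

structure Cx (A : Subgroup G) (φ : 𝐍(A) →* A5) : Prop where
  sq : ∀ a ∈ A, a * a = 1
  card : #|A| = 16
  surj : Function.Surjective φ
  ker : ∀ n, φ n = 1 ↔ (n : G) ∈ A ⊔ opp 2 𝐍(A)
  syl : ∀ T : Subgroup G, IsSylowIn 2 T ⊤ → #|T| = 64 ∧ U1 T
  cls : ∀ u v : G, ¬ ∀ x : G, x * x = 1 → x ≠ 1 → IsConj u x ∨ IsConj v x

namespace Cx
variable (h : Cx A φ)
include h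

theorem pg : IsPGroup 2 A := IsPGroup.of_card (n := 4) h.card

theorem cA : A ≤ 𝐂(A) := fun _ ha => mem_centralizer_iff.mpr fun _ hb => comm_of_sq h.sq hb ha

theorem cO : opp 2 𝐍(A) ≤ 𝐂(A) := (le_inf le_rfl (H7.opp_le _)).trans
  (G0.odd_norm_cent h.pg (H7.not_dvd_card_opp _) (le_normalizer.trans (H7.le_normalizer_opp _)))

theorem pow_mem {x : G} (hx : x ∈ A ⊔ opp 2 𝐍(A)) : ∃ m, Odd m ∧ x ^ m ∈ A := by
  obtain ⟨a, ha, o, ho, rfl⟩ := (mem_sup_of_le_normalizer (H7.opp_le _)).mp hx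
  refine ⟨#|opp 2 𝐍(A)|, odd_iff_not_dvd.mpr (H7.not_dvd_card_opp _), ?_⟩
  rw [Commute.mul_pow (mem_centralizer_iff.mp (h.cO ho) a ha),
    show o ^ #|opp 2 𝐍(A)| = 1 from congrArg Subtype.val (pow_card_eq_one' (x := (⟨o, ho⟩ : opp 2 𝐍(A)))), mul_one]
  exact A.pow_mem ha _

theorem syl_N : ∃ T, IsSylowIn 2 T ⊤ ∧ A ≤ T ∧ T ≤ 𝐍(A) := by
  obtain ⟨T, hT, h1⟩ := exists_isSylowIn_ge h.pg le_normalizer
  obtain ⟨S, hS⟩ := exists_isSylowIn 2 (⊤ : Subgroup G)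
  refine ⟨T, hS.of_card_ge hT.pgroup le_top ?_, h1, hT.le⟩
  have h2 : #|A.subgroupOf 𝐍(A)| ∣ #|φ.ker| := card_dvd_of_le fun x hx => (h.ker x).mpr (mem_sup_left hx)
  have h3 := φ.ker.card_mul_index
  rw [index_ker, MonoidHom.range_eq_top.mpr h.surj, card_top, H5.a5_card] at h3
  rw [Nat.card_congr (subgroupOfEquivOfLe le_normalizer).toEquiv, h.card] at h2
  rw [(h.syl S hS).1, hT.card_eq]
  exact Nat.pow_le_pow_right two_pos ((Nat.prime_two.pow_dvd_iff_le_factorization Nat.card_pos.ne').mp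
    (show 2 ^ 6 ∣ _ by omega))

theorem uniq (hT : IsSylowIn 2 T ⊤) (hA : A ≤ T) (ha : a ∈ A) (hb : b ∈ A) (a1 : a ≠ 1) (b1 : b ≠ 1)
    (h1 : T ≤ 𝐂[a]) (h2 : T ≤ 𝐂[b]) : a = b :=
  congrArg Subtype.val ((h.syl T hT).2 ⟨a, hA ha⟩ ⟨b, hA hb⟩ (Subtype.ext (h.sq a ha)) (Subtype.ext (h.sq b hb))
    (fun e => a1 (congrArg Subtype.val e)) (fun e => b1 (congrArg Subtype.val e))
    (fun x => Subtype.ext (mem_centralizer_singleton_iff.mp (h1 x.2)))
    fun x => Subtype.ext (mem_centralizer_singleton_iff.mp (h2 x.2)))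

theorem exists_ne (x : G) : ∃ y ∈ A, y ≠ 1 ∧ y ≠ x := by
  by_contra e
  push Not at e
  have h1 : (A : Set G) ⊆ {1, x} := fun y hy => (em (y = 1)).imp id (e y hy)
  have h2 := (Set.ncard_le_ncard h1).trans (Set.ncard_insert_le 1 {x})
  have h3 := h.card
  rw [Set.ncard_singleton] at h2
  rw [← SetLike.coe_sort_coe, Nat.card_coe_set_eq] at h3
  omega

theorem of_cent {n : 𝐍(A)} (hn : (n : G) ∈ 𝐂(A)) : φ n = 1 := by
  have : (𝐂(A).subgroupOf 𝐍(A)).Normal :=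
    normal_subgroupOf_of_le_normalizer (H8.normalizer_le_normalizer_centralizer _)
  rcases (this.map φ h.surj).eq_bot_or_eq_top with e | e
  · exact mem_bot.mp (e ▸ mem_map_of_mem φ hn)
  obtain ⟨T, hT, h1, h2⟩ := h.syl_N
  obtain ⟨a, ha, a1, -⟩ := h.exists_ne 1
  obtain ⟨b, hb, b1, ab⟩ := h.exists_ne a
  have h3 : T ≤ 𝐂(A) := fun x hx => by
    obtain ⟨c, hc, e'⟩ : φ ⟨x, h2 hx⟩ ∈ (𝐂(A).subgroupOf 𝐍(A)).map φ := e ▸ mem_top _
    exact (mul_mem_cancel_left (inv_mem hc)).mp (sup_le h.cA h.cO ((h.ker (c⁻¹ * ⟨x, h2 hx⟩)).mp (by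
      rw [map_mul, map_inv, e', inv_mul_cancel])))
  exact (ab (h.uniq hT h1 hb ha b1 a1 (h3.trans (centralizer_le (by simpa))) (h3.trans (centralizer_le (by simpa))))).elim

theorem five {d : 𝐍(A)} (h1 : φ d ≠ 1) (h5 : φ d ^ 5 = 1) :
    ∃ m, IsPGroup 5 (zpowers ((d : G) ^ m)) ∧ ∀ a ∈ A, (d : G) ^ m ∈ 𝐂[a] → a = 1 := by
  obtain ⟨k, m, hm, e⟩ := Nat.exists_eq_pow_mul_and_not_dvd (orderOf_pos (d : G)).ne' 5 (by norm_num)
  have h2 : IsPGroup 5 (zpowers ((d : G) ^ m)) :=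
    H9.isPGroup_zpowers ⟨k, by rw [← pow_mul, mul_comm, ← e, pow_orderOf_eq_one]⟩
  refine ⟨m, h2, fun a ha hc => ?_⟩
  have h3 := H5.card_modEq_card_inf_centralizer h2 (zpowers_le.mpr (Subgroup.pow_mem _ d.2 m))
  obtain ⟨j, hj, e'⟩ := (Nat.dvd_prime_pow Nat.prime_two).mp (show _ ∣ 2 ^ 4 from h.card ▸ card_dvd_of_le
    (inf_le_left : A ⊓ 𝐂(zpowers ((d : G) ^ m)) ≤ A))
  rw [h.card, e'] at h3
  have h4 : j ≠ 4 := fun e4 => hm (by
    have := (eq_of_le_of_card (inf_le_left : A ⊓ 𝐂(zpowers ((d : G) ^ m)) ≤ A)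
      (by rw [e', e4, h.card]; rfl)).ge.trans inf_le_right
    have := h.of_cent (n := d ^ m) (le_centralizer_iff.mp this (mem_zpowers _))
    rwa [map_pow, ← orderOf_dvd_iff_pow_eq_one, orderOf_eq_prime h5 h1] at this)
  have h6 : j = 0 := by interval_cases j <;> simp_all [Nat.ModEq]
  rw [h6, pow_zero, card_eq_one] at e'
  refine mem_bot.mp (e' ▸ mem_inf.mpr ⟨ha, ?_⟩)
  rw [H8.centralizer_zpowers]
  exact mem_centralizer_singleton_iff.mpr (mem_centralizer_singleton_iff.mp hc).symm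

theorem odd {d : 𝐍(A)} (h1 : φ d ≠ 1) (h5 : φ d ^ 5 = 1) : Odd (orderOf (d : G)) := by
  obtain ⟨m, -, h2⟩ := h.five h1 h5
  obtain ⟨k, hk, h3⟩ := h.pow_mem ((h.ker (d ^ 5)).mp (by rwa [map_pow]))
  rw [SubgroupClass.coe_pow, ← pow_mul] at h3
  exact Odd.of_dvd_nat (Odd.mul (by decide) hk) (orderOf_dvd_of_pow_eq_one (h2 _ h3
    (mem_centralizer_singleton_iff.mpr (Commute.pow_pow_self _ _ _))))

theorem out {s : G} (hs : s ∈ 𝐍(A)) (ht : t ∈ 𝐍(A)) (s2 : s * s = 1) (t2 : t * t = 1) (s1 : s ∉ A) (t1 : t ∉ A) :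
    IsConj t s := by
  have k : ∀ x (hx : x ∈ 𝐍(A)), x * x = 1 → x ∉ A → φ ⟨x, hx⟩ ≠ 1 ∧ φ ⟨x, hx⟩ * φ ⟨x, hx⟩ = 1 := fun x hx x2 x1 =>
    ⟨fun e => by
      obtain ⟨_, ⟨m, rfl⟩, h1⟩ := h.pow_mem ((h.ker _).mp e)
      rw [pow_succ, pow_mul, pow_two, x2, one_pow, one_mul] at h1
      exact x1 h1, by rw [← map_mul, ← φ.map_one]; exact congrArg φ (Subtype.ext x2)⟩
  obtain ⟨g, h1, h2⟩ := a5_five _ (k s hs s2 s1).2 (k s hs s2 s1).1 _ (k t ht t2 t1).2 (k t ht t2 t1).1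
  obtain ⟨g, rfl⟩ := h.surj g
  rw [← map_inv, ← map_mul, ← map_mul, ← map_mul] at h1 h2
  exact (isConj_iff.mpr ⟨(g : G), rfl⟩).trans (H4.isConj_of_odd_orderOf_mul s2 (G0.sq_conj t2 g) (h.odd h1 h2)).symm

theorem two : ∃ z ∈ A, ∀ a ∈ A, ∀ b ∈ A, a ≠ 1 → b ≠ 1 → ¬ IsConj z a → ¬ IsConj z b → IsConj a b := by
  obtain ⟨T, hT, h1, h2⟩ := h.syl_N
  obtain ⟨a₀, ha₀, a₁, -⟩ := h.exists_ne 1
  obtain ⟨z, hz, z1⟩ := exists_mem_ne_one (H4.inf_centralizer_ne_bot_of_isPGroup h.pg hT.pgroup h2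
    fun e => a₁ (mem_bot.mp (e ▸ ha₀)))
  obtain ⟨x, x1, x5⟩ := a5_ex
  obtain ⟨d, rfl⟩ := h.surj x
  obtain ⟨m, h3, h4⟩ := h.five x1 x5
  have k : ∀ a ∈ A, a ≠ 1 → ¬ IsConj z a → 10 ≤ {x | x ∈ A ∧ IsConj a x}.ncard := fun a ha a1 za => by
    have i : ∀ g ∈ 𝐍(A), ∀ x ∈ {x | x ∈ A ∧ IsConj a x}, g * x * g⁻¹ ∈ {x | x ∈ A ∧ IsConj a x} := fun g hg x hx =>
      ⟨conj_mem_of_le_normalizer le_rfl hg hx.1, hx.2.trans (isConj_iff.mpr ⟨g, rfl⟩)⟩
    have n : ∀ x ∈ {x | x ∈ A ∧ IsConj a x}, x ≠ 1 := fun x hx e => a1 (isConj_one_left.mp (e ▸ hx.2))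
    have d2 := dvd_ncard hT.pgroup (fun g hg => i g (h2 hg)) fun x hx e => za (h.uniq hT h1 hx.1 hz.1 (n x hx) z1 e
      (le_centralizer_singleton_iff.mpr hz.2) ▸ hx.2.symm)
    have d5 := dvd_ncard h3 (fun g hg => i g (zpowers_le.mpr (Subgroup.pow_mem _ d.2 m) hg)) fun x hx e =>
      n x hx (h4 x hx.1 (e (mem_zpowers _)))
    have := (Set.ncard_pos (s := {x | x ∈ A ∧ IsConj a x})).mpr ⟨a, ha, IsConj.refl a⟩
    omega
  refine ⟨z, hz.1, fun a ha b hb a1 b1 za zb => by_contra fun e => ?_⟩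
  have h5 := Set.ncard_union_eq (s := {x | x ∈ A ∧ IsConj a x}) (t := {x | x ∈ A ∧ IsConj b x})
    (Set.disjoint_left.mpr fun x h1 h2 => e (h1.2.trans h2.2.symm))
  have h6 := Set.ncard_le_ncard (Set.union_subset (fun x hx => hx.1) (fun x hx => hx.1) :
    {x | x ∈ A ∧ IsConj a x} ∪ {x | x ∈ A ∧ IsConj b x} ⊆ A)
  have h7 := h.card
  rw [← SetLike.coe_sort_coe, Nat.card_coe_set_eq] at h7
  have := k a ha a1 za
  have := k b hb b1 zb
  omega

theorem cover {u v : G} (hA : ∀ a ∈ A, a ≠ 1 → IsConj u a ∨ IsConj v a)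
    (hN : ∀ s ∈ 𝐍(A), s * s = 1 → s ∉ A → IsConj u s ∨ IsConj v s) : False := h.cls u v fun x x2 x1 => by
  obtain ⟨T, hT, -, h2⟩ := h.syl_N
  obtain ⟨g, hg⟩ := Clos.exists_cj_le hT (pg_zp x2)
  have h3 := h2 (hg (conj_mem_cj g (mem_zpowers x)))
  have c : IsConj (g * x * g⁻¹) x := (isConj_iff.mpr ⟨g, rfl⟩).symm
  refine Or.imp (fun e : IsConj u _ => e.trans c) (fun e : IsConj v _ => e.trans c) ?_
  by_cases e : g * x * g⁻¹ ∈ A
  · exact hA _ e (conj_ne_one x1)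
  · exact hN _ h3 (G0.sq_conj x2 g) e

theorem not_trans (hA : ∀ a ∈ A, ∀ b ∈ A, a ≠ 1 → b ≠ 1 → IsConj a b) : False := by
  obtain ⟨a, ha, a1, -⟩ := h.exists_ne 1
  by_cases e : ∃ t ∈ 𝐍(A), t * t = 1 ∧ t ∉ A
  · obtain ⟨t, ht, t2, t1⟩ := e
    exact h.cover (fun b hb b1 => Or.inl (hA a ha b hb a1 b1)) fun s hs s2 s1 => Or.inr (h.out hs ht s2 t2 s1 t1)
  · exact h.cover (v := a) (fun b hb b1 => Or.inl (hA a ha b hb a1 b1)) fun s hs s2 s1 => (e ⟨s, hs, s2, s1⟩).elim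

theorem sc : SC A ⊤ := ⟨le_top, h.sq, fun a ha g _ hg => by_contra fun e => by
  obtain ⟨z, hz, h1⟩ := h.two
  have a1 : a ≠ 1 := fun e' => e (by rw [e', mul_one, mul_inv_cancel]; exact one_mem _)
  have o : ∀ s ∈ 𝐍(A), s * s = 1 → s ∉ A → IsConj a s := fun s hs s2 s1 =>
    (isConj_iff.mpr ⟨g, rfl⟩).trans (h.out hs hg s2 (G0.sq_conj (h.sq a ha) g) s1 e)
  by_cases za : IsConj z a
  · by_cases e' : ∃ b ∈ A, b ≠ 1 ∧ ¬ IsConj z b
    · obtain ⟨b, hb, b1, zb⟩ := e'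
      exact h.cover (fun c hc c1 => (em _).imp_right (h1 b hb c hc b1 c1 zb)) fun s hs s2 s1 =>
        Or.inl (za.trans (o s hs s2 s1))
    · push Not at e'
      exact h.not_trans fun b hb c hc b1 c1 => (e' b hb b1).symm.trans (e' c hc c1)
  · exact h.cover (fun c hc c1 => (em _).imp_right (h1 a ha c hc a1 c1 za)) fun s hs s2 s1 => Or.inr (o s hs s2 s1)⟩

theorem no_comp (K : Subgroup G) : ¬ AC A K ⊤ := fun hK => by
  have kc : ∀ {J}, AC A J ⊤ → KC A J := fun hJ => hJ.kc (ih_all _) (Nat.lt_succ_self _) h.sc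
  obtain ⟨c, -, s⟩ := (kc hK).sing
  have cB : ∀ {J}, AC A J ⊤ → #|BB A J| ≤ 4 := fun hJ => by
    obtain ⟨_, -, s⟩ := (kc hJ).sing
    have := s.four
    have := h.card
    omega
  by_cases e : BB A K = ⊥
  · refine h.not_trans fun a ha b hb a1 b1 => ?_
    obtain ⟨i, hi⟩ := s.trans a ha (by rwa [e, mem_bot]) b hb (by rwa [e, mem_bot])
    rw [e, mem_bot, mul_inv_eq_one] at hi
    exact isConj_iff.mpr ⟨_, hi⟩
  obtain ⟨x, x1, x5⟩ := a5_ex
  obtain ⟨d, rfl⟩ := h.surj x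
  obtain ⟨m, h3, h4⟩ := h.five x1 x5
  have o : Odd (orderOf ((d : G) ^ m)) := Odd.of_dvd_nat (h.odd x1 x5) (orderOf_pow_dvd _)
  have n := Subgroup.pow_mem _ d.2 m
  have k1 : AC A (cj ((d : G) ^ m) K) ⊤ := by simpa only [cj_top] using hK.cj' n
  have k2 : AC A (cj ((d : G) ^ m) (cj ((d : G) ^ m) K)) ⊤ := by simpa only [cj_top] using k1.cj' n
  have n1 : cj ((d : G) ^ m) K ≠ K := fun e' => by
    have h5 := H5.card_modEq_card_inf_centralizer h3 (zpowers_le.mpr (cj_eq_self_iff.mp ((cj_BB n K).trans (by rw [e']))))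
    rw [show BB A K ⊓ 𝐂(zpowers ((d : G) ^ m)) = ⊥ from eq_bot_iff.mpr fun y hy => h4 y hy.1.1
      (mem_centralizer_singleton_iff.mpr (mem_centralizer_iff.mp hy.2 _ (mem_zpowers _))), card_bot, Nat.ModEq] at h5
    have := cB hK
    have := (one_lt_card_iff_ne_bot _).mpr e
    omega
  have a1 := eq_of_le_of_card (AC.aa_le_of_ne h.sc k1 hK n1) ((cB hK).trans (kc k1).four)
  have a2 := eq_of_le_of_card (AC.aa_le_of_ne h.sc k2 hK fun e' => n1 (odd_fix o e')) ((cB hK).trans (kc k2).four)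
  exact (kc k2).not_le (a2.le.trans (a1.ge.trans (AC.aa_le_of_ne h.sc k1 k2 fun e' => n1 (cj_injective _ e').symm)))

theorem normal : (A ⊔ oddCore G).Normal := by
  have := (h.sc.struct (ih_all _) (Nat.lt_succ_self _)).1
  rwa [top_le_iff, normalizer_eq_top_iff, Set.eq_empty_of_forall_notMem (s := {K | AC A K ⊤}) h.no_comp, sSup_empty,
    sup_bot_eq, H7.opp_top, sup_comm] at this

end Cx
end

open Subgroup Cfsg.Agent.H8 in
/-- Let G be a finite group whose Sylow 2-subgroups are isomorphic to those of the alternating group of degree 8, with exactly three conjugacy classes of involutions, and containing an elementary abelian subgroup A of order 16 whose normalizer N satisfies: A·O(N) is normal in N with quotient N/(A·O(N)) isomorphic to the alternating group of degree 5, O(N) being the largest normal subgroup of odd order of N. Then A·O(G) is a normal subgroup of G. -/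
theorem result {G : Type*} [Group G] [Finite G]
    (S : Sylow 2 G) (P : Sylow 2 ↥(alternatingGroup (Fin 8)))
    (hS : Nonempty (↥(S : Subgroup G) ≃* ↥(P : Subgroup ↥(alternatingGroup (Fin 8)))))
    (h3 : Nat.card {c : ConjClasses G // ∃ x ∈ c.carrier, orderOf x = 2} = 3)
    (A : Subgroup G) (hA : Cfsg.IsElementaryAbelian 2 A) (hA16 : Nat.card ↥A = 16)
    (N : Subgroup G) (hN : N = Subgroup.normalizer (A : Set G))
    (hNA : ∃ (_ : (A.subgroupOf N ⊔ Cfsg.oddCore ↥N).Normal),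
      Nonempty (↥N ⧸ (A.subgroupOf N ⊔ Cfsg.oddCore ↥N) ≃* ↥(alternatingGroup (Fin 5)))) :
    (A ⊔ Cfsg.oddCore G).Normal := by
  subst hN
  obtain ⟨_, ⟨e⟩⟩ := hNA
  obtain ⟨f⟩ := hS
  refine Cx.normal (φ := e.toMonoidHom.comp (QuotientGroup.mk' _)) ⟨fun a ha => by rw [← pow_two]; exact elemAb_pow hA ha, hA16,
    e.surjective.comp (QuotientGroup.mk'_surjective _), fun n => ?_, fun T hT => ?_, fun u v hc => ?_⟩
  · rw [MonoidHom.comp_apply, MulEquiv.coe_toMonoidHom, map_eq_one_iff _ e.injective, QuotientGroup.mk'_apply,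
      QuotientGroup.eq_one_iff, ← mem_map_iff_mem (subtype_injective _), Subgroup.map_sup,
      subgroupOf_map_subtype, inf_eq_left.mpr le_normalizer]
    rfl
  · obtain ⟨T, rfl⟩ := hT.exists_sylow_top
    have e' := (T.equiv S).trans f
    exact ⟨(Nat.card_congr e'.toEquiv).trans (a8_card P), (a8_u1 P).of_equiv e'⟩
  · have h1 : {c : ConjClasses G | ∃ x ∈ c.carrier, orderOf x = 2} ⊆ {ConjClasses.mk u, ConjClasses.mk v} := by
      rintro c ⟨x, hx, x2⟩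
      rw [← ConjClasses.mem_carrier_iff_mk_eq.mp hx]
      exact (hc x (H4.mul_self_of_orderOf_two x2) fun e => by rw [e, orderOf_one] at x2; omega).imp
        (fun e => ConjClasses.mk_eq_mk_iff_isConj.mpr e.symm) fun e => ConjClasses.mk_eq_mk_iff_isConj.mpr e.symm
    have h2 := (Set.ncard_le_ncard h1).trans (Set.ncard_insert_le _ _)
    rw [Set.ncard_singleton, ← Nat.card_coe_set_eq] at h2
    exact absurd (h3.symm.le.trans h2) (by decide)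

end Cfsg.Agent.S3197
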