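import Cfsg.Statements.S3198
import Cfsg.Agent.H2.L4g

set_option autoImplicit false
open Cfsg

namespace Cfsg.Agent.S3198

/-- If G is a finite group whose Sylow 2-subgroups are isomorphic to those of PSL(3, 4), then G modulo its largest normal subgroup of odd order is isomorphic to a subgroup of PGL(3, 4) (the general linear group of dimension 3 over the field with 4 elements modulo its centre). -/
theorem result {G : Type*} [Group G] [Finite G]
    {F : Type*} [Field F] [Fintype F] (hF : Fintype.card F = 4) (S : Sylow 2 G)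
    (P : Sylow 2 (Matrix.ProjectiveSpecialLinearGroup (Fin 3) F))
    (hS : Nonempty (↥(S : Subgroup G) ≃* ↥(P : Subgroup (Matrix.ProjectiveSpecialLinearGroup (Fin 3) F)))) :
    ∃ f : G ⧸ Cfsg.oddCore G →* GL (Fin 3) F ⧸ Subgroup.center (GL (Fin 3) F), Function.Injective f := by
  obtain ⟨e1⟩ := hS
  obtain ⟨e2⟩ := H2.L4.Hs.sylow hF P
  let e := (e2.trans e1.symm).toMonoidHom
  have h1 : Function.Injective ((QuotientGroup.mk' (Cfsg.oddCore G)).comp (S : Subgroup G).subtype) :=
    (injective_iff_map_eq_one _).mpr fun x hx => Subtype.ext (WA.Te.eq_one_of_two_odd S.isPGroup' x.2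
      ((H8.Dich.odd_iff.mpr L0.not_dvd_card_pPrimeCore).of_dvd_nat
        (Subgroup.orderOf_dvd_natCard _ ((QuotientGroup.eq_one_iff (x : G)).mp hx))))
  refine H2.L4.embed ((H2.L4.Hs.ty hF).map (f := ((QuotientGroup.mk' (Cfsg.oddCore G)).comp (S : Subgroup G).subtype).comp e)
    (h1.comp (e2.trans e1.symm).injective)) ?_
    L0.pPrimeCore_quotient_pPrimeCore hF
  have := (H8.isSylowIn_top S).map (QuotientGroup.mk' (Cfsg.oddCore G))
  rwa [Subgroup.map_top_of_surjective _ (QuotientGroup.mk'_surjective _), ← Subgroup.range_subtype (S : Subgroup G),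
    MonoidHom.range_eq_map, ← Subgroup.map_top_of_surjective e (e2.trans e1.symm).surjective, Subgroup.map_map,
    Subgroup.map_map] at this

end Cfsg.Agent.S3198
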