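import Cfsg.Statements.S3200
import Cfsg.Agent.H8.Hall
import Cfsg.Agent.L0.Char5

set_option autoImplicit false
open Cfsg

namespace Cfsg.Agent.S3200

open Subgroup

universe u

theorem solv_aux (n : ℕ) : ∀ (G : Type u) [Group G] [Finite G], Nat.card G = n →
    ∀ C : Subgroup G, IsMulCommutative C → (∃ k, C.index = 2 ^ k) → Group.IsSolvable G := by
  induction n using Nat.strong_induction_on with
  | _ n ih =>
  intro G _ _ hn C hC ⟨k, hk⟩
  rcases subsingleton_or_nontrivial G with h | h
  · infer_instance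
  by_cases hs : IsSimpleGroup G
  · by_cases hC1 : C = ⊥
    · have : IsPGroup 2 G := IsPGroup.of_card (n := k) (by rw [← hk, hC1, index_bot])
      have := this.isNilpotent
      infer_instance
    · obtain ⟨⟨x, hx⟩, hx1⟩ := ne_bot_iff_exists_ne_one.mp hC1
      have hle : C ≤ centralizer {x} := fun y hy => mem_centralizer_singleton_iff.mpr
        (setLike_mul_comm hy hx)
      obtain ⟨j, -, hj⟩ := (Nat.dvd_prime_pow Nat.prime_two).mp (hk ▸ index_dvd_of_le hle)
      have hz := L0.mem_center_of_index_prime_pow Nat.prime_two hj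
      rcases (inferInstance : (center G).Normal).eq_bot_or_eq_top with h1 | h1
      · rw [h1, mem_bot] at hz
        exact absurd (Subtype.ext hz) hx1
      · exact isSolvable_of_comm fun a b => (mem_center_iff.mp (h1 ▸ mem_top b) a)
  · obtain ⟨N, hN, hb, ht⟩ : ∃ N : Subgroup G, N.Normal ∧ N ≠ ⊥ ∧ N ≠ ⊤ := by
      by_contra hh
      push Not at hh
      exact hs ⟨fun N hN => by by_cases h1 : N = ⊥; exacts [Or.inl h1, Or.inr (hh N hN h1)]⟩
    have hmul := card_mul_index N
    have h1 : Group.IsSolvable N := by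
      refine ih _ ?_ N rfl (C.subgroupOf N) inferInstance ?_
      · rw [← hn, ← hmul]
        exact lt_mul_of_one_lt_right Nat.card_pos (one_lt_index_of_ne_top ht)
      · have e := H8.relIndex_sup_eq_relIndex (H := C) (N := N) le_normalizer_of_normal
        have d : C.relIndex (N ⊔ C) ∣ C.index := relIndex_dvd_index_of_le le_sup_right
        rw [e, hk] at d
        obtain ⟨j, -, hj⟩ := (Nat.dvd_prime_pow Nat.prime_two).mp d
        exact ⟨j, hj⟩
    have h2 : Group.IsSolvable (G ⧸ N) := by
      refine ih _ ?_ (G ⧸ N) rfl (C.map (QuotientGroup.mk' N)) inferInstance ?_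
      · rw [← hn, ← hmul]
        exact lt_mul_of_one_lt_left (Nat.card_pos (α := G ⧸ N)) (one_lt_card_iff_ne_bot _ |>.mpr hb)
      · have d := index_map_dvd C (QuotientGroup.mk'_surjective N)
        rw [hk] at d
        obtain ⟨j, -, hj⟩ := (Nat.dvd_prime_pow Nat.prime_two).mp d
        exact ⟨j, hj⟩
    exact solvable_of_ker_le_range N.subtype (QuotientGroup.mk' N) (by simp)

theorem compl_of {G : Type*} [Group G] [Finite G] (D : Subgroup G) (h1 : ¬ 2 ∣ Nat.card D)
    (h2 : ∃ k, D.index = 2 ^ k) (P : Sylow 2 G) : IsComplement' (P : Subgroup G) D := by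
  obtain ⟨k, hk⟩ := h2
  have hP : Nat.card P = 2 ^ k := by
    rw [P.card_eq_multiplicity, ← card_mul_index D, hk, Nat.factorization_mul Nat.card_pos.ne' (by simp)]
    simp [Nat.factorization_eq_zero_of_not_dvd h1, Nat.prime_two.factorization_self]
  apply isComplement'_of_coprime
  · rw [hP, ← hk, mul_comm, card_mul_index]
  · rw [hP]
    exact ((Nat.Prime.coprime_iff_not_dvd Nat.prime_two).mpr h1).pow_left _

/-- Let H be a finite group in which a Sylow 2-subgroup has an abelian complement (an abelian subgroup meeting it trivially whose product with it is all of H). Then H is solvable, and every subgroup and every quotient group of H again has a Sylow 2-subgroup with an abelian complement. -/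
theorem result {H : Type*} [Group H] [Finite H]
    (S : Sylow 2 H) (C : Subgroup H) (hC : IsMulCommutative ↥C) (hSC : Subgroup.IsComplement' (S : Subgroup H) C) :
    Group.IsSolvable H ∧
    (∀ L : Subgroup H, ∃ (P : Sylow 2 ↥L) (D : Subgroup ↥L), IsMulCommutative ↥D ∧ Subgroup.IsComplement' (P : Subgroup ↥L) D) ∧
    (∀ (N : Subgroup H) [N.Normal], ∃ (P : Sylow 2 (H ⧸ N)) (D : Subgroup (H ⧸ N)),
      IsMulCommutative ↥D ∧ Subgroup.IsComplement' (P : Subgroup (H ⧸ N)) D) := by
  have hidx : C.index = Nat.card S := hSC.index_eq_card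
  obtain ⟨k, hk⟩ := S.isPGroup'.exists_card_eq
  have hodd : ¬ 2 ∣ Nat.card C := by
    rw [← hSC.symm.index_eq_card]; exact S.not_dvd_index
  have hs : Group.IsSolvable H := solv_aux _ H rfl C hC ⟨k, hidx.trans hk⟩
  refine ⟨hs, ?_, ?_⟩
  · intro L
    obtain ⟨D, hD⟩ := H8.exists_hall (π := {2}ᶜ) (K := L) (H8.HallOK.of_solvable inferInstance)
    have hCH : H8.IsHallIn {2}ᶜ C ⊤ := ⟨le_top, (L0.isPiNum_compl_singleton_iff' Nat.prime_two).mpr hodd, by
      rw [compl_compl, relIndex_top_right, L0.isPiNum_singleton_iff Nat.prime_two index_ne_zero_of_finite]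
      exact ⟨k, hidx.trans hk⟩⟩
    obtain ⟨g, -, hg⟩ := hCH.exists_le_cj (H8.HallOK.of_solvable inferInstance) (X := D) le_top hD.pi
    obtain ⟨P⟩ : Nonempty (Sylow 2 L) := inferInstance
    have hDc : IsMulCommutative D := by
      have : IsMulCommutative (H8.cj g C) := inferInstanceAs (IsMulCommutative (C.map _))
      exact ⟨⟨fun a b => Subtype.ext (setLike_mul_comm (hg a.2) (hg b.2))⟩⟩
    refine ⟨P, D.subgroupOf L, inferInstance, compl_of _ ?_ ?_ P⟩
    · rw [L0.card_subgroupOf_of_le hD.le]
      exact (L0.isPiNum_compl_singleton_iff' Nat.prime_two).mp hD.pi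
    · have := hD.idx
      rw [compl_compl] at this
      exact (L0.isPiNum_singleton_iff Nat.prime_two index_ne_zero_of_finite).mp this
  · intro N _
    obtain ⟨P⟩ : Nonempty (Sylow 2 (H ⧸ N)) := inferInstance
    refine ⟨P, C.map (QuotientGroup.mk' N), inferInstance, compl_of _ ?_ ?_ P⟩
    · exact fun h => hodd (h.trans (card_map_dvd _ _))
    · have d := index_map_dvd C (QuotientGroup.mk'_surjective N)
      rw [hidx, hk] at d
      obtain ⟨j, -, hj⟩ := (Nat.dvd_prime_pow Nat.prime_two).mp d
      exact ⟨j, hj⟩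

end Cfsg.Agent.S3200
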