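import Cfsg.Statements.S3201
import Cfsg.Agent.H9.Quat

set_option autoImplicit false
open Cfsg

namespace Cfsg.Agent.S3201

open Subgroup Cfsg.Agent.H9

/-- Let S be a finite 2-group whose centre Z(S) has n ≥ 2 distinct maximal subgroups C₁, …, Cₙ with trivial intersection such that each quotient S/Cᵢ is a non-abelian group with exactly one involution (a generalized quaternion group). Then S is the internal direct product of an elementary abelian subgroup and a non-abelian subgroup with exactly one involution. -/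
theorem result {S : Type*} [Group S] [Finite S]
    (hS : IsPGroup 2 S) (n : ℕ) (hn : 2 ≤ n) (C : Fin n → Subgroup ↥(Subgroup.center S))
    (hCmax : ∀ i, IsCoatom (C i)) (hCinj : Function.Injective C) (hCint : ⨅ i, C i = ⊥)
    (hCq : ∀ i, ∃ (_ : ((C i).map (Subgroup.center S).subtype).Normal),
      ¬ IsMulCommutative (S ⧸ (C i).map (Subgroup.center S).subtype) ∧
      ∃! x : S ⧸ (C i).map (Subgroup.center S).subtype, orderOf x = 2) :
    ∃ E Q : Subgroup S, Cfsg.IsInternalDirectProduct E Q ⊤ ∧ Cfsg.IsElementaryAbelian 2 E ∧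
      ¬ IsMulCommutative ↥Q ∧ ∃! x : ↥Q, orderOf x = 2 := by
  haveI : Fact (Nat.Prime 2) := ⟨Nat.prime_two⟩
  have hidx : ∀ i, ((C i).map (center S).subtype).relIndex (center S) = 2 := by
    intro i
    rw [relIndex, subgroupOf, comap_map_eq_self_of_injective (center S).subtype_injective]
    exact Cfsg.Agent.H5.index_eq_prime_of_isCoatom (hS.to_subgroup _) (hCmax i)
  have hle : ∀ i, (C i).map (center S).subtype ≤ center S := fun i => map_subtype_le _
  have hint : ∀ z, (∀ i, z ∈ (C i).map (center S).subtype) → z = 1 := by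
    intro z hz
    have hzc := hle ⟨0, by omega⟩ (hz _)
    have : (⟨z, hzc⟩ : center S) ∈ ⨅ i, C i := by
      rw [mem_iInf]
      intro i
      obtain ⟨y, hy, hyz⟩ := hz i
      have : y = ⟨z, hzc⟩ := Subtype.ext hyz
      rwa [← this]
    rw [hCint, mem_bot] at this
    exact congrArg Subtype.val this
  generalize hD : (fun i => (C i).map (center S).subtype) = D
  have hD' : ∀ i, (C i).map (center S).subtype = D i := fun i => congrFun hD i
  simp only [hD'] at hidx hle hint
  have hq : ∀ i, ∃ (_ : (D i).Normal), ¬ IsMulCommutative (S ⧸ D i) ∧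
      ∃! x : S ⧸ D i, orderOf x = 2 := by
    intro i; rw [← hD']; exact hCq i
  have hdag : ∀ i s, s * s ∈ D i → s ∈ center S := by
    intro i s hs
    obtain ⟨hN, -, hu⟩ := hq i
    by_cases h1 : s ∈ D i
    · exact hle i h1
    obtain ⟨z, hz, hzD⟩ : ∃ z ∈ center S, z ∉ D i := by
      by_contra hc
      push Not at hc
      have := relIndex_eq_one.mpr hc
      rw [hidx i] at this; omega
    have e1 : orderOf (s : S ⧸ D i) = 2 := orderOf_two_of (by rwa [Ne, QuotientGroup.eq_one_iff])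
      (by rwa [← QuotientGroup.mk_mul, QuotientGroup.eq_one_iff])
    have e2 : orderOf (z : S ⧸ D i) = 2 := orderOf_two_of (by rwa [Ne, QuotientGroup.eq_one_iff])
      (by rw [← QuotientGroup.mk_mul, QuotientGroup.eq_one_iff]
          exact mul_self_mem_of_relIndex_two (hidx i) hz)
    have := QuotientGroup.eq.mp (hu.unique e2 e1)
    simpa using mul_mem hz (hle i this)
  have hsq : ∀ z ∈ center S, z * z = 1 := fun z hz =>
    hint _ fun i => mul_self_mem_of_relIndex_two (hidx i) hz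
  have huniq : ∀ s t, s ∉ center S → t ∉ center S → s * s ∈ center S → t * t ∈ center S →
      s * s = t * t := by
    intro s t hs ht hs2 ht2
    have := hint _ fun i => mul_mem_of_relIndex_two (hidx i) hs2 ht2 (fun h => hs (hdag i s h))
      (fun h => ht (hdag i t h))
    rw [eq_inv_of_mul_eq_one_left this]
    exact inv_eq_of_mul_eq_one_right (hsq _ ht2)
  obtain ⟨hN, hna, hu⟩ := hq ⟨0, by omega⟩
  generalize (⟨0, by omega⟩ : Fin n) = i at hN hna hu
  obtain ⟨m, a, b, h1, h2, h3, h4, h5⟩ := exists_quaternion_gens_top (hS.to_quotient (D i)) hna hu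
  obtain ⟨a, rfl⟩ := QuotientGroup.mk_surjective a
  obtain ⟨b, rfl⟩ := QuotientGroup.mk_surjective b
  have hpow : ∀ k, k < m + 2 → (a : S ⧸ D i) ^ 2 ^ k ≠ 1 := by
    intro k hk h
    have := Nat.le_of_dvd (by positivity) (orderOf_dvd_of_pow_eq_one h)
    rw [h1] at this
    exact absurd (Nat.pow_lt_pow_right (by norm_num : 1 < 2) hk) (by omega)
  have htop : (a : S ⧸ D i) ^ 2 ^ (m + 2) = 1 := by rw [← h1, pow_orderOf_eq_one]
  have hnc : ¬ Commute a b := by
    intro h
    have h' : Commute (a : S ⧸ D i) b := h.map (QuotientGroup.mk' (D i))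
    rw [← h'.eq, mul_inv_cancel_right] at h4
    apply hpow 1 (by omega)
    rw [pow_one, pow_two]; nth_rewrite 2 [h4]; simp
  have hbZ : b ∉ center S := fun h => hnc (mem_center_iff.mp h a)
  have habZ : a * b ∉ center S := fun h => hnc (by
    have := mem_center_iff.mp h a
    rw [mul_assoc] at this
    exact mul_left_cancel this)
  have hb4 : (b : S ⧸ D i) ^ 2 * (b : S ⧸ D i) ^ 2 = 1 := by
    rw [h3, ← pow_add, ← two_mul, ← pow_succ', htop]
  have hb2 : b * b ∈ center S := hdag i _ (by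
    rw [← QuotientGroup.eq_one_iff]; simpa [pow_two] using hb4)
  have hab2 : a * b * (a * b) ∈ center S := hdag i _ (by
    rw [← QuotientGroup.eq_one_iff]
    have : (a : S ⧸ D i) * b * (a * b) = (b : S ⧸ D i) ^ 2 := by
      calc (a : S ⧸ D i) * b * (a * b) = a * (b * a * (b : S ⧸ D i)⁻¹) * (b * b) := by group
        _ = _ := by rw [h4, pow_two]; group
    simp only [QuotientGroup.mk_mul, this, hb4])
  have hw : a ^ 2 ^ m * a ^ 2 ^ m = a ^ 2 ^ (m + 1) := by rw [← pow_add, ← two_mul, ← pow_succ']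
  have hwZ : a ^ 2 ^ m ∉ center S := by
    intro h
    have := hsq _ h
    rw [hw] at this
    apply hpow (m + 1) (by omega)
    rw [← QuotientGroup.mk_pow, this]; rfl
  have hw2 : a ^ 2 ^ m * a ^ 2 ^ m ∈ center S := hdag i _ (by
    rw [hw, ← QuotientGroup.eq_one_iff, ← pow_add, ← two_mul, ← pow_succ', QuotientGroup.mk_pow,
      htop])
  have r1 : b * b = a ^ 2 ^ (m + 1) := by rw [← hw]; exact huniq _ _ hbZ hwZ hb2 hw2
  have r2 : b * a * b⁻¹ = a⁻¹ := by
    have := huniq _ _ habZ hbZ hab2 hb2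
    calc b * a * b⁻¹ = a⁻¹ * (a * b * (a * b)) * b⁻¹ * b⁻¹ := by group
      _ = a⁻¹ := by rw [this]; group
  have r3 : a ^ 2 ^ (m + 2) = 1 := by
    rw [pow_succ, pow_mul, ← r1, pow_two, hsq _ hb2]
  have hbn : b ∈ normalizer (zpowers a : Set S) := by
    apply mem_normalizer_of_conj_mem
    intro y hy
    obtain ⟨i, rfl⟩ := mem_zpowers_iff.mp hy
    rw [← conj_zpow, r2]
    exact zpow_mem (inv_mem (mem_zpowers a)) i
  have hQ : ∀ x ∈ zpowers a ⊔ zpowers b, x ∈ D i → x = 1 := by
    intro x hx hxD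
    obtain ⟨y, hy, k, rfl⟩ := (Cfsg.Agent.H5.mem_sup_zpowers hbn).mp hx
    have hb2 : ∀ j : ℤ, b ^ (2 * j) ∈ zpowers a := by
      intro j; rw [zpow_mul, zpow_ofNat, pow_two, r1]
      exact zpow_mem (pow_mem (mem_zpowers a) _) j
    rw [← QuotientGroup.eq_one_iff] at hxD
    rcases Int.even_or_odd' k with ⟨j, rfl | rfl⟩
    · obtain ⟨l, hl⟩ := mem_zpowers_iff.mp (mul_mem hy (hb2 j))
      rw [← hl] at hxD ⊢
      rw [QuotientGroup.mk_zpow, ← orderOf_dvd_iff_zpow_eq_one, h1] at hxD
      obtain ⟨l, rfl⟩ := hxD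
      rw [zpow_mul, zpow_natCast, r3, one_zpow]
    · obtain ⟨l, hl⟩ := mem_zpowers_iff.mp (mul_mem hy (hb2 j))
      rw [zpow_add_one, ← mul_assoc, ← hl, QuotientGroup.mk_mul, QuotientGroup.mk_zpow] at hxD
      exact absurd (by
        rw [eq_inv_of_mul_eq_one_right hxD]; exact inv_mem (zpow_mem (mem_zpowers _) _)) h2
  let f : ↥(zpowers a ⊔ zpowers b) →* S ⧸ D i := (QuotientGroup.mk' (D i)).comp (Subgroup.subtype _)
  have hinj : Function.Injective f := by
    rw [injective_iff_map_eq_one]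
    intro x hx
    exact Subtype.ext (hQ _ x.2 ((QuotientGroup.eq_one_iff _).mp hx))
  have haQ : a ∈ zpowers a ⊔ zpowers b := mem_sup_left (mem_zpowers a)
  have hbQ : b ∈ zpowers a ⊔ zpowers b := mem_sup_right (mem_zpowers b)
  have hsurj : Function.Surjective f := by
    intro x
    obtain ⟨k, rfl | rfl⟩ := h5 x
    · exact ⟨⟨a ^ k, zpow_mem haQ k⟩, by simp [f]⟩
    · exact ⟨⟨a ^ k * b, mul_mem (zpow_mem haQ k) hbQ⟩, by simp [f]⟩
  refine ⟨D i, zpowers a ⊔ zpowers b, ⟨le_top, le_top,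
    fun x hx y _ => (mem_center_iff.mp (hle i hx) y).symm, ?_, ?_⟩, ?_, ?_, ?_⟩
  · rw [eq_bot_iff]
    intro x hx
    exact mem_bot.mpr (hQ x hx.2 hx.1)
  · rw [eq_top_iff]
    intro x _
    obtain ⟨y, hy⟩ := hsurj (x : S ⧸ D i)
    have := QuotientGroup.eq.mp (show ((y : S) : S ⧸ D i) = x from hy)
    rw [show x = y * ((y : S)⁻¹ * x) by group]
    exact mul_mem (mem_sup_right y.2) (mem_sup_left this)
  · rw [isElementaryAbelian_two_iff]
    intro x hx
    rw [pow_two, hsq x (hle i hx)]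
  · intro h
    exact hnc (comm_of_isMulCommutative h haQ hbQ)
  · obtain ⟨x, hx, hx'⟩ := hu
    obtain ⟨y, rfl⟩ := hsurj x
    refine ⟨y, (orderOf_injective f hinj y).symm.trans hx, fun z hz => hinj (hx' _ ?_)⟩
    show orderOf (f z) = 2
    rwa [orderOf_injective f hinj]

end Cfsg.Agent.S3201
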