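import Cfsg.Statements.S3202
import Cfsg.Agent.H9.Quat

set_option autoImplicit false
open Cfsg

namespace Cfsg.Agent.S3202

open Subgroup Cfsg.Agent.H9
open scoped commutatorElement

/-- Let S be a finite 2-group of 2-rank exactly 2 and D a maximal subgroup of the centre of S such that S/D is a non-abelian group with exactly one involution (a generalized quaternion group). Then S has a nontrivial cyclic characteristic subgroup. -/
theorem result {S : Type*} [Group S]
    [Finite S] (hS : IsPGroup 2 S) (hr2 : Cfsg.PRankLE 2 2 S) (hr1 : ¬ Cfsg.PRankLE 2 1 S)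
    (D : Subgroup ↥(Subgroup.center S)) (hD : IsCoatom D)
    (hq : ∃ (_ : (D.map (Subgroup.center S).subtype).Normal),
      ¬ IsMulCommutative (S ⧸ D.map (Subgroup.center S).subtype) ∧
      ∃! x : S ⧸ D.map (Subgroup.center S).subtype, orderOf x = 2) :
    ∃ C : Subgroup S, C ≠ ⊥ ∧ IsCyclic ↥C ∧ C.Characteristic := by
  obtain ⟨hN, hna, hu⟩ := hq
  have hcen : ∀ d ∈ D.map (center S).subtype, ∀ s, s * d = d * s := by
    rintro d ⟨d, -, rfl⟩ s
    exact mem_center_iff.mp d.2 s
  generalize D.map (center S).subtype = N at hN hna hu hcen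
  obtain ⟨m, a, b, -, -, -, h4, h5⟩ := exists_quaternion_gens_top (hS.to_quotient N) hna hu
  obtain ⟨a, rfl⟩ := QuotientGroup.mk_surjective a
  obtain ⟨b, rfl⟩ := QuotientGroup.mk_surjective b
  have hd : a * (b * a * b⁻¹) ∈ N := by
    rw [← QuotientGroup.eq_one_iff]
    simp [h4]
  obtain ⟨d, hd'⟩ : ∃ d, d = a * (b * a * b⁻¹) := ⟨_, rfl⟩
  rw [← hd'] at hd
  have h1 : b * a * b⁻¹ = a⁻¹ * d := by rw [hd']; group
  obtain ⟨c, hc⟩ : ∃ c, c = a * a * d⁻¹ := ⟨_, rfl⟩
  have hdc : ∀ s, Commute s d := hcen d hd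
  have hac : Commute a c := hc ▸ ((Commute.refl a).mul_right (Commute.refl a)).mul_right (hdc a).inv_right
  have hbc : b * c * b⁻¹ = c⁻¹ := by
    calc b * c * b⁻¹ = (b * a * b⁻¹) * (b * a * b⁻¹) * (b * d⁻¹ * b⁻¹) := by rw [hc]; group
      _ = a⁻¹ * (d * a⁻¹) := by rw [h1, (hdc b).inv_right.eq]; group
      _ = d * a⁻¹ * a⁻¹ := by rw [← mul_assoc, (hdc a⁻¹).eq]
      _ = c⁻¹ := by rw [hc]; group
  have hform : ∀ s : S, ∃ i : ℤ, ∃ n ∈ N, s = a ^ i * n ∨ s = a ^ i * b * n := by
    intro s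
    obtain ⟨i, h | h⟩ := h5 (s : S ⧸ N)
    · refine ⟨i, (a ^ i)⁻¹ * s, QuotientGroup.eq.mp (by simpa using h.symm), Or.inl (by group)⟩
    · refine ⟨i, (a ^ i * b)⁻¹ * s, QuotientGroup.eq.mp (by simpa using h.symm), Or.inr (by group)⟩
  have hnorm : ∀ s : S, s ∈ normalizer (zpowers c : Set S) := by
    have ha : a ∈ normalizer (zpowers c : Set S) := by
      apply mem_normalizer_of_conj_mem
      intro y hy
      obtain ⟨i, rfl⟩ := mem_zpowers_iff.mp hy
      rw [(hac.zpow_right i).eq, mul_inv_cancel_right]; exact hy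
    have hb : b ∈ normalizer (zpowers c : Set S) := by
      apply mem_normalizer_of_conj_mem
      intro y hy
      obtain ⟨i, rfl⟩ := mem_zpowers_iff.mp hy
      rw [← conj_zpow, hbc]; exact zpow_mem (inv_mem (mem_zpowers c)) i
    have hn : ∀ n ∈ N, n ∈ normalizer (zpowers c : Set S) := by
      intro n hn
      apply mem_normalizer_of_conj_mem
      intro y hy
      rw [← hcen n hn y, mul_inv_cancel_right]; exact hy
    intro s
    obtain ⟨i, n, hn', rfl | rfl⟩ := hform s
    · exact mul_mem (zpow_mem ha i) (hn n hn')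
    · exact mul_mem (mul_mem (zpow_mem ha i) hb) (hn n hn')
  haveI : (zpowers c).Normal := ⟨fun y hy g => conj_mem_of_mem_normalizer (hnorm g) hy⟩
  have hab : Commute (a : S ⧸ zpowers c) (b : S ⧸ zpowers c) := by
    rw [← commutatorElement_eq_one_iff_commute, commutatorElement_def]
    have : a * b * a⁻¹ * b⁻¹ = c := by
      calc a * b * a⁻¹ * b⁻¹ = a * (b * a * b⁻¹)⁻¹ := by group
        _ = a * (d⁻¹ * a) := by rw [h1]; group
        _ = c := by rw [hc, ← (hdc a).inv_right.eq, mul_assoc]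
    have h2 : ((a * b * a⁻¹ * b⁻¹ : S) : S ⧸ zpowers c) = 1 := by
      rw [this, QuotientGroup.eq_one_iff]; exact mem_zpowers c
    simpa using h2
  have hnc : ∀ n ∈ N, ∀ s : S, Commute (n : S ⧸ zpowers c) (s : S ⧸ zpowers c) := by
    intro n hn s
    rw [commute_iff_eq, ← QuotientGroup.mk_mul, ← QuotientGroup.mk_mul, hcen n hn s]
  have hall : ∀ u : S, (∀ s : S, Commute (u : S ⧸ zpowers c) (s : S ⧸ zpowers c)) ↔
      Commute (u : S ⧸ zpowers c) a ∧ Commute (u : S ⧸ zpowers c) b := by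
    intro u
    refine ⟨fun h => ⟨h a, h b⟩, fun ⟨h1, h2⟩ s => ?_⟩
    obtain ⟨i, n, hn', rfl | rfl⟩ := hform s
    · simpa using (h1.zpow_right i).mul_right (hnc n hn' u).symm
    · simpa using ((h1.zpow_right i).mul_right h2).mul_right (hnc n hn' u).symm
  have hle : commutator S ≤ zpowers c := by
    rw [commutator_def, commutator_le]
    intro x _ y _
    rw [← QuotientGroup.eq_one_iff]
    have := ((hall x).mpr ⟨((hall a).mpr ⟨Commute.refl _, hab⟩ x).symm,
      ((hall b).mpr ⟨hab.symm, Commute.refl _⟩ x).symm⟩ y)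
    rw [← commutatorElement_eq_one_iff_commute, commutatorElement_def] at this
    simpa [commutatorElement_def] using this
  refine ⟨commutator S, fun h => hna ⟨⟨fun x y => ?_⟩⟩, isCyclic_of_le hle, inferInstance⟩
  obtain ⟨x, rfl⟩ := QuotientGroup.mk_surjective x
  obtain ⟨y, rfl⟩ := QuotientGroup.mk_surjective y
  rw [commutator_def, commutator_eq_bot_iff_comm] at h
  rw [← QuotientGroup.mk_mul, ← QuotientGroup.mk_mul, h x (mem_top _) y (mem_top _)]

end Cfsg.Agent.S3202
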