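import Cfsg.Statements.S3206
import Cfsg.Agent.H7.AbelianSylow

set_option autoImplicit false
open Cfsg

namespace Cfsg.Agent.S3206

open Subgroup Cfsg.Agent.H7
open scoped commutatorElement

theorem exists_central {L : Type*} [Group L] {z y₁ y₂ y₃ : L} (hz : z * z = 1)
    (hc : ∀ g, Commute z g)
    (h12 : Commute y₁ y₂ ∨ y₁ * y₂ = y₂ * y₁ * z) (h13 : Commute y₁ y₃ ∨ y₁ * y₃ = y₃ * y₁ * z)
    (h23 : Commute y₂ y₃ ∨ y₂ * y₃ = y₃ * y₂ * z) :
    ∃ r, (r = y₁ ∨ r = y₂ ∨ r = y₃ ∨ r = y₁ * y₂ ∨ r = y₁ * y₃ ∨ r = y₂ * y₃ ∨ r = y₁ * (y₂ * y₃)) ∧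
      Commute r y₁ ∧ Commute r y₂ ∧ Commute r y₃ := by
  have symm : ∀ {a b : L}, a * b = b * a * z → b * a = a * b * z := fun {a b} h => by
    rw [h, mul_assoc, hz, mul_one]
  have key : ∀ {a b s : L}, a * s = s * a * z → b * s = s * b * z → Commute (a * b) s :=
    fun {a b s} h1 h2 => by
      calc a * b * s = (a * s) * b * z := by rw [mul_assoc, h2]; group
        _ = s * a * (z * b) * z := by rw [h1]; group
        _ = s * (a * b) * (z * z) := by rw [(hc b).eq]; group
        _ = _ := by rw [hz, mul_one]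
  have r1 := Commute.refl y₁
  have r2 := Commute.refl y₂
  have r3 := Commute.refl y₃
  rcases h12 with h12 | h12 <;> rcases h13 with h13 | h13 <;> rcases h23 with h23 | h23
  · exact ⟨y₁, by simp, r1, h12, h13⟩
  · exact ⟨y₁, by simp, r1, h12, h13⟩
  · exact ⟨y₂, by simp, h12.symm, r2, h23⟩
  · exact ⟨y₁ * y₂, by simp, r1.mul_left h12.symm, h12.mul_left r2, key h13 h23⟩
  · exact ⟨y₃, by simp, h13.symm, h23.symm, r3⟩
  · exact ⟨y₁ * y₃, by simp, r1.mul_left h13.symm, key h12 (symm h23), h13.mul_left r3⟩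
  · exact ⟨y₂ * y₃, by simp, key (symm h12) (symm h13), r2.mul_left h23.symm, h23.mul_left r3⟩
  · refine ⟨y₁ * (y₂ * y₃), by simp, r1.mul_left (key (symm h12) (symm h13)), ?_, ?_⟩
    · refine key h12 ?_
      rw [mul_assoc, symm h23]; group
    · rw [← mul_assoc]
      exact (key h13 h23).mul_left r3

theorem cover_aux {G L : Type*} [Group G] [Finite G] [IsSimpleGroup G] [Group L] [Finite L]
    (hG : ¬ IsMulCommutative G) (S : Sylow 2 G) (hS : IsMulCommutative (S : Subgroup G))
    {x₁ x₂ x₃ : G} (h1 : x₁ ∈ (S : Subgroup G)) (h2 : x₂ ∈ (S : Subgroup G))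
    (h3 : x₃ ∈ (S : Subgroup G)) (hgen : (S : Subgroup G) ≤ closure {x₁, x₂, x₃})
    (hcard : Nat.card (S : Subgroup G) ≤ 8) (hsq : ∀ x ∈ (S : Subgroup G), x * x = 1)
    (hind : x₁ ≠ 1 ∧ x₂ ≠ 1 ∧ x₃ ≠ 1 ∧ x₁ * x₂ ≠ 1 ∧ x₁ * x₃ ≠ 1 ∧ x₂ * x₃ ≠ 1 ∧ x₁ * (x₂ * x₃) ≠ 1)
    (hL : commutator L = ⊤) (π : L →* G) (hπ : Function.Surjective π) (hZ : π.ker ≤ center L)
    (hZ2 : Nat.card π.ker = 2) : False := by
  obtain ⟨z, hzZ, hz⟩ := exists_involution_of_even (hZ2 ▸ dvd_rfl : 2 ∣ Nat.card π.ker)
  have hz1 := H4.ne_one_of_orderOf_two hz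
  have hzc : ∀ g, Commute z g := fun g => (mem_center_iff.mp (hZ hzZ) g).symm
  have hker : IsPGroup 2 π.ker := IsPGroup.of_card (n := 1) (by simpa using hZ2)
  set T : Sylow 2 L := S.comapOfKerIsPGroup π hker (by rw [MonoidHom.range_eq_top.mpr hπ]; exact le_top)
  have hT : ∀ y, y ∈ (T : Subgroup L) ↔ π y ∈ (S : Subgroup G) := fun y => Iff.rfl
  have hanti : ∀ a ∈ (T : Subgroup L), ∀ b ∈ (T : Subgroup L),
      Commute a b ∨ a * b = b * a * z := fun a ha b hb => by
    have : (b * a)⁻¹ * (a * b) ∈ π.ker := by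
      rw [MonoidHom.mem_ker, map_mul, map_inv, map_mul, map_mul,
        H8.comm_of_mem hS ((hT a).mp ha) ((hT b).mp hb), inv_mul_cancel]
    rcases H9.eq_one_or_eq_of_card_le_two hZ2.le hzZ hz1 this with e | e
    · exact Or.inl (inv_mul_eq_one.mp e).symm
    · exact Or.inr (inv_mul_eq_iff_eq_mul.mp e)
  obtain ⟨y₁, rfl⟩ := hπ x₁
  obtain ⟨y₂, rfl⟩ := hπ x₂
  obtain ⟨y₃, rfl⟩ := hπ x₃
  obtain ⟨r, hr, hr1, hr2, hr3⟩ := exists_central (H4.mul_self_of_orderOf_two hz) hzc
    (hanti y₁ h1 y₂ h2) (hanti y₁ h1 y₃ h3) (hanti y₂ h2 y₃ h3)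
  have hrT : r ∈ (T : Subgroup L) ∧ π r ≠ 1 := by
    rw [hT]
    rcases hr with rfl | rfl | rfl | rfl | rfl | rfl | rfl <;> try simp only [map_mul]
    exacts [⟨h1, hind.1⟩, ⟨h2, hind.2.1⟩, ⟨h3, hind.2.2.1⟩, ⟨mul_mem h1 h2, hind.2.2.2.1⟩,
      ⟨mul_mem h1 h3, hind.2.2.2.2.1⟩, ⟨mul_mem h2 h3, hind.2.2.2.2.2.1⟩,
      ⟨mul_mem h1 (mul_mem h2 h3), hind.2.2.2.2.2.2⟩]
  have hlift : ∀ X : Subgroup L, π.ker ≤ X → ∀ y, π y ∈ X.map π → y ∈ X := fun X hX y hy => by
    rwa [← mem_comap, comap_map_eq, sup_eq_left.mpr hX] at hy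
  have hrC : (T : Subgroup L) ≤ centralizer {r} := fun y hy => hlift _
    (hZ.trans (center_le_centralizer _)) y (by
      refine (closure_le _).mpr ?_ (hgen hy)
      rintro _ (rfl | rfl | rfl)
      exacts [mem_map_of_mem _ (mem_centralizer_singleton_iff.mpr hr1.symm),
        mem_map_of_mem _ (mem_centralizer_singleton_iff.mpr hr2.symm),
        mem_map_of_mem _ (mem_centralizer_singleton_iff.mpr hr3.symm)])
  by_cases hab : IsMulCommutative (T : Subgroup L)
  · exact hz1 (H6.eq_one_of_mem_commutator_of_comm T hab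
      (by rw [hT, MonoidHom.mem_ker.mp hzZ]; exact one_mem _) (hL ▸ mem_top z)
      fun n _ => (hzc n).symm)
  have hfix : ∀ n ∈ normalizer ((S : Subgroup G) : Set G), n * π r * n⁻¹ = π r := fun n hn => by
    obtain ⟨n, rfl⟩ := hπ n
    by_contra hne
    have hnT : n ∈ normalizer ((T : Subgroup L) : Set L) := H5.mem_normalizer_of_conj_mem
      fun y hy => by
        rw [hT, map_mul, map_mul, map_inv]
        exact (mem_normalizer_iff.mp hn _).mp hy
    set C := (T : Subgroup L) ⊓ centralizer ((T : Subgroup L) : Set L) with hC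
    have hrC' : r ∈ C := ⟨hrT.1, fun y hy => mem_centralizer_singleton_iff.mp (hrC hy)⟩
    have hr' : n * r * n⁻¹ ∈ C := (mem_normalizer_iff.mp (le_normalizer_inf le_rfl
      (normalizer_le_normalizer_centralizer _) hnT) r).mp hrC'
    have hZC : π.ker ≤ C := le_inf (fun y hy => by rw [hT, MonoidHom.mem_ker.mp hy]; exact one_mem _)
      (hZ.trans (center_le_centralizer _))
    have hW : C.map π ≤ S := by
      rintro _ ⟨y, hy, rfl⟩
      exact hy.1
    have h4 : 4 ≤ Nat.card (C.map π) := by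
      have e1 : π (n * r * n⁻¹) ≠ 1 := by simpa using hrT.2
      have e2 : π (n * r * n⁻¹) ≠ π r := by simpa using hne
      rw [← H9.ncard_four_of e1 hrT.2 e2 (fun e => e2 (by
        rw [mul_eq_one_iff_eq_inv, H4.inv_eq_of_mul_self (hsq _ hrT.1)] at e; exact e)),
        ← SetLike.coe_sort_coe, Nat.card_coe_set_eq]
      refine Set.ncard_le_ncard ?_ (Set.toFinite _)
      rintro _ (rfl | rfl | rfl | rfl)
      exacts [one_mem _, mem_map_of_mem _ hr', mem_map_of_mem _ hrC',
        mul_mem (mem_map_of_mem _ hr') (mem_map_of_mem _ hrC')]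
    refine hab (H5.isMulCommutative_of_forall fun a ha b hb => ?_)
    by_cases haC : π a ∈ C.map π
    · exact ((hlift C hZC a haC).2 b hb).symm
    by_cases hbC : π b ∈ C.map π
    · exact (hlift C hZC b hbC).2 a ha
    have h5 := H5.card_mul_relIndex_of_le hW
    have h6 : (C.map π).relIndex S ≠ 1 := fun e => haC (relIndex_eq_one.mp e ha)
    have h7 : (C.map π).relIndex S ≠ 0 := index_ne_zero_of_finite
    have h8 : (C.map π).relIndex S = 2 := by
      by_contra h9
      have : 3 ≤ (C.map π).relIndex S := by omega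
      nlinarith
    have h9 := H9.mul_mem_of_relIndex_two h8 ha hb haC hbC
    rw [← map_mul] at h9
    have := (hlift C hZC _ h9).2 a ha
    rw [mul_assoc] at this
    exact mul_left_cancel this
  have h0 : pPrimeCore 2 G = ⊥ := pPrimeCore_eq_bot_of_simple
    (H4.orderOf_eq_two_of (hsq _ hrT.1) hrT.2 ▸ orderOf_dvd_natCard _)
  refine hG (H9.isMulCommutative_of_central hrT.2 fun g => ?_)
  have := commutator_mem_of_fixed S hS hrT.1 hfix g
  rw [h0, mem_bot, commutatorElement_eq_one_iff_mul_comm] at this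
  exact this.symm


/-- Let G be a non-abelian finite simple group with abelian Sylow 2-subgroups, and let t be an involution of G whose centralizer is a maximal subgroup of G and is the direct product of the subgroup generated by t with a subgroup E having a normal subgroup isomorphic to PSL(2, q), q odd and greater than 3, with trivial centralizer in E. Then every finite perfect group having a central 2-subgroup with quotient isomorphic to G has that central subgroup trivial (G has no nontrivial perfect central extension by a 2-group), and every automorphism of G of 2-power order that fixes every element of some Sylow 2-subgroup of G is inner. -/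
theorem result {G : Type*} [Group G] [Finite G] [IsSimpleGroup G]
    (hG : ¬ IsMulCommutative G) (hab : ∀ S : Sylow 2 G, IsMulCommutative ↥(S : Subgroup G))
    (t : G) (ht : orderOf t = 2) (hmax : IsCoatom (Subgroup.centralizer ({t} : Set G)))
    (E : Subgroup G) (hE : Cfsg.IsInternalDirectProduct (Subgroup.zpowers t) E (Subgroup.centralizer ({t} : Set G)))
    {F : Type*} [Field F] [Fintype F] (hFo : Odd (Fintype.card F)) (hF3 : 3 < Fintype.card F)
    (N : Subgroup ↥E) [N.Normal] (hN : Nonempty (↥N ≃* Matrix.ProjectiveSpecialLinearGroup (Fin 2) F))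
    (hNc : Subgroup.centralizer (N : Set ↥E) = ⊥) :
    (∀ (L : Type) (_ : Group L) (_ : Finite L) (Z : Subgroup L) (_ : Z.Normal), commutator L = ⊤ → Z ≤ Subgroup.center L →
        IsPGroup 2 ↥Z → Nonempty (L ⧸ Z ≃* G) → Z = ⊥) ∧
    (∀ (φ : G ≃* G) (k : ℕ), φ ^ (2 ^ k) = 1 → (∃ S : Sylow 2 G, ∀ s ∈ (S : Subgroup G), φ s = s) →
        ∃ g : G, ∀ x : G, φ x = g * x * g⁻¹) := by
  have h0 : pPrimeCore 2 G = ⊥ := pPrimeCore_eq_bot_of_simple (ht ▸ orderOf_dvd_natCard t)
  refine ⟨fun L _ _ Z _ hL hZ hZ2 ⟨e⟩ => ?_, fun φ k hφ ⟨S, hS⟩ => ?_⟩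
  · obtain ⟨S, hS⟩ := (isPGroup_zpowers_of_orderOf (p := 2) (k := 1) ht).exists_le_sylow
    have htS : t ∈ (S : Subgroup G) := hS (mem_zpowers t)
    have hSC : (S : Subgroup G) ≤ centralizer {t} :=
      H8.le_centralizer_of_comm (hab S) (Set.singleton_subset_iff.mpr htS)
    obtain ⟨-, hEC, hc, hinf, hsup⟩ := hE
    have htE : zpowers t ≤ normalizer (E : Set G) :=
      le_normalizer_of_comm_eq_bot (comm_eq_bot_iff.mpr hc)
    have h1 : H8.IsSylowIn 2 ((S : Subgroup G) ⊓ E) E := by
      have := ((H8.isSylowIn_top S).of_le hSC le_top).inf_of_le_normalizer (N := E)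
        (hsup ▸ sup_le htE le_normalizer)
      rwa [inf_eq_right.mpr hEC] at this
    have h2 : zpowers t ⊔ ((S : Subgroup G) ⊓ E) = S := by
      rw [inf_comm, ← inf_sup_assoc_of_normalizes hS (Or.inl htE), hsup, inf_eq_right.mpr hSC]
    obtain ⟨ψ⟩ := hN
    have hsimp : IsSimpleGroup (Matrix.ProjectiveSpecialLinearGroup (Fin 2) F) :=
      Matrix.ProjectiveSpecialLinearGroup.rank_two_simple (by rw [Nat.card_eq_fintype_card]; omega)
    have hNs : IsSimpleGroup N := ψ.isSimpleGroup
    obtain ⟨w, hw⟩ := exists_involution_PSL2 (F := F)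
    have hN2 : 2 ∣ Nat.card N := by
      rw [Nat.card_congr ψ.toEquiv]; exact hw.symm.dvd.trans (_root_.orderOf_dvd_natCard w)
    have hN0 : opp 2 N = ⊥ := L0.map_pPrimeCore_eq_bot_iff.mpr (pPrimeCore_eq_bot_of_simple hN2)
    set U : Sylow 2 E := h1.toSylow
    have hU : ∀ x : E, x ∈ (U : Subgroup E) ↔ (x : G) ∈ (S : Subgroup G) := fun x =>
      ⟨fun h => h.1, fun h => ⟨h, x.2⟩⟩
    have hUc : IsMulCommutative (U : Subgroup E) := H5.isMulCommutative_of_forall fun x hx y hy =>
      Subtype.ext (H8.comm_of_mem (hab S) ((hU x).mp hx) ((hU y).mp hy))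
    have h3 : H8.IsSylowIn 2 ((U : Subgroup E) ⊓ N) N := by
      have := (H8.isSylowIn_top U).inf_of_le_normalizer (N := N) le_normalizer_of_normal
      rwa [top_inf_eq] at this
    have h4 : (U : Subgroup E) ≤ N := fun x hx => by
      obtain ⟨k, hk⟩ := H5.IsPGroup_pow_eq_one U.isPGroup' hx
      obtain ⟨s, hs, h⟩ := exists_inv_mul_mem_centralizer hN0 h3
        (H5.isMulCommutative_of_le hUc inf_le_left)
        (H8.le_centralizer_of_comm hUc (inf_le_left : (U : Subgroup E) ⊓ N ≤ U) hx) hk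
      rw [hNc, mem_bot, inv_mul_eq_one] at h
      exact h ▸ hs.2
    let ι : Matrix.ProjectiveSpecialLinearGroup (Fin 2) F →* G :=
      E.subtype.comp (N.subtype.comp ψ.symm.toMonoidHom)
    have hι : Function.Injective ι :=
      E.subtype_injective.comp (N.subtype_injective.comp ψ.symm.injective)
    have h5 : ∀ x ∈ (S : Subgroup G) ⊓ E, ∃ y, ι y = x := fun x hx =>
      ⟨ψ ⟨⟨x, hx.2⟩, h4 hx⟩, by simp [ι]⟩
    have h6 : ∀ y, ι y ∈ E := fun y => (ψ.symm y).1.2
    obtain ⟨m, a, b, ha, hb, hoa, hba, hb2, hinv, hgen⟩ := exists_dihedral_gens_PSL2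
      (H5.two_ne_zero_of_odd_card hFo) (V := (S : Subgroup G).comap ι)
      (S.isPGroup'.comap_of_injective ι hι) fun hcyc => by
        have hW : IsCyclic (h3.toSylow : Subgroup N) := by
          refine isCyclic_of_injective (G' := (S : Subgroup G).comap ι)
            ((ψ.toMonoidHom.comp (Subgroup.subtype _)).codRestrict _ fun x => ?_) ?_
          · simpa [ι] using (hU _).mp x.2.1
          · exact fun x y h => Subtype.ext (ψ.injective (congrArg Subtype.val h))
        refine H6.HasNormalPComplement.commutator_ne_top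
          (H9.hasNormalPComplement_two_of_isCyclic _ hW) hN2 ?_
        obtain ⟨u, hu1, hu2⟩ : ∃ a : F, a ≠ 0 ∧ a ^ 2 ≠ 1 := by
          by_contra hcon
          push Not at hcon
          classical
          have : (Finset.univ : Finset F) ⊆ {0, 1, -1} := fun u _ => by
            by_cases h : u = 0
            · simp [h]
            · rcases sq_eq_one_iff.mp (hcon u h) with h | h <;> simp [h]
          have := (Finset.card_le_card this).trans Finset.card_le_three
          rw [Finset.card_univ] at this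
          omega
        have := map_commutator_eq _ ψ.symm.toMonoidHom
        rw [SL2Simple.PSL_commutator_eq_top ⟨u, hu1, hu2⟩, map_top_of_surjective _ ψ.symm.surjective,
          MonoidHom.range_eq_top.mpr ψ.symm.surjective] at this
        exact this.symm
    have hab' : Commute a b := hι (by
      rw [map_mul, map_mul]; exact H8.comm_of_mem (hab S) ha hb)
    have ha2 : a * a = 1 := by
      rw [← hab'.eq, mul_inv_cancel_right] at hinv
      exact mul_eq_one_iff_eq_inv.mpr hinv
    have ha1 : a ≠ 1 := fun e => by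
      rw [e, orderOf_one] at hoa
      exact absurd hoa (Nat.one_lt_two_pow (by omega)).ne
    have hfour : ∀ x ∈ (S : Subgroup G) ⊓ E, x = 1 ∨ x = ι a ∨ x = ι b ∨ x = ι a * ι b := by
      intro x hx
      obtain ⟨y, rfl⟩ := h5 x hx
      obtain ⟨i, e | e⟩ := hgen y hx.1 <;>
        rcases (H9.mem_zpowers_of_mul_self ha2).mp (zpow_mem_zpowers a i) with e' | e' <;>
        simp [e, e']
    have htE' : ∀ y, t * ι y ≠ 1 := fun y e => H4.ne_one_of_orderOf_two ht (mem_bot.mp
      (hinf ▸ ⟨mem_zpowers t, eq_inv_of_mul_eq_one_left e ▸ E.inv_mem (h6 y)⟩))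
    by_contra hZ1
    obtain ⟨M, -, -, hM⟩ := H5.exists_le_index_eq_prime hZ2 (H := ⊥) fun e => hZ1 (by
      have := congrArg (map Z.subtype) e
      rwa [Subgroup.map_bot, ← MonoidHom.range_eq_map, range_subtype, eq_comm] at this)
    have hMZ : M.map Z.subtype ≤ Z := map_subtype_le M
    have hMn : (M.map Z.subtype).Normal := ⟨fun x hx g => by
      rwa [mem_center_iff.mp (hZ (hMZ hx)) g, mul_inv_cancel_right]⟩
    let π₀ : L →* G := e.toMonoidHom.comp (QuotientGroup.mk' Z)
    have hπ₀ : π₀.ker = Z := by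
      rw [MonoidHom.ker_comp_of_injective _ _ e.injective, QuotientGroup.ker_mk']
    let π := QuotientGroup.lift (M.map Z.subtype) π₀ (hMZ.trans hπ₀.ge)
    have hπ : π.ker = Z.map (QuotientGroup.mk' _) := by rw [QuotientGroup.ker_lift, hπ₀]
    refine cover_aux hG S (hab S) htS ha hb ?_ ?_ ?_ ⟨H4.ne_one_of_orderOf_two ht, ?_, ?_, htE' a,
      htE' b, ?_, ?_⟩ ?_ π ?_ ?_ ?_
    · rw [← h2]
      refine sup_le (zpowers_le.mpr (subset_closure (by simp))) fun x hx => ?_
      have e1 : ι a ∈ closure {t, ι a, ι b} := subset_closure (by simp)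
      have e2 : ι b ∈ closure {t, ι a, ι b} := subset_closure (by simp)
      rcases hfour x hx with rfl | rfl | rfl | rfl
      exacts [one_mem _, e1, e2, mul_mem e1 e2]
    · have e1 := H8.card_sup_dvd (N := zpowers t) (H := (S : Subgroup G) ⊓ E)
        (inf_le_left.trans (hSC.trans (H8.centralizer_zpowers t ▸ centralizer_le_normalizer _)))
      rw [h2, Nat.card_zpowers, ht] at e1
      have e2 := (H9.card_le_of_subset (s := {1, ι a, ι b, ι a * ι b}) (Set.toFinite _)
        hfour).trans (H9.ncard_le_four _ _ _ _)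
      have := Nat.le_of_dvd (by have := Nat.card_pos (α := ↥((S : Subgroup G) ⊓ E)); omega) e1
      omega
    · intro x hx
      rw [← h2] at hx
      obtain ⟨u, hu, v, hv, rfl⟩ := mem_sup_of_normalizes (Or.inr
        (inf_le_left.trans (hSC.trans (H8.centralizer_zpowers t ▸ centralizer_le_normalizer _)))) hx
      have e1 : u * u = 1 := by
        rcases (H9.mem_zpowers_of_mul_self (H4.mul_self_of_orderOf_two ht)).mp hu with rfl | rfl
        exacts [mul_one 1, H4.mul_self_of_orderOf_two ht]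
      have e2 : v * v = 1 := by
        rcases hfour v hv with rfl | rfl | rfl | rfl
        · exact mul_one 1
        · rw [← map_mul, ha2, map_one]
        · rw [← map_mul, hb2, map_one]
        · rw [← map_mul, ← map_mul, ← pow_two, hab'.mul_pow, pow_two, pow_two, ha2, hb2, mul_one,
            map_one]
      rw [← pow_two, (show Commute u v from hc u hu v hv.2).mul_pow, pow_two, pow_two, e1, e2, mul_one]
    · exact fun e => ha1 (hι (by rw [e, map_one]))
    · exact fun e => hba (by rw [hι (e.trans (map_one ι).symm)]; exact one_mem _)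
    · exact fun e => hba (by
        rw [← map_mul, ← map_one ι] at e
        rw [eq_inv_of_mul_eq_one_right (hι e)]; exact inv_mem (mem_zpowers a))
    · rw [← map_mul]; exact htE' _
    · have := map_commutator_eq _ (QuotientGroup.mk' (M.map Z.subtype))
      rw [hL, map_top_of_surjective _ (QuotientGroup.mk'_surjective _),
        MonoidHom.range_eq_top.mpr (QuotientGroup.mk'_surjective _)] at this
      exact this.symm
    · intro g
      obtain ⟨x, hx⟩ := (e.surjective.comp (QuotientGroup.mk'_surjective Z)) g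
      exact ⟨QuotientGroup.mk x, hx⟩
    · rw [hπ]
      rintro _ ⟨x, hx, rfl⟩
      refine mem_center_iff.mpr fun g => ?_
      obtain ⟨g, rfl⟩ := QuotientGroup.mk'_surjective _ g
      rw [← map_mul, ← map_mul, mem_center_iff.mp (hZ hx)]
    · rw [hπ, ← relIndex_ker, QuotientGroup.ker_mk', ← hM, relIndex, subgroupOf_map_subtype']
  · let H := SemidirectProduct G (MulAut G) (MonoidHom.id _)
    have : Finite H := Finite.of_equiv _ SemidirectProduct.equivProd.symm
    let ι : G →* H := SemidirectProduct.inl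
    have hι : Function.Injective ι := SemidirectProduct.inl_injective
    have hn : ((⊤ : Subgroup G).map ι).Normal := by
      rw [← MonoidHom.range_eq_map, SemidirectProduct.range_inl_eq_ker_rightHom]
      infer_instance
    have hconj : ∀ x, SemidirectProduct.inr φ * ι x * (SemidirectProduct.inr φ)⁻¹ = ι (φ x) :=
      fun x => by rw [← map_inv]; exact (SemidirectProduct.inl_aut φ x).symm
    have := hab S
    obtain ⟨_, ⟨s, -, rfl⟩, h⟩ := exists_inv_mul_mem_centralizer (N := (⊤ : Subgroup G).map ι)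
      (by
        rw [← map_opp_eq ι (by rw [(MonoidHom.ker_eq_bot_iff ι).mpr hι, inf_bot_eq]; simp), opp_top,
          h0, Subgroup.map_bot])
      ((H8.isSylowIn_top S).map ι) (map_isMulCommutative _ _) (a := SemidirectProduct.inr φ)
      (by
        rintro _ ⟨s, hs, rfl⟩
        rw [eq_comm, ← mul_inv_eq_iff_eq_mul, hconj, hS s hs]) (k := k)
      (by rw [← map_pow]; exact (congrArg _ hφ).trans (map_one _))
    refine ⟨s, fun x => hι ?_⟩
    have h1 := h _ (mem_map_of_mem ι (mem_top x))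
    rw [← hconj, map_mul, map_mul, map_inv]
    calc _ = ι s * ((ι s)⁻¹ * SemidirectProduct.inr φ * ι x) * (SemidirectProduct.inr φ)⁻¹ := by
          simp only [mul_assoc, mul_inv_cancel_left]
      _ = _ := by rw [← h1]; group

end Cfsg.Agent.S3206
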