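import Cfsg.Statements.S3208
import Cfsg.Agent.H9.Basic

set_option autoImplicit false
open Cfsg

namespace Cfsg.Agent.S3208

open Cfsg.Agent.H9 Subgroup

/-- Let j be an involution of a finite group G, H a subgroup of G, and T a Sylow 2-subgroup of H ∩ C_G(j) containing j such that ⟨j⟩ is a characteristic subgroup of T. Then T is a Sylow 2-subgroup of H. -/
theorem result {G : Type*} [Group G] [Finite G]
    (j : G) (hj : orderOf j = 2) (H T : Subgroup G) (hT : T ≤ H ⊓ Subgroup.centralizer ({j} : Set G)) (h2 : IsPGroup 2 ↥T)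
    (hSyl : ¬ 2 ∣ T.relIndex (H ⊓ Subgroup.centralizer ({j} : Set G))) (hjT : j ∈ T)
    (hchar : ((Subgroup.zpowers j).subgroupOf T).Characteristic) :
    ¬ 2 ∣ T.relIndex H := by
  intro hd
  obtain ⟨x, hxH, hxT, hxN, hx2⟩ :=
    exists_mem_normalizer_of_dvd_relIndex h2 (hT.trans inf_le_left) hd
  have hxj : x * j * x⁻¹ ∈ zpowers j := by
    have h := hchar.fixed (T.normalizerMonoidHom ⟨x, hxN⟩)
    have hm : (⟨j, hjT⟩ : T) ∈ (zpowers j).subgroupOf T := mem_zpowers j
    rw [← h] at hm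
    exact hm
  have hj2 : j * j = 1 := by rw [← pow_two, ← hj, pow_orderOf_eq_one]
  have hj1 : j ≠ 1 := by rintro rfl; simp at hj
  have hxc : x * j * x⁻¹ = j := by
    have hfin : IsOfFinOrder j := isOfFinOrder_of_finite j
    rw [← hfin.mem_powers_iff_mem_zpowers] at hxj
    obtain ⟨n, hn⟩ := hxj
    rcases Nat.even_or_odd' n with ⟨m, rfl | rfl⟩
    · exfalso
      simp only [pow_mul, pow_two, hj2, one_pow] at hn
      apply hj1
      have : j = x⁻¹ * (x * j * x⁻¹) * x := by group
      rw [this, ← hn]; group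
    · simp only [pow_succ, pow_mul, pow_two, hj2, one_pow, one_mul, pow_zero] at hn
      exact hn.symm
  have hxC : x ∈ H ⊓ centralizer ({j} : Set G) := by
    refine mem_inf.2 ⟨hxH, ?_⟩
    rw [mem_centralizer_singleton_iff]
    rw [mul_inv_eq_iff_eq_mul] at hxc
    exact hxc
  have hxp : IsPGroup 2 (zpowers x) := by
    obtain ⟨k, hk⟩ := exists_pow_eq_one_of_mem h2 hx2
    exact isPGroup_zpowers ⟨k + 1, by rw [pow_succ', pow_mul, hk]⟩
  have := le_of_not_dvd_relIndex_of_le_normalizer h2 hT hSyl (zpowers_le.2 hxC) hxp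
    (zpowers_le.2 hxN)
  exact hxT (this (mem_zpowers x))

end Cfsg.Agent.S3208
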