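import Cfsg.Statements.S3209
import Cfsg.Agent.H5.SL2Swap

set_option autoImplicit false
open Cfsg

namespace Cfsg.Agent.S3209

/-- Let L₁ ≅ SL₂(q₁) and L₂ ≅ SL₂(q₂), q₁ and q₂ odd, be elementwise-commuting subgroups of a finite group meeting in ⟨j⟩ for an involution j. Then L₁L₂ has exactly two conjugacy classes of involutions: the central involution j, and one further class (there is an involution x ≠ j in L₁L₂, and every involution of L₁L₂ other than j is conjugate to x by an element of L₁L₂). -/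
theorem result {G : Type*} [Group G] [Finite G]
    {F₁ : Type*} [Field F₁] [Fintype F₁] {F₂ : Type*} [Field F₂] [Fintype F₂]
    (hF₁ : Odd (Fintype.card F₁)) (hF₂ : Odd (Fintype.card F₂)) (L₁ L₂ : Subgroup G)
    (e₁ : ↥L₁ ≃* Matrix.SpecialLinearGroup (Fin 2) F₁) (e₂ : ↥L₂ ≃* Matrix.SpecialLinearGroup (Fin 2) F₂)
    (hc : ∀ x ∈ L₁, ∀ y ∈ L₂, x * y = y * x) (j : G) (hj : orderOf j = 2) (hm : L₁ ⊓ L₂ = Subgroup.zpowers j) :
    ∃ x ∈ L₁ ⊔ L₂, orderOf x = 2 ∧ x ≠ j ∧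
      ∀ y ∈ L₁ ⊔ L₂, orderOf y = 2 → y = j ∨ ∃ g ∈ L₁ ⊔ L₂, g * x * g⁻¹ = y := by
  have h := H5.slPair_of_equiv hF₁ hF₂ e₁ e₂ hc hj hm
  obtain ⟨a, ha, haa⟩ := h.h₁.ex
  obtain ⟨b, hb, hbb⟩ := h.h₂.ex
  refine ⟨a * b, Subgroup.mul_mem _ (Subgroup.mem_sup_left ha) (Subgroup.mem_sup_right hb),
    orderOf_eq_prime (by rw [sq]; exact h.mul_mul_self ha hb haa hbb) (h.mul_ne ha hb haa).1,
    (h.mul_ne ha hb haa).2, fun y hy hy2 => ?_⟩
  rcases h.invol_conj ha hb haa hbb hy (by rw [← sq, ← hy2, pow_orderOf_eq_one]) with h' | h' | h'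
  · rw [h', orderOf_one] at hy2; omega
  · exact Or.inl h'
  · exact Or.inr h'

end Cfsg.Agent.S3209
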