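import Cfsg.Statements.S3210
import Cfsg.Agent.H5.SL2Swap

set_option autoImplicit false
open Cfsg

namespace Cfsg.Agent.S3210

/-- Let G be a finite group with subgroups L₁ ≅ SL₂(q₁) and L₂ ≅ SL₂(q₂), q₁ and q₂ odd prime powers, which commute elementwise and meet in ⟨j⟩ for an involution j, and suppose L₁L₂ has index 2 in C_G(j). Then every element n of C_G(j) outside L₁L₂ either normalizes both L₁ and L₂, or conjugates L₁ onto L₂; in the second case q₁ = q₂ and there is an element n′ of C_G(j) outside L₁L₂ conjugating L₁ onto L₂ with n′² ∈ ⟨j⟩. -/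
theorem result {G : Type*} [Group G] [Finite G]
    {F₁ : Type*} [Field F₁] [Fintype F₁] {F₂ : Type*} [Field F₂] [Fintype F₂]
    (hF₁ : Odd (Fintype.card F₁)) (hF₂ : Odd (Fintype.card F₂)) (L₁ L₂ : Subgroup G)
    (e₁ : ↥L₁ ≃* Matrix.SpecialLinearGroup (Fin 2) F₁) (e₂ : ↥L₂ ≃* Matrix.SpecialLinearGroup (Fin 2) F₂)
    (hc : ∀ x ∈ L₁, ∀ y ∈ L₂, x * y = y * x) (j : G) (hj : orderOf j = 2) (hm : L₁ ⊓ L₂ = Subgroup.zpowers j)
    (hle : L₁ ⊔ L₂ ≤ Subgroup.centralizer ({j} : Set G)) (hi : (L₁ ⊔ L₂).relIndex (Subgroup.centralizer ({j} : Set G)) = 2) (n : G) (hn : n ∈ Subgroup.centralizer ({j} : Set G)) (hn' : n ∉ L₁ ⊔ L₂) :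
    (L₁.map (MulAut.conj n).toMonoidHom = L₁ ∧ L₂.map (MulAut.conj n).toMonoidHom = L₂) ∨
      (L₁.map (MulAut.conj n).toMonoidHom = L₂ ∧ Fintype.card F₁ = Fintype.card F₂ ∧
        ∃ n' ∈ Subgroup.centralizer ({j} : Set G), n' ∉ L₁ ⊔ L₂ ∧ L₁.map (MulAut.conj n').toMonoidHom = L₂ ∧ n' ^ 2 ∈ Subgroup.zpowers j) := by
  have h := H5.slPair_of_equiv hF₁ hF₂ e₁ e₂ hc hj hm
  rcases h.normalizes_or_swaps (H5.conj_mem_iff_of_relIndex_two hle hi hn) with h' | ⟨h1, h2⟩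
  · exact Or.inl h'
  refine Or.inr ⟨h1, ?_, ?_⟩
  · apply H5.card_eq_of_card_SL2_eq
    rw [← Nat.card_congr e₁.toEquiv, ← Nat.card_congr e₂.toEquiv, ← h1,
      Subgroup.card_map_of_injective (MulAut.conj n).injective]
  · obtain ⟨a, ha, h3⟩ := h.exists_sq_of_swap h1 h2 (H5.mul_mem_of_relIndex_two hi hn hn hn' hn')
    refine ⟨n * a, Subgroup.mul_mem _ hn (hle (Subgroup.mem_sup_left ha)), fun h' => hn' ?_, ?_, ?_⟩
    · exact (Subgroup.mul_mem_cancel_right _ (Subgroup.mem_sup_left ha)).mp h'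
    · have : L₁.map (MulAut.conj a).toMonoidHom = L₁ := by
        apply le_antisymm
        · rintro _ ⟨y, hy, rfl⟩
          exact L₁.mul_mem (L₁.mul_mem ha hy) (L₁.inv_mem ha)
        · intro y hy
          refine ⟨a⁻¹ * y * a, L₁.mul_mem (L₁.mul_mem (L₁.inv_mem ha) hy) ha, ?_⟩
          simp [MulAut.conj_apply, mul_assoc]
      rw [← h1]
      conv_rhs => rw [← this]
      rw [Subgroup.map_map, map_mul]
      rfl
    · rw [sq]
      rcases h3 with h3 | h3 <;> rw [h3]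
      · exact Subgroup.one_mem _
      · exact Subgroup.mem_zpowers j

end Cfsg.Agent.S3210
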