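import Mathlib
import Cfsg.Statements.S3213


set_option autoImplicit false
open Cfsg

namespace Cfsg.Agent.S3213

open Matrix Module

theorem exists_five {K : Type*} [Field K] [Fintype K] (hK : Fintype.card K = 5)
    (x : SpecialLinearGroup (Fin 2) K) (hx : orderOf x = 3) :
    ∃ g : SpecialLinearGroup (Fin 2) K, ((x * (g * x * g⁻¹)) ^ 2) ^ 5 = 1 ∧ (x * (g * x * g⁻¹)) ^ 2 ≠ 1 := by
  have h5 : (5 : K) = 0 := by
    have := FiniteField.cast_card_eq_zero K
    rw [hK] at this; exact_mod_cast this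
  have h2 : (2 : K) ≠ 0 := fun h => by
    have : (1 : K) = 0 := by linear_combination h5 - 2 * h
    exact one_ne_zero this
  have h3 : (3 : K) ≠ 0 := fun h => by
    have : (1 : K) = 0 := by linear_combination 2 * h - h5
    exact one_ne_zero this
  have h4 : ∀ a : K, a ≠ 0 → a ^ 4 = 1 := fun a ha => by
    have := FiniteField.pow_card_sub_one_eq_one a ha
    rwa [hK] at this
  have hx3 : x ^ 3 = 1 := by rw [← hx, pow_orderOf_eq_one]
  have hx1 : x ≠ 1 := by rintro rfl; simp at hx
  have hx3' : x * x * x = 1 := by rw [← hx3, pow_succ, sq]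
  obtain ⟨X, hdet⟩ := x
  obtain ⟨a, b, c, d, rfl⟩ : ∃ a b c d, X = !![a, b; c, d] := ⟨_, _, _, _, Matrix.eta_fin_two X⟩
  have hd : a * d - b * c = 1 := by simpa [det_fin_two] using hdet
  have e : (!![a, b; c, d] : Matrix (Fin 2) (Fin 2) K) * !![a, b; c, d] * !![a, b; c, d] = 1 := by
    exact congrArg Subtype.val hx3'
  rw [mul_fin_two, mul_fin_two, one_fin_two] at e
  have e00 := congrFun (congrFun e 0) 0
  have e01 := congrFun (congrFun e 0) 1
  have e10 := congrFun (congrFun e 1) 0
  have e11 := congrFun (congrFun e 1) 1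
  simp only [of_apply, cons_val', cons_val_zero, cons_val_one, cons_val_fin_one] at e00 e01 e10 e11
  have htr : a + d = -1 := by
    by_cases ht : (a + d) ^ 2 - 1 = 0
    · linear_combination -e00 + a * ht - ((a + d) + a) * hd
    · exfalso
      have hb : b = 0 := by
        apply (mul_eq_zero.mp (show ((a + d) ^ 2 - 1) * b = 0 from ?_)).resolve_left ht
        linear_combination e01 + b * hd
      have hc : c = 0 := by
        apply (mul_eq_zero.mp (show ((a + d) ^ 2 - 1) * c = 0 from ?_)).resolve_left ht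
        linear_combination e10 + c * hd
      have had : a = d := by
        apply sub_eq_zero.mp
        apply (mul_eq_zero.mp (show ((a + d) ^ 2 - 1) * (a - d) = 0 from ?_)).resolve_left ht
        linear_combination e00 - e11 + (a - d) * hd
      subst hb hc had
      have ha : a = 1 := by linear_combination e00 - a * hd
      subst ha
      apply hx1
      apply Subtype.ext
      exact one_fin_two.symm
  have hc : c ≠ 0 := by
    rintro rfl
    have ha0 : a ≠ 0 := by rintro rfl; simp at hd
    have ha3 : a ^ 3 = 1 := by linear_combination e00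
    have ha : a = 1 := by linear_combination h4 a ha0 - a * ha3
    subst ha
    apply h3
    linear_combination htr - hd
  let g : SpecialLinearGroup (Fin 2) K := ⟨!![1, c⁻¹; 0, 1], by simp [det_fin_two]⟩
  have hg : g⁻¹ = ⟨!![1, -c⁻¹; 0, 1], by simp [det_fin_two]⟩ := by
    apply inv_eq_of_mul_eq_one_right
    apply Subtype.ext
    change !![1, c⁻¹; 0, 1] * !![1, -c⁻¹; 0, 1] = (1 : Matrix (Fin 2) (Fin 2) K)
    rw [mul_fin_two, one_fin_two]; simp
  refine ⟨g, ?_⟩
  set x : SpecialLinearGroup (Fin 2) K := ⟨!![a, b; c, d], hdet⟩ with hxdef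
  set m := x * (g * x * g⁻¹) with hm
  have htm : m.1 0 0 + m.1 1 1 = -2 := by
    rw [hm, hg]
    change (!![a, b; c, d] * (!![1, c⁻¹; 0, 1] * !![a, b; c, d] * !![1, -c⁻¹; 0, 1])) 0 0 +
      (!![a, b; c, d] * (!![1, c⁻¹; 0, 1] * !![a, b; c, d] * !![1, -c⁻¹; 0, 1])) 1 1 = -2
    simp only [mul_fin_two, of_apply, cons_val', cons_val_zero, cons_val_one, cons_val_fin_one]
    linear_combination (a + d - 1) * htr - 2 * hd - (c * c⁻¹ + 1) * mul_inv_cancel₀ hc
  have hdm : m.1 0 0 * m.1 1 1 - m.1 0 1 * m.1 1 0 = 1 := by rw [← det_fin_two]; exact m.2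
  have hn : (m.1 + 1) * (m.1 + 1) = 0 := by
    ext i j
    fin_cases i <;> fin_cases j <;> simp [mul_apply, Fin.sum_univ_two]
    · linear_combination (m.1 0 0) * htm - hdm
    · linear_combination (m.1 0 1) * htm
    · linear_combination (m.1 1 0) * htm
    · linear_combination (m.1 1 1) * htm - hdm
  have h5' : (5 : Matrix (Fin 2) (Fin 2) K) = 0 := by
    have : (5 : Matrix (Fin 2) (Fin 2) K) = algebraMap K _ 5 := by simp [map_ofNat]
    rw [this, h5, map_zero]
  have hm5 : m.1 ^ 5 = -1 := by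
    obtain ⟨n, hn'⟩ : ∃ n, n = m.1 + 1 := ⟨_, rfl⟩
    have : m.1 = n - 1 := by rw [hn']; simp
    rw [this]
    rw [← hn'] at hn
    have : (n - 1) ^ 5 = (n * n) * (n * n * n - 5 * (n * n) + 10 * n - 10) + 5 * n - 1 := by
      noncomm_ring
    rw [this, hn, h5']; simp
  have hm5' : m ^ 5 = -1 := Subtype.ext hm5
  constructor
  · rw [← pow_mul, mul_comm, pow_mul, hm5']; simp
  · intro h
    have h1 : m = -1 := by
      rw [← hm5', show 5 = 2 * 2 + 1 from rfl, pow_succ, pow_mul, h]; simp
    have h6 : g * x * g⁻¹ = -x⁻¹ := by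
      rw [eq_comm, ← mul_left_cancel_iff (a := x), ← hm, h1]; simp
    have h7 : (g * x * g⁻¹) ^ 3 = 1 := by rw [conj_pow, hx3]; simp
    rw [h6, neg_pow, inv_pow, hx3] at h7
    have := congrFun (congrFun (congrArg Subtype.val h7) 0) 0
    simp [show (-1 : SpecialLinearGroup (Fin 2) K) ^ 3 = -1 from by rw [pow_succ]; simp] at this
    apply h2
    linear_combination -this

theorem two_le {F V : Type*} [Field F] [AddCommGroup V] [Module F V] [FiniteDimensional F V]
    (h4 : finrank F V = 4) (N : V →ₗ[F] V) (hN : N * N * N = 0) : 2 ≤ finrank F (LinearMap.ker N) := by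
  have h1 := LinearMap.finrank_range_add_finrank_ker N
  have h2 := LinearMap.finrank_range_add_finrank_ker (N.domRestrict (LinearMap.range N))
  have h3 : finrank F (LinearMap.range (N.domRestrict (LinearMap.range N))) ≤ finrank F (LinearMap.ker N) := by
    apply Submodule.finrank_mono
    rintro _ ⟨⟨_, v, rfl⟩, rfl⟩
    exact LinearMap.congr_fun hN v
  have h5 : finrank F (LinearMap.ker (N.domRestrict (LinearMap.range N))) ≤ finrank F (LinearMap.ker N) := by
    rw [← Submodule.finrank_map_subtype_eq]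
    apply Submodule.finrank_mono
    rintro _ ⟨v, hv, rfl⟩
    exact hv
  omega

theorem fix_top {F V : Type*} [Field F] [Fintype F] (hF : Fintype.card F = 3) [AddCommGroup V] [Module F V]
    [FiniteDimensional F V] (h4 : finrank F V = 4) (f : V →ₗ[F] V) (hf : f ^ 5 = 1)
    (h2 : 2 ≤ finrank F (LinearMap.ker (f - LinearMap.id))) : f = 1 := by
  classical
  have : Finite V := Module.finite_of_finite F
  have := Fintype.ofFinite V
  have : Fact (Nat.Prime 5) := ⟨by norm_num⟩
  have h := Equiv.Perm.card_fixedPoints_modEq (α := V) (f := (f : V → V)) (p := 5) (n := 1) (by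
    funext v
    have := LinearMap.congr_fun hf v
    rw [Module.End.pow_apply] at this
    exact this)
  have e : Fintype.card (Function.fixedPoints (f : V → V)) = Nat.card (LinearMap.ker (f - LinearMap.id)) := by
    rw [← Nat.card_eq_fintype_card]
    apply Nat.card_congr
    apply Equiv.subtypeEquivRight
    intro v
    simp [Function.mem_fixedPoints, Function.IsFixedPt, sub_eq_zero]
  rw [e, ← Nat.card_eq_fintype_card, Module.natCard_eq_pow_finrank (K := F) (V := V),
    Module.natCard_eq_pow_finrank (K := F) (V := LinearMap.ker (f - LinearMap.id)), Nat.card_eq_fintype_card, hF, h4] at h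
  have hle : finrank F (LinearMap.ker (f - LinearMap.id)) ≤ 4 := h4 ▸ Submodule.finrank_le _
  have : finrank F (LinearMap.ker (f - LinearMap.id)) = 4 := by
    generalize finrank F (LinearMap.ker (f - LinearMap.id)) = k at *
    interval_cases k
    · exact absurd h (by decide)
    · exact absurd h (by decide)
    · rfl
  have ht : LinearMap.ker (f - LinearMap.id) = ⊤ := Submodule.eq_top_of_finrank_eq (by rw [this, h4])
  rw [LinearMap.ker_eq_top, sub_eq_zero] at ht
  exact ht

/-- Let F be the field with 3 elements and K the field with 5 elements. For every injective homomorphism φ from SL₂(K) into the symplectic group Sp₄(F) (4 × 4 matrices g with g J gᵀ = J for the standard alternating matrix J) and every element x of order 3 of SL₂(K), the vectors of F⁴ fixed by φ(x) form a 2-dimensional subspace that is totally isotropic for the alternating form defined by J. -/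
theorem result {F : Type*} [Field F] [Fintype F] (hF : Fintype.card F = 3)
    {K : Type*} [Field K] [Fintype K] (hK : Fintype.card K = 5)
    (φ : Matrix.SpecialLinearGroup (Fin 2) K →* ↥(Matrix.symplecticGroup (Fin 2) F)) (hφ : Function.Injective φ)
    (x : Matrix.SpecialLinearGroup (Fin 2) K) (hx : orderOf x = 3) :
    Module.finrank F ↥(LinearMap.ker (Matrix.toLin' ((φ x : Matrix (Fin 2 ⊕ Fin 2) (Fin 2 ⊕ Fin 2) F)) - LinearMap.id)) = 2 ∧
      ∀ v w : Fin 2 ⊕ Fin 2 → F, (φ x : Matrix (Fin 2 ⊕ Fin 2) (Fin 2 ⊕ Fin 2) F).mulVec v = v →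
        (φ x : Matrix (Fin 2 ⊕ Fin 2) (Fin 2 ⊕ Fin 2) F).mulVec w = w →
          dotProduct v ((Matrix.J (Fin 2) F).mulVec w) = 0 := by
  classical
  let ρ : SpecialLinearGroup (Fin 2) K →* Module.End F (Fin 2 ⊕ Fin 2 → F) :=
    (Matrix.toLinAlgEquiv' : Matrix (Fin 2 ⊕ Fin 2) (Fin 2 ⊕ Fin 2) F ≃ₐ[F] _).toMonoidHom.comp
      ((Matrix.symplecticGroup (Fin 2) F).subtype.comp φ)
  have hρ : ∀ g, ρ g = Matrix.toLin' (φ g : Matrix (Fin 2 ⊕ Fin 2) (Fin 2 ⊕ Fin 2) F) := fun g => rfl
  have hρi : Function.Injective ρ :=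
    (Matrix.toLinAlgEquiv' (R := F) (n := Fin 2 ⊕ Fin 2)).injective.comp (Subtype.val_injective.comp hφ)
  have h4 : finrank F (Fin 2 ⊕ Fin 2 → F) = 4 := by simp
  have hx3 : x ^ 3 = 1 := by rw [← hx, pow_orderOf_eq_one]
  have hx1 : x ≠ 1 := by rintro rfl; simp at hx
  have h3 : (3 : F) = 0 := by
    have := FiniteField.cast_card_eq_zero F
    rw [hF] at this; exact_mod_cast this
  rw [← hρ]
  set N : Module.End F (Fin 2 ⊕ Fin 2 → F) := ρ x - LinearMap.id with hNdef
  have hN : N * N * N = 0 := by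
    have e : N = ρ x - 1 := rfl
    have h3' : (3 : Module.End F (Fin 2 ⊕ Fin 2 → F)) = 0 := by
      have : (3 : Module.End F (Fin 2 ⊕ Fin 2 → F)) = algebraMap F _ 3 := by simp [map_ofNat]
      rw [this, h3, map_zero]
    have : N * N * N = (ρ x) ^ 3 - 1 - 3 * (ρ x * ρ x - ρ x) := by
      rw [e, show (3 : Module.End F (Fin 2 ⊕ Fin 2 → F)) = 1 + 1 + 1 by norm_num]
      simp only [mul_sub, sub_mul, add_mul, mul_one, one_mul, pow_succ, pow_zero]
      abel
    rw [this, h3', ← map_pow, hx3, map_one]; simp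
  have hge := two_le h4 N hN
  have hN0 : N ≠ 0 := by
    intro h
    apply hx1; apply hρi
    rw [map_one]; exact sub_eq_zero.mp h
  have hdim : finrank F (LinearMap.ker N) = 2 := by
    by_contra hne
    have hge3 : 3 ≤ finrank F (LinearMap.ker N) := by omega
    obtain ⟨g, hg5, hg1⟩ := exists_five hK x hx
    apply hg1; apply hρi
    rw [map_one]
    apply fix_top hF h4 _ (by rw [← map_pow, hg5, map_one])
    have hy : 3 ≤ finrank F (LinearMap.ker (ρ (g * x * g⁻¹) - LinearMap.id)) := by
      refine hge3.trans ?_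
      have hinj : Function.Injective (ρ g) := by
        apply Function.LeftInverse.injective (g := ρ g⁻¹)
        intro v
        rw [← Module.End.mul_apply, ← map_mul, inv_mul_cancel, map_one]; rfl
      rw [(Submodule.equivMapOfInjective (ρ g) hinj (LinearMap.ker N)).finrank_eq]
      apply Submodule.finrank_mono
      rintro _ ⟨v, hv, rfl⟩
      simp only [hNdef, SetLike.mem_coe, LinearMap.mem_ker, LinearMap.sub_apply, LinearMap.id_apply,
        sub_eq_zero] at hv ⊢
      rw [← Module.End.mul_apply, ← map_mul, inv_mul_cancel_right, map_mul, Module.End.mul_apply, hv]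
    have hs := Submodule.finrank_sup_add_finrank_inf_eq (LinearMap.ker N)
      (LinearMap.ker (ρ (g * x * g⁻¹) - LinearMap.id))
    have hle := Submodule.finrank_le (LinearMap.ker N ⊔ LinearMap.ker (ρ (g * x * g⁻¹) - LinearMap.id))
    have hmono : finrank F ↥(LinearMap.ker N ⊓ LinearMap.ker (ρ (g * x * g⁻¹) - LinearMap.id)) ≤
        finrank F (LinearMap.ker (ρ ((x * (g * x * g⁻¹)) ^ 2) - LinearMap.id)) := by
      apply Submodule.finrank_mono
      rintro v ⟨h1, h2⟩
      simp only [hNdef, SetLike.mem_coe, LinearMap.mem_ker, LinearMap.sub_apply, LinearMap.id_apply,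
        sub_eq_zero] at h1 h2 ⊢
      rw [sq, map_mul, map_mul, Module.End.mul_apply, Module.End.mul_apply, Module.End.mul_apply, h2, h1, h2, h1]
    omega
  refine ⟨hdim, ?_⟩
  set X : Matrix (Fin 2 ⊕ Fin 2) (Fin 2 ⊕ Fin 2) F := (φ x : Matrix (Fin 2 ⊕ Fin 2) (Fin 2 ⊕ Fin 2) F) with hX
  have hNv : ∀ v, N v = X *ᵥ v - v := fun v => rfl
  have hinv : ∀ v w, (X *ᵥ v) ⬝ᵥ (J (Fin 2) F *ᵥ (X *ᵥ w)) = v ⬝ᵥ (J (Fin 2) F *ᵥ w) := by
    intro v w
    have := SymplecticGroup.mem_iff'.mp (φ x).2
    rw [← hX] at this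
    rw [mulVec_mulVec, ← vecMul_transpose, ← dotProduct_mulVec, mulVec_mulVec, ← Matrix.mul_assoc, this]
  have hskew : ∀ v w : Fin 2 ⊕ Fin 2 → F, v ⬝ᵥ (J (Fin 2) F *ᵥ w) = -(w ⬝ᵥ (J (Fin 2) F *ᵥ v)) := by
    intro v w
    simp [J, dotProduct, mulVec, Fintype.sum_sum_type, Fin.sum_univ_two, one_apply]
    ring
  have halt : ∀ v : Fin 2 ⊕ Fin 2 → F, v ⬝ᵥ (J (Fin 2) F *ᵥ v) = 0 := by
    intro v
    simp [J, dotProduct, mulVec, Fintype.sum_sum_type, Fin.sum_univ_two, one_apply]
    ring
  obtain ⟨u, hu0, huk, a, hua⟩ : ∃ u, u ≠ 0 ∧ N u = 0 ∧ ∃ a, N a = u := by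
    obtain ⟨a, ha⟩ : ∃ a, N a ≠ 0 := by
      by_contra h
      push Not at h
      exact hN0 (LinearMap.ext h)
    by_cases h1 : N (N a) = 0
    · exact ⟨N a, ha, h1, a, rfl⟩
    · exact ⟨N (N a), h1, LinearMap.congr_fun hN a, N a, rfl⟩
  have hu : ∀ w, X *ᵥ w = w → u ⬝ᵥ (J (Fin 2) F *ᵥ w) = 0 := by
    intro w hw
    rw [← hua, hNv, sub_dotProduct, ← hinv a w, hw, sub_self]
  intro v w hv hw
  by_cases hvu : ∃ c : F, c • u = v
  · obtain ⟨c, rfl⟩ := hvu
    rw [smul_dotProduct, hu w hw, smul_zero]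
  · have hli : LinearIndependent F ![u, v] := by
      rw [LinearIndependent.pair_iff' hu0]
      intro c hc; exact hvu ⟨c, hc⟩
    have hsp : Submodule.span F (Set.range ![u, v]) = LinearMap.ker N := by
      apply Submodule.eq_of_le_of_finrank_eq
      · rw [Submodule.span_le]
        rintro _ ⟨i, rfl⟩
        fin_cases i
        · exact huk
        · change N v = 0
          rw [hNv, hv, sub_self]
      · rw [finrank_span_eq_card hli, hdim]; simp
    have hw' : w ∈ Submodule.span F (Set.range ![u, v]) := by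
      rw [hsp, LinearMap.mem_ker, hNv, hw, sub_self]
    rw [Matrix.range_cons, Matrix.range_cons, Matrix.range_empty, Set.union_empty, Set.singleton_union,
      Submodule.mem_span_pair] at hw'
    obtain ⟨c, d, rfl⟩ := hw'
    rw [hskew, add_dotProduct, smul_dotProduct, smul_dotProduct, hu v hv, halt]
    simp

end Cfsg.Agent.S3213
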