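import Cfsg.Statements.S3215
import Cfsg.Agent.H5.RankOne
import Cfsg.Agent.H8.Hall

set_option autoImplicit false
open Cfsg

namespace Cfsg.Agent.S3215

open Subgroup

theorem no_commute {H : Type*} [Group H] [Finite H] (hsol : Group.IsSolvable H)
    (hO : Cfsg.oddCore H = ⊥)
    (hI : ∀ t : H, orderOf t = 2 → Cfsg.HasNormalPComplement 2 ↥(centralizer ({t} : Set H)))
    {x y : H} (hx : Odd (orderOf x)) (hx1 : x ≠ 1) (hy : ∃ k, y ^ 2 ^ k = 1) (hy1 : y ≠ 1) :
    x * y ≠ y * x := by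
  intro hxy
  obtain ⟨j, hj1, hj2⟩ := H9.exists_pow_ne_one_pow_eq_one hy1 hy
  set t := y ^ 2 ^ j
  have ht : orderOf t = 2 := orderOf_eq_prime hj2 hj1
  have hxt : x ∈ centralizer ({t} : Set H) :=
    mem_centralizer_singleton_iff.mpr ((show Commute x y from hxy).pow_right _)
  have h1 := hI t ht
  have h2 : (⟨x, hxt⟩ : centralizer ({t} : Set H)) ∈ pResidual 2 (centralizer ({t} : Set H)) :=
    H6.mem_pResidual_of_coprime (by rw [← orderOf_coe]; exact hx.coprime_two_right)
  have h3 := L0.le_pPrimeCore' (p := 2) inferInstance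
    (H6.hasNormalPComplement_iff_not_dvd_card_pResidual.mp h1) h2
  have h4 := H5.map_pPrimeCore_centralizer (p := 2)
    (L0.IsPSolvable.isPConstrained (L0.isPSolvable_of_isSolvable (G := H)))
    (H9.isPGroup_zpowers (a := t) ⟨1, by simpa using hj2⟩)
  rw [H8.centralizer_zpowers] at h4
  have h5 : x ∈ pPrimeCore 2 H ⊓ centralizer ({t} : Set H) := h4 ▸ ⟨_, h3, rfl⟩
  rw [show pPrimeCore 2 H = ⊥ from hO, bot_inf_eq] at h5
  exact hx1 h5

theorem isCyclic_of_odd {H : Type*} [Group H] [Finite H] (hsol : Group.IsSolvable H)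
    (hO : Cfsg.oddCore H = ⊥)
    (hI : ∀ t : H, orderOf t = 2 → Cfsg.HasNormalPComplement 2 ↥(centralizer ({t} : Set H)))
    {p : ℕ} [hp : Fact p.Prime] (h2 : p ≠ 2) {P : Subgroup H} (hP : IsPGroup p P) : IsCyclic P := by
  have hc : centralizer (pCore 2 H : Set H) ≤ pCore 2 H :=
    L0.IsPSolvable.centralizer_pCore_le L0.isPSolvable_of_isSolvable hO
  refine H5.isCyclic_of_no_elementary_sq h2 hP fun E hEP hE hcard => ?_
  have hodd : ¬ 2 ∣ Nat.card E := by
    rw [hcard]
    exact fun h => h2 ((Nat.prime_dvd_prime_iff_eq Nat.prime_two hp.out).mp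
      (Nat.prime_two.dvd_of_dvd_pow h)).symm
  have hcop : H8.CopAct E (pCore 2 H) := H8.CopAct.of_pgroup_right hodd L0.pCore_isPGroup
    (by rw [normalizer_eq_top]; exact le_top)
  have hY : pCore 2 H ≤ ⊥ := hcop.le_of_not_isCyclic hE.1 (H8.elemAb_not_isCyclic hE hcard.ge)
    (fun a ha ha1 y hy => by
      by_contra hy1
      refine no_commute hsol hO hI (x := a) ?_ ha1
        (H5.IsPGroup_pow_eq_one L0.pCore_isPGroup hy.1) hy1
        (mem_centralizer_singleton_iff.mp hy.2).symm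
      rw [H8.elemAb_orderOf hE ha ha1]
      exact hp.out.odd_of_ne_two h2)
  have hE0 : E ≤ ⊥ := fun a _ => hY (hc (by
    rw [mem_centralizer_iff]
    intro y hy
    rw [mem_bot.mp (hY hy)]; simp))
  rw [le_bot_iff.mp hE0, card_bot] at hcard
  exact absurd hcard (Nat.one_lt_pow two_ne_zero hp.out.one_lt).ne

theorem exists_normal_cyclic_quotient {H : Type*} [Group H] [Finite H] (hsol : Group.IsSolvable H)
    (hO : Cfsg.oddCore H = ⊥)
    (hI : ∀ t : H, orderOf t = 2 → Cfsg.HasNormalPComplement 2 ↥(centralizer ({t} : Set H)))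
    (X : Subgroup H) (hXodd : Odd (Nat.card X)) (hXidx : ∃ k : ℕ, X.index = 2 ^ k) :
    ∃ (C : Subgroup H) (_ : C.Normal), C ≤ X ⊔ pCore 2 H ∧ IsCyclic (H ⧸ C) := by
  let f := QuotientGroup.mk' (pCore 2 H)
  have hf : Function.Surjective f := QuotientGroup.mk'_surjective _
  have hker : f.ker = pCore 2 H := QuotientGroup.ker_mk' _
  by_cases htop : (⊤ : Subgroup (H ⧸ pCore 2 H)) = ⊥
  · refine ⟨pCore 2 H, inferInstance, le_sup_right, ?_⟩
    haveI : Subsingleton (H ⧸ pCore 2 H) := ⟨fun a b => by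
      rw [mem_bot.mp (htop.le (mem_top a)), mem_bot.mp (htop.le (mem_top b))]⟩
    infer_instance
  haveI : Group.IsSolvable (⊤ : Subgroup (H ⧸ pCore 2 H)) := inferInstance
  obtain ⟨p, N, hp, -, hN, hN0, hE⟩ := L0.exists_elementary_normal_le
    (inferInstance : (⊤ : Subgroup (H ⧸ pCore 2 H)).Normal) htop
  haveI := Fact.mk hp
  have h2 : p ≠ 2 := by
    rintro rfl
    exact hN0 (L0.pCore_eq_bot_iff.mp L0.pCore_quotient_pCore N hN (L0.IsElementaryAbelian.isPGroup hE))
  obtain ⟨P, hP, hPN⟩ := H5.exists_isPGroup_map_eq f hf (L0.IsElementaryAbelian.isPGroup hE)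
  have hNc : IsCyclic N := hPN ▸ H5.isCyclic_map f (isCyclic_of_odd hsol hO hI h2 hP)
  have hcard : Nat.card N = p := by
    obtain ⟨x, hx⟩ := hNc.exists_generator
    rw [← orderOf_eq_card_of_forall_mem_zpowers hx, ← orderOf_coe]
    refine H8.elemAb_orderOf hE x.2 fun h => hN0 ?_
    rw [eq_bot_iff]
    intro y hy
    obtain ⟨k, hk⟩ := hx ⟨y, hy⟩
    have : (x : H ⧸ pCore 2 H) ^ k = y := congrArg Subtype.val hk
    rw [← this, h]; simp
  have hA : IsCyclic (MulAut N) := by
    have e := IsCyclic.mulAutMulEquiv N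
    rw [hcard] at e
    exact isCyclic_of_injective e.toMonoidHom e.injective
  let φ : (H ⧸ pCore 2 H) →* MulAut N := MulAut.conjNormal
  refine ⟨(φ.comp f).ker, inferInstance, ?_,
    isCyclic_of_injective _ (QuotientGroup.kerLift_injective (φ.comp f))⟩
  have hodd : ¬ 2 ∣ Nat.card φ.ker := by
    intro hd
    obtain ⟨u, hu⟩ := exists_prime_orderOf_dvd_card' 2 hd
    obtain ⟨y, hy, hy1⟩ := (N.bot_or_exists_ne_one).resolve_left hN0
    obtain ⟨x, hx, rfl⟩ : y ∈ P.map f := hPN ▸ hy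
    have hxo : Odd (orderOf x) := by
      obtain ⟨k, hk⟩ := H5.IsPGroup_pow_eq_one hP hx
      exact ((hp.odd_of_ne_two h2).pow).of_dvd_nat (orderOf_dvd_of_pow_eq_one hk)
    have hcop : H8.CopAct (zpowers x) f.ker := H8.CopAct.of_pgroup_right
      (by rw [Nat.card_zpowers]; exact hxo.not_two_dvd_nat) (hker ▸ L0.pCore_isPGroup)
      (by rw [normalizer_eq_top]; exact le_top)
    have hu1 : (u : H ⧸ pCore 2 H) ∈ centralizer (((zpowers x).map f : Subgroup _) : Set _) := by
      rw [MonoidHom.map_zpowers, H8.centralizer_zpowers, mem_centralizer_singleton_iff]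
      have h1 : φ u = 1 := u.2
      have h3 := congrArg (fun σ : MulAut N => ((σ ⟨f x, hy⟩ : N) : H ⧸ pCore 2 H)) h1
      exact mul_inv_eq_iff_eq_mul.mp h3
    rw [hcop.centralizer_map f hf, H8.centralizer_zpowers] at hu1
    obtain ⟨c, hc, hcu⟩ := hu1
    obtain ⟨m, hm, hk⟩ := H9.exists_coprime_pow_pElement (p := 2) c
    refine no_commute hsol hO hI hxo (fun h => hy1 (by rw [h, map_one])) hk (fun h => ?_)
      ((show Commute x c from (mem_centralizer_singleton_iff.mp hc).symm).pow_right m)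
    have h4 : (u : H ⧸ pCore 2 H) ^ m = 1 := by rw [← hcu, ← map_pow, h, map_one]
    have h5 := orderOf_dvd_of_pow_eq_one h4
    rw [orderOf_coe, hu] at h5
    exact hm h5
  have hX : H8.IsHallIn {2}ᶜ X ⊤ := by
    refine ⟨le_top, (L0.isPiNum_compl_singleton_iff' Nat.prime_two).mpr hXodd.not_two_dvd_nat, ?_⟩
    rw [compl_compl, relIndex_top_right]
    exact (L0.isPiNum_singleton_iff Nat.prime_two index_ne_zero_of_finite).mpr hXidx
  have hX' := hX.map f
  rw [map_top_of_surjective f hf] at hX'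
  have h6 : φ.ker ≤ X.map f := hX'.le_of_le_normalizer le_top
    ((L0.isPiNum_compl_singleton_iff' Nat.prime_two).mpr hodd)
    (by rw [normalizer_eq_top]; exact le_top)
  intro g hg
  have : g ∈ (X.map f).comap f := h6 hg
  rwa [comap_map_eq, hker] at this

/-- Let H be a finite solvable group with no nontrivial normal subgroup of odd order in which the centralizer of every involution has a normal 2-complement. Let X be a Hall 2'-subgroup of H (odd order, index a power of 2) and Y = O₂(H). Then no non-identity element of X commutes with a non-identity element of Y (so for X ≠ 1 the group XY is a Frobenius group with kernel Y), every Sylow subgroup of X is cyclic, XY is normal in H, and H/XY is a cyclic 2-group. -/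
theorem result {H : Type*} [Group H] [Finite H] (hsol : Group.IsSolvable H)
    (hO : Cfsg.oddCore H = ⊥)
    (hI : ∀ t : H, orderOf t = 2 → Cfsg.HasNormalPComplement 2 ↥(Subgroup.centralizer ({t} : Set H)))
    (X : Subgroup H) (hXodd : Odd (Nat.card X)) (hXidx : ∃ k : ℕ, X.index = 2 ^ k) :
    (∀ x ∈ X, x ≠ 1 → ∀ y ∈ Cfsg.pCore 2 H, y ≠ 1 → x * y ≠ y * x) ∧
      (∀ (p : ℕ) [Fact p.Prime] (P : Sylow p ↥X), IsCyclic ↥(P : Subgroup ↥X)) ∧
      (X ⊔ Cfsg.pCore 2 H).Normal ∧
      ∀ hN : (X ⊔ Cfsg.pCore 2 H).Normal, IsCyclic (H ⧸ (X ⊔ Cfsg.pCore 2 H)) ∧ IsPGroup 2 (H ⧸ (X ⊔ Cfsg.pCore 2 H)) := by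
  obtain ⟨C, hC, hle, hcyc⟩ := exists_normal_cyclic_quotient hsol hO hI X hXodd hXidx
  refine ⟨fun x hx hx1 y hy hy1 => no_commute hsol hO hI
    (hXodd.of_dvd_nat (X.orderOf_dvd_natCard hx)) hx1
    (H5.IsPGroup_pow_eq_one L0.pCore_isPGroup hy) hy1, fun p hp P => ?_, ?_, fun hN => ⟨?_, ?_⟩⟩
  · by_cases h2 : p = 2
    · subst h2
      have : (P : Subgroup X) = ⊥ := L0.eq_bot_of_isPGroup_of_not_dvd P.2
        (fun h => hXodd.not_two_dvd_nat (h.trans (card_subgroup_dvd_card _)))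
      rw [this]; infer_instance
    · have := isCyclic_of_odd hsol hO hI h2 (P.2.map X.subtype)
      exact isCyclic_of_injective (X.subtype.subgroupMap P) (fun a b h =>
        Subtype.ext (Subtype.ext (congrArg (fun z : (P : Subgroup X).map X.subtype => (z : H)) h)))
  · refine ⟨fun n hn g => ?_⟩
    have : (g * n * g⁻¹)⁻¹ * n ∈ C := by
      rw [← QuotientGroup.eq]
      letI := hcyc.commGroup
      simp
    have h2 := mul_mem hn (inv_mem (hle this))
    simpa using h2
  · exact isCyclic_of_surjective (QuotientGroup.map C (X ⊔ Cfsg.pCore 2 H) (MonoidHom.id H) hle)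
      (QuotientGroup.map_surjective_of_surjective _ _ _ (QuotientGroup.mk_surjective) _)
  · obtain ⟨k, hk⟩ := hXidx
    obtain ⟨j, -, hj⟩ := (Nat.dvd_prime_pow Nat.prime_two).mp
      (hk ▸ index_dvd_of_le (le_sup_left : X ≤ X ⊔ Cfsg.pCore 2 H))
    exact IsPGroup.of_card hj

end Cfsg.Agent.S3215
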