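import Cfsg.Statements.S3219
import Cfsg.Agent.H3.Km11

set_option autoImplicit false
open Cfsg

namespace Cfsg.Agent.S3219

/-- Let G be a finite doubly transitive permutation group on a set Ω in which the stabilizer of two points is isomorphic to the alternating group A₄. Then Ω has 6 points and G ≅ A₆, or Ω has 15 points and G ≅ A₇, or Ω has 16 points and G is isomorphic to the group of all affine transformations of the affine plane over the field with 4 elements, or G = C_G(J)O(G) for some involution J of G, where O(G) is the largest normal subgroup of G of odd order. -/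
theorem result {G : Type*} [Group G] [Finite G] {Ω : Type*} [Fintype Ω] [MulAction G Ω] [FaithfulSMul G Ω]
    (h2 : MulAction.IsMultiplyPretransitive G Ω 2) (a b : Ω) (hab : a ≠ b)
    (e : ↥(MulAction.stabilizer G a ⊓ MulAction.stabilizer G b) ≃* ↥(alternatingGroup (Fin 4))) :
    (Fintype.card Ω = 6 ∧ Nonempty (G ≃* ↥(alternatingGroup (Fin 6)))) ∨ (Fintype.card Ω = 15 ∧ Nonempty (G ≃* ↥(alternatingGroup (Fin 7)))) ∨
      (Fintype.card Ω = 16 ∧ ∃ (F : Type) (_ : Field F) (_ : Fintype F), Fintype.card F = 4 ∧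
        Nonempty (G ≃* ((Fin 2 → F) ≃ᵃ[F] (Fin 2 → F)))) ∨
      (∃ J : G, orderOf J = 2 ∧ Subgroup.centralizer ({J} : Set G) ⊔ Cfsg.oddCore G = ⊤) := by
  obtain ⟨τ, σ, h, hd⟩ := H3.Km.exists_St' h2 hab H3.Km.af4 e
  rw [← Nat.card_eq_fintype_card]
  rcases h.main hd (Or.inl ⟨rfl, rfl⟩) with e | e | e | ⟨J, h1, h2, -⟩ | e
  · exact Or.inl ⟨e.2, h.six rfl e.2⟩
  · exact Or.inr (Or.inl ⟨by omega, e.2⟩)
  · exact Or.inr (Or.inr (Or.inl ⟨e.2.1, H3.Km.F4, inferInstance, inferInstance, H3.Km.card_F4, e.2.2⟩))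
  · exact Or.inr (Or.inr (Or.inr ⟨J, h1, h2.centralizer_sup⟩))
  · omega

end Cfsg.Agent.S3219
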