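import Cfsg.Statements.S3237
import Cfsg.Agent.H2.A9
import Cfsg.Agent.H9.BSW2

set_option autoImplicit false
open Cfsg

namespace Cfsg.Agent.S3237

/-- Let G be a finite group of even order with an involution z, H = C_G(z), such that H has a normal subgroup E of order 32 that is extraspecial and contains no elementary abelian subgroup of order 8 (the central product of a dihedral group of order 8 with a quaternion group), C_H(E) ≤ E, and H/E ≅ S₄. Then O(G) is abelian, and if G is not solvable then G is isomorphic to the automorphism group of PGL₃(4). -/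
theorem result {G : Type*} [Group G] [Finite G]
    (hev : Even (Nat.card G)) (z : G) (hz : orderOf z = 2)
    (E : Subgroup ↥(Subgroup.centralizer ({z} : Set G))) [hEn : E.Normal] (hE : Cfsg.IsExtraspecial 2 ↥E) (hE32 : Nat.card ↥E = 32)
    (hEminus : ∀ A : Subgroup ↥E, Cfsg.IsElementaryAbelian 2 A → Nat.card ↥A ≠ 8)
    (hCE : Subgroup.centralizer (E : Set ↥(Subgroup.centralizer ({z} : Set G))) ≤ E)
    (e : (↥(Subgroup.centralizer ({z} : Set G)) ⧸ E) ≃* Equiv.Perm (Fin 4)) {F : Type*} [Field F] [Fintype F] (hF : Fintype.card F = 4) :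
    IsMulCommutative ↥(Cfsg.oddCore G) ∧
      (¬ Group.IsSolvable G → Nonempty (G ≃* MulAut (GL (Fin 3) F ⧸ Subgroup.center (GL (Fin 3) F)))) := by
  have zz := H4.mul_self_of_orderOf_two hz
  have z1 := H4.ne_one_of_orderOf_two hz
  let z' : Subgroup.centralizer ({z} : Set G) := ⟨z, Subgroup.mem_centralizer_singleton_iff.mpr rfl⟩
  have cz : ∀ g, g * z' = z' * g := fun g => Subtype.ext (Subgroup.mem_centralizer_singleton_iff.mp g.2)
  have ce : ∀ g, (∀ w ∈ E, g * w = w * g) → g ∈ E := fun g hg => hCE fun w hw => (hg w hw).symm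
  obtain ⟨z0, es⟩ := H9.exists_es_of_isExtraspecial hE
  replace es := es.eq_of_central (ce z' fun w _ => (cz w).symm) (fun e => z1 (congrArg Subtype.val e)) fun q _ => cz q
  have H : H2.AM.Hyp E z' := by
    refine ⟨es, hE32, hEn, cz, ce, fun a ha b hb a2 b2 hab => ?_⟩
    by_contra hn
    simp only [not_or] at hn
    obtain ⟨n1, n2, n3, n4, n5, n6⟩ := hn
    obtain ⟨A, h1, h2⟩ := H2.AM.e8 (z := (⟨z', es.mem⟩ : E)) (a := ⟨a, ha⟩) (b := ⟨b, hb⟩)
      ((Subgroup.orderOf_coe _).symm.trans es.orderOf_eq) (Subtype.ext ((pow_two a).trans a2))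
      (Subtype.ext ((pow_two b).trans b2)) (Subtype.ext (cz a).symm) (Subtype.ext (cz b).symm) (Subtype.ext hab)
      (fun e => n1 (congrArg Subtype.val e)) (fun e => n2 (congrArg Subtype.val e)) (fun e => n3 (congrArg Subtype.val e))
      (fun e => n4 (congrArg Subtype.val e)) (fun e => n5 (congrArg Subtype.val e)) fun e => n6 (congrArg Subtype.val e)
    exact hEminus A h1 h2
  obtain ⟨α, β, _, f0, h0⟩ := H.model e
  let f := (Subgroup.subtype _).comp f0.toMonoidHom
  have fz : f H2.AM.M.zz = z := congrArg Subtype.val h0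
  have h : H2.AM.St f := ⟨(Subgroup.subtype_injective _).comp f0.injective, fun g hg =>
    ⟨f0.symm ⟨g, Subgroup.mem_centralizer_singleton_iff.mpr (fz ▸ hg)⟩, congrArg Subtype.val (f0.apply_symm_apply _)⟩⟩
  have odd : ∀ g ∈ oddCore G, Odd (orderOf g) := fun g hg =>
    (H8.Dich.odd_iff.mpr L0.not_dvd_card_pPrimeCore).of_dvd_nat (Subgroup.orderOf_dvd_natCard _ hg)
  have iv : ∀ g ∈ oddCore G, z * g * z⁻¹ = g⁻¹ := fun g hg =>
    H9.inverts_of_fpf (by rw [Subgroup.normalizer_eq_top]; trivial) zz (fun g hg hc => by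
      let g' : Subgroup.centralizer ({z} : Set G) := ⟨g, Subgroup.mem_centralizer_singleton_iff.mpr hc⟩
      have k : ∀ x ∈ E, (x : G) ∈ oddCore G → x = 1 := fun x h1 h2 =>
        WA.Te.eq_one_of_two_odd es.isPGroup h1 (Subgroup.orderOf_coe x ▸ odd _ h2)
      refine congrArg Subtype.val (k g' (ce _ fun w hw => ?_) hg)
      have := k (g' * w * g'⁻¹ * w⁻¹) (mul_mem (hEn.conj_mem _ hw _) (inv_mem hw)) (by
        change g * w * g⁻¹ * (w : G)⁻¹ ∈ _
        rw [mul_assoc, mul_assoc, ← mul_assoc (w : G)]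
        exact mul_mem hg ((inferInstance : (oddCore G).Normal).conj_mem _ (inv_mem hg) _))
      rwa [mul_inv_eq_one, mul_inv_eq_iff_eq_mul] at this) hg
  have cm : ∀ a ∈ oddCore G, ∀ b ∈ oddCore G, a * b = b * a := fun a ha b hb => by
    rw [← inv_inj, ← iv _ (mul_mem ha hb), ← conj_mul, iv a ha, iv b hb, mul_inv_rev]
  refine ⟨⟨⟨fun a b => Subtype.ext (cm _ a.2 _ b.2)⟩⟩, fun hs => ?_⟩
  obtain ⟨g, h1, h2⟩ : ∃ g : G, Commute z (g * z * g⁻¹) ∧ g * z * g⁻¹ ≠ z := by
    by_contra hn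
    push Not at hn
    have h1 := H8.solvable_sup (H := Subgroup.centralizer ({z} : Set G)) (N := oddCore G)
      (by rw [Subgroup.normalizer_eq_top]; exact le_top)
      (Group.isSolvable_of_comm fun a b => Subtype.ext (cm _ a.2 _ b.2))
      (L0.isSolvable_of_card_eq_pow_mul_pow Nat.prime_two Nat.prime_three (a := 8) (b := 1) (fz ▸ h.card))
    rw [sup_comm, (H7.Isolated.of_commute zz hn).centralizer_sup] at h1
    exact hs (Group.isSolvable_of_surjective (f := (⊤ : Subgroup G).subtype) fun x => ⟨⟨x, trivial⟩, rfl⟩)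
  obtain ⟨t, ht⟩ := h.sur _ (fz ▸ h1.symm.eq)
  have hc := h.fuse (g := g) (t := t) ht.symm fun e => h2 (by rw [← fz, ← ht, e])
  obtain ⟨rfl, rfl⟩ := h.real hc
  refine h.final (eq_bot_iff.mpr fun x hx => ?_) hs hF
  have iv' : ∀ t, IsConj z t → t * x * t⁻¹ = x⁻¹ := fun t ht => by
    obtain ⟨k, rfl⟩ := isConj_iff.mp ht
    have := iv _ ((inferInstance : (oddCore G).Normal).conj_mem _ hx k⁻¹)
    calc _ = k * (z * (k⁻¹ * x * k⁻¹⁻¹) * z⁻¹) * k⁻¹ := by group
      _ = _ := by rw [this]; group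
  have h3 := iv' _ (fz ▸ hc.trans (H2.AM.St.cjm (H2.AM.M.basic _ _).2.2.2.2.2.2.2.2.2.1))
  rw [map_mul, fz, mul_inv_rev, show ∀ a : G, a * z * x * (z⁻¹ * a⁻¹) = a * (z * x * z⁻¹) * a⁻¹ from fun a => by group,
    iv x hx, ← conj_inv, iv' _ (fz ▸ hc), inv_inv, eq_inv_iff_mul_eq_one] at h3
  exact H2.L4.odd_mem (odd x hx) (h3 ▸ one_mem _)

end Cfsg.Agent.S3237
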