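import Cfsg.Statements.S3244
import Cfsg.Agent.H4.Scn3

set_option autoImplicit false
open Cfsg

namespace Cfsg.Agent.S3244

/-- Say that a finite group G is of characteristic 2 type in the early sense when a Sylow 2-subgroup S of G has a self-centralizing normal subgroup of rank at least 3, S normalizes no nontrivial subgroup of odd order, and every 2-local subgroup of G is 2-constrained. If G is a non-abelian simple group of characteristic 2 type in this sense, then for some maximal 2-local subgroup M of G the centre of O₂(M) is not cyclic. -/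
theorem result {G : Type*} [Group G] [Finite G] [IsSimpleGroup G]
    (hG : ¬ IsMulCommutative G) (S : Sylow 2 G) (A : Subgroup G) (hA : Cfsg.IsSCN (S : Subgroup G) A) (hA3 : ¬ Cfsg.PRankLE 2 2 ↥A)
    (hinv : ∀ X : Subgroup G, Odd (Nat.card ↥X) → (S : Subgroup G) ≤ Subgroup.normalizer (X : Set G) → X = ⊥)
    (hcon : ∀ T : Subgroup G, IsPGroup 2 ↥T → T ≠ ⊥ → Cfsg.IsPConstrained 2 ↥(Subgroup.normalizer (T : Set G))) :
    ∃ M : Subgroup G, Cfsg.IsMaximalTwoLocal M ∧ ¬ IsCyclic ↥(Subgroup.center ↥(Cfsg.pCore 2 ↥M)) := by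
  by_contra hne
  push Not at hne
  obtain ⟨E, hE, hE8, hEA, hSE, -⟩ := Cfsg.Agent.H4.exists_elemAb_of_scn hA.2.1 hA.2.2 hA3
  have hcon' : ∀ t : G, orderOf t = 2 →
      Cfsg.IsPConstrained 2 (Subgroup.centralizer ({t} : Set G)) := fun t ht => by
    rw [← Cfsg.Agent.H4.normalizer_zpowers_two ht]
    exact hcon _ (Cfsg.Agent.H4.zpowers_pgroup_two ht) (Cfsg.Agent.H4.zpowers_ne_bot_two ht)
  have h0 : ∀ t : G, orderOf t = 2 →
      Cfsg.Agent.H8.Opp 2 (Subgroup.centralizer ({t} : Set G)) = ⊥ := fun t ht =>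
    Cfsg.Agent.H4.opp_centralizer_eq_bot (Cfsg.Agent.H8.isSylowIn_top S) hE hE8 hSE
      (fun X hX => hinv X (Nat.odd_iff.2 (Nat.two_dvd_ne_zero.1 hX))) hcon' ht
  have hE1 : E ≠ ⊥ := Cfsg.Agent.H8.ne_bot_of_pow_le_card (by norm_num) hE8
  obtain ⟨M, hM, -⟩ := Cfsg.Agent.H4.exists_maximalTwoLocal_ge
    (N := Subgroup.normalizer (E : Set G)) ⟨E, Cfsg.Agent.H8.elemAb_pgroup hE, hE1, rfl⟩
  obtain ⟨t, ht, hiso⟩ := Cfsg.Agent.H4.isolated_of_maximalTwoLocal (fun M hM =>
    Cfsg.Agent.H4.exists_involution_of_cyclic (fun t ht =>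
      Cfsg.Agent.H5.centralizer_pCore_le_of_isPConstrained (hcon' t ht)
        (Cfsg.Agent.L0.map_pPrimeCore_eq_bot_iff.1 (h0 t ht))) hM (hne M hM)) hM
  rcases hiso.eq_one_or_comm with h | h
  · exact Cfsg.Agent.H4.ne_one_of_orderOf_two ht h
  · exact hG h

end Cfsg.Agent.S3244
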