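import Cfsg.Statements.S3245
import Cfsg.Agent.BS.SEMain

set_option autoImplicit false
open Cfsg

namespace Cfsg.Agent.S3245

open Subgroup Cfsg.Agent.BS Cfsg.Agent.FT Cfsg.Agent.L0 Cfsg.Agent.H8

theorem exists_max {G : Type*} [Group G] [Finite G] {T : Subgroup G} (h : IsPGroup 2 T) (h1 : T ≠ ⊥) :
    ∃ M, IsMaximalTwoLocal M ∧ normalizer (T : Set G) ≤ M := by
  obtain ⟨M, h2, h3⟩ := (Set.toFinite {N : Subgroup G | IsTwoLocal N}).exists_le_maximal
    (a := normalizer (T : Set G)) ⟨T, h, h1, rfl⟩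
  exact ⟨M, ⟨h3.1, fun N hN hle => le_antisymm (h3.2 hN hle) hle⟩, h2⟩

theorem unique {G : Type*} [Group G] [Finite G]
    (h1 : ∀ M M' : Subgroup G, IsMaximalTwoLocal M → IsMaximalTwoLocal M' → ∃ g : G, M' = cj g M) (T : Subgroup G) :
    IsPGroup 2 T → T ≠ ⊥ → ∀ M M', IsMaximalTwoLocal M → IsMaximalTwoLocal M' → T ≤ M → T ≤ M' → M = M' := by
  have := Fact.mk Nat.prime_two
  induction T using WellFoundedGT.induction with | _ T ih => ?_
  intro hT hT1
  obtain ⟨N, hN, hTN⟩ := exists_max hT hT1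
  suffices key : ∀ M, IsMaximalTwoLocal M → T ≤ M → M = N from fun M M' hM hM' h2 h3 => (key M hM h2).trans (key M' hM' h3).symm
  intro M hM hTM
  obtain ⟨S, hS, hTS⟩ := exists_isSylowIn_ge hT hTM
  rcases hTS.eq_or_lt with rfl | hlt
  · obtain ⟨P, hP, hTP⟩ := exists_isSylowIn_ge hT le_top
    obtain ⟨N', hN', h2⟩ := exists_max hP.pgroup fun e => hT1 (eq_bot_iff.2 (e ▸ hTP))
    obtain ⟨x, rfl⟩ := h1 N' M hN' hM
    have h3 := (hP.cj x).of_le (cj_mono x (le_normalizer.trans h2)) (cj_mono x le_top)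
    obtain ⟨g, rfl⟩ := h1 _ N hM hN
    obtain ⟨m, hm, e⟩ := (hS.cj g).exists_cj_eq (((hP.cj_of_mem_normalizer (g := 1) (one_mem _)).of_card_ge hT le_top (by
      rw [card_cj, hS.card_eq_card h3, card_cj])).of_le (le_normalizer.trans hTN) le_top)
    rw [← cj_mul] at e
    have h4 := (mul_mem_cancel_left hm).1 (hTN (cj_eq_self_iff.1 e))
    rw [mem_cj, inv_mul_cancel, one_mul] at h4
    exact (cj_eq_self (le_normalizer h4)).symm
  · have h2 := lt_inf_normalizer_of_pgroup hS.pgroup hlt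
    exact ih _ h2 hS.pgroup.to_inf_left (h2.trans_le' bot_le).ne' M N hM hN (inf_le_left.trans hS.le) (inf_le_right.trans hTN)

/-- A finite non-abelian simple group in which all maximal 2-local subgroups are conjugate is isomorphic to L₂(2ⁿ), Sz(2ⁿ) or U₃(2ⁿ) for some n ≥ 2. -/
theorem result {G : Type*} [Group G] [Finite G] [IsSimpleGroup G] (hG : ¬ IsMulCommutative G)
    (h1 : ∀ M M' : Subgroup G, Cfsg.IsMaximalTwoLocal M → Cfsg.IsMaximalTwoLocal M' → ∃ g : G, M' = M.map (MulAut.conj g).toMonoidHom) :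
    (∃ (F : Type) (_ : Field F) (_ : Fintype F) (n : ℕ), 2 ≤ n ∧ Fintype.card F = 2 ^ n ∧
        Nonempty (G ≃* Matrix.ProjectiveSpecialLinearGroup (Fin 2) F)) ∨
      Cfsg.Lie.IsoSuzuki G ∨
      (∃ (F : Type) (_ : Field F) (_ : Fintype F) (n : ℕ), 2 ≤ n ∧ Fintype.card F = (2 ^ n) ^ 2 ∧ Nonempty (G ≃* Cfsg.PSU 3 F (2 ^ n))) := by
  have := Fact.mk Nat.prime_two
  have hs : ¬ Group.IsSolvable (⊤ : Subgroup G) := fun h => hG ⟨⟨IsSimpleGroup.comm_iff_isSolvable.2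
    (Group.isSolvable_of_surjective (f := (⊤ : Subgroup G).subtype) fun x => ⟨⟨x, trivial⟩, rfl⟩)⟩⟩
  obtain ⟨S, hS⟩ := exists_isSylowIn 2 (⊤ : Subgroup G)
  have hS1 := hS.ne_bot (even_iff_two_dvd.1 (Nat.not_odd_iff_even.1 fun h => hs (odd_solvable h)))
  obtain ⟨M, hM, hN⟩ := exists_max hS.pgroup hS1
  have hse : IsStronglyEmbedded M := H8.Dich.stronglyEmbedded_of (fun e => by
    obtain ⟨T, h2, h3, h4⟩ := hM.1
    rcases (normalizer_eq_top_iff.1 (h4.symm.trans e)).eq_bot_or_eq_top with h5 | h5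
    · exact h3 h5
    · have := (h5 ▸ h2 : IsPGroup 2 (⊤ : Subgroup G)).isNilpotent
      exact hs inferInstance) hS hS1 hN fun t ht ho => by
    have hi := Invo.of_orderOf ho
    obtain ⟨M', hM', h2⟩ := exists_max hi.pgroup_zpowers (zpowers_ne_bot.2 hi.2)
    rw [unique h1 _ hi.pgroup_zpowers (zpowers_ne_bot.2 hi.2) M M' hM hM' (zpowers_le.2 (hN (le_normalizer ht)))
      (le_normalizer.trans h2)]
    exact fun g hg => h2 (centralizer_le_normalizer _ (le_centralizer_singleton_iff.1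
      (zpowers_le.2 (mem_centralizer_singleton_comm.1 hg))))
  rcases bender_simple hG hse with ⟨F, _, _, hc, h4, e⟩ | h | h
  · obtain ⟨n, -, hn⟩ := FiniteField.card F 2
    refine Or.inl ⟨F, inferInstance, inferInstance, n, ?_, hn, e⟩
    rw [hn] at h4
    exact (Nat.pow_le_pow_iff_right one_lt_two).1 h4
  · exact Or.inr (Or.inr h)
  · exact Or.inr (Or.inl h)

end Cfsg.Agent.S3245
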