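import Cfsg.Statements.S3246
import Cfsg.Agent.H7.ExtLayer
import Cfsg.Agent.H4.Thompson
import Cfsg.Agent.H8.Generation

set_option autoImplicit false
open Cfsg

namespace Cfsg.Agent.S3246

open Subgroup Cfsg.Agent.H7

open scoped commutatorElement

theorem relIndex_centralizer_le {G : Type*} [Group G] [Finite G] {S Z : Subgroup G} {u : G}
    (h : ∀ s ∈ S, ⁅s, u⁆ ∈ Z) : (centralizer {u}).relIndex S ≤ Nat.card Z := by
  refine Nat.card_le_card_of_injective
    (fun q : S ⧸ (centralizer {u}).subgroupOf S => (⟨⁅(q.out : G), u⁆, h _ q.out.2⟩ : Z)) ?_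
  intro a b hab
  rw [← a.out_eq, ← b.out_eq]
  refine QuotientGroup.eq.mpr ?_
  rw [mem_subgroupOf, mem_centralizer_singleton_iff]
  have h1 : ⁅(a.out : G), u⁆ = ⁅(b.out : G), u⁆ := congrArg Subtype.val hab
  simp only [commutatorElement_def, mul_left_inj] at h1
  simp only [Subgroup.coe_mul, Subgroup.coe_inv]
  calc (a.out : G)⁻¹ * b.out * u = (a.out : G)⁻¹ * (b.out * u * (b.out : G)⁻¹) * b.out := by group
    _ = (a.out : G)⁻¹ * (a.out * u * (a.out : G)⁻¹) * b.out := by rw [h1]
    _ = _ := by group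

theorem le_centralizer_of_relIndex_le_two {G : Type*} [Group G] [Finite G] {Y Q : Subgroup G}
    (h : H8.CopAct Y Q) (hi : (centralizer (Y : Set G)).relIndex Q ≤ 2) :
    Q ≤ centralizer (Y : Set G) := by
  have h0 : (centralizer (Y : Set G)).relIndex Q ≠ 0 := index_ne_zero_of_finite
  by_cases h1 : (centralizer (Y : Set G)).relIndex Q = 1
  · exact relIndex_eq_one.mp h1
  have h2 : ((centralizer (Y : Set G)).subgroupOf Q).index = 2 := by
    change (centralizer (Y : Set G)).relIndex Q = 2
    omega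
  refine h.le_centralizer_of_commutator_le le_rfl (commutator_le.mpr fun q hq y hy => ?_)
  have hq' : y * q⁻¹ * y⁻¹ ∈ Q := H8.conj_mem_of_le_normalizer h.norm hy (Q.inv_mem hq)
  have h3 := (mul_mem_iff_of_index_two h2 (a := ⟨q, hq⟩) (b := ⟨_, hq'⟩)).mpr (by
    simp only [mem_subgroupOf]
    have hy' : y ∈ normalizer ((centralizer (Y : Set G) : Subgroup G) : Set G) :=
      normalizer_le_normalizer_centralizer Y (le_normalizer hy)
    rw [← mem_normalizer_iff.mp hy', inv_mem_iff])
  rw [mem_subgroupOf] at h3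
  convert h3 using 1
  simp only [commutatorElement_def, Subgroup.coe_mul]
  group


/-- Let G be a finite group whose Sylow 2-subgroup S has a self-centralizing normal subgroup of rank at least 3. Suppose that either every maximal 2-local subgroup of G is 2-constrained with no nontrivial normal subgroup of odd order, or the centralizer of every involution of G is 2-constrained with no nontrivial normal subgroup of odd order. Then S normalizes no nontrivial subgroup of G of odd order and every 2-local subgroup of G is 2-constrained. -/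
theorem result {G : Type*} [Group G] [Finite G]
    (S : Sylow 2 G) (A : Subgroup G) (hA : Cfsg.IsSCN (S : Subgroup G) A) (hA3 : ¬ Cfsg.PRankLE 2 2 ↥A)
    (h : (∀ M : Subgroup G, Cfsg.IsMaximalTwoLocal M → Cfsg.IsPConstrained 2 ↥M ∧ Cfsg.oddCore ↥M = ⊥) ∨
      (∀ t : G, orderOf t = 2 → Cfsg.IsPConstrained 2 ↥(Subgroup.centralizer ({t} : Set G)) ∧
        Cfsg.oddCore ↥(Subgroup.centralizer ({t} : Set G)) = ⊥)) :
    (∀ X : Subgroup G, Odd (Nat.card ↥X) → (S : Subgroup G) ≤ Subgroup.normalizer (X : Set G) → X = ⊥) ∧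
      (∀ T : Subgroup G, IsPGroup 2 ↥T → T ≠ ⊥ → Cfsg.IsPConstrained 2 ↥(Subgroup.normalizer (T : Set G))) := by
  have key : ∀ T : Subgroup G, IsPGroup 2 T → T ≠ ⊥ → IsPGroup 2 (fstarOf (normalizer (T : Set G))) := by
    intro T hT hT1
    rcases h with h | h
    · obtain ⟨M, hle, hM⟩ := Finite.exists_le_maximal (p := fun M : Subgroup G => IsTwoLocal M)
        (a := Subgroup.normalizer (T : Set G)) ⟨T, hT, hT1, rfl⟩
      have h1 := isPGroup_fstarOf_iff_isPConstrained.mpr (h M ⟨hM.prop,
        fun M' h1 h3 => le_antisymm (hM.le_of_ge h1 h3) h3⟩)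
      have h2 := isPGroup_fstarOf_inf_normalizer hT (le_normalizer.trans hle) h1
      rwa [inf_eq_right.mpr hle] at h2
    · obtain ⟨t, ht, ht2, hTt⟩ := exists_orderOf_eq_center hT hT1
      have h1 := isPGroup_fstarOf_inf_centralizer hT hTt
        (isPGroup_fstarOf_iff_isPConstrained.mpr (h t ht2))
      rw [inf_eq_right.mpr (centralizer_le (Set.singleton_subset_iff.mpr ht)), ← ope_eq_bot_iff] at h1
      have h2 := ope_inf_centralizer_eq hT (le_top : T ≤ ⊤)
      rw [top_inf_eq, top_inf_eq, h1] at h2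
      exact ope_eq_bot_iff.mp h2.symm
  refine ⟨fun X hX hSX => ?_, fun T hT hT1 => (isPGroup_fstarOf_iff_isPConstrained.mp (key T hT hT1)).1⟩
  have hX' : ¬ 2 ∣ Nat.card X := fun h => (Nat.not_even_iff_odd.mpr hX) (even_iff_two_dvd.mpr h)
  have keyc : ∀ t : G, orderOf t = 2 → IsPGroup 2 (fstarOf (centralizer {t})) := by
    intro t ht
    have hP : IsPGroup 2 (zpowers t) := isPGroup_zpowers_of_orderOf (k := 1) (by simpa using ht)
    have h1 := key _ hP (fun h => by
      rw [zpowers_eq_bot] at h; rw [h, orderOf_one] at ht; omega)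
    have h2 := ope_inf_centralizer_eq hP (le_top : zpowers t ≤ ⊤)
    rw [top_inf_eq, top_inf_eq, ope_eq_bot_iff.mpr h1, H8.centralizer_zpowers] at h2
    exact ope_eq_bot_iff.mp h2
  -- the elementary abelian normal subgroup `V`
  obtain ⟨hAS, hSA, hAC⟩ := hA
  have hAcomm : IsMulCommutative A := by
    rw [← hAC]
    exact H4.isMulCommutative_iff_forall.mpr fun a ha b hb =>
      (mem_centralizer_iff.mp hb.2 a (hAC.le ha))
  set V := omegaOne 2 A with hV
  have hVe : IsElementaryAbelian 2 V := H4.isElementaryAbelian_omegaOne hAcomm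
  have hVS : V ≤ S := (H4.omegaOne_le A).trans hAS
  have hSV : (S : Subgroup G) ≤ normalizer (V : Set G) :=
    hSA.trans (H4.normalizer_le_normalizer_omegaOne A)
  have hVc : 4 < Nat.card V := by
    by_contra hc
    refine hA3 fun B hB hB2 => ?_
    have h1 : B.map A.subtype ≤ V := H4.le_omegaOne (map_subtype_le _) (by
      rintro _ ⟨b, hb, rfl⟩
      exact congrArg Subtype.val (hB2 b hb))
    have h2 := Subgroup.card_le_of_le h1
    rw [Subgroup.card_map_of_injective A.subtype_injective] at h2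
    omega
  have hV1 : V ≠ ⊥ := fun h => by rw [h, card_bot] at hVc; omega
  obtain ⟨z, hzV, hz, hzS, -⟩ := H5.exists_mem_centralizer_of_isPGroup (H4.EA.isPGroup hVe) S.isPGroup'
    hSV hV1
  have hZc : Nat.card (zpowers z) = 2 := by rw [Nat.card_zpowers, hz]
  have hlt : zpowers z < V := lt_of_le_of_ne (zpowers_le.mpr hzV) fun h => by
    rw [← h, hZc] at hVc; omega
  obtain ⟨U, hZU, hUV, hSU, hcomm, hUc, -⟩ := H5.exists_invariant_relIndex_eq S.isPGroup' hVS hSV
    (H5.centralizer_le_normalizer_of_le (zpowers_le.mpr hzS)) hlt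
  have hUe : IsElementaryAbelian 2 U := H4.EA.mono hVe hUV
  have hcop : H8.CopAct U X := H8.CopAct.of_pgroup (H4.EA.isPGroup hUe) hX' (hUV.trans (hVS.trans hSX))
  have hnc : ¬ IsCyclic U := by
    intro hc
    obtain ⟨g, hg⟩ := hc.exists_ofOrder_eq_natCard
    have h1 : orderOf g ∣ 2 := orderOf_dvd_of_pow_eq_one (Subtype.ext (hUe.2 g g.2))
    rw [hg, hUc, hZc] at h1
    omega
  refine le_bot_iff.mp (hcop.le_of_not_isCyclic hUe.1 hnc fun u hu hu1 => ?_)
  have hu2 : orderOf u = 2 := H4.EA.orderOf_eq hUe hu hu1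
  set C := centralizer ({u} : Set G) with hC
  set Y := X ⊓ C with hY
  have hYodd : ¬ 2 ∣ Nat.card Y := L0.not_dvd_card_of_le inf_le_left hX'
  have hi1 : C.relIndex S ≤ 2 := by
    refine (relIndex_centralizer_le fun s hs => hcomm ?_).trans hZc.le
    rw [commutator_comm]
    exact commutator_mem_commutator hs hu
  obtain ⟨R, hR, hSR⟩ := H8.exists_isSylowIn_ge (S.isPGroup'.to_inf_left (K := C)) (inf_le_right)
  have hQR : op 2 C ≤ R := hR.le_of_le_normalizer (op_isPGroup C) (op_le C)
    (hR.le.trans (le_normalizer_op C))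
  have hi2 : ((S : Subgroup G) ⊓ C).relIndex R ≤ 2 := by
    have h1 := H5.card_mul_relIndex_of_le hSR
    have h2 := H5.card_inf_mul_relIndex C S
    rw [inf_comm] at h2
    obtain ⟨R', hR', hRR'⟩ := H8.exists_isSylowIn_ge hR.pgroup (le_top : R ≤ ⊤)
    have h3 := hR'.card_eq_card (H8.isSylowIn_top S)
    have h4 := Subgroup.card_le_of_le hRR'
    have h5 : 0 < Nat.card ↥((S : Subgroup G) ⊓ C) := Nat.card_pos
    refine le_trans (Nat.le_of_mul_le_mul_left ?_ h5) hi1
    omega
  have hi3 : ((S : Subgroup G) ⊓ C).relIndex (op 2 C) ≤ 2 :=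
    (relIndex_le_of_le_right hQR index_ne_zero_of_finite).trans hi2
  have hYQ : Y ≤ normalizer ((op 2 C : Subgroup G) : Set G) := inf_le_right.trans (le_normalizer_op C)
  have hc1 : (S : Subgroup G) ⊓ C ⊓ op 2 C ≤ centralizer (Y : Set G) := by
    rw [← commutator_eq_bot_iff_le_centralizer]
    have h1 : ⁅(S : Subgroup G) ⊓ C ⊓ op 2 C, Y⁆ ≤ Y := le_normalizer_iff_commutator_le_right.mp
      (le_normalizer_inf (inf_le_left.trans (inf_le_left.trans hSX))
        (inf_le_left.trans (inf_le_right.trans le_normalizer)))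
    have h2 : ⁅(S : Subgroup G) ⊓ C ⊓ op 2 C, Y⁆ ≤ op 2 C :=
      (commutator_mono inf_le_right le_rfl).trans (le_normalizer_iff_commutator_le_left.mp hYQ)
    exact le_bot_iff.mp ((le_inf h2 h1).trans
      (L0.disjoint_of_isPGroup_of_not_dvd (op_isPGroup C) hYodd).le_bot)
  have hi4 : (centralizer (Y : Set G)).relIndex (op 2 C) ≤ 2 := by
    rw [← inf_relIndex_right] at hi3
    exact (relIndex_le_of_le_left hc1 index_ne_zero_of_finite).trans hi3
  have h5 := le_centralizer_of_relIndex_le_two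
    (H8.CopAct.of_pgroup_right hYodd (op_isPGroup C) hYQ) hi4
  have h6 : Y ≤ op 2 C :=
    (le_inf inf_le_right (le_centralizer_iff.mp h5)).trans (inf_centralizer_op_le (keyc u hu2))
  exact (L0.eq_bot_of_isPGroup_of_not_dvd ((op_isPGroup C).to_le h6) hYodd).le

end Cfsg.Agent.S3246
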