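import Cfsg.Statements.S3247
import Cfsg.Agent.H7.Local

set_option autoImplicit false
open Cfsg

namespace Cfsg.Agent.S3247

open Subgroup Cfsg.Agent.H7


/-- Let G be a finite group and p a prime; here a p-local subgroup means the normalizer of a nontrivial p-subgroup, other than G itself. If every p-local subgroup of G that is maximal among p-local subgroups is p-constrained, or if the centralizer of every element of order p of G is p-constrained, then every p-local subgroup of G is p-constrained. -/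
theorem result {G : Type*} [Group G] [Finite G] (p : ℕ) [hp : Fact p.Prime]
    (h : (∀ M : Subgroup G, (∃ T : Subgroup G, IsPGroup p ↥T ∧ T ≠ ⊥ ∧ M = Subgroup.normalizer (T : Set G)) → M ≠ ⊤ →
        (∀ M' : Subgroup G, (∃ T' : Subgroup G, IsPGroup p ↥T' ∧ T' ≠ ⊥ ∧ M' = Subgroup.normalizer (T' : Set G)) → M' ≠ ⊤ → M ≤ M' → M = M') →
        Cfsg.IsPConstrained p ↥M) ∨
      (∀ x : G, orderOf x = p → Cfsg.IsPConstrained p ↥(Subgroup.centralizer ({x} : Set G))))
    (T : Subgroup G) (hT : IsPGroup p ↥T) (hT1 : T ≠ ⊥) (hTG : Subgroup.normalizer (T : Set G) ≠ ⊤) :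
    Cfsg.IsPConstrained p ↥(Subgroup.normalizer (T : Set G)) := by
  rw [isPConstrained_iff_playerOf_eq_bot]
  rcases h with h | h
  · obtain ⟨M, hle, hM⟩ := Finite.exists_le_maximal
      (p := fun M : Subgroup G => (∃ T : Subgroup G, IsPGroup p ↥T ∧ T ≠ ⊥ ∧
        M = Subgroup.normalizer (T : Set G)) ∧ M ≠ ⊤) (a := Subgroup.normalizer (T : Set G))
      ⟨⟨T, hT, hT1, rfl⟩, hTG⟩
    have h1 := isPConstrained_iff_playerOf_eq_bot.mp (h M hM.prop.1 hM.prop.2
      fun M' h1 h2 h3 => le_antisymm h3 (hM.le_of_ge ⟨h1, h2⟩ h3))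
    have h2 := playerOf_inf_normalizer_eq_bot h1 hT (le_normalizer.trans hle)
    rwa [inf_eq_right.mpr hle] at h2
  · obtain ⟨t, ht, ht2, hTt⟩ := exists_orderOf_eq_center hT hT1
    have h1 := playerOf_inf_centralizer_eq_bot
      (isPConstrained_iff_playerOf_eq_bot.mp (h t ht2)) hT hTt
    rw [inf_eq_right.mpr (centralizer_le (Set.singleton_subset_iff.mpr ht))] at h1
    have h2 := playerOf_inf_centralizer_eq hT (le_top : T ≤ ⊤)
    rw [top_inf_eq, top_inf_eq, h1] at h2
    exact h2.symm

end Cfsg.Agent.S3247
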