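import Cfsg.Statements.S3250
import Cfsg.Agent.H9.MS5

set_option autoImplicit false
open Cfsg

namespace Cfsg.Agent.S3250

open Subgroup H7 H8 GW H9

/-- With the length of a finite group defined as the maximum n for which there is a chain G = G₀ > G₁ > ⋯ > G_n = 1 of subgroups: a finite non-abelian simple group of length exactly 8 whose Sylow 2-subgroups have order 2⁷ is isomorphic to PSL₂(127). -/
theorem result {G : Type*} [Group G] [Finite G] [IsSimpleGroup G]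
    (hG : ¬ IsMulCommutative G) (h8 : ∃ c : Fin 9 → Subgroup G, StrictAnti c) (h9 : ∀ c : Fin 10 → Subgroup G, ¬ StrictAnti c)
    (S : Sylow 2 G) (hS : Nat.card ↥(S : Subgroup G) = 2 ^ 7) :
    ∃ (F : Type) (_ : Field F) (_ : Fintype F), Fintype.card F = 127 ∧ Nonempty (G ≃* Matrix.ProjectiveSpecialLinearGroup (Fin 2) F) := by
  have hp := H6.perfect_of_simple hG
  have hS2 := S.isPGroup'
  have hmax : ∀ M : Subgroup G, (S : Subgroup G) ≤ M → M ≠ ⊤ → M ≤ S := fun M h1 h2 => by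
    by_contra h3
    have k : ∀ {A : Subgroup G} {m : ℕ}, A ≤ S → Nat.card A = 2 ^ (m + 1) →
        ∃ D, D < A ∧ D ≤ S ∧ Nat.card D = 2 ^ m := fun {A m} h1 h2 => by
      obtain ⟨D, k1, k2⟩ := exists_le_card (hS2.to_le h1) (m := m)
        (h2 ▸ Nat.pow_le_pow_right two_pos (Nat.le_succ m))
      refine ⟨D, lt_of_le_of_ne k1 fun e => ?_, k1.trans h1, k2⟩
      rw [e, h2] at k2
      exact absurd (Nat.pow_right_injective le_rfl k2) (Nat.succ_ne_self m)
    obtain ⟨A6, a6, b6, c6⟩ := k le_rfl hS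
    obtain ⟨A5, a5, b5, c5⟩ := k b6 c6
    obtain ⟨A4, a4, b4, c4⟩ := k b5 c5
    obtain ⟨A3, a3, b3, c3⟩ := k b4 c4
    obtain ⟨A2, a2, b2, c2⟩ := k b3 c3
    obtain ⟨A1, a1, b1, c1⟩ := k b2 c2
    obtain ⟨A0, a0, -, -⟩ := k b1 c1
    refine h9 ![⊤, M, S, A6, A5, A4, A3, A2, A1, A0] (Fin.strictAnti_iff_succ_lt.mpr fun i => ?_)
    fin_cases i
    exacts [lt_top_iff_ne_top.mpr h2, lt_of_le_not_ge h1 h3, a6, a5, a4, a3, a2, a1, a0]
  have hn : ∀ X : Subgroup G, X ≠ ⊥ → X ≤ S → normalizer (X : Set G) ≠ ⊤ := fun X h1 h2 h3 => by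
    rcases (normalizer_eq_top_iff.mp h3).eq_bot_or_eq_top with e | e
    · exact h1 e
    · haveI := (IsPGroup.of_equiv ((e ▸ hS2.to_le h2 : IsPGroup 2 (⊤ : Subgroup G))) topEquiv).isNilpotent
      exact hG ⟨⟨IsSimpleGroup.comm_iff_isSolvable.mpr inferInstance⟩⟩
  obtain ⟨z, z1, z2, z3, -⟩ := exists_orderOf_centralized hS2 hS2 le_normalizer fun e => by
    rw [e, card_bot] at hS; omega
  have z0 := zpowers_ne_bot.mpr (ne_one_of_orderOf_two z2)
  have e : Cz z = S := le_antisymm ((Cz_le_normalizer z).trans (hmax _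
    (le_trans (fun s hs => mem_Cz.mpr (z3 s hs)) (Cz_le_normalizer z)) (hn _ z0 (zpowers_le.mpr z1))))
    fun s hs => mem_Cz.mpr (z3 s hs)
  have hy : MS.Hy z := ⟨z2, by rw [e, hS]; rfl, e ▸ H6.sylow_two_index_odd S, fun X h1 h2 h3 =>
    e ▸ hmax _ (e ▸ h2) (hn X h1 (e ▸ h3)), H6.index_ne_two_of_perfect hp⟩
  obtain ⟨w, σ, h1, h2⟩ := hy.bsw (by
    by_contra h
    push Not at h
    have k := zstar_commute (sq_of_two z2) fun g hg => h g (mem_Cz.mpr hg.eq.symm)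
    rcases (inferInstance : (pPrimeCore 2 G).Normal).eq_bot_or_eq_top with e1 | e1
    · exact hG (isMulCommutative_of_central (ne_one_of_orderOf_two z2) fun g =>
        (commutatorElement_eq_one_iff_mul_comm.mp (mem_bot.mp (e1 ▸ k g))).symm)
    · exact L0.pPrimeCore_eq_top_iff.mp e1 (z2 ▸ orderOf_dvd_natCard z))
  obtain ⟨F, i1, i2, -, h3, h4⟩ := psl_of_bsw h2 hp
  refine ⟨F, i1, i2, ?_, h4⟩
  rw [Nat.card_zpowers, h1] at h3
  rcases h3 with h3 | h3
  · obtain ⟨p, _, n, hp, e⟩ := FiniteField.card' F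
    have k : ∀ q, q.Prime → q ∣ 129 → q = p := fun q hq h =>
      (Nat.prime_dvd_prime_iff_eq hq hp).mp (hq.dvd_of_dvd_pow (n := n) (by rw [← e, h3]; exact h))
    have := (k 3 Nat.prime_three (by norm_num)).trans (k 43 (by norm_num) (by norm_num)).symm
    omega
  · omega

end Cfsg.Agent.S3250
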