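import Cfsg.Statements.S3252
import Cfsg.Agent.H3.ZG5

set_option autoImplicit false
open Cfsg

namespace Cfsg.Agent.S3252

/-- Let G be a finite non-solvable group that is the product G = AB of a cyclic subgroup A and a subgroup B all of whose Sylow subgroups are cyclic. Then the quotient of G by its largest solvable normal subgroup is isomorphic to PGL₂(p) for some prime p > 3. -/
theorem result {G : Type*} [Group G] [Finite G] (hG : ¬ Group.IsSolvable G)
    (A B : Subgroup G) (hA : IsCyclic ↥A) (hB : ∀ (q : ℕ) [Fact q.Prime] (Q : Sylow q ↥B), IsCyclic ↥(Q : Subgroup ↥B))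
    (hAB : ∀ g : G, ∃ a ∈ A, ∃ b ∈ B, g = a * b)
    (R : Subgroup G) [hR : R.Normal] (hRs : Group.IsSolvable ↥R) (hRmax : ∀ N : Subgroup G, N.Normal → Group.IsSolvable ↥N → N ≤ R) :
    ∃ (F : Type) (_ : Field F) (_ : Fintype F) (p : ℕ), p.Prime ∧ 3 < p ∧ Fintype.card F = p ∧
      Nonempty ((G ⧸ R) ≃* (GL (Fin 2) F ⧸ Subgroup.center (GL (Fin 2) F))) := by
  have : IsZGroup B := ⟨fun q hq Q => @hB q ⟨hq⟩ Q⟩
  have : IsZGroup (B.map (QuotientGroup.mk' R)) := IsZGroup.of_surjective ((QuotientGroup.mk' R).subgroupMap_surjective B)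
  obtain ⟨a, ha⟩ := hA.exists_generator
  obtain ⟨p, hp, h3, h⟩ := H3.ZG.main (G := G ⧸ R)
    (fun h => hG ((Group.isSolvable_iff_subgroup_quotient R).2 ⟨hRs, h⟩)) (QuotientGroup.mk' R a) (B.map (QuotientGroup.mk' R))
    (fun g => by
      obtain ⟨g, rfl⟩ := QuotientGroup.mk'_surjective R g
      obtain ⟨x, hx, b, hb, rfl⟩ := hAB g
      obtain ⟨i, hi⟩ := ha ⟨x, hx⟩
      exact ⟨_, ⟨i, (map_zpow _ _ _).symm.trans (congrArg _ (congrArg Subtype.val hi))⟩, _, ⟨b, hb, rfl⟩, map_mul _ _ _⟩)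
    fun N hN hs => by
      have h1 := hRmax (N.comap (QuotientGroup.mk' R)) inferInstance (Group.isSolvable_of_ker_le_range
        (Subgroup.inclusion (QuotientGroup.le_comap_mk' R N)) ((QuotientGroup.mk' R).subgroupComap N) fun x hx =>
          ⟨⟨x, (QuotientGroup.eq_one_iff _).1 (congrArg Subtype.val hx)⟩, rfl⟩)
      refine eq_bot_iff.2 fun x hx => ?_
      obtain ⟨x, rfl⟩ := QuotientGroup.mk'_surjective R x
      exact (QuotientGroup.eq_one_iff _).2 (h1 hx)
  exact ⟨ZMod p, inferInstance, inferInstance, p, hp.out, h3, ZMod.card p, h⟩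

end Cfsg.Agent.S3252
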