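import Cfsg.Statements.S3254
import Cfsg.Agent.H4.TP6
import Cfsg.Agent.H4.TP7

set_option autoImplicit false
open Cfsg

namespace Cfsg.Agent.S3254

/-- Let p > 3 be a prime and G a finite non-abelian simple group acting faithfully and transitively on a set Ω of 3p points, such that the normalizer of a Sylow p-subgroup of G has order 2p. If the action is primitive then p = 5 and G ≅ A₆; if it is imprimitive then p = 2^m + 1 for some m and G ≅ PSL₂(2^m). -/
theorem result {G : Type*} [Group G] [Finite G] [IsSimpleGroup G] (hG : ¬ IsMulCommutative G)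
    (p : ℕ) (hp : p.Prime) (hp3 : 3 < p) {Ω : Type*} [Fintype Ω] [MulAction G Ω] [FaithfulSMul G Ω]
    (htr : MulAction.IsPretransitive G Ω) (hΩ : Fintype.card Ω = 3 * p)
    (P : Sylow p G) (hN : Nat.card ↥(Subgroup.normalizer ((P : Subgroup G) : Set G)) = 2 * p) :
    (MulAction.IsPreprimitive G Ω → p = 5 ∧ Nonempty (G ≃* ↥(alternatingGroup (Fin 6)))) ∧
      (¬ MulAction.IsPreprimitive G Ω → ∃ (F : Type) (_ : Field F) (_ : Fintype F) (m : ℕ), Fintype.card F = 2 ^ m ∧ p = 2 ^ m + 1 ∧
        Nonempty (G ≃* Matrix.ProjectiveSpecialLinearGroup (Fin 2) F)) := by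
  have : Fact p.Prime := ⟨hp⟩
  rw [← Nat.card_eq_fintype_card] at hΩ
  have : Nontrivial Ω := Finite.one_lt_card_iff_nontrivial.mp (by omega)
  obtain ⟨ω⟩ : Nonempty Ω := inferInstance
  have hperf := H6.perfect_of_simple hG
  have hd : p ∣ Nat.card G := by
    rw [← H6.card_mul_card_stabilizer (G := G) ω, hΩ]
    exact (dvd_mul_left _ _).mul_right _
  obtain ⟨T0⟩ := H4.exists_tp hperf hp3 P hd hN
  obtain ⟨h1, h2⟩ := T0.caseA hperf hΩ
  let T : H4.TA p G := ⟨T0, h1, h2, inferInstance, hperf⟩
  have h3 := T.m_lt (Ω := Ω) (hΩ ▸ dvd_mul_left _ _)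
  obtain ⟨k, hk⟩ := T.dvd_m
  rw [hΩ, hk, mul_comm] at h3
  have h4 := Nat.le_of_mul_le_mul_right h3 hp.pos
  have h5 : k ≠ 0 := by rintro rfl; omega
  constructor
  · intro hprim
    rcases (show k = 1 ∨ k = 2 ∨ k = 3 by omega) with rfl | rfl | rfl
    · exact absurd hprim (T.caseI_imprim (by omega) hΩ)
    · exact T.caseIII hΩ (by omega)
    · exfalso
      rcases T.fix_t hΩ with h | h
      · exact T.IV_one hΩ (by omega) h
      · exact T.IV_three hΩ (by omega) h
  · intro hprim
    apply T.caseI_psl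
    rw [← MulAction.isCoatom_stabilizer_iff_preprimitive G ω, IsCoatom, not_and] at hprim
    have h6 := MulAction.index_stabilizer_of_transitive G ω
    rw [hΩ] at h6
    have h7 := hprim fun h => by rw [h, Subgroup.index_top] at h6; omega
    push Not at h7
    obtain ⟨L, h8, h9⟩ := h7
    have h10 : L.index ∣ 3 * p := h6 ▸ Subgroup.index_dvd_of_le h8.le
    have h11 : L.index ≠ 3 * p := fun h => h8.ne (Subgroup.eq_of_le_of_card_ge h8.le (le_of_eq
      (Nat.eq_of_mul_eq_mul_right (show 0 < 3 * p by omega) (by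
        conv_lhs => rw [← h]
        rw [← h6, Subgroup.card_mul_index, Subgroup.card_mul_index]))))
    have h12 : p ∣ L.index := by
      by_contra h
      have h13 := ((Nat.Prime.coprime_iff_not_dvd hp).mpr h).symm.dvd_of_dvd_mul_right h10
      have h14 := (hd.mul_left 2).trans (H6.two_mul_card_dvd_factorial_index hG h9)
      have := (hp.dvd_factorial.mp h14).trans (Nat.le_of_dvd (by norm_num) h13)
      omega
    obtain ⟨j, hj⟩ := h12
    have h13 : j ∣ 3 := Nat.dvd_of_mul_dvd_mul_left hp.pos (by rwa [← hj, mul_comm p])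
    have h14 : j = 1 := ((Nat.dvd_prime Nat.prime_three).mp h13).resolve_right fun h =>
      h11 (by rw [hj, h, mul_comm])
    have h15 := T.m_lt (Ω := G ⧸ L) ⟨j, hj⟩
    change _ ≤ L.index at h15
    rw [hj, h14, mul_one, hk] at h15
    rw [hk]
    exact le_antisymm h15 (Nat.le_mul_of_pos_right _ (by omega))

end Cfsg.Agent.S3254
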