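import Cfsg.Statements.S3258
import Cfsg.Agent.H3.Pi4

set_option autoImplicit false
open Cfsg

namespace Cfsg.Agent.S3258

/-- Let π be a set of primes containing 2 and G a finite group all of whose π-subgroups (subgroups whose order is divisible only by primes in π) have a normal Sylow 2-subgroup. Then the π'-elements of G (elements whose order is divisible by no prime in π) form a subgroup if and only if N_G(H)/C_G(H) is a π-group for every nontrivial π-subgroup H of G. -/
theorem result {G : Type*} [Group G] [Finite G] (π : Set ℕ) (h2 : 2 ∈ π)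
    (hcl : ∀ H : Subgroup G, (∀ p : ℕ, p.Prime → p ∣ Nat.card ↥H → p ∈ π) → ∀ P : Sylow 2 ↥H, (P : Subgroup ↥H).Normal) :
    (∃ K : Subgroup G, ∀ x : G, x ∈ K ↔ ∀ p : ℕ, p.Prime → p ∣ orderOf x → p ∉ π) ↔
      (∀ H : Subgroup G, H ≠ ⊥ → (∀ p : ℕ, p.Prime → p ∣ Nat.card ↥H → p ∈ π) →
        ∀ p : ℕ, p.Prime → p ∣ (Subgroup.centralizer (H : Set G)).relIndex (Subgroup.normalizer (H : Set G)) → p ∈ π) := by
  haveI := Fact.mk Nat.prime_two
  constructor
  · rintro ⟨K, hK⟩ H _ hH p hp hd
    by_contra hpπ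
    haveI := Fact.mk hp
    obtain ⟨P, hP⟩ := H8.exists_isSylowIn p (Subgroup.normalizer (H : Set G))
    have hKp : L0.IsPiNum πᶜ (Nat.card K) := fun q hq hd' => by
      haveI := Fact.mk hq
      obtain ⟨x, hx⟩ := exists_prime_orderOf_dvd_card' (G := K) q hd'
      exact (hK x).mp x.2 q hq (by rw [Subgroup.orderOf_coe, hx])
    have hPK : P ≤ K := fun x hx => (hK x).mpr fun q hq hd' =>
      H3.piNum_pgroup (π := πᶜ) hpπ hP.pgroup q hq (hd'.trans (P.orderOf_dvd_natCard hx))
    have hn : K.Normal := ⟨fun x hx g => (hK _).mpr (by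
      rw [show orderOf (g * x * g⁻¹) = orderOf x from (MulAut.conj g).orderOf_eq x]; exact (hK x).mp hx)⟩
    have h1 : K ⊓ Subgroup.normalizer (H : Set G) ≤ Subgroup.centralizer (H : Set G) :=
      H8.le_centralizer_of_normalize_of_coprime inf_le_right
        (Subgroup.le_normalizer.trans (H8.le_normalizer_inf Subgroup.le_normalizer_of_normal Subgroup.le_normalizer))
        (L0.IsPiNum.coprime hH (hKp.of_dvd (Subgroup.card_dvd_of_le inf_le_left))).symm
    exact hP.not_dvd_relIndex (hd.trans (Subgroup.relIndex_dvd_of_le_left _ ((le_inf hPK hP.le).trans h1)))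
  · intro h
    obtain ⟨K, hK⟩ := H3.PiH.closed (π := π) (G := G) ⟨h2, fun H T hH hT => by
      rw [← Subgroup.normal_subgroupOf_iff_le_normalizer hT.le]
      exact hcl H hH hT.toSylow, fun H P hH hP hn => by
      by_cases h0 : H = ⊥
      · subst h0
        exact Subgroup.le_centralizer_iff.mp bot_le
      · exact L0.le_of_card_coprime_relIndex hn
          (Subgroup.normal_subgroupOf_of_le_normalizer (H8.normalizer_le_normalizer_centralizer _))
          (L0.IsPiNum.coprime (h H h0 hH) hP).symm⟩
    exact ⟨K, fun x => ⟨fun hx p hp hd => hK.pi p hp (hd.trans (K.orderOf_dvd_natCard hx)),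
      fun hx => hK.mem_of (Subgroup.mem_top x) hx⟩⟩

end Cfsg.Agent.S3258
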