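import Cfsg.Statements.S3260
import Cfsg.Agent.WA.Qd9
import Cfsg.Agent.FT.Main
import Cfsg.Agent.H1.F4

set_option autoImplicit false
open Cfsg

namespace Cfsg.Agent.S3260

open Subgroup Cfsg.Agent.H8 Cfsg.Agent.H5 in
theorem zj_normal {p : ℕ} [hp : Fact p.Prime] {Γ : Type*} [Group Γ] [Finite Γ] {G A : Subgroup Γ}
    (p5 : 5 ≤ p) [G.Normal] (hA : CopAct A G)
    (hn : ¬ SecIn (Matrix.ProjectiveSpecialLinearGroup (Fin 2) (ZMod p))
      (G ⊓ centralizer (A : Set Γ)))
    (hc : centralizer (pCore p G : Set G) ≤ pCore p G) (S : Sylow p Γ) (hS : (S : Subgroup Γ) ≤ G) :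
    (centerThompsonAOf (S : Subgroup Γ)).Normal := by
  have h2 : p ≠ 2 := by omega
  have hst := fun (B : Subgroup Γ) (hB : B.Normal) (hB' : IsPGroup p B) (X : Subgroup Γ)
    (hX : X ≤ S) => WA.Qd.stab p5 hA hn hB' (hX.trans hS)
  rw [centerThompsonAOf_eq]
  have h𝒜 : ∀ A ∈ maxAb (S : Subgroup Γ), A ≤ S ∧ IsMulCommutative A := fun A hA => ⟨hA.1, hA.2.1⟩
  have h1 := sInf_inf_normal S _ h𝒜 (fun A hA g h => cj_mem_maxAb hA h)
    (fun B _ hB hU => exists_normalized_maxAb h2 S.isPGroup' hB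
      le_normalizer_of_normal le_rfl le_normalizer hU) hst (pCore p Γ) inferInstance
      L0.pCore_isPGroup
  obtain ⟨X, hX⟩ := maxAb_nonempty (S : Subgroup Γ)
  have hSI := le_normalizer_sInf (fun A hA => (h𝒜 A hA).1) (fun A hA g h => cj_mem_maxAb hA h)
  obtain ⟨D, hD1, -, hD2, hD3⟩ := hst (pCore p Γ) inferInstance L0.pCore_isPGroup (sInf (maxAb _))
    ((sInf_le hX).trans (h𝒜 X hX).1) (commutator_eq_bot_iff_le_centralizer.mpr
      ((le_normalizer_iff_commutator_le_right.mp ((L0.pCore_le_sylow S).trans hSI)).trans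
      (le_centralizer_iff_isMulCommutative.mpr
        (H4.isMulCommutative_of_le (h𝒜 X hX).2 (sInf_le hX)))))
  have h3 : (pCore p G).map G.subtype ≤ pCore p Γ :=
    L0.le_pCore inferInstance (L0.pCore_isPGroup.map _)
  haveI := normal_of_top_le_normalizer hD2
  have hD : IsPGroup p ↥(D ⊓ G) := by
    intro d
    obtain ⟨k, hk⟩ := hD3 d d.2.1
    obtain ⟨j, hj⟩ := IsPGroup_pow_eq_one L0.pCore_isPGroup (h3 (mem_map_of_mem _
      (hc (x := ⟨_, pow_mem d.2.2 (p ^ k)⟩) fun y hy => Subtype.ext (hk _ (h3 (mem_map_of_mem _ hy))))))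
    exact ⟨k + j, Subtype.ext (by rw [pow_add, pow_mul]; exact hj)⟩
  rwa [inf_eq_left.mpr ((le_inf hD1 (((sInf_le hX).trans (h𝒜 X hX).1).trans hS)).trans
    (L0.le_pCore inferInstance hD))] at h1

open Subgroup Cfsg.Agent.H8 Cfsg.Agent.H5 SemidirectProduct in
/-- Let p ≥ 5 be a prime, G a finite p-constrained group with Sylow p-subgroup S, and A a group of automorphisms of G of order coprime to |G| whose fixed-point subgroup has no section isomorphic to PSL₂(p). Then G = O_{p'}(G) · N_G(Z(J(S))), where J(S) is the subgroup generated by the abelian subgroups of S of largest order. -/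
theorem result {G : Type*} [Group G] [Finite G] (p : ℕ) [hp : Fact p.Prime] (hp5 : 5 ≤ p)
    (hG : Cfsg.IsPConstrained p G) (S : Sylow p G) (A : Subgroup (MulAut G)) (hA : (Nat.card ↥A).Coprime (Nat.card G))
    (C : Subgroup G) (hC : ∀ g : G, g ∈ C ↔ ∀ a ∈ A, a g = g)
    {F : Type*} [Field F] [Fintype F] (hF : Fintype.card F = p)
    (hfix : ¬ Cfsg.Involves (Matrix.ProjectiveSpecialLinearGroup (Fin 2) F) ↥C) :
    Cfsg.pPrimeCore p G ⊔ Subgroup.normalizer (Cfsg.centerThompsonAOf (S : Subgroup G) : Set G) = ⊤ := by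
  by_cases hd : p ∣ Nat.card G
  swap
  · exact top_le_iff.1 ((L0.le_pPrimeCore' inferInstance (by rwa [card_top])).trans le_sup_left)
  haveI : Finite (G ⋊[A.subtype] A) := Finite.of_equiv _ SemidirectProduct.equivProd.symm
  let i : G →* G ⋊[A.subtype] A := inl
  let j : A →* G ⋊[A.subtype] A := inr
  have e0 : i.range = (rightHom : G ⋊[A.subtype] A →* A).ker := range_inl_eq_ker_rightHom
  haveI : i.range.Normal := by rw [e0]; infer_instance
  have c1 : Nat.card i.range = Nat.card G :=
    (Nat.card_congr (MonoidHom.ofInjective inl_injective).toEquiv).symm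
  have c2 : Nat.card j.range = Nat.card A :=
    (Nat.card_congr (MonoidHom.ofInjective inr_injective).toEquiv).symm
  have h0 : CopAct j.range i.range := ⟨le_normalizer_of_normal, by rwa [c1, c2], by
    rcases Nat.even_or_odd (Nat.card A) with h | h
    · exact Or.inr (FT.odd_solvable (by
        rw [c1]; exact Nat.coprime_two_left.1 (hA.coprime_dvd_left h.two_dvd)))
    · exact Or.inl (FT.odd_solvable (by rwa [c2]))⟩
  haveI : ((pPrimeCore p G).map i).Normal := ⟨by
    rintro _ ⟨x, hx, rfl⟩ g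
    have hx' : (g.right : MulAut G) x ∈ pPrimeCore p G :=
      characteristic_iff_le_comap.1 (L0.pPrimeCore_characteristic (p := p)) _ hx
    refine ⟨g.left * (g.right : MulAut G) x * g.left⁻¹, Normal.conj_mem inferInstance _ hx' _, ?_⟩
    conv_rhs => rw [← inl_left_mul_inr_right g]
    simp only [map_mul, map_inv, i, _root_.mul_inv_rev, ← mul_assoc]
    rw [mul_assoc _ (inr _), mul_assoc (inl g.left) (inr _ * _), ← map_inv inr, ← inl_aut]
    rfl⟩
  let π := QuotientGroup.mk' ((pPrimeCore p G).map i)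
  have hπ : Function.Surjective π := QuotientGroup.mk'_surjective _
  have hk : (π.comp i).ker = pPrimeCore p G := by
    rw [← MonoidHom.comap_ker, QuotientGroup.ker_mk', comap_map_eq_self_of_injective inl_injective]
  have e1 : (π.comp i).range = i.range.map π := (MonoidHom.map_range π i).symm
  haveI : (i.range.map π).Normal := Normal.map inferInstance π hπ
  have h1 := (isSylowIn_top S).map (π.comp i)
  rw [← MonoidHom.range_eq_map, e1] at h1
  have h2 : ¬ p ∣ ((S : Subgroup G).map (π.comp i)).index := by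
    rw [← relIndex_mul_index h1.le, hp.out.dvd_mul, not_or]
    refine ⟨h1.not_dvd_relIndex, fun h => hp.out.ne_one (Nat.eq_one_of_dvd_coprimes hA
      (h.trans ((index_map_dvd _ hπ).trans ?_)) hd)⟩
    rw [e0, index_ker]
    exact card_subgroup_dvd_card _
  have h3 := zj_normal hp5 (h0.map π) (fun h => hfix ?_) (centralizer_pCore_le_of_equiv
    (((QuotientGroup.quotientMulEquivOfEq hk.symm).trans
      (QuotientGroup.quotientKerEquivRange _)).trans (MulEquiv.subgroupCongr e1))
    (isPConstrained_iff_quotient.1 hG)) (h1.pgroup.toSylow h2) h1.le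
  · refine pPrimeCore_sup_normalizer_eq_top (S.isPGroup'.to_le (centerThompsonAOf_le _)) ?_
    rw [IsPGroup.toSylow_coe, ← map_centerThompsonAOf_of_disjoint _
      (H4.disjoint_ker_of_isPGroup _ (by rw [hk]; exact L0.not_dvd_card_pPrimeCore) S.isPGroup')] at h3
    have h4 := (h3.comap (π.comp i)).map _ (QuotientGroup.mk'_surjective (pPrimeCore p G))
    rwa [comap_map_eq, hk, Subgroup.map_sup, (Subgroup.map_eq_bot_iff _).2
      (QuotientGroup.ker_mk' _).ge, sup_bot_eq] at h4
  · rw [h0.map_inf_centralizer'] at h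
    have h4 : i.range ⊓ centralizer (j.range : Set (G ⋊[A.subtype] A)) ≤
        ((⊤ : Subgroup C).map C.subtype).map i := by
      rintro _ ⟨⟨g, rfl⟩, hg⟩
      refine mem_map_of_mem _ ⟨⟨g, (hC g).2 fun a ha => inl_injective (φ := A.subtype) ?_⟩,
        mem_top _, rfl⟩
      exact (inl_aut (φ := A.subtype) ⟨a, ha⟩ g).trans (by
        rw [map_inv]; exact mul_inv_eq_iff_eq_mul.2 (hg _ ⟨_, rfl⟩))
    obtain ⟨K, L, _, -, ⟨e⟩⟩ := ((((h.of_map π).mono h4).of_map i).of_map C.subtype).exists_quotient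
    exact ⟨K, L, inferInstance, ⟨e.trans (H1.pslCongr
      (FiniteField.ringEquivOfCardEq ((ZMod.card p).trans hF.symm)))⟩⟩

end Cfsg.Agent.S3260
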