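import Cfsg.Statements.S3262
import Cfsg.Agent.H3.Km11
import Cfsg.Agent.H3.M11
import Cfsg.Agent.H1.Mathieu

set_option autoImplicit false
open Cfsg

namespace Cfsg.Agent.S3262

/-- Let G be a finite doubly transitive permutation group on a set Ω with no regular normal subgroup, in which the stabilizer of two points is isomorphic to the alternating group A₅. Then either Ω has 7 points and G ≅ A₇, or Ω has 12 points and G is isomorphic to the Mathieu group M₁₁. -/
theorem result {G : Type*} [Group G] [Finite G] {Ω : Type*} [Fintype Ω] [MulAction G Ω] [FaithfulSMul G Ω]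
    (h2 : MulAction.IsMultiplyPretransitive G Ω 2) (a b : Ω) (hab : a ≠ b)
    (hnr : ∀ N : Subgroup G, N.Normal → MulAction.IsPretransitive ↥N Ω → (∀ x : Ω, MulAction.stabilizer ↥N x = ⊥) → False)
    (e : ↥(MulAction.stabilizer G a ⊓ MulAction.stabilizer G b) ≃* ↥(alternatingGroup (Fin 5))) :
    (Fintype.card Ω = 7 ∧ Nonempty (G ≃* ↥(alternatingGroup (Fin 7)))) ∨ (Fintype.card Ω = 12 ∧ Cfsg.Spor.IsoM11 G) := by
  obtain ⟨τ, σ, h, hd⟩ := H3.Km.exists_St' h2 hab H3.Km.af5 e
  rw [← Nat.card_eq_fintype_card]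
  rcases h.main hd (Or.inr ⟨rfl, rfl⟩) with e | e | e | ⟨J, -, h1, h2⟩ | ⟨-, h1, h2⟩
  · omega
  · exact Or.inl ⟨by omega, e.2⟩
  · omega
  · exact (h.no_regular inferInstance (fun e => h2 (h1.mem_center e))
      (GW.solvable_of_odd L0.not_dvd_card_pPrimeCore) hnr).elim
  · have hM : Cfsg.Spor.M11 = H1.fixL (H1.stabS (H1.toSet 340831)) ([0].map H1.pt) := by
      have : Cfsg.Spor.squareDodecad = H1.toSet 340831 := by decide +kernel
      ext g
      simp only [Cfsg.Spor.M11, Cfsg.Spor.M12, this, H1.mem_fixL, List.map, List.mem_singleton, forall_eq]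
      rfl
    have := H1.simple_dfix1
    refine Or.inr ⟨h1, ?_⟩
    rw [Cfsg.Spor.IsoM11, hM]
    exact H3.equiv_of_card_7920 (by rw [h.cardG, h1]) H1.card_dfix1

end Cfsg.Agent.S3262
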