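import Cfsg.Statements.S3264
import Cfsg.Agent.H7.OddGraph

set_option autoImplicit false
open Cfsg

namespace Cfsg.Agent.S3264

/-- Let G be a non-abelian finite simple group and X a conjugacy class of involutions of G. Form the graph on X in which two distinct involutions are joined when their product has odd order. Then this graph is connected. (By the Baer–Suzuki Theorem the graph has at least one edge; connectedness is the stronger statement.) -/
theorem result {G : Type*} [Group G] [Finite G] [IsSimpleGroup G]
    (hG : ¬ IsMulCommutative G) (t : G) (ht : orderOf t = 2) :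
    (SimpleGraph.fromRel fun x y : {x : G // IsConj t x} => Odd (orderOf (x.1 * y.1))).Connected := by
  have : Nonempty {x : G // IsConj t x} := ⟨⟨t, IsConj.refl t⟩⟩
  refine SimpleGraph.Connected.mk ?_
  have key : ∀ (x : {x : G // IsConj t x}) (y : G), H7.OddGraph.Conn ⊤ x.1 y →
      ∃ hy : IsConj t y, (SimpleGraph.fromRel fun x y : {x : G // IsConj t x} =>
        Odd (orderOf (x.1 * y.1))).Reachable x ⟨y, hy⟩ := by
    intro x y h
    induction h with
    | refl => exact ⟨x.2, SimpleGraph.Reachable.refl _⟩
    | @tail b c _ h2 ih =>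
      obtain ⟨hb, hr⟩ := ih
      have hc : IsConj t c := hb.trans (H4.isConj_of_odd_orderOf_mul h2.2.2.1 h2.2.2.2.1 h2.2.2.2.2)
      refine ⟨hc, hr.trans ?_⟩
      by_cases hbc : b = c
      · subst hbc; exact SimpleGraph.Reachable.refl _
      · apply SimpleGraph.Adj.reachable
        rw [SimpleGraph.fromRel_adj]
        exact ⟨fun h => hbc (congrArg Subtype.val h), Or.inl h2.2.2.2.2⟩
  intro x y
  have hx : orderOf x.1 = 2 := by
    obtain ⟨g, hg⟩ := isConj_iff.mp x.2
    rw [← hg, ← ht]
    exact (MulAut.conj g).orderOf_eq t
  obtain ⟨_, h⟩ := key x y.1 (H7.OddGraph.conn_of_isConj hx (x.2.symm.trans y.2))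
  exact h

end Cfsg.Agent.S3264
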