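import Cfsg.Statements.S3265
import Cfsg.Agent.H1.OddGraph
import Cfsg.Agent.H4.Dihedral

set_option autoImplicit false
open Cfsg

namespace Cfsg.Agent.S3265

open Equiv Function H1.OddGraph

theorem odd_of_adj {α : Type*} [Fintype α] [DecidableEq α] {x z : Perm α} (hz : z * z = 1)
    (h : Adj x z) : Odd (orderOf (x * z)) := by
  set σ := x * z with hσ
  have hodd : ∀ q, Odd (minimalPeriod σ q) := by
    intro q
    by_contra hq
    rw [Nat.not_odd_iff_even] at hq
    set m := minimalPeriod σ q with hm
    have hpos : 0 < m := by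
      apply minimalPeriod_pos_of_mem_periodicPts
      exact σ.injective.mem_periodicPts q
    have hper : σ^[m] q = q := iterate_minimalPeriod
    let F : α → ℤ := fun w => ∑ i ∈ Finset.range m, if σ^[i] q = w then (-1) ^ i else 0
    have hF : ∀ w, F (σ w) = - F w := by
      intro w
      have e1 := Finset.sum_range_succ (fun i => if σ^[i] q = σ w then (-1 : ℤ) ^ i else 0) m
      have e2 := Finset.sum_range_succ' (fun i => if σ^[i] q = σ w then (-1 : ℤ) ^ i else 0) m
      rw [hper, hq.neg_one_pow] at e1
      rw [iterate_zero_apply, pow_zero, e1, add_left_inj] at e2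
      simp only [F]
      rw [e2, ← Finset.sum_neg_distrib]
      apply Finset.sum_congr rfl
      intro i _
      simp only [iterate_succ_apply', σ.injective.eq_iff, pow_succ]
      split_ifs <;> simp
    have h0 := h F (by
      intro w
      have : x w = σ (z w) := by
        rw [hσ, Perm.mul_apply, ← Perm.mul_apply z z, hz, Perm.one_apply]
      rw [this, hF]; simp) q
    simp only [F] at h0
    rw [Finset.sum_eq_single 0] at h0
    · simp at h0
    · intro i hi hi0
      rw [if_neg]
      intro hiq
      have : m ∣ i := IsPeriodicPt.minimalPeriod_dvd hiq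
      have := Nat.le_of_dvd (Nat.pos_of_ne_zero hi0) this
      have := Finset.mem_range.mp hi
      omega
    · intro h; exact absurd (Finset.mem_range.mpr hpos) h
  have hM : Odd (∏ q, minimalPeriod σ q) := by
    exact Finset.prod_induction _ Odd (fun _ _ => Odd.mul) odd_one fun q _ => hodd q
  apply hM.of_dvd_nat
  apply orderOf_dvd_of_pow_eq_one
  ext q
  rw [Perm.one_apply, ← Perm.iterate_eq_pow]
  exact isPeriodicPt_iff_minimalPeriod_dvd.mpr (Finset.dvd_prod_of_mem _ (Finset.mem_univ q))

theorem exists_mid {α : Type*} [Fintype α] [DecidableEq α] (h5 : 5 ≤ Fintype.card α) {x y : Perm α}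
    (hx : x * x = 1) (hxy : IsConj x y) :
    ∃ z : Perm α, IsConj x z ∧ Odd (orderOf (x * z)) ∧ Odd (orderOf (y * z)) := by
  obtain ⟨g, hg⟩ := isConj_iff.mp hxy
  have hy : y * y = 1 := by
    rw [← hg]; group; rw [mul_assoc g, hx]; simp
  have ix : Involutive x := fun w => by rw [← Perm.mul_apply, hx, Perm.one_apply]
  have iy : Involutive y := fun w => by rw [← Perm.mul_apply, hy, Perm.one_apply]
  obtain ⟨z, hz, h1, h2⟩ := solv_main _ Finset.univ rfl x y ⟨ix, by simp⟩ ⟨iy, by simp⟩ (by
    unfold cnt
    apply Finset.card_bijective g g.bijective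
    intro w
    simp [← hg]) (by
    rintro ⟨p, -, hp⟩
    have := congrArg Finset.card hp
    have h4 : ({p, x p, y p, x (y p)} : Finset α).card ≤ 4 := Finset.card_le_four
    rw [Finset.card_univ] at this
    omega)
  have hzz : hz.1.toPerm * hz.1.toPerm = 1 := Perm.ext fun w => hz.1 w
  have o1 := odd_of_adj (x := x) hzz h1
  exact ⟨hz.1.toPerm, H4.isConj_of_odd_orderOf_mul hx hzz o1, o1, odd_of_adj (x := y) hzz h2⟩

theorem exists_far {α : Type*} [Fintype α] [DecidableEq α] (h5 : 5 ≤ Fintype.card α) {t : Perm α}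
    (ht : orderOf t = 2) : ∃ y : Perm α, IsConj t y ∧ y ≠ t ∧ t * y = y * t := by
  have htt : t * t = 1 := by rw [← sq, ← ht, pow_orderOf_eq_one]
  have it : ∀ w, t (t w) = w := fun w => by rw [← Perm.mul_apply, htt, Perm.one_apply]
  obtain ⟨a, ha⟩ : ∃ a, t a ≠ a := by
    by_contra h
    push Not at h
    have : t = 1 := Perm.ext h
    rw [this] at ht; simp at ht
  by_cases h : ∃ c, c ≠ a ∧ c ≠ t a ∧ t c ≠ c
  · obtain ⟨c, h1, h2, h3⟩ := h
    have i1 := it a
    have i2 := it c
    refine ⟨swap (t a) c * t * (swap (t a) c)⁻¹, isConj_iff.mpr ⟨_, rfl⟩, ?_, ?_⟩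
    · intro h
      have := congrArg (fun f : Perm α => f a) h
      simp only [swap_inv, Perm.mul_apply, swap_apply_def] at this
      grind
    · ext w
      have i3 := it w
      have i4 := it (t w)
      simp only [swap_inv, Perm.mul_apply, swap_apply_def]
      grind
  · push Not at h
    have h2 : 1 < ((Finset.univ.erase a).erase (t a)).card := by
      rw [Finset.card_erase_of_mem (by simpa using ha), Finset.card_erase_of_mem (by simp),
        Finset.card_univ]
      omega
    obtain ⟨c, hc, d, hd, hcd⟩ := Finset.one_lt_card.mp h2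
    simp only [Finset.mem_erase] at hc hd
    have e : t = swap a (t a) := by
      ext w
      have := it a
      have := h w
      rw [swap_apply_def]
      grind
    refine ⟨swap c d, ?_, ?_, ?_⟩
    · rw [e]; exact Perm.isConj_swap ha.symm hcd
    · intro h'
      have := congrArg (fun f : Perm α => f a) h'
      simp only [swap_apply_def] at this
      grind
    · ext w
      have := h c
      have := h d
      have := it w
      simp only [Perm.mul_apply, swap_apply_def]
      grind

/-- Let n ≥ 5 and let X be a conjugacy class of involutions of the symmetric group of degree n. The graph on X joining two distinct involutions whose product has odd order is connected and has diameter exactly 2. -/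
theorem result (n : ℕ) (hn : 5 ≤ n) (t : Equiv.Perm (Fin n)) (ht : orderOf t = 2) :
    (SimpleGraph.fromRel fun x y : {x : Equiv.Perm (Fin n) // IsConj t x} =>
        Odd (orderOf (x.1 * y.1))).Connected ∧
      (SimpleGraph.fromRel fun x y : {x : Equiv.Perm (Fin n) // IsConj t x} =>
        Odd (orderOf (x.1 * y.1))).diam = 2 := by
  have h5 : 5 ≤ Fintype.card (Fin n) := by simpa using hn
  have htt : t * t = 1 := by rw [← sq, ← ht, pow_orderOf_eq_one]
  set G := (SimpleGraph.fromRel fun x y : {x : Equiv.Perm (Fin n) // IsConj t x} =>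
        Odd (orderOf (x.1 * y.1))) with hG
  have hsq : ∀ u : {x : Equiv.Perm (Fin n) // IsConj t x}, u.1 * u.1 = 1 := by
    rintro ⟨u, hu⟩
    obtain ⟨g, hg⟩ := isConj_iff.mp hu
    change u * u = 1
    rw [← hg]; group; rw [mul_assoc g, htt]; simp
  have hle1 : ∀ u v, Odd (orderOf (u.1 * v.1)) → G.edist u v ≤ 1 := by
    intro u v h
    rw [SimpleGraph.edist_le_one_iff_adj_or_eq, hG, SimpleGraph.fromRel_adj]
    by_cases huv : u = v
    · exact Or.inr huv
    · exact Or.inl ⟨huv, Or.inl h⟩
  have hle : G.ediam ≤ 2 := by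
    apply SimpleGraph.ediam_le_of_edist_le
    intro u v
    obtain ⟨z, h1, h2, h3⟩ := exists_mid h5 (hsq u) (u.2.symm.trans v.2)
    have a1 := hle1 u ⟨z, u.2.trans h1⟩ h2
    have a2 := hle1 v ⟨z, u.2.trans h1⟩ h3
    rw [SimpleGraph.edist_comm] at a2
    calc G.edist u v ≤ _ := SimpleGraph.edist_triangle (v := ⟨z, u.2.trans h1⟩)
      _ ≤ 1 + 1 := add_le_add a1 a2
      _ = 2 := by norm_num
  have hge : 2 ≤ G.ediam := by
    obtain ⟨y, h1, h2, h3⟩ := exists_far h5 ht
    have hy := hsq ⟨y, h1⟩
    have ho : orderOf (t * y) = 2 := by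
      apply orderOf_eq_prime
      · change y * y = 1 at hy
        rw [sq, mul_assoc, ← mul_assoc y, ← h3, mul_assoc, hy, mul_one, htt]
      · intro h
        apply h2
        rw [eq_inv_of_mul_eq_one_right h, eq_comm, eq_inv_iff_mul_eq_one, htt]
    refine le_trans ?_ (SimpleGraph.edist_le_ediam (u := ⟨t, IsConj.refl t⟩) (v := ⟨y, h1⟩))
    by_contra hlt
    have : G.edist ⟨t, IsConj.refl t⟩ ⟨y, h1⟩ ≤ 1 := by
      rw [not_le] at hlt
      exact Order.le_of_lt_succ hlt
    rw [SimpleGraph.edist_le_one_iff_adj_or_eq, hG, SimpleGraph.fromRel_adj] at this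
    rcases this with ⟨-, h | h⟩ | h
    · simp only [ho] at h; exact absurd h (by decide)
    · simp only [← h3, ho] at h; exact absurd h (by decide)
    · exact h2 (congrArg Subtype.val h).symm
  have he : G.ediam = 2 := le_antisymm hle hge
  have : Nonempty {x : Equiv.Perm (Fin n) // IsConj t x} := ⟨⟨t, IsConj.refl t⟩⟩
  refine ⟨SimpleGraph.connected_of_ediam_ne_top (by rw [he]; decide), ?_⟩
  rw [SimpleGraph.diam, he]; rfl

end Cfsg.Agent.S3265
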