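import Cfsg.Statements.S3266
import Cfsg.Agent.H7.AbelianSylow
import Cfsg.Agent.H4.Dihedral
import Cfsg.Agent.H5.SL2Facts

set_option autoImplicit false
open Cfsg

namespace Cfsg.Agent.S3266

open Subgroup Cfsg.Agent.H4 Cfsg.Agent.H4.SL2 Cfsg.Agent.H5
open scoped MatrixGroups

variable {F : Type*} [Field F]

/-- the image in `PSL(2, F)` has odd order -/
def Good (g : SL(2, F)) : Prop := ∃ n, Odd n ∧ (g ^ n = 1 ∨ g ^ n = -1)

theorem Good.odd {g : SL(2, F)} (h : Good g) :
    Odd (orderOf (QuotientGroup.mk g : PSL(2, F))) := by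
  obtain ⟨n, hn, h⟩ := h
  refine hn.of_dvd_nat (orderOf_dvd_of_pow_eq_one ?_)
  rw [← QuotientGroup.mk_pow, QuotientGroup.eq_one_iff]
  exact H7.SL2_mem_center_iff.2 h

theorem Good.conj {g : SL(2, F)} (h : Good g) (c : SL(2, F)) : Good (c * g * c⁻¹) := by
  obtain ⟨n, hn, h⟩ := h
  refine ⟨n, hn, ?_⟩
  rw [conj_pow]
  rcases h with h | h <;> simp [h]

theorem Good.neg {g : SL(2, F)} (h : Good g) : Good (-g) := by
  obtain ⟨n, hn, h⟩ := h
  refine ⟨n, hn, ?_⟩
  rw [hn.neg_pow]
  rcases h with h | h <;> simp [h]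

theorem exists_pow_eq (g : SL(2, F)) (n : ℕ) : ∃ a b : F, (g ^ n) 0 0 = a + b * g 0 0 ∧
    (g ^ n) 0 1 = b * g 0 1 ∧ (g ^ n) 1 0 = b * g 1 0 ∧ (g ^ n) 1 1 = a + b * g 1 1 := by
  have hd := det_eq g
  induction n with
  | zero => exact ⟨1, 0, by rw [pow_zero]; sl2_simp; simp⟩
  | succ n ih =>
    obtain ⟨a, b, h1, h2, h3, h4⟩ := ih
    refine ⟨-b, a + b * (g 0 0 + g 1 1), ?_, ?_, ?_, ?_⟩ <;> rw [pow_succ] <;> sl2_simp
    · rw [h1, h2]; linear_combination (-b) * hd
    · rw [h1, h2]; ring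
    · rw [h3, h4]; ring
    · rw [h3, h4]; linear_combination (-b) * hd

theorem pow_eigen (g : SL(2, F)) {l m : F} (hlm : l * m = 1) (ht : g 0 0 + g 1 1 = l + m) (n : ℕ) :
    (g 0 0 - m) * (g ^ n) 0 0 + g 0 1 * (g ^ n) 1 0 = l ^ n * (g 0 0 - m) ∧
    (g 0 0 - m) * (g ^ n) 0 1 + g 0 1 * (g ^ n) 1 1 = l ^ n * g 0 1 ∧
    g 1 0 * (g ^ n) 0 0 + (g 1 1 - m) * (g ^ n) 1 0 = l ^ n * g 1 0 ∧
    g 1 0 * (g ^ n) 0 1 + (g 1 1 - m) * (g ^ n) 1 1 = l ^ n * (g 1 1 - m) := by
  have hd := det_eq g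
  induction n with
  | zero => rw [pow_zero]; sl2_simp; simp
  | succ n ih =>
    obtain ⟨h1, h2, h3, h4⟩ := ih
    rw [pow_succ, pow_succ]; sl2_simp
    refine ⟨?_, ?_, ?_, ?_⟩
    · linear_combination g 0 0 * h1 + g 1 0 * h2 - l ^ n * hd + l ^ n * g 0 0 * ht + l ^ n * hlm
    · linear_combination g 0 1 * h1 + g 1 1 * h2 + l ^ n * g 0 1 * ht
    · linear_combination g 0 0 * h3 + g 1 0 * h4 + l ^ n * g 1 0 * ht
    · linear_combination g 0 1 * h3 + g 1 1 * h4 - l ^ n * hd + l ^ n * g 1 1 * ht + l ^ n * hlm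

theorem pow_unip (g : SL(2, F)) {e : F} (he : e * e = 1) (ht : g 0 0 + g 1 1 = e + e) (n : ℕ) :
    (g ^ n) 0 0 = e ^ n + n * e ^ (n + 1) * (g 0 0 - e) ∧ (g ^ n) 0 1 = n * e ^ (n + 1) * g 0 1 ∧
    (g ^ n) 1 0 = n * e ^ (n + 1) * g 1 0 ∧ (g ^ n) 1 1 = e ^ n + n * e ^ (n + 1) * (g 1 1 - e) := by
  have hd := det_eq g
  induction n with
  | zero => rw [pow_zero]; sl2_simp; simp
  | succ n ih =>
    obtain ⟨h1, h2, h3, h4⟩ := ih
    rw [pow_succ]; sl2_simp
    rw [h1, h2, h3, h4]
    push_cast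
    refine ⟨?_, ?_, ?_, ?_⟩
    · linear_combination (-n * e ^ (n + 1)) * hd + (n * e ^ (n + 1) * g 0 0) * ht +
        (n * e ^ (n + 1) - e ^ n * (g 0 0 - e)) * he
    · linear_combination (n * e ^ (n + 1) * g 0 1) * ht - (e ^ n * g 0 1) * he
    · linear_combination (n * e ^ (n + 1) * g 1 0) * ht - (e ^ n * g 1 0) * he
    · linear_combination (-n * e ^ (n + 1)) * hd + (n * e ^ (n + 1) * g 1 1) * ht +
        (n * e ^ (n + 1) - e ^ n * (g 1 1 - e)) * he

theorem eq_of_entries {g : SL(2, F)} {e : F} (he : e = 1 ∨ e = -1) (h1 : g 0 0 = e) (h2 : g 0 1 = 0)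
    (h3 : g 1 0 = 0) (h4 : g 1 1 = e) : g = 1 ∨ g = -1 :=
  eq_one_or_neg_one_of_entries h2 h3 (h1.trans h4.symm)

variable [Fintype F]

theorem good_of_trace_two (hF : Odd (Fintype.card F)) {g : SL(2, F)} {e : F} (he : e * e = 1)
    (ht : g 0 0 + g 1 1 = e + e) : Good g := by
  obtain ⟨h1, h2, h3, h4⟩ := pow_unip g he ht (Fintype.card F)
  rw [FiniteField.cast_card_eq_zero] at h1 h2 h3 h4
  exact ⟨_, hF, eq_one_or_neg_one_of_entries (by simp [h2]) (by simp [h3]) (by simp [h1, h4])⟩

theorem good_of_split (hF : Fintype.card F % 4 = 3) {g : SL(2, F)} {l : F} (hl : l ≠ 0)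
    (ht : g 0 0 + g 1 1 = l + l⁻¹) : Good g := by
  have hodd : Odd (Fintype.card F) := by rw [Nat.odd_iff]; omega
  by_cases h : l = l⁻¹
  · exact good_of_trace_two hodd (e := l) (by nth_rewrite 2 [h]; exact mul_inv_cancel₀ hl)
      (by rw [ht, ← h])
  set n := Fintype.card F / 2 with hn
  have hn1 : Odd n := by rw [Nat.odd_iff]; omega
  have h1 : l ^ n * l ^ n = 1 := by
    rw [← pow_add, show n + n = Fintype.card F - 1 by omega]
    exact FiniteField.pow_card_sub_one_eq_one l hl
  have h2 : l⁻¹ ^ n = l ^ n := by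
    rw [inv_pow]; exact inv_eq_of_mul_eq_one_right h1
  obtain ⟨a1, a2, a3, a4⟩ := pow_eigen g (mul_inv_cancel₀ hl) ht n
  obtain ⟨b1, b2, b3, b4⟩ := pow_eigen g (inv_mul_cancel₀ hl) (ht.trans (add_comm _ _)) n
  rw [h2] at b1 b2 b3 b4
  have h3 : l - l⁻¹ ≠ 0 := sub_ne_zero.2 h
  refine ⟨n, hn1, eq_one_or_neg_one_of_entries ?_ ?_ ?_⟩
  · exact mul_left_cancel₀ h3 (by linear_combination a2 - b2)
  · exact mul_left_cancel₀ h3 (by linear_combination a3 - b3)
  · exact mul_left_cancel₀ h3 (by linear_combination a1 - b1 - a4 + b4)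

theorem good_of_char_two (h2 : (2 : F) = 0) {g : SL(2, F)} (ht : g 0 0 + g 1 1 ≠ 0) : Good g := by
  refine ⟨orderOf g, ?_, Or.inl (pow_orderOf_eq_one g)⟩
  by_contra hev
  obtain ⟨m, hm⟩ := Nat.not_odd_iff_even.1 hev
  have hpos : 0 < orderOf g := orderOf_pos g
  have h1 : g ^ m ≠ 1 := pow_ne_one_of_lt_orderOf (by omega) (by omega)
  have h3 : g ^ m * g ^ m = 1 := by rw [← pow_add, ← hm, pow_orderOf_eq_one]
  obtain ⟨a, b, e1, e2, e3, e4⟩ := exists_pow_eq g m
  set h := g ^ m
  have hd := det_eq h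
  have c00 := congrArg (fun k : SL(2, F) => k 0 0) h3
  have c11 := congrArg (fun k : SL(2, F) => k 1 1) h3
  sl2_simp at c00 c11
  have h4 : (h 0 0 + h 1 1) * (h 0 0 + h 1 1) = 0 := by
    linear_combination c00 + c11 + 2 * hd + 2 * h2
  have h5 : b * (g 0 0 + g 1 1) = 0 := by
    linear_combination mul_self_eq_zero.1 h4 - e1 - e4 - a * h2
  have hb : b = 0 := (mul_eq_zero.1 h5).resolve_right ht
  rcases eq_one_or_neg_one_of_entries (a := h) (by rw [e2, hb, zero_mul]) (by rw [e3, hb, zero_mul])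
    (by rw [e1, e4, hb, zero_mul, zero_mul]) with h6 | h6
  · exact h1 h6
  · apply h1
    rw [h6]
    apply ext4 <;> sl2_simp <;> first | ring1 | linear_combination (-1) * h2 | linear_combination h2

theorem exists_eq_of_fibers [DecidableEq F] (hF : Odd (Fintype.card F)) (f g : F → F)
    (hf : ∀ c, (Finset.univ.filter fun x => f x = c).card ≤ 2)
    (hg : ∀ c, (Finset.univ.filter fun x => g x = c).card ≤ 2) : ∃ x y, f x = g y := by
  classical
  have h1 := Finset.card_le_mul_card_image (f := f) Finset.univ 2 (fun c _ => by convert hf c)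
  have h2 := Finset.card_le_mul_card_image (f := g) Finset.univ 2 (fun c _ => by convert hg c)
  rw [Finset.card_univ] at h1 h2
  by_contra h
  push Not at h
  have hd : Disjoint (Finset.univ.image f) (Finset.univ.image g) := by
    rw [Finset.disjoint_left]
    intro c hc hc'
    obtain ⟨x, -, rfl⟩ := Finset.mem_image.1 hc
    obtain ⟨y, -, hy⟩ := Finset.mem_image.1 hc'
    exact h x y hy.symm
  have h3 := Finset.card_le_univ (Finset.univ.image f ∪ Finset.univ.image g)
  rw [Finset.card_union_of_disjoint hd] at h3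
  obtain ⟨k, hk⟩ := hF
  omega

open Polynomial in
theorem card_le_two_of_quadratic {s : Finset F} {a b c : F} (h : ¬ (a = 0 ∧ b = 0 ∧ c = 0))
    (hs : ∀ x ∈ s, a * x ^ 2 + b * x + c = 0) : s.card ≤ 2 := by
  classical
  have hp : (C a * X ^ 2 + C b * X + C c : F[X]) ≠ 0 := by
    intro h0
    apply h
    have e2 := congrArg (coeff · 2) h0
    have e1 := congrArg (coeff · 1) h0
    have e0 := congrArg (coeff · 0) h0
    simp [coeff_X, coeff_C] at e2 e1 e0
    exact ⟨e2, e1, e0⟩
  calc s.card ≤ (C a * X ^ 2 + C b * X + C c : F[X]).roots.toFinset.card := by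
        apply Finset.card_le_card
        intro x hx
        rw [Multiset.mem_toFinset, mem_roots hp, IsRoot.def]
        simpa using hs x hx
    _ ≤ _ := Multiset.toFinset_card_le _
    _ ≤ _ := card_roots' _
    _ ≤ 2 := natDegree_quadratic_le

theorem exists_ne (hF : 4 ≤ Fintype.card F) : ∃ l : F, l ≠ 0 ∧ l ≠ 1 ∧ l ≠ -1 := by
  classical
  by_contra h
  push Not at h
  have : (Finset.univ : Finset F) ⊆ {0, 1, -1} := by
    intro x _
    by_cases h0 : x = 0
    · simp [h0]
    by_cases h1 : x = 1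
    · simp [h1]
    simp [h x h0 h1]
  have h1 := Finset.card_le_card this
  have h2 : ({0, 1, -1} : Finset F).card ≤ 3 := Finset.card_le_three
  rw [Finset.card_univ] at h1
  omega

theorem exists_mid_w (hF : 4 ≤ Fintype.card F) (hodd : Odd (Fintype.card F)) {x y : SL(2, F)}
    (hx : x * x = -1) (hy : y * y = -1) :
    ∃ z : SL(2, F), z * z = -1 ∧ Good (x * z) ∧ Good (y * z) := by
  classical
  have h2 := two_ne_zero_of_odd_card hodd
  have hg1 : Good (-1 : SL(2, F)) := ⟨1, odd_one, Or.inr (pow_one _)⟩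
  suffices H : ∃ x₀ : SL(2, F), x₀ * x₀ = -1 ∧ ∀ y : SL(2, F), y * y = -1 →
      (y = x₀ ∨ y = -x₀) ∨ ∃ z : SL(2, F), z * z = -1 ∧ Good (x₀ * z) ∧ Good (y * z) by
    obtain ⟨x₀, h0, H⟩ := H
    obtain ⟨c, hc⟩ := exists_conj_wSL hodd hx
    obtain ⟨d, hd⟩ := exists_conj_wSL hodd h0
    have e : (c * d⁻¹) * x₀ * (c * d⁻¹)⁻¹ = x := by rw [← hc, ← hd]; group
    set k := c * d⁻¹
    have hy' : (k⁻¹ * y * k) * (k⁻¹ * y * k) = -1 := by
      rw [show (k⁻¹ * y * k) * (k⁻¹ * y * k) = k⁻¹ * (y * y) * k by group, hy]; simp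
    rcases H _ hy' with h | ⟨z, hz, g1, g2⟩
    · refine ⟨x, hx, hx ▸ hg1, ?_⟩
      rcases h with h | h
      · rw [show y = x by rw [← e, ← h]; group, hx]; exact hg1
      · have : y = -x := by
          rw [← e, ← neg_mul, ← mul_neg, ← h]; group
        rw [this, neg_mul, hx]; exact hg1.neg
    · refine ⟨k * z * k⁻¹, ?_, ?_, ?_⟩
      · rw [show (k * z * k⁻¹) * (k * z * k⁻¹) = k * (z * z) * k⁻¹ by group, hz]; simp
      · have := g1.conj k
        rwa [show k * (x₀ * z) * k⁻¹ = (k * x₀ * k⁻¹) * (k * z * k⁻¹) by group, e] at this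
      · have := g2.conj k
        rwa [show k * (k⁻¹ * y * k * z) * k⁻¹ = y * (k * z * k⁻¹) by group] at this
  by_cases hi : IsSquare (-1 : F)
  · obtain ⟨i, hi⟩ := hi
    refine ⟨mk i 0 0 (-i) (by linear_combination hi), ?_, fun y hy => ?_⟩
    · apply ext4 <;> sl2_simp <;> first | ring1 | linear_combination (-1) * hi
    have ht := trace_eq_zero_of_mul_self hy
    have hd := det_eq y
    by_cases hc : y 1 0 = 0
    · by_cases hb : y 0 1 = 0
      · left
        have : (y 0 0 - i) * (y 0 0 + i) = 0 := by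
          linear_combination hi - hd + y 0 0 * ht - y 0 1 * hc
        rcases mul_eq_zero.1 this with h | h
        · left; apply ext4 <;> sl2_simp
          · linear_combination h
          · exact hb
          · exact hc
          · linear_combination ht - h
        · right; apply ext4 <;> sl2_simp
          · linear_combination h
          · simp [hb]
          · simp [hc]
          · linear_combination ht - h
      · refine Or.inr ⟨mk i 0 ((2 - 2 * y 0 0 * i) / y 0 1) (-i) (by linear_combination hi), ?_, ?_, ?_⟩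
        · apply ext4 <;> sl2_simp <;> first | ring1 | linear_combination (-1) * hi
        · refine good_of_trace_two hodd (e := -1) (by ring) ?_
          sl2_simp; linear_combination (-2) * hi
        · refine good_of_trace_two hodd (e := 1) (by ring) ?_
          sl2_simp; field_simp; linear_combination (-i) * ht
    · refine Or.inr ⟨mk i ((2 - 2 * y 0 0 * i) / y 1 0) 0 (-i) (by linear_combination hi), ?_, ?_, ?_⟩
      · apply ext4 <;> sl2_simp <;> first | ring1 | linear_combination (-1) * hi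
      · refine good_of_trace_two hodd (e := -1) (by ring) ?_
        sl2_simp; linear_combination (-2) * hi
      · refine good_of_trace_two hodd (e := 1) (by ring) ?_
        sl2_simp; field_simp; linear_combination (-i) * ht
  · have h4 : Fintype.card F % 4 = 3 := by
      by_contra h; exact hi (FiniteField.isSquare_neg_one_iff.2 h)
    have hne : ∀ t : F, 1 + t ^ 2 ≠ 0 := fun t h => hi ⟨t, by linear_combination (-1) * h⟩
    obtain ⟨l, hl0, hl1, hl2⟩ := exists_ne hF
    refine ⟨wSL, wSL_mul_self, fun y hy => ?_⟩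
    have ht := trace_eq_zero_of_mul_self hy
    have hd := det_eq y
    by_cases hab : y 0 0 = 0 ∧ y 0 1 + y 1 0 = 0
    · left
      have : (y 1 0 - 1) * (y 1 0 + 1) = 0 := by
        linear_combination hd + y 1 0 * hab.2 - y 1 1 * hab.1
      rcases mul_eq_zero.1 this with h | h
      · left; apply ext4 <;> simp only [wSL] <;> sl2_simp
        · exact hab.1
        · linear_combination hab.2 - h
        · linear_combination h
        · linear_combination ht - hab.1
      · right; apply ext4 <;> simp only [wSL] <;> sl2_simp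
        · simp [hab.1]
        · linear_combination hab.2 - h
        · linear_combination h
        · linear_combination ht - hab.1
    right
    set r : F := (l - l⁻¹) / 2 with hr
    set al : F := (l + l⁻¹) / 2 with hal
    have hr0 : r ≠ 0 := by
      intro h
      have : (l - 1) * (l + 1) = 0 := by
        have h' : l - l⁻¹ = 0 := by
          rcases div_eq_zero_iff.1 h with h | h
          · exact h
          · exact absurd h h2
        have h'' := mul_inv_cancel₀ hl0
        linear_combination l * h' + h''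
      rcases mul_eq_zero.1 this with h | h
      · exact hl1 (by linear_combination h)
      · exact hl2 (by linear_combination h)
    have hra : al ^ 2 - r ^ 2 = 1 := by
      rw [hr, hal]; field_simp; ring
    let f : F → F := fun t => 2 * y 0 0 * (2 * r * t / (1 + t ^ 2)) +
      (y 0 1 + y 1 0) * (r * (1 - t ^ 2) / (1 + t ^ 2)) + (y 1 0 - y 0 1) * al
    let g : F → F := fun m => if m = 0 then 2 else m + m⁻¹
    obtain ⟨t, m, htm⟩ := exists_eq_of_fibers hodd f g (fun c => by
      refine card_le_two_of_quadratic (a := -(y 0 1 + y 1 0) * r + (y 1 0 - y 0 1) * al - c)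
        (b := 4 * y 0 0 * r) (c := (y 0 1 + y 1 0) * r + (y 1 0 - y 0 1) * al - c) ?_ ?_
      · rintro ⟨e1, e2, e3⟩
        apply hab
        constructor
        · have : (2 * 2 * r) * y 0 0 = 0 := by linear_combination e2
          exact (mul_eq_zero.1 this).resolve_left (mul_ne_zero (mul_ne_zero h2 h2) hr0)
        · have : (2 * r) * (y 0 1 + y 1 0) = 0 := by linear_combination e3 - e1
          exact (mul_eq_zero.1 this).resolve_left (mul_ne_zero h2 hr0)
      · intro x hx
        have hx := (Finset.mem_filter.1 hx).2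
        have := hne x
        simp only [f] at hx
        field_simp at hx
        linear_combination hx) (fun c => by
      by_cases hc : c = 2
      · refine card_le_two_of_quadratic (a := (1 : F)) (b := -1) (c := 0) (by simp) fun x hx => ?_
        have hx := (Finset.mem_filter.1 hx).2
        simp only [g] at hx
        split_ifs at hx with h0
        · simp [h0]
        · have : (x - 1) * (x - 1) = 0 := by
            have := mul_inv_cancel₀ h0
            rw [hc] at hx
            linear_combination x * hx - this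
          have := mul_self_eq_zero.1 this
          linear_combination x * this
      · refine card_le_two_of_quadratic (a := (1 : F)) (b := -c) (c := 1) (by simp) fun x hx => ?_
        have hx := (Finset.mem_filter.1 hx).2
        simp only [g] at hx
        split_ifs at hx with h0
        · exact absurd hx.symm hc
        · have := mul_inv_cancel₀ h0
          linear_combination x * hx - this)
    have hn := hne t
    set s := 2 * r * t / (1 + t ^ 2) with hs
    set u := r * (1 - t ^ 2) / (1 + t ^ 2) with hu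
    have hsu : s ^ 2 + u ^ 2 = r ^ 2 := by
      rw [hs, hu]; field_simp; ring
    refine ⟨mk s (u + al) (u - al) (-s) (by linear_combination hra - hsu), ?_, ?_, ?_⟩
    · apply ext4 <;> sl2_simp <;> first | ring1 | linear_combination hsu - hra
    · refine good_of_split h4 hl0 ?_
      simp only [wSL]; sl2_simp
      rw [hal]; field_simp; ring
    · have hf : (y * mk s (u + al) (u - al) (-s) (by linear_combination hra - hsu)) 0 0 +
          (y * mk s (u + al) (u - al) (-s) (by linear_combination hra - hsu)) 1 1 = f t := by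
        sl2_simp; simp only [f]; rw [← hs, ← hu]; linear_combination (-s) * ht
      rw [htm] at hf
      simp only [g] at hf
      split_ifs at hf with h0
      · exact good_of_trace_two hodd (e := 1) (by ring) (by rw [hf]; ring)
      · exact good_of_split h4 h0 hf

theorem exists_mid_two (h2 : (2 : F) = 0) {x y : SL(2, F)} (hx : x 0 0 + x 1 1 = 0)
    (hx1 : ¬ (x 0 1 = 0 ∧ x 1 0 = 0)) (hy : y 0 0 + y 1 1 = 0) (hy1 : ¬ (y 0 1 = 0 ∧ y 1 0 = 0)) :
    ∃ z : SL(2, F), z * z = -1 ∧ Good (x * z) ∧ Good (y * z) := by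
  obtain ⟨u, v, huv, h1, h3⟩ : ∃ u v : F, (u * v = 0 ∨ u * v = 1) ∧ x 0 1 * v + x 1 0 * u ≠ 0 ∧
      y 0 1 * v + y 1 0 * u ≠ 0 := by
    by_cases a1 : x 0 1 = 0
    · have a2 : x 1 0 ≠ 0 := fun h => hx1 ⟨a1, h⟩
      by_cases b2 : y 1 0 = 0
      · have b1 : y 0 1 ≠ 0 := fun h => hy1 ⟨h, b2⟩
        exact ⟨1, 1, Or.inr (by ring), by simpa [a1], by simpa [b2]⟩
      · exact ⟨1, 0, Or.inl (by ring), by simpa, by simpa⟩
    · by_cases b1 : y 0 1 = 0
      · have b2 : y 1 0 ≠ 0 := fun h => hy1 ⟨b1, h⟩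
        by_cases a2 : x 1 0 = 0
        · exact ⟨1, 1, Or.inr (by ring), by simpa [a2], by simpa [b1]⟩
        · exact ⟨1, 0, Or.inl (by ring), by simpa, by simpa⟩
      · exact ⟨0, 1, Or.inl (by ring), by simpa, by simpa⟩
  obtain ⟨s, hs⟩ : ∃ s : F, s * s = 1 + u * v := by
    rcases huv with h | h
    · exact ⟨1, by rw [h]; ring⟩
    · exact ⟨0, by rw [h]; linear_combination (-1) * h2⟩
  refine ⟨mk s u v (-s) (by linear_combination (-1) * hs - (1 + u * v) * h2), ?_, ?_, ?_⟩
  · apply ext4 <;> sl2_simp <;> first | ring1 | linear_combination hs + (1 + u * v) * h2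
  · refine good_of_char_two h2 fun h => h1 ?_
    sl2_simp at h; linear_combination h - s * hx + (x 1 1 * s) * h2
  · refine good_of_char_two h2 fun h => h3 ?_
    sl2_simp at h; linear_combination h - s * hy + (y 1 1 * s) * h2

theorem odd_card_of_two_ne_zero (h2 : (2 : F) ≠ 0) : Odd (Fintype.card F) := by
  rw [Nat.odd_iff]
  exact FiniteField.odd_card_of_char_ne_two fun h => h2 (by
    have := (ringChar.spec F 2).2 (h ▸ dvd_rfl); exact_mod_cast this)

omit [Fintype F] in
theorem lift_invol {t : PSL(2, F)} (ht : t * t = 1) (ht1 : t ≠ 1) :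
    ∃ x : SL(2, F), QuotientGroup.mk x = t ∧ x * x = -1 ∧ ¬ (x 0 1 = 0 ∧ x 1 0 = 0 ∧ x 0 0 = x 1 1) := by
  obtain ⟨x, rfl⟩ := QuotientGroup.mk_surjective t
  have h1 : ¬ (x = 1 ∨ x = -1) := fun h =>
    ht1 ((QuotientGroup.eq_one_iff _).2 (H7.SL2_mem_center_iff.2 h))
  refine ⟨x, rfl, ?_, fun h => h1 (eq_one_or_neg_one_of_entries h.1 h.2.1 h.2.2)⟩
  rw [← QuotientGroup.mk_mul, QuotientGroup.eq_one_iff, H7.SL2_mem_center_iff] at ht
  rcases ht with h | h
  · by_cases h2 : (2 : F) = 0
    · rw [h]; apply ext4 <;> sl2_simp <;> first | ring1 | linear_combination h2 | linear_combination (-1) * h2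
    · exact absurd (eq_one_or_neg_one_of_mul_self h2 h) h1
  · exact h

omit [Fintype F] in
theorem mk_sq {z : SL(2, F)} (hz : z * z = -1) :
    (QuotientGroup.mk z : PSL(2, F)) * QuotientGroup.mk z = 1 := by
  rw [← QuotientGroup.mk_mul, hz, QuotientGroup.eq_one_iff]
  exact H7.SL2_mem_center_iff.2 (Or.inr rfl)

theorem exists_mid (hF : 4 ≤ Fintype.card F) {x y : PSL(2, F)} (hx : x * x = 1) (hx1 : x ≠ 1)
    (hy : y * y = 1) (hy1 : y ≠ 1) :
    ∃ z : PSL(2, F), IsConj x z ∧ Odd (orderOf (x * z)) ∧ Odd (orderOf (y * z)) := by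
  obtain ⟨a, rfl, ha, ha1⟩ := lift_invol hx hx1
  obtain ⟨b, rfl, hb, hb1⟩ := lift_invol hy hy1
  obtain ⟨z, hz, g1, g2⟩ : ∃ z : SL(2, F), z * z = -1 ∧ Good (a * z) ∧ Good (b * z) := by
    by_cases h2 : (2 : F) = 0
    · have ta := trace_eq_zero_of_mul_self ha
      have tb := trace_eq_zero_of_mul_self hb
      exact exists_mid_two h2 ta (fun h => ha1 ⟨h.1, h.2, by linear_combination ta - a 1 1 * h2⟩) tb
        (fun h => hb1 ⟨h.1, h.2, by linear_combination tb - b 1 1 * h2⟩)
    · exact exists_mid_w hF (odd_card_of_two_ne_zero h2) ha hb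
  exact ⟨QuotientGroup.mk z, H4.isConj_of_odd_orderOf_mul hx (mk_sq hz) g1.odd, g1.odd, g2.odd⟩

theorem exists_far (hF : 4 ≤ Fintype.card F) {t : PSL(2, F)} (ht : t * t = 1) (ht1 : t ≠ 1) :
    ∃ y : PSL(2, F), y * y = 1 ∧ y ≠ 1 ∧ y ≠ t ∧ t * y = y * t := by
  obtain ⟨x, rfl, hx, hx1⟩ := lift_invol ht ht1
  have tx := trace_eq_zero_of_mul_self hx
  have hd := det_eq x
  suffices H : ∃ y : SL(2, F), y * y = -1 ∧ (x * y) * (x * y) = -1 ∧
      ¬ (y 0 1 = 0 ∧ y 1 0 = 0 ∧ y 0 0 = y 1 1) ∧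
      ¬ ((x * y) 0 1 = 0 ∧ (x * y) 1 0 = 0 ∧ (x * y) 0 0 = (x * y) 1 1) by
    obtain ⟨y, h1, h2, h3, h4⟩ := H
    have k : ∀ a : SL(2, F), (QuotientGroup.mk a : PSL(2, F)) = 1 →
        a 0 1 = 0 ∧ a 1 0 = 0 ∧ a 0 0 = a 1 1 := by
      intro a ha
      rcases H7.SL2_mem_center_iff.1 ((QuotientGroup.eq_one_iff _).1 ha) with rfl | rfl <;>
        sl2_simp <;> simp
    refine ⟨QuotientGroup.mk y, mk_sq h1, fun h => h3 (k _ h), fun h => h4 (k _ ?_), ?_⟩
    · rw [QuotientGroup.mk_mul, h, ht]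
    · have e := mk_sq h2
      rw [QuotientGroup.mk_mul] at e
      have e1 := mk_sq h1
      calc _ = ((QuotientGroup.mk x : PSL(2, F)) * QuotientGroup.mk y)⁻¹ :=
            (inv_eq_of_mul_eq_one_right e).symm
        _ = _ := by rw [mul_inv_rev, inv_eq_of_mul_eq_one_right e1, inv_eq_of_mul_eq_one_right ht]
  by_cases h2 : (2 : F) = 0
  · obtain ⟨l, hl0, hl1, -⟩ := exists_ne hF
    have h11 : x 1 1 = x 0 0 := by linear_combination tx - x 0 0 * h2
    rw [h11] at hd
    have hN : (x 0 0 - 1) * (x 0 0 - 1) = x 0 1 * x 1 0 := by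
      linear_combination hd + (1 - x 0 0) * h2
    have hl : 1 + l ≠ 0 := fun h => hl1 (by linear_combination h - h2)
    refine ⟨mk (1 + l * (x 0 0 - 1)) (l * x 0 1) (l * x 1 0) (1 + l * (x 0 0 - 1))
      (by linear_combination l ^ 2 * hN + l * (x 0 0 - 1) * h2), ?_, ?_, ?_, ?_⟩
    · apply ext4 <;> sl2_simp
      · linear_combination l ^ 2 * hN + (1 + l * (x 0 0 - 1) + l ^ 2 * x 0 1 * x 1 0) * h2
      · linear_combination (l * x 0 1 * (1 + l * (x 0 0 - 1))) * h2
      · linear_combination (l * x 1 0 * (1 + l * (x 0 0 - 1))) * h2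
      · linear_combination l ^ 2 * hN + (1 + l * (x 0 0 - 1) + l ^ 2 * x 0 1 * x 1 0) * h2
    · have e : x * mk (1 + l * (x 0 0 - 1)) (l * x 0 1) (l * x 1 0) (1 + l * (x 0 0 - 1))
          (by linear_combination l ^ 2 * hN + l * (x 0 0 - 1) * h2) =
          mk (1 + (1 + l) * (x 0 0 - 1)) ((1 + l) * x 0 1) ((1 + l) * x 1 0)
            (1 + (1 + l) * (x 0 0 - 1))
            (by linear_combination (1 + l) ^ 2 * hN + (1 + l) * (x 0 0 - 1) * h2) := by
        apply ext4 <;> sl2_simp <;> (try rw [h11])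
        · linear_combination l * hN + (l * x 0 1 * x 1 0) * h2
        · linear_combination (l * x 0 1 * (x 0 0 - 1)) * h2
        · linear_combination (l * x 1 0 * (x 0 0 - 1)) * h2
        · linear_combination l * hN + (l * x 0 1 * x 1 0) * h2
      rw [e]
      apply ext4 <;> sl2_simp
      · linear_combination (1 + l) ^ 2 * hN +
          (1 + (1 + l) * (x 0 0 - 1) + (1 + l) ^ 2 * x 0 1 * x 1 0) * h2
      · linear_combination ((1 + l) * x 0 1 * (1 + (1 + l) * (x 0 0 - 1))) * h2
      · linear_combination ((1 + l) * x 1 0 * (1 + (1 + l) * (x 0 0 - 1))) * h2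
      · linear_combination (1 + l) ^ 2 * hN +
          (1 + (1 + l) * (x 0 0 - 1) + (1 + l) ^ 2 * x 0 1 * x 1 0) * h2
    · sl2_simp
      rintro ⟨e1, e2, -⟩
      exact hx1 ⟨(mul_eq_zero.1 e1).resolve_left hl0, (mul_eq_zero.1 e2).resolve_left hl0, h11.symm⟩
    · sl2_simp
      rintro ⟨e1, e2, -⟩
      rw [h11] at e2
      refine hx1 ⟨(mul_eq_zero.1 (?_ : (1 + l) * x 0 1 = 0)).resolve_left hl,
        (mul_eq_zero.1 (?_ : (1 + l) * x 1 0 = 0)).resolve_left hl, h11.symm⟩
      · linear_combination e1 - (l * x 0 1 * (x 0 0 - 1)) * h2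
      · linear_combination e2 - (l * x 1 0 * (x 0 0 - 1)) * h2
  · have hodd := odd_card_of_two_ne_zero h2
    have kk : ∀ a : SL(2, F), a * a = -1 → IsConj a wSL →
        ¬ (a 0 1 = 0 ∧ a 1 0 = 0 ∧ a 0 0 = a 1 1) := by
      intro a ha _ h
      rcases eq_one_or_neg_one_of_entries h.1 h.2.1 h.2.2 with rfl | rfl
      · exact neg_one_ne_one h2 (by simpa using ha.symm)
      · exact neg_one_ne_one h2 (by simpa using ha.symm)
    obtain ⟨c, hc⟩ := exists_conj_wSL hodd hx
    open Polynomial in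
    have hf : degree (X ^ 2 + C 1 : F[X]) = 2 := by compute_degree!
    open Polynomial in
    have hg : degree (X ^ 2 : F[X]) = 2 := by compute_degree!
    obtain ⟨a, b, hab⟩ := FiniteField.exists_root_sum_quadratic hf hg (Nat.odd_iff.mp hodd)
    simp only [Polynomial.eval_add, Polynomial.eval_C, Polynomial.eval_pow, Polynomial.eval_X] at hab
    let y : SL(2, F) := mk a b b (-a) (by linear_combination (-1) * hab)
    have h1 : y * y = -1 := by
      apply ext4 <;> simp only [y] <;> sl2_simp <;> first | ring1 | linear_combination hab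
    have h3 : (wSL * y) * (wSL * y) = -1 := by
      apply ext4 <;> simp only [y, wSL] <;> sl2_simp <;> first | ring1 | linear_combination hab
    have h1' : (c * y * c⁻¹) * (c * y * c⁻¹) = -1 := by
      rw [show (c * y * c⁻¹) * (c * y * c⁻¹) = c * (y * y) * c⁻¹ by group, h1]; simp
    have h3' : (x * (c * y * c⁻¹)) * (x * (c * y * c⁻¹)) = -1 := by
      rw [← hc, show (c * wSL * c⁻¹ * (c * y * c⁻¹)) * (c * wSL * c⁻¹ * (c * y * c⁻¹)) =
        c * ((wSL * y) * (wSL * y)) * c⁻¹ by group, h3]; simp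
    have conj : ∀ a : SL(2, F), a * a = -1 → IsConj a wSL := fun a ha => by
      obtain ⟨d, hd⟩ := exists_conj_wSL hodd ha
      exact (isConj_iff.2 ⟨d, hd⟩).symm
    exact ⟨c * y * c⁻¹, h1', h3', kk _ h1' (conj _ h1'), kk _ h3' (conj _ h3')⟩

/-- Let F be a finite field with at least 4 elements and let X be a conjugacy class of involutions of PSL(2, F). The graph on X joining two distinct involutions whose product has odd order is connected and has diameter exactly 2. -/
theorem result {F : Type*} [Field F] [Fintype F] (hF : 4 ≤ Fintype.card F)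
    (t : Matrix.ProjectiveSpecialLinearGroup (Fin 2) F) (ht : orderOf t = 2) :
    (SimpleGraph.fromRel fun x y : {x : Matrix.ProjectiveSpecialLinearGroup (Fin 2) F // IsConj t x} =>
        Odd (orderOf (x.1 * y.1))).Connected ∧
      (SimpleGraph.fromRel fun x y : {x : Matrix.ProjectiveSpecialLinearGroup (Fin 2) F // IsConj t x} =>
        Odd (orderOf (x.1 * y.1))).diam = 2 := by
  have htt : t * t = 1 := by have := pow_orderOf_eq_one t; rwa [ht, sq] at this
  have ht1 : t ≠ 1 := by rintro rfl; simp at ht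
  set G := (SimpleGraph.fromRel fun x y : {x : Matrix.ProjectiveSpecialLinearGroup (Fin 2) F // IsConj t x} =>
        Odd (orderOf (x.1 * y.1))) with hG
  have hsq : ∀ u : {x : Matrix.ProjectiveSpecialLinearGroup (Fin 2) F // IsConj t x},
      u.1 * u.1 = 1 ∧ u.1 ≠ 1 := by
    rintro ⟨u, hu⟩
    obtain ⟨g, hg⟩ := isConj_iff.mp hu
    change u * u = 1 ∧ u ≠ 1
    refine ⟨by rw [← hg]; group; rw [mul_assoc g, htt]; simp, fun h => ht1 ?_⟩
    rw [h] at hu; exact isConj_one_left.1 hu
  have hle1 : ∀ u v, Odd (orderOf (u.1 * v.1)) → G.edist u v ≤ 1 := by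
    intro u v h
    rw [SimpleGraph.edist_le_one_iff_adj_or_eq, hG, SimpleGraph.fromRel_adj]
    by_cases huv : u = v
    · exact Or.inr huv
    · exact Or.inl ⟨huv, Or.inl h⟩
  have hle : G.ediam ≤ 2 := by
    apply SimpleGraph.ediam_le_of_edist_le
    intro u v
    obtain ⟨z, h1, h2, h3⟩ := exists_mid hF (hsq u).1 (hsq u).2 (hsq v).1 (hsq v).2
    have a1 := hle1 u ⟨z, u.2.trans h1⟩ h2
    have a2 := hle1 v ⟨z, u.2.trans h1⟩ h3
    rw [SimpleGraph.edist_comm] at a2
    calc G.edist u v ≤ _ := SimpleGraph.edist_triangle (v := ⟨z, u.2.trans h1⟩)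
      _ ≤ 1 + 1 := add_le_add a1 a2
      _ = 2 := by norm_num
  have hge : 2 ≤ G.ediam := by
    obtain ⟨y, hy, hy1, h2, h3⟩ := exists_far hF htt ht1
    obtain ⟨z, z1, -, z3⟩ := exists_mid hF htt ht1 hy hy1
    have h1 : IsConj t y := z1.trans (H4.isConj_of_odd_orderOf_mul hy (hsq ⟨z, z1⟩).1 z3).symm
    have ho : orderOf (t * y) = 2 := by
      apply orderOf_eq_prime
      · rw [sq, mul_assoc, ← mul_assoc y, ← h3, mul_assoc, hy, mul_one, htt]
      · intro h
        apply h2
        rw [eq_inv_of_mul_eq_one_right h, eq_comm, eq_inv_iff_mul_eq_one, htt]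
    refine le_trans ?_ (SimpleGraph.edist_le_ediam (u := ⟨t, IsConj.refl t⟩) (v := ⟨y, h1⟩))
    by_contra hlt
    have : G.edist ⟨t, IsConj.refl t⟩ ⟨y, h1⟩ ≤ 1 := by
      rw [not_le] at hlt
      exact Order.le_of_lt_succ hlt
    rw [SimpleGraph.edist_le_one_iff_adj_or_eq, hG, SimpleGraph.fromRel_adj] at this
    rcases this with ⟨-, h | h⟩ | h
    · simp only [ho] at h; exact absurd h (by decide)
    · simp only [← h3, ho] at h; exact absurd h (by decide)
    · exact h2 (congrArg Subtype.val h).symm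
  have he : G.ediam = 2 := le_antisymm hle hge
  have : Nonempty {x : Matrix.ProjectiveSpecialLinearGroup (Fin 2) F // IsConj t x} :=
    ⟨⟨t, IsConj.refl t⟩⟩
  refine ⟨SimpleGraph.connected_of_ediam_ne_top (by rw [he]; decide), ?_⟩
  rw [SimpleGraph.diam, he]; rfl

end Cfsg.Agent.S3266
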