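import Cfsg.Statements.S3269
import Cfsg.Agent.H9.Sylow2
import Cfsg.Agent.H7.ZStar

set_option autoImplicit false
open Cfsg

namespace Cfsg.Agent.S3269

open Subgroup Cfsg.Agent.H9

theorem quat_facts {m : ℕ} (hm : 2 ≤ m) :
    (∃ a b : QuaternionGroup m, a * b ≠ b * a) ∧ ∃ z : QuaternionGroup m, z ≠ 1 ∧ z * z = 1 ∧
      ∀ x : QuaternionGroup m, x * x = 1 → x = 1 ∨ x = z := by
  haveI : NeZero m := ⟨by omega⟩
  have ho := QuaternionGroup.orderOf_a_one (n := m)
  constructor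
  · refine ⟨.a 1, .xa 0, fun h => ?_⟩
    rw [QuaternionGroup.a_mul_xa, QuaternionGroup.xa_mul_a] at h
    have h1 : (0 : ZMod (2 * m)) - 1 = 0 + 1 := QuaternionGroup.xa.inj h
    have h2 : ((2 : ℕ) : ZMod (2 * m)) = 0 := by push_cast; linear_combination -h1
    rw [ZMod.natCast_eq_zero_iff] at h2
    have := Nat.le_of_dvd (by norm_num) h2
    omega
  · refine ⟨.a 1 ^ m, pow_ne_one_of_lt_orderOf (by omega) (by omega), ?_, ?_⟩
    · rw [← pow_add, ← two_mul, QuaternionGroup.a_one_pow_n]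
    · rintro (i | i) hx
      · refine eq_pow_of_mem_zpowers_of_mul_self ho (by omega) ?_ hx
        refine ⟨(i.val : ℤ), ?_⟩
        haveI : NeZero (2 * m) := ⟨by omega⟩
        show QuaternionGroup.a 1 ^ (i.val : ℤ) = _
        rw [zpow_natCast, QuaternionGroup.a_one_pow, ZMod.natCast_zmod_val]
      · have := orderOf_dvd_of_pow_eq_one (x := QuaternionGroup.xa i) (n := 2) (by rw [pow_two, hx])
        rw [QuaternionGroup.orderOf_xa] at this
        omega

theorem exists_pow_invol {G : Type*} [Group G] {w : G} (hw : w ≠ 1) (h : ∃ k, w ^ 2 ^ k = 1) :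
    ∃ j : ℕ, w ^ j ≠ 1 ∧ w ^ j * w ^ j = 1 := by
  obtain ⟨j, h1, h2⟩ := exists_pow_ne_one_pow_eq_one hw h
  exact ⟨_, h1, by rw [← pow_two, h2]⟩

/-- Let G be a finite group whose Sylow 2-subgroup S is an internal direct product Q × R with Q generalized quaternion (of order at least 8) and R a subgroup all of whose involutions are central in R. Then G is not simple. In particular no finite simple group has a Sylow 2-subgroup that is a direct product of one or more generalized quaternion groups. -/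
theorem result {G : Type*} [Group G] [Finite G]
    (S : Sylow 2 G) (Q R : Subgroup G) (hQR : Cfsg.IsInternalDirectProduct Q R (S : Subgroup G))
    (n : ℕ) (hn : 1 ≤ n) (eQ : ↥Q ≃* QuaternionGroup (2 ^ n))
    (hR : ∀ r ∈ R, orderOf r = 2 → ∀ s ∈ R, r * s = s * r) :
    ¬ IsSimpleGroup G := by
  classical
  intro hsimple
  obtain ⟨hQS, hRS, hc, hinf, hsup⟩ := hQR
  obtain ⟨⟨a0, b0, hab0⟩, z0, hz01, hz02, hz0⟩ := quat_facts (m := 2 ^ n)
    (by simpa using Nat.pow_le_pow_right (n := 2) (by norm_num) hn)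
  obtain ⟨a, haQ, b, hbQ, hab⟩ : ∃ a ∈ Q, ∃ b ∈ Q, a * b ≠ b * a :=
    ⟨_, (eQ.symm a0).2, _, (eQ.symm b0).2, fun h => hab0 (eQ.symm.injective (Subtype.ext (by
      simpa using h)))⟩
  obtain ⟨z, hzQ, hz1, hz2, hz⟩ : ∃ z ∈ Q, z ≠ 1 ∧ z * z = 1 ∧
      ∀ x ∈ Q, x * x = 1 → x = 1 ∨ x = z := by
    refine ⟨_, (eQ.symm z0).2, fun h => hz01 (eQ.symm.injective (Subtype.ext (by simpa using h))),
      by rw [← coe_mul, ← map_mul, hz02, map_one, coe_one], fun x hx hx2 => ?_⟩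
    rcases hz0 (eQ ⟨x, hx⟩) (by rw [← map_mul, ← map_one eQ]; congr 1; exact Subtype.ext hx2)
      with h | h
    · left; simpa using h
    · right; rw [← h]; simp
  have hdec : ∀ s ∈ (S : Subgroup G), ∃ q ∈ Q, ∃ r ∈ R, q * r = s := fun s hs => by
    rw [← hsup] at hs
    refine (mem_sup_of_le_normalizer fun q hq => mem_normalizer_of_conj_mem (G := G) ?_).mp hs
    intro r hr
    rw [hc q hq r hr, mul_inv_cancel_right]; exact hr
  have hQN : ∀ s ∈ (S : Subgroup G), ∀ q ∈ Q, s * q * s⁻¹ ∈ Q := fun s hs q hq => by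
    obtain ⟨q', hq', r, hr, rfl⟩ := hdec s hs
    have : q' * r * q * (q' * r)⁻¹ = q' * q * q'⁻¹ := by
      rw [mul_assoc q' r q, ← hc q hq r hr]; group
    rw [this]; exact Q.mul_mem (Q.mul_mem hq' hq) (Q.inv_mem hq')
  have hRN : ∀ s ∈ (S : Subgroup G), ∀ r ∈ R, s * r * s⁻¹ ∈ R := fun s hs r hr => by
    obtain ⟨q', hq', r', hr', rfl⟩ := hdec s hs
    have h1 : r' * r * r'⁻¹ ∈ R := R.mul_mem (R.mul_mem hr' hr) (R.inv_mem hr')
    have : q' * r' * r * (q' * r')⁻¹ = q' * (r' * r * r'⁻¹) * q'⁻¹ := by group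
    rw [this, hc q' hq' _ h1, mul_inv_cancel_right]; exact h1
  have hzc : ∀ q ∈ Q, q * z = z * q := fun q hq => by
    rcases hz _ (hQN q (hQS hq) z hzQ) (by
      calc q * z * q⁻¹ * (q * z * q⁻¹) = q * (z * z) * q⁻¹ := by group
        _ = 1 := by rw [hz2]; group) with h | h
    · exact absurd (by simpa using h) hz1
    · exact mul_inv_eq_iff_eq_mul.mp h
  -- all involutions of `S` are central
  have hcen : ∀ x ∈ (S : Subgroup G), x * x = 1 → ∀ s ∈ (S : Subgroup G), s * x = x * s := by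
    intro x hx hx2 s hs
    obtain ⟨q, hq, r, hr, rfl⟩ := hdec x hx
    obtain ⟨q', hq', r', hr', rfl⟩ := hdec s hs
    have h1 : q * q * (r * r) = 1 := by
      rw [← hx2, mul_assoc q r, ← mul_assoc r q r, ← hc q hq r hr]; simp only [mul_assoc]
    have h2 : q * q = 1 := by
      have : q * q ∈ Q ⊓ R := ⟨Q.mul_mem hq hq, by
        rw [eq_inv_of_mul_eq_one_left h1]; exact R.inv_mem (R.mul_mem hr hr)⟩
      rwa [hinf, mem_bot] at this
    rw [h2, one_mul] at h1
    have h3 : q' * q = q * q' := by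
      rcases hz q hq h2 with h | h
      · simp [h]
      · rw [h, hzc q' hq']
    have h4 : r * r' = r' * r := by
      by_cases h : r = 1
      · simp [h]
      · exact hR r hr (orderOf_two_of h h1) r' hr'
    calc q' * r' * (q * r) = q' * (r' * q) * r := by group
      _ = q' * q * (r' * r) := by rw [← hc q hq r' hr']; group
      _ = q * (q' * r) * r' := by rw [h3, ← h4]; group
      _ = _ := by rw [hc q' hq' r hr]; group
  obtain ⟨N, hN⟩ : ∃ N, N = normalizer ((S : Subgroup G) : Set G) := ⟨_, rfl⟩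
  have hNS : ∀ n ∈ N, ∀ s ∈ (S : Subgroup G), n * s * n⁻¹ ∈ (S : Subgroup G) := fun n hn s hs =>
    conj_mem_of_mem_normalizer (hN ▸ hn) hs
  -- the other conjugates of `z` under `N` lie in `R`
  have hkey : ∀ n ∈ N, n * z * n⁻¹ ≠ z → n * z * n⁻¹ ∈ R := by
    intro n hn hne
    by_contra hR'
    have hinv : ∀ (H : Subgroup G) (q : G), q ∈ Q → q ≠ 1 → n * q * n⁻¹ ∈ H → n * z * n⁻¹ ∈ H := by
      intro H q hq hq1 hqH
      obtain ⟨j, h1, h2⟩ := exists_pow_invol hq1 (exists_pow_eq_one_of_mem S.isPGroup' (hQS hq))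
      rw [← (hz _ (Q.pow_mem hq j) h2).resolve_left h1, ← conj_pow]
      exact H.pow_mem hqH j
    have hcR : ∀ q ∈ Q, ∀ r ∈ R, n * q * n⁻¹ * r = r * (n * q * n⁻¹) := by
      intro q hq r hr
      have h1 : n⁻¹ * r * n ∈ (S : Subgroup G) := by
        simpa using hNS n⁻¹ (N.inv_mem hn) r (hRS hr)
      have h2 : q * ((n⁻¹ * r * n) * q⁻¹ * (n⁻¹ * r * n)⁻¹) ∈ Q :=
        Q.mul_mem hq (hQN _ h1 _ (Q.inv_mem hq))
      by_cases h3 : q * ((n⁻¹ * r * n) * q⁻¹ * (n⁻¹ * r * n)⁻¹) = 1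
      · calc n * q * n⁻¹ * r = n * (q * ((n⁻¹ * r * n) * q⁻¹ * (n⁻¹ * r * n)⁻¹)) * n⁻¹ *
            (r * (n * q * n⁻¹)) := by group
          _ = _ := by rw [h3]; group
      · refine absurd (hinv R _ h2 h3 ?_) hR'
        have := R.mul_mem (hRN _ (hNS n hn q (hQS hq)) r hr) (R.inv_mem hr)
        convert this using 1; group
    obtain ⟨a', ha', r, hr, har⟩ := hdec _ (hNS n hn a (hQS haQ))
    obtain ⟨b', hb', r', hr', hbr⟩ := hdec _ (hNS n hn b (hQS hbQ))
    have h1 : r * r' = r' * r := by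
      have := hcR a haQ r' hr'
      rw [← har, mul_assoc, ← mul_assoc r', ← hc a' ha' r' hr', mul_assoc] at this
      exact mul_left_cancel this
    have h2 : n * (a * b * a⁻¹ * b⁻¹) * n⁻¹ = a' * b' * a'⁻¹ * b'⁻¹ := by
      have c1 : Commute r b' := (hc b' hb' r hr).symm
      have c2 : Commute r' a' := (hc a' ha' r' hr').symm
      calc n * (a * b * a⁻¹ * b⁻¹) * n⁻¹
          = (n * a * n⁻¹) * (n * b * n⁻¹) * (n * a * n⁻¹)⁻¹ * (n * b * n⁻¹)⁻¹ := by group
        _ = a' * (r * b') * r' * r⁻¹ * (a'⁻¹ * r'⁻¹) * b'⁻¹ := by rw [← har, ← hbr]; group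
        _ = a' * b' * (r * r') * r⁻¹ * r'⁻¹ * a'⁻¹ * b'⁻¹ := by
          rw [c1.eq, ← c2.inv_inv.eq]; group
        _ = _ := by rw [h1]; group
    have h3 := hinv Q (a * b * a⁻¹ * b⁻¹) (Q.mul_mem (Q.mul_mem (Q.mul_mem haQ hbQ) (Q.inv_mem haQ))
      (Q.inv_mem hbQ)) (fun h => hab (by
        rw [mul_inv_eq_one, mul_inv_eq_iff_eq_mul] at h; exact h))
      (by rw [h2]; exact Q.mul_mem (Q.mul_mem (Q.mul_mem ha' hb') (Q.inv_mem ha')) (Q.inv_mem hb'))
    rcases hz _ h3 (by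
      calc n * z * n⁻¹ * (n * z * n⁻¹) = n * (z * z) * n⁻¹ := by group
        _ = 1 := by rw [hz2]; group) with h | h
    · exact hz1 (by simpa using h)
    · exact hne h
  haveI := Fintype.ofFinite G
  obtain ⟨X, hX⟩ : ∃ X : Finset G, ∀ x, x ∈ X ↔ ∃ n ∈ N, n * z * n⁻¹ = x :=
    ⟨Finset.univ.filter fun x => ∃ n ∈ N, n * z * n⁻¹ = x, by simp⟩
  have hXS : ∀ x ∈ X, x ∈ (S : Subgroup G) ∧ x * x = 1 := fun x hx => by
    obtain ⟨n, hn, rfl⟩ := (hX x).mp hx
    refine ⟨hNS n hn z (hQS hzQ), ?_⟩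
    calc n * z * n⁻¹ * (n * z * n⁻¹) = n * (z * z) * n⁻¹ := by group
      _ = 1 := by rw [hz2]; group
  have hcomm : {x | x ∈ X.1}.Pairwise Commute := fun x hx y hy _ =>
    hcen y (hXS y hy).1 (hXS y hy).2 x (hXS x hx).1
  obtain ⟨w, hw⟩ : ∃ w, w = X.1.noncommProd hcomm := ⟨_, rfl⟩
  have hw1 : w ∈ (S : Subgroup G) ∧ w * w = 1 := by
    rw [hw]
    refine Multiset.noncommProd_induction _ _ (fun w => w ∈ (S : Subgroup G) ∧ w * w = 1) ?_
      ⟨one_mem _, one_mul _⟩ hXS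
    rintro x y ⟨hx, hx2⟩ ⟨hy, hy2⟩
    refine ⟨mul_mem hx hy, ?_⟩
    rw [mul_assoc, ← mul_assoc y, hcen x hx hx2 y hy, mul_assoc, hy2, mul_one, hx2]
  have hzX : z ∈ X := (hX z).mpr ⟨1, one_mem _, by simp⟩
  have hw2 : w ≠ 1 := by
    intro h
    rw [hw, ← Multiset.mul_noncommProd_erase _ hzX] at h
    have : z ∈ Q ⊓ R := by
      refine ⟨hzQ, ?_⟩
      rw [eq_inv_of_mul_eq_one_left h]
      refine R.inv_mem (Multiset.noncommProd_induction _ _ (· ∈ R) (fun _ _ => R.mul_mem)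
        R.one_mem fun x hx => ?_)
      have hx' : x ∈ X.erase z := hx
      obtain ⟨h1, h2⟩ := Finset.mem_erase.mp hx'
      obtain ⟨n, hn, rfl⟩ := (hX x).mp h2
      exact hkey n hn h1
    rw [hinf, mem_bot] at this
    exact hz1 this
  have hw3 : ∀ n ∈ normalizer ((S : Subgroup G) : Set G), n * w = w * n := by
    intro n hn
    rw [← hN] at hn
    have h1 : X.map (MulAut.conj n).toEquiv.toEmbedding = X := by
      refine Finset.eq_of_subset_of_card_le (fun x hx => ?_) (by simp)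
      obtain ⟨y, hy, rfl⟩ := Finset.mem_map.mp hx
      obtain ⟨k, hk, rfl⟩ := (hX y).mp hy
      exact (hX _).mpr ⟨n * k, N.mul_mem hn hk, by simp [mul_assoc]⟩
    have h2 : X.1.map (MulAut.conj n) = X.1 := congrArg Finset.val h1
    have h3 : MulAut.conj n w = w := by
      rw [hw, Multiset.map_noncommProd]
      congr 1
    exact mul_inv_eq_iff_eq_mul.mp h3
  have hiso : H7.Isolated w := H7.Isolated.of_sylow S hw1.2 fun g hg =>
    conj_eq_of_central hw3 (hcen _ hg (by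
      calc g * w * g⁻¹ * (g * w * g⁻¹) = g * (w * w) * g⁻¹ := by group
        _ = 1 := by rw [hw1.2]; group))
  rcases hiso.eq_one_or_comm with h | h
  · exact hw2 h
  · exact hab (h.is_comm.comm a b)

end Cfsg.Agent.S3269
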