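import Cfsg.Statements.S3279
import Cfsg.Agent.H9.Simple
import Cfsg.Agent.H4.Dihedral

set_option autoImplicit false
open Cfsg

namespace Cfsg.Agent.S3279

open Subgroup Cfsg.Agent.H9

/-- Let G be a finite simple group and x an involution of G whose centralizer contains at most three involutions. Then C_G(x) contains a Sylow 2-subgroup of G, and all involutions of G are conjugate. -/
theorem result {G : Type*} [Group G] [Finite G] [IsSimpleGroup G] (x : G) (hx : orderOf x = 2)
    (h3 : Nat.card {u : ↥(Subgroup.centralizer ({x} : Set G)) // orderOf u = 2} ≤ 3) :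
    (∃ S : Sylow 2 G, (S : Subgroup G) ≤ Subgroup.centralizer ({x} : Set G)) ∧
      ∀ u v : G, orderOf u = 2 → orderOf v = 2 → IsConj u v := by
  have hx1 := ne_one_of_orderOf_two hx
  have hx2 := mul_self_of_orderOf_two hx
  have key : ∀ w : G, orderOf w = 2 → IsConj x w := by
    intro w hw
    have hw1 := ne_one_of_orderOf_two hw
    by_cases hG : IsMulCommutative G
    · have : zpowers x = ⊤ := eq_top_of_conj_mem hx1 fun g => by
        rw [hG.is_comm.comm g x, mul_inv_cancel_right]; exact mem_zpowers x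
      rw [((mem_zpowers_of_mul_self hx2).mp (this ▸ mem_top w)).resolve_left hw1]
    by_contra hn
    have hi : ∀ g : G, ∃ i, orderOf i = 2 ∧ i ≠ x ∧ Commute i x ∧ Commute i (g * w * g⁻¹) := by
      intro g
      have hw' : orderOf (g * w * g⁻¹) = 2 := by rw [orderOf_conj, hw]
      obtain ⟨i, h1, h2, h3, h4, -⟩ := Cfsg.Agent.H4.exists_involution_commute_of_not_isConj hx hw'
        (fun h => hn (h.trans (isConj_iff.mpr ⟨g⁻¹, by group⟩)))
      refine ⟨i, h2, ?_, h3, h4⟩
      rintro rfl
      exact Cfsg.Agent.H4.not_mem_zpowers_mul_of_involutions hx2 (mul_self_of_orderOf_two hw') hx1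
        (ne_one_of_orderOf_two hw') h1
    obtain ⟨y, hy, hyx, hyc, -⟩ := hi 1
    have hy1 := ne_one_of_orderOf_two hy
    have hy2 := mul_self_of_orderOf_two hy
    have ha1 : x * y ≠ 1 := fun h => hyx (by
      rw [eq_inv_of_mul_eq_one_right h, inv_eq_of_orderOf_two hx])
    have ha : orderOf (x * y) = 2 := orderOf_two_of ha1 (by
      rw [mul_assoc, ← mul_assoc y, hyc.eq, mul_assoc, hy2, mul_one, hx2])
    have hall : ∀ u, orderOf u = 2 → Commute u x → u = x ∨ u = y ∨ u = x * y := by
      intro u hu huc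
      by_contra hc
      push Not at hc
      have hS : ({u | orderOf u = 2 ∧ Commute u x} : Set G).ncard ≤ 3 := by
        refine le_trans (le_of_eq ?_) h3
        rw [← Nat.card_coe_set_eq]
        exact Nat.card_congr
          ⟨fun v => ⟨⟨v.1, mem_centralizer_singleton_iff.mpr v.2.2⟩, by
              rw [← orderOf_coe]; exact v.2.1⟩,
            fun v => ⟨v.1.1, by rw [orderOf_coe]; exact v.2, mem_centralizer_singleton_iff.mp v.1.2⟩,
            fun _ => rfl, fun _ => rfl⟩
      have h4 : ({u, x, y, x * y} : Set G).ncard = 4 := by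
        rw [Set.ncard_insert_of_notMem, Set.ncard_insert_of_notMem, Set.ncard_pair]
        · simpa using hx1
        · simp [hyx.symm, hy1]
        · simp [hc.1, hc.2.1, hc.2.2]
      have := Set.ncard_le_ncard (s := ({u, x, y, x * y} : Set G))
        (t := {u | orderOf u = 2 ∧ Commute u x}) (by
          rintro v (rfl | rfl | rfl | rfl)
          exacts [⟨hu, huc⟩, ⟨hx, Commute.refl _⟩, ⟨hy, hyc⟩,
            ⟨ha, (Commute.refl x).mul_left hyc⟩])
      omega
    obtain ⟨g, hg1, hg2⟩ := exists_not_comm_two hG hy1 ha1 hw1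
    obtain ⟨i, h1, h2, h3, h4⟩ := hi g
    rcases hall i h1 h3 with rfl | rfl | rfl
    · exact h2 rfl
    · exact hg1 h4.symm
    · exact hg2 h4.symm
  obtain ⟨S⟩ : Nonempty (Sylow 2 G) := inferInstance
  obtain ⟨z, -, hz, hzc⟩ := exists_central_involution_sylow S hx
  exact ⟨exists_sylow_le_centralizer_of_isConj S hzc (key z hz).symm,
    fun u v hu hv => (key u hu).symm.trans (key v hv)⟩

end Cfsg.Agent.S3279
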