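import Cfsg.Statements.S3278
import Cfsg.Agent.H9.FourGroup
import Cfsg.Agent.S3279

set_option autoImplicit false
open Cfsg

namespace Cfsg.Agent.S3278

open Subgroup Cfsg.Agent.H9

/-- Let G be a finite simple group with an involution x such that a Sylow 2-subgroup of C_G(x) is a Klein four-group which is normal in C_G(x). Then G is isomorphic to the alternating group of degree 5 (that is, to PSL(2, 5)). -/
theorem result {G : Type*} [Group G] [Finite G] [IsSimpleGroup G] (x : G) (hx : orderOf x = 2)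
    (S₀ : Subgroup G) (hle : S₀ ≤ Subgroup.centralizer ({x} : Set G)) (hK : IsKleinFour ↥S₀)
    (hodd : ¬ 2 ∣ S₀.relIndex (Subgroup.centralizer ({x} : Set G))) (hn : (S₀.subgroupOf (Subgroup.centralizer ({x} : Set G))).Normal) :
    Nonempty (G ≃* ↥(alternatingGroup (Fin 5))) := by
  have h4 : Nat.card S₀ = 4 := hK.card_four
  have he : ∀ v ∈ S₀, v * v = 1 := fun v hv => by
    have := Monoid.pow_exponent_eq_one (⟨v, hv⟩ : S₀)
    rw [hK.exponent_two, pow_two] at this
    exact congrArg Subtype.val this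
  have hp : IsPGroup 2 S₀ := isPGroup_of_pow_eq_one fun a ha => by rw [pow_two, he a ha]
  have hc : ∀ a ∈ S₀, ∀ b ∈ S₀, a * b = b * a := fun a ha b hb =>
    comm_of_sq_eq_one (fun a ha => by rw [pow_two, he a ha]) ha hb
  have hN : centralizer ({x} : Set G) ≤ normalizer (S₀ : Set G) :=
    (normal_subgroupOf_iff_le_normalizer hle).mp hn
  have hin : ∀ R : Subgroup G, IsPGroup 2 R → R ≤ centralizer ({x} : Set G) → R ≤ S₀ :=
    fun R hR hRC => le_of_not_dvd_relIndex_of_le_normalizer hp hle hodd hRC hR (hRC.trans hN)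
  have hinv : ∀ u : G, u * u = 1 → u ∈ centralizer ({x} : Set G) → u ∈ S₀ := fun u hu huC =>
    hin _ (isPGroup_zpowers ⟨1, by rw [pow_one, pow_two, hu]⟩) (zpowers_le.mpr huC) (mem_zpowers u)
  have hx2 := mul_self_of_orderOf_two hx
  have hx1 := ne_one_of_orderOf_two hx
  have hxS : x ∈ S₀ := hinv x hx2 (mem_centralizer_singleton_iff.mpr rfl)
  obtain ⟨y, hyV, hy1, hyx⟩ := exists_ne_ne_of_two_lt_card (H := S₀) (by omega) x
  have hxy : x * y ≠ 1 := fun h => hyx (by rw [← mul_one y, ← h, ← mul_assoc, ← hc x hxS y hyV,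
    mul_assoc, he y hyV, mul_one])
  have hmem : ∀ v ∈ S₀, v = 1 ∨ v = x ∨ v = y ∨ v = x * y := fun v hv =>
    mem_four_of_card_le h4.le hxS hyV hx1 hy1 hyx.symm hxy hv
  have h3 : Nat.card {u : centralizer ({x} : Set G) // orderOf u = 2} ≤ 3 := by
    have : Nat.card {u : centralizer ({x} : Set G) // orderOf u = 2} ≤
        ({x, y, x * y} : Set G).ncard := by
      refine Nat.card_le_card_of_injective (β := ({x, y, x * y} : Set G))
        (fun u => ⟨u.1.1, ?_⟩) fun u v h => Subtype.ext (Subtype.ext (by simpa using h))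
      have h2 : orderOf u.1.1 = 2 := by rw [orderOf_coe, u.2]
      rcases hmem _ (hinv _ (mul_self_of_orderOf_two h2) u.1.2) with h | h | h | h
      · exact absurd h (ne_one_of_orderOf_two h2)
      all_goals simp [h]
    refine this.trans ?_
    refine (Set.ncard_insert_le _ _).trans ?_
    have := Set.ncard_insert_le y ({x * y} : Set G)
    rw [Set.ncard_singleton] at this
    omega
  obtain ⟨⟨S, hS⟩, hconj⟩ := S3279.result x hx h3
  have hSS : (S : Subgroup G) = S₀ := by
    have := hin _ S.isPGroup' hS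
    exact (S.is_maximal' hp this).symm
  -- `C(x)` centralizes `S₀`
  have hC : ∀ c, c * x = x * c → ∀ v ∈ S₀, c * v = v * c := by
    intro c hcx
    have hcN : ∀ v ∈ S₀, c * v * c⁻¹ ∈ S₀ := fun v hv =>
      conj_mem_of_mem_normalizer (hN (mem_centralizer_singleton_iff.mpr hcx)) hv
    have hcy : c * y = y * c := by
      have hnS : c ∈ normalizer ((S : Subgroup G) : Set G) := by
        rw [hSS]; exact hN (mem_centralizer_singleton_iff.mpr hcx)
      refine commute_of_sq_of_mem_normalizer_sylow S hnS (fun s hs => hc s (hSS ▸ hs) y hyV) ?_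
      have e : c * x * c⁻¹ = x := by rw [hcx, mul_inv_cancel_right]
      rcases hmem _ (hcN y hyV) with h | h | h | h
      · exact absurd (by simpa using h) hy1
      · exact absurd (by rw [← e] at h; simpa using h) hyx
      · have : c * y = y * c := mul_inv_eq_iff_eq_mul.mp h
        exact (Commute.pow_left this 2)
      · have : c ^ 2 * y * (c ^ 2)⁻¹ = y := by
          calc c ^ 2 * y * (c ^ 2)⁻¹ = c * (c * y * c⁻¹) * c⁻¹ := by rw [pow_two]; group
            _ = (c * x * c⁻¹) * (c * y * c⁻¹) := by nth_rewrite 1 [h]; group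
            _ = y := by rw [e, h, ← mul_assoc, hx2, one_mul]
        exact mul_inv_eq_iff_eq_mul.mp this
    intro v hv
    rcases hmem v hv with rfl | rfl | rfl | rfl
    · simp
    · exact hcx
    · exact hcy
    · rw [← mul_assoc, hcx, mul_assoc, hcy, mul_assoc]
  have hna : ¬ IsMulCommutative G := by
    intro h
    have := isConj_iff.mp (hconj x y hx (orderOf_two_of hy1 (he y hyV)))
    obtain ⟨g, hg⟩ := this
    rw [h.is_comm.comm g x, mul_inv_cancel_right] at hg
    exact hyx hg.symm
  obtain ⟨g, hg⟩ := H6.exists_smul_sylow_ne (p := 2) hna (hx ▸ orderOf_dvd_natCard x) S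
  obtain ⟨h5, ⟨k, hk, hG⟩, -⟩ := four_group_main S (hSS ▸ h4) (hSS ▸ he) hx (hSS ▸ hxS) (hSS ▸ hC)
    (fun v hv h1 => hconj x v hx (orderOf_two_of h1 (he v (hSS ▸ hv)))) (by
      intro h
      exact hg (Sylow.smul_eq_of_normal))
  exact nonempty_equiv_alternating_five h5 (H6.toPermHom_injective hg) hk hG

end Cfsg.Agent.S3278
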