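import Cfsg.Statements.S3282
import Cfsg.Agent.H9.BSW4

set_option autoImplicit false
open Cfsg

namespace Cfsg.Agent.S3282

open Subgroup Cfsg.Agent.H9

/-- The abstract form of the Brauer–Suzuki–Wall Theorem. Let G be a finite group with an involution t and an abelian subgroup K of H = C_G(t) containing t, such that H = K⟨s⟩ for an involution s ∉ K with C_K(s) = ⟨t⟩ and s inverting every element of K, K ∩ K^g = 1 for every g outside H, and all involutions of G conjugate. Then G has a subgroup Q, of order q say, with |G| = q(q+1)(q−1)/2, C_G(x) = Q for every non-identity x ∈ Q, N_G(Q) = QD for an abelian subgroup D of order (q−1)/2 meeting Q trivially, and for every nontrivial subgroup X of D, N_G(X) = N_G(D) = D⟨u⟩ for some involution u ∉ D inverting D. -/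
theorem result {G : Type*} [Group G] [Finite G] (t : G) (ht : orderOf t = 2)
    (K : Subgroup G) (hKab : IsMulCommutative ↥K) (hKH : K ≤ Subgroup.centralizer ({t} : Set G)) (htK : t ∈ K)
    (s : G) (hs : orderOf s = 2) (hsH : s ∈ Subgroup.centralizer ({t} : Set G)) (hsK : s ∉ K)
    (hH : K ⊔ Subgroup.zpowers s = Subgroup.centralizer ({t} : Set G)) (hCK : K ⊓ Subgroup.centralizer ({s} : Set G) = Subgroup.zpowers t)
    (hinv : ∀ x ∈ K, s * x * s⁻¹ = x⁻¹)
    (hTI : ∀ g : G, g ∉ Subgroup.centralizer ({t} : Set G) → K ⊓ K.map (MulAut.conj g).toMonoidHom = ⊥)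
    (hconj : ∀ x y : G, orderOf x = 2 → orderOf y = 2 → IsConj x y) :
    ∃ Q D : Subgroup G, 2 * Nat.card G = Nat.card ↥Q * (Nat.card ↥Q + 1) * (Nat.card ↥Q - 1) ∧
      (∀ x ∈ Q, x ≠ 1 → Subgroup.centralizer ({x} : Set G) = Q) ∧
      IsMulCommutative ↥D ∧ 2 * Nat.card ↥D + 1 = Nat.card ↥Q ∧ Q ⊓ D = ⊥ ∧
      Subgroup.normalizer (Q : Set G) = Q ⊔ D ∧
      ∀ X : Subgroup G, X ≤ D → X ≠ ⊥ →
        Subgroup.normalizer (X : Set G) = Subgroup.normalizer (D : Set G) ∧
        ∃ u : G, orderOf u = 2 ∧ u ∉ D ∧ (∀ d ∈ D, u * d * u⁻¹ = d⁻¹) ∧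
          Subgroup.normalizer (D : Set G) = D ⊔ Subgroup.zpowers u := by
  have hss := mul_self_of_orderOf_two hs
  have h : BSW t s K := by
    refine ⟨ht, fun a ha b hb => comm_of_isMulCommutative hKab ha hb, htK, hss, hsK, ?_, hinv, ?_, ?_,
      fun u hu => hconj t u ht hu⟩
    · intro c hc
      have h1 : c ∈ K ⊔ zpowers s := hH ▸ mem_centralizer_singleton_iff.mpr hc
      obtain ⟨b, hb, a, ha, rfl⟩ := (mem_sup_of_le_normalizer' (zpowers_le.mpr
        (mem_normalizer_of_conj_mem fun x hx => by rw [hinv x hx]; exact K.inv_mem hx))).mp h1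
      rcases (mem_zpowers_of_mul_self hss).mp ha with rfl | rfl
      · left; simpa using hb
      · right; rw [mul_assoc, hss, mul_one]; exact hb
    · intro x hx hxx
      refine (mem_zpowers_of_mul_self (mul_self_of_orderOf_two ht)).mp (hCK ▸ mem_inf.mpr ⟨hx, ?_⟩)
      rw [mem_centralizer_singleton_iff]
      have := hinv x hx
      rw [inv_eq_of_mul_eq_one_left hxx, mul_inv_eq_iff_eq_mul] at this
      exact this.symm
    · intro g x hx hx1 hgx
      by_contra hg
      have h1 := hTI g (fun h2 => hg (mem_centralizer_singleton_iff.mp h2))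
      have h2 : g * x * g⁻¹ ∈ (⊥ : Subgroup G) := h1 ▸ mem_inf.mpr ⟨hgx, conj_mem_map_conj g hx⟩
      exact hx1 (by simpa using h2)
  obtain ⟨Q, D, q, hc, hG⟩ := h.main
  obtain rfl := hc.cardQ
  exact ⟨Q, D, hG, hc.cent, isMulCommutative_of_comm hc.comm, hc.cardD, hc.disj, hc.normQ, hc.normD⟩

end Cfsg.Agent.S3282
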