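import Cfsg.Statements.S3286
import Cfsg.Agent.H3.Wong2

set_option autoImplicit false
open Cfsg

namespace Cfsg.Agent.S3286

/-- Let G be a non-abelian finite simple group containing an involution whose centralizer is isomorphic to the centralizer, in the Mathieu group M₁₂, of an involution lying in the centre of a Sylow 2-subgroup of M₁₂. Then G is isomorphic to M₁₂. -/
theorem result {G : Type*} [Group G] [Finite G] [IsSimpleGroup G] (hG : ¬ IsMulCommutative G)
    (u : ↥Cfsg.Spor.M12) (hu : Cfsg.IsTwoCentralInvolution u)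
    (t : G) (ht : orderOf t = 2) (e : ↥(Subgroup.centralizer ({t} : Set G)) ≃* ↥(Subgroup.centralizer ({u} : Set ↥Cfsg.Spor.M12))) :
    Cfsg.Spor.IsoM12 G := by
  have hM : Cfsg.Spor.M12 = H1.stabS (H1.toSet 340831) := by
    rw [← (by decide +kernel : Cfsg.Spor.squareDodecad = H1.toSet 340831)]; rfl
  unfold Cfsg.Spor.IsoM12
  revert u
  rw [hM]
  rintro u ⟨hu, T, -, hT⟩ e
  obtain ⟨h, hh⟩ := H3.frM12.exists_conj_central T hu hT
  have hz : (H3.frM12.conj h⁻¹).ψ H3.Hol.z = u := by rw [H3.Fr.conj_apply, ← hh]; group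
  generalize H3.frM12.conj h⁻¹ = F at hz
  have hm : ∀ x, F.ψ x ∈ Subgroup.centralizer {u} := fun x =>
    Subgroup.mem_centralizer_singleton_iff.mpr (by rw [← hz]; exact F.comm_z x)
  let ψ : H3.Hol →* G := (Subgroup.subtype _).comp
    (e.symm.toMonoidHom.comp (F.ψ.codRestrict _ hm))
  have hinj : Function.Injective ψ := fun x y h =>
    F.inj (congrArg Subtype.val (e.symm.injective (Subtype.ext h)))
  have hs : ∀ g, g * t = t * g → ∃ y, ψ y = g := fun g hg => by
    obtain ⟨y, hy⟩ := F.cent (e ⟨g, Subgroup.mem_centralizer_singleton_iff.mpr hg⟩)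
      (by rw [hz]; exact Subgroup.mem_centralizer_singleton_iff.mp (e _).2)
    have h1 : e.symm ⟨_, hm y⟩ = ⟨g, Subgroup.mem_centralizer_singleton_iff.mpr hg⟩ :=
      e.symm_apply_eq.mpr (Subtype.ext hy)
    exact ⟨y, congrArg Subtype.val h1⟩
  obtain ⟨y, hy⟩ := hs t rfl
  have hyz : y = H3.Hol.z := H3.Hol.central y
    (hinj (by rw [map_mul, hy, map_one, H9.mul_self_of_orderOf_two ht]))
    (fun h => H9.ne_one_of_orderOf_two ht (by rw [← hy, h, map_one]))
    fun x _ => hinj (by
      rw [map_mul, map_mul, hy]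
      exact Subgroup.mem_centralizer_singleton_iff.mp (e.symm _).2)
  have := H1.simple_stabS_dodecad0
  exact H3.equiv_of_card_95040 (H3.Fr.card_eq ⟨ψ, hinj, by rw [← hyz, hy]; exact hs⟩ hG)
    H1.card_stabS_dodecad0

end Cfsg.Agent.S3286
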