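import Cfsg.Statements.S3289
import Cfsg.Agent.H8.SQ3

set_option autoImplicit false
open Cfsg

namespace Cfsg.Agent.S3289

open Subgroup MulAction Cfsg.Agent.FT Cfsg.Agent.L0 Cfsg.Agent.H8 Cfsg.Agent.BS Cfsg.Agent.H8.SQ Cfsg.Agent.WA.Te
  Cfsg.Agent.WA.Zd

/-- Let T be a Sylow 2-subgroup of a finite group G and S a nontrivial subgroup of T strongly closed in T with respect to G. Suppose a proper subgroup H of G contains the centralizer of every non-identity element of S and the normalizer of the subgroup generated by the involutions of S. Then, writing X for the normal closure of S, the subgroup H ∩ X is strongly embedded in X, and S equals T ∩ X or the subgroup generated by the involutions of T ∩ X; if moreover S has 2-rank 1, then S = T ∩ X. -/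
theorem result {G : Type*} [Group G] [Finite G] (T : Sylow 2 G) (S : Subgroup G) (hS : S ≠ ⊥)
    (hsc : Cfsg.IsStronglyClosed S (T : Subgroup G)) (H : Subgroup G) (hH : H ≠ ⊤)
    (hC : ∀ s ∈ S, s ≠ 1 → Subgroup.centralizer ({s} : Set G) ≤ H)
    (hN : Subgroup.normalizer ((Cfsg.omegaOne 2 S : Subgroup G) : Set G) ≤ H) :
    Cfsg.IsStronglyEmbedded ((H ⊓ Subgroup.normalClosure (S : Set G)).subgroupOf (Subgroup.normalClosure (S : Set G))) ∧
      (S = (T : Subgroup G) ⊓ Subgroup.normalClosure (S : Set G) ∨ S = Cfsg.omegaOne 2 ((T : Subgroup G) ⊓ Subgroup.normalClosure (S : Set G))) ∧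
      (Cfsg.PRankLE 2 1 ↥S → S = (T : Subgroup G) ⊓ Subgroup.normalClosure (S : Set G)) := by
  have : Fact (Nat.Prime 2) := Nat.fact_prime_two
  have h : SCl (T : Subgroup G) S := ⟨isSylowIn_top T, hsc.1, hsc.2⟩
  have nS : 𝐍(S) ≤ H := fun g hg => hN (cj_eq_self_iff.1 (by rw [cj_omegaOne, cj_eq_self hg]))
  have tH := h.norm.trans nS
  have nT : 𝐍((T : Subgroup G)) ≤ H := fun g hg => nS (H9.mem_normalizer_of_conj_mem fun x hx =>
    h.cl x hx g (H9.conj_mem_of_mem_normalizer hg (h.le hx)))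
  have sH := h.syl.of_le tH le_top
  obtain ⟨z, hz, z2, zc⟩ := exists_central_orderOf h.syl.pgroup ⟨h.le, h.norm⟩ hS
  have iz := Invo.of_orderOf z2
  have f1 : ∀ u ∈ cc S, u ≠ 1 → u ∈ H → 𝐂[u] ≤ H := fun u hu u1 huH => by
    obtain ⟨R, hR, h1⟩ := exists_isSylowIn_ge (H9.isPGroup_zpowers (h.sc.two u hu)) (zpowers_le.2 huH)
    obtain ⟨k, hk, e⟩ := hR.exists_cj_eq sH
    have h2 := hC _ (h.mem (cc_conj hu k) (e ▸ conj_mem_cj k (h1 (mem_zpowers u)))) (by simpa using u1)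
    rw [← cj_centralizer_singleton, cj_le_iff] at h2
    exact h2.trans (cj_le_of_mem (inv_mem hk) le_rfl)
  have f2 : ∀ g : G, g * z * g⁻¹ ∈ H → g ∈ H := fun g hg => by
    have h1 := f1 _ (cc_conj (mem_cc hz) g) (iz.conj g).2 hg
    rw [← cj_centralizer_singleton] at h1
    have h2 := h.syl.cj g
    rw [cj_top] at h2
    obtain ⟨k, hk, e⟩ := (h2.of_le ((cj_mono g zc).trans h1) le_top).exists_cj_eq sH
    exact (mul_mem_cancel_left hk).1 (nT (cj_eq_self_iff.1 (by rwa [cj_mul])))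
  have f3 : ∀ d ∈ S, d ≠ 1 → ∀ g : G, g * d * g⁻¹ ∈ H → g ∈ H := fun d hd d1 g hg => f2 g (by
    refine f1 _ (cc_conj (mem_cc hd) g) (by simpa using d1) hg ?_
    rw [← cj_centralizer_singleton]
    exact conj_mem_cj g (mem_centralizer_singleton_iff.2 (mem_centralizer_singleton_iff.1 (zc (h.le hd))).symm))
  have hfix : ∀ s g : G, s • (g : G ⧸ H) = g ↔ g⁻¹ * s * g ∈ H := fun s g => by
    rw [MulAction.Quotient.smul_mk, eq_comm, QuotientGroup.eq, smul_eq_mul, mul_assoc]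
  have zd : ZD (G ⧸ H) (cc S) {d | d ∈ cc S ∧ Invo d} :=
    ⟨⟨fun d hd => hd.2, fun d hd g => ⟨cc_conj hd.1 g, hd.2.conj g⟩, by
      rintro _ ⟨⟨s, hs, k, rfl⟩, i⟩
      refine ⟨k, (hfix _ k).2 (by simpa [mul_assoc] using tH (h.le hs)), fun y hy => ?_⟩
      obtain ⟨x, rfl⟩ := QuotientGroup.mk_surjective y
      exact QuotientGroup.eq.2 (f3 s hs (by simpa using i.2) _ (by simpa [mul_assoc] using (hfix _ x).1 hy)),
      fun d hd e he hc hne => ⟨h.sc.mul2 hd.1 he.1 hd.2.1 he.2.1 hc, hd.2.mul_of_comm he.2 hc hne⟩⟩,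
      fun _ => Iff.rfl, h.sc.one, h.sc.two, h.sc.cj, fun P hP s hs s' hs' h1 h2 => h.sc.mul P hP s hs h1 s' hs' h2⟩
  have cov : ∀ a : G ⧸ H, a ∈ Cov (G ⧸ H) {d | d ∈ cc S ∧ Invo d} := fun a => by
    obtain ⟨g, rfl⟩ := QuotientGroup.mk_surjective a
    exact ⟨g * z * g⁻¹, ⟨cc_conj (mem_cc hz) g, iz.conj g⟩, (hfix _ g).2 (by simpa [mul_assoc] using tH (h.le hz))⟩
  set X := normalClosure (S : Set G) with hX
  have se : (∀ u ∈ X, Invo u → u ∈ cc S) → IsStronglyEmbedded ((H ⊓ X).subgroupOf X) := fun hu => by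
    refine ⟨fun e => hH (eq_top_iff.2 fun g _ => ?_), ?_, fun g hg => odd_card_of_no_invo ?_⟩
    · obtain ⟨k, hk, h1⟩ := h.frattini (X := X) le_normalClosure g
      exact (mul_mem_cancel_left (mem_inf.1 (subgroupOf_eq_top.1 e hk)).1).1 (nS h1)
    · have := orderOf_dvd_natCard ((H ⊓ X).subgroupOf X) (x := ⟨z, le_normalClosure hz⟩)
        ⟨tH (h.le hz), le_normalClosure hz⟩
      rw [← orderOf_coe, z2] at this
      exact even_iff_two_dvd.2 this
    · rintro _ ⟨h1, u, hu', rfl⟩ iu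
      have i : Invo ((g : G) * u * g⁻¹) := ⟨congrArg Subtype.val iu.1, fun e => iu.2 (Subtype.ext e)⟩
      have m : (g : G) * u * g⁻¹ ∈ {d | d ∈ cc S ∧ Invo d} := ⟨hu _ (g * u * g⁻¹).2 i, i⟩
      have := zd.td.eq_of_fix m ((hfix _ 1).2 (by simpa using (mem_subgroupOf.1 h1).1))
        ((hfix _ g).2 (by simpa [mul_assoc] using (mem_subgroupOf.1 hu').1))
      exact hg ⟨by simpa using QuotientGroup.eq.1 this, g.2⟩
  by_cases hU : U1 S
  · have e := h.one hU
    refine ⟨se fun u hu i => ?_, Or.inl e, fun _ => e⟩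
    obtain ⟨g, hg⟩ := cj_le_syl h.syl i.pgroup_zpowers
    exact ⟨_, e.ge ⟨hg (conj_mem_cj g (mem_zpowers u)), normalClosure_normal.conj_mem u hu g⟩, g⁻¹, by group⟩
  obtain ⟨x, hx, ix, hne⟩ : ∃ x ∈ S, Invo x ∧ x ≠ z := by
    by_contra hn
    push Not at hn
    exact hU fun x hx y hy h1 h2 => (hn x hx h1).trans (hn y hy h2).symm
  have hc := mem_centralizer_singleton_iff.1 (zc (h.le hx))
  obtain ⟨g, hg⟩ : ∃ g, g ∉ H := by
    by_contra hn
    push Not at hn
    exact hH (eq_top_iff.2 fun g _ => hn g)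
  obtain ⟨h1, h2, h3⟩ := zd_struct zd cov (a := ((1 : G) : G ⧸ H)) (b := g)
    (fun e => hg (by simpa using QuotientGroup.eq.1 e)) ⟨x, ⟨mem_cc hx, ix⟩, z, ⟨mem_cc hz, iz⟩, hne, hc⟩ h rfl
    fun t ht => (hfix t 1).2 (by simpa using tH ht)
  have nX : (closure {d | d ∈ cc S ∧ Invo d}).Normal :=
    normalizer_eq_top_iff.1 (eq_top_iff.2 (by simpa using zd.td.norm_closure ⊤))
  have e : closure {d | d ∈ cc S ∧ Invo d} = X := le_antisymm ((closure_le _).2 (by
    rintro _ ⟨⟨s, hs, k, rfl⟩, -⟩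
    exact normalClosure_normal.conj_mem s (subset_normalClosure hs) k)) (normalClosure_le_normal h2)
  rw [e] at h1 h2 h3
  refine ⟨se fun u hu i => (h1 u hu i).1, h3.imp (le_antisymm (le_inf h.le h2)) fun (h3 : ∀ s ∈ S, s * s = 1) => le_antisymm
    (fun s hs => (Subgroup.subset_closure (k := {x : G | x ∈ (T : Subgroup G) ⊓ X ∧ x ^ 2 = 1})
      ⟨⟨h.le hs, h2 hs⟩, (pow_two s).trans (h3 s hs)⟩ :)) ((closure_le _).2 fun y hy => ?_),
    fun hr => absurd (H7.eq_of_prank_one' hr hx hz ix.orderOf_eq z2 hc) hne⟩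
  by_cases y1 : y = 1
  · exact y1 ▸ one_mem S
  · exact h.mem (h1 y hy.1.2 ⟨(pow_two y).symm.trans hy.2, y1⟩).1 hy.1.1

end Cfsg.Agent.S3289
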