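import Cfsg.Statements.S3296
import Cfsg.Agent.H4.BF8

set_option autoImplicit false
open Cfsg

namespace Cfsg.Agent.S3296

/-- Let G be a finite non-abelian simple group whose Sylow 2-subgroups have order 64, with a Sylow 2-subgroup P containing an element f of order 8 whose centralizer in P is the cyclic group it generates and which is conjugate in P to each of its odd powers. If G has at least two conjugacy classes of involutions, then G is isomorphic to the Mathieu group M₁₂. -/
theorem result {G : Type*} [Group G] [Finite G] [IsSimpleGroup G]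
    (hna : ¬ IsMulCommutative G) (P : Sylow 2 G) (hP : Nat.card (P : Subgroup G) = 64)
    (f : G) (hfP : f ∈ (P : Subgroup G)) (hf : orderOf f = 8)
    (hself : ∀ x ∈ (P : Subgroup G), x * f = f * x → x ∈ Subgroup.zpowers f)
    (hodd : ∀ k ∈ ({3, 5, 7} : Set ℕ), ∃ x ∈ (P : Subgroup G), x * f * x⁻¹ = f ^ k)
    (htwo : ∃ s t : G, orderOf s = 2 ∧ orderOf t = 2 ∧ ¬ IsConj s t) :
    Nonempty (G ≃* Cfsg.Spor.M12) := by
  obtain ⟨p, φ, h1, h2⟩ := H4.BF.exists_model hP hfP hf hself hodd
  have hM : Cfsg.Spor.M12 = H1.stabS (H1.toSet 340831) := by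
    rw [← (by decide +kernel : Cfsg.Spor.squareDodecad = H1.toSet 340831)]; rfl
  rw [hM]
  have := H1.simple_stabS_dodecad0
  exact H3.equiv_of_card_95040 (H4.BF.card_eq_of_model hna ⟨φ, h1, h2 ▸ H8.isSylowIn_top P⟩ htwo) H1.card_stabS_dodecad0

end Cfsg.Agent.S3296
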