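import Cfsg.Statements.S3299
import Cfsg.Agent.H9.Cocyc

set_option autoImplicit false
open Cfsg

namespace Cfsg.Agent.S3299

open Subgroup Cfsg.Agent.H9

/-- Let G be a finite group with no nontrivial 2-group quotient (O^2(G) = G), z an involution of G with H = C_G(z), and suppose E = O_2(H) is extraspecial with C_G(E) ≤ E and of order 2^(2n+1) with n ≥ 2. Then E is contained in every normal subgroup of H of index 2. -/
theorem result {G : Type*} [Group G] [Finite G] (hres : Cfsg.pResidual 2 G = ⊤) (z : G) (hz : orderOf z = 2)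
    (E : Subgroup G) (hE : E = (Cfsg.pCore 2 ↥(Subgroup.centralizer ({z} : Set G))).map (Subgroup.centralizer ({z} : Set G)).subtype)
    (hext : Cfsg.IsExtraspecial 2 ↥E) (hcent : Subgroup.centralizer (E : Set G) ≤ E) (n : ℕ) (hn : 2 ≤ n) (hcard : Nat.card ↥E = 2 ^ (2 * n + 1))
    (K : Subgroup G) (hKH : K ≤ Subgroup.centralizer ({z} : Set G))
    (hKn : ∀ h ∈ Subgroup.centralizer ({z} : Set G), K.map (MulAut.conj h).toMonoidHom = K)
    (hKi : K.relIndex (Subgroup.centralizer ({z} : Set G)) = 2) : E ≤ K := by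
  classical
  haveI := Fintype.ofFinite (G ⧸ centralizer ({z} : Set G))
  have h := LgE.of_pCore hz hE hext hcent
  obtain ⟨φ, hφ⟩ := exists_sign_of_relIndex_two hKi
  intro x hx
  refine (hφ ⟨x, h.le_cent hx⟩).mp (h.eq_one_of_key hres Int.units_mul_self φ h.isPGroup le_rfl
    h.le_cent (fun ω _ M a hM hi ha haM => ?_) hx)
  obtain ⟨u, hu, v, hv, huv⟩ := exists_not_comm_of (F := M) fun hc => by
    have h1 := h.card_le_of_comm hM ha ha hc fun q hq => by
      by_cases h2 : q ∈ M
      · exact Or.inl h2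
      · exact Or.inr (Or.inl (mul_mem_of_relIndex_two hi hq ha h2 haM))
    have h2 := Nat.le_of_dvd (by omega) (h.relIndex_centralizer_le hM ha)
    have h3 := card_mul_relIndex hM
    have h4 : 2 ^ 5 ≤ 2 ^ (2 * n + 1) := Nat.pow_le_pow_right (by omega) (by omega)
    rw [inf_idem] at h1
    rw [hi, hcard] at h3
    omega
  have := (isCoc_coc φ).key_of_z h.toES
    ((isCoc_coc φ).prod_z h.toC2 hM hu hv huv fun x hx => smul_mem_orb (ω := ω) hx) ha
  exact ⟨fun y hy => this.1 y (hM hy), this.2⟩

end Cfsg.Agent.S3299
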