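import Cfsg.Statements.S3301
import Cfsg.Agent.H9.Cocyc

set_option autoImplicit false
open Cfsg

namespace Cfsg.Agent.S3301

open Subgroup Cfsg.Agent.H9

theorem key {G A : Type*} [Group G] [CommGroup A] {E M : Subgroup G} {z a : G} (h : LgE E z)
    (hM : M ≤ normalizer (E : Set G)) (hi : M.relIndex E = 2) (ha : a ∈ E) (haM : a ∉ M)
    (χ : M →* A) {N : ℕ} (hN : ∀ b : A, (b * b) ^ (2 * N) = 1) {u f : M}
    (hf : (f : G) = u * a * (u : G)⁻¹ * a⁻¹) : χ f ^ (2 * N) = 1 := by
  have hsq : ∀ b : A, b * b = 1 → b ^ (2 * N) = 1 := fun b hb => by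
    rw [pow_mul, pow_two, hb, one_pow]
  have hfE : (f : G) ∈ E := hf ▸ mul_mem (conj_mem_of_mem_normalizer (hM u.2) ha) (inv_mem ha)
  rcases h.sq_eq hfE with h1 | h1
  · exact hsq _ (by rw [← map_mul, show f * f = 1 from Subtype.ext h1, map_one])
  have hzM : z ∈ M := h1 ▸ mul_mem f.2 f.2
  have hzz : χ ⟨z, hzM⟩ * χ ⟨z, hzM⟩ = 1 := by
    rw [← map_mul, show (⟨z, hzM⟩ * ⟨z, hzM⟩ : M) = 1 from Subtype.ext h.sq, map_one]
  by_cases hz : χ ⟨z, hzM⟩ = 1
  · exact hsq _ (by rw [← map_mul, show f * f = ⟨z, hzM⟩ from Subtype.ext h1, hz])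
  have hc : ∀ x : M, (x : G) ∈ E → ∀ y : M, (y : G) ∈ E → (x : G) * y = y * x := by
    intro x hx y hy
    by_contra h2
    have h3 : x * y = y * x * ⟨z, hzM⟩ := Subtype.ext (h.eq_of_ne hx hy h2)
    have h4 := congrArg χ h3
    rw [map_mul, map_mul, map_mul, mul_comm (χ x)] at h4
    exact hz (mul_eq_left.mp h4.symm)
  have hcen : ∀ v ∈ E, (∀ x : M, (x : G) ∈ E → x * v = v * x) → a * v = v * a → v = 1 ∨ v = z := by
    intro v hv h2 h3
    refine h.center v hv fun q hq => ?_
    by_cases h4 : q ∈ M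
    · exact h2 ⟨q, h4⟩ hq
    · have h5 := h2 ⟨q * a, mul_mem_of_relIndex_two hi hq ha h4 haM⟩ (mul_mem hq ha)
      simp only at h5
      rw [mul_assoc, h3, ← mul_assoc, ← mul_assoc] at h5
      exact mul_right_cancel h5
  have haf : a * f ≠ f * a := fun h2 => by
    rcases hcen f hfE (fun x hx => hc x hx f hfE) h2 with h3 | h3 <;> rw [h3] at h1
    · exact h.ne (by rw [← h1, mul_one])
    · exact h.ne (h1.symm.trans h.sq)
  have hF : ∀ v : M, (v : G) ∈ E → (v : G) = 1 ∨ v = z ∨ v = f ∨ (v : G) = f * z := by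
    intro v hv
    by_cases h2 : a * v = v * a
    · have := hcen v hv (fun x hx => hc x hx v hv) h2; tauto
    rcases hcen (v * f) (mul_mem hv hfE) (fun x hx => hc x hx (v * f) (mul_mem hv hfE))
      ((h.comm_mul_iff ha hv hfE).mpr (by tauto)) with h3 | h3
    · right; right; right
      rw [eq_inv_of_mul_eq_one_left h3, ← h1, eq_comm, ← mul_eq_one_iff_eq_inv]
      simpa only [mul_assoc] using h.pow_four hfE
    · right; right; left; exact Subtype.ext (mul_right_cancel (h3.trans h1.symm))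
  have huz : u * z * (u : G)⁻¹ = z := h.conj_z (hM u.2)
  have huf : u * f * (u : G)⁻¹ = f := by
    rcases hF (u * f * u⁻¹) (conj_mem_of_mem_normalizer (hM u.2) hfE) with h2 | h2 | h2 | h2
    · exact absurd (by rw [show (f : G) = 1 by simpa using h2]; simp) haf
    · rw [← huz] at h2
      exact absurd (by rw [show (f : G) = z by simpa using h2]; exact h.cz a ha) haf
    · exact congrArg Subtype.val h2
    · have h4 := congrArg χ (show u * f * u⁻¹ = f * ⟨z, hzM⟩ from Subtype.ext h2)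
      rw [map_mul, map_mul, map_mul, map_inv, mul_inv_cancel_comm] at h4
      exact absurd (mul_eq_left.mp h4.symm) hz
  have hua : u * a * (u : G)⁻¹ = f * a := by rw [hf]; group
  obtain ⟨w, hw⟩ : ∃ w : M, w = f⁻¹ * (u * u) := ⟨_, rfl⟩
  have hconj : ∀ v : G, w * v * (w : G)⁻¹ = (f : G)⁻¹ * (u * (u * v * (u : G)⁻¹) * (u : G)⁻¹) * f :=
    fun v => by rw [hw]; push_cast; group
  have hwf : (f : G) * w = w * f := by
    rw [eq_comm, ← mul_inv_eq_iff_eq_mul, hconj, huf, huf]; group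
  have hwz : z * w = w * z := by
    rw [eq_comm, ← mul_inv_eq_iff_eq_mul, hconj, huz, huz, mul_assoc, ← h.cz f hfE]; group
  have hwa : a * w = w * a := by
    rw [eq_comm, ← mul_inv_eq_iff_eq_mul, hconj, hua]
    calc _ = (f : G)⁻¹ * ((u * f * (u : G)⁻¹) * (u * a * (u : G)⁻¹)) * f := by group
      _ = f * (a * f) := by rw [huf, hua]; group
      _ = _ := by
        rw [h.eq_of_ne ha hfE haf, ← mul_assoc, ← mul_assoc, h1, ← h.cz a ha, mul_assoc, h.sq,
          mul_one]
  have hx : ∀ x : M, (x : G) ∈ E → (x : G) * w = w * x := fun x hx => by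
    rcases hF x hx with h2 | h2 | h2 | h2 <;> rw [h2]
    · simp
    · exact hwz
    · exact hwf
    · rw [mul_assoc, hwz, ← mul_assoc, hwf, mul_assoc]
  have hwE : (w : G) ∈ E := h.cent fun q hq => by
    by_cases h4 : q ∈ M
    · exact hx ⟨q, h4⟩ hq
    · have h5 := hx ⟨q * a, mul_mem_of_relIndex_two hi hq ha h4 haM⟩ (mul_mem hq ha)
      simp only at h5
      rw [mul_assoc, hwa, ← mul_assoc, ← mul_assoc] at h5
      exact mul_right_cancel h5
  have h6 : χ w ^ (2 * N) = 1 := by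
    rcases hcen w hwE hx hwa with h2 | h2
    · rw [show w = 1 from Subtype.ext h2, map_one, one_pow]
    · rw [show w = ⟨z, hzM⟩ from Subtype.ext h2]; exact hsq _ hzz
  rwa [hw, map_mul, map_mul, mul_pow, hN, mul_one, map_inv, inv_pow, inv_eq_one] at h6

/-- Let G be a finite group with no nontrivial 2-group quotient (O^2(G) = G), z an involution of G with H = C_G(z), and suppose E = O_2(H) is extraspecial with C_G(E) ≤ E. Then the Sylow 2-subgroups of H/[H, H] are elementary abelian: every element of 2-power order of the abelianization of H has order at most 2. -/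
theorem result {G : Type*} [Group G] [Finite G] (hres : Cfsg.pResidual 2 G = ⊤) (z : G) (hz : orderOf z = 2)
    (E : Subgroup G) (hE : E = (Cfsg.pCore 2 ↥(Subgroup.centralizer ({z} : Set G))).map (Subgroup.centralizer ({z} : Set G)).subtype)
    (hext : Cfsg.IsExtraspecial 2 ↥E) (hcent : Subgroup.centralizer (E : Set G) ≤ E) :
    ∀ q : Abelianization ↥(Subgroup.centralizer ({z} : Set G)), (∃ k : ℕ, orderOf q = 2 ^ k) → q ^ 2 = 1 := by
  classical
  haveI := Fintype.ofFinite (G ⧸ centralizer ({z} : Set G))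
  haveI := Fact.mk Nat.prime_two
  have h := LgE.of_pCore hz hE hext hcent
  rintro q ⟨k, hk⟩
  by_contra hq
  obtain ⟨N, hN⟩ : 4 ∣ Monoid.exponent (Abelianization (centralizer ({z} : Set G))) := by
    refine Dvd.dvd.trans ?_ (Monoid.order_dvd_exponent q)
    rw [← orderOf_dvd_iff_pow_eq_one, hk] at hq
    rw [hk]
    exact pow_dvd_pow 2 (show 2 ≤ k from not_lt.mp fun h1 => hq
      ((pow_dvd_pow 2 (Nat.lt_succ_iff.mp h1)).trans (pow_one 2).dvd))
  have hN' : ∀ b : Abelianization (centralizer ({z} : Set G)), (b * b) ^ (2 * N) = 1 := fun b => by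
    rw [← pow_two, ← pow_mul, ← mul_assoc, show 2 * 2 = 4 from rfl, ← hN, Monoid.pow_exponent_eq_one]
  obtain ⟨b, hb⟩ := Monoid.exists_orderOf_eq_exponent
    (Monoid.ExponentExists.of_finite (G := Abelianization (centralizer ({z} : Set G))))
  obtain ⟨x₀, rfl⟩ := QuotientGroup.mk_surjective b
  obtain ⟨m, hm, hxm⟩ := exists_coprime_pow_pElement (p := 2) (x₀ : G)
  have hx := pow_mem x₀.2 m
  have hXH : E ⊔ zpowers ((x₀ : G) ^ m) ≤ centralizer ({z} : Set G) :=
    sup_le h.le_cent (zpowers_le.mpr hx)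
  let φ : centralizer ({z} : Set G) →* (powMonoidHom (2 * N) :
      Abelianization (centralizer ({z} : Set G)) →* _).range :=
    (powMonoidHom (2 * N)).rangeRestrict.comp Abelianization.of
  have h0 := h.eq_one_of_key hres (by
    rintro ⟨_, c, rfl⟩
    exact Subtype.ext ((mul_pow c c _).symm.trans (hN' c))) φ (h.isPGroup.to_sup_of_normal_left'
    (isPGroup_zpowers hxm) ((zpowers_le.mpr hx).trans h.norm)) le_sup_left hXH
    (x := (x₀ : G) ^ m) (fun ω hω M a hM hi ha haM => ?_) (mem_sup_right (mem_zpowers _))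
  · have h1 : (Abelianization.of (x₀ ^ m)) ^ (2 * N) = 1 := congrArg Subtype.val h0
    rw [map_pow, ← pow_mul, ← orderOf_dvd_iff_pow_eq_one] at h1
    have h2 : orderOf (Abelianization.of x₀) = 4 * N := hb.trans hN
    have h3 : 0 < N := Nat.pos_of_ne_zero fun h3 => (orderOf_pos (Abelianization.of x₀)).ne'
      (by rw [h2, h3])
    rw [h2, show 4 * N = 2 * (2 * N) by ring] at h1
    exact hm (Nat.dvd_of_mul_dvd_mul_right (by omega) h1)
  have hMN := (hM.trans hXH).trans h.norm
  let χ := (isCoc_coc (Abelianization.of (G := centralizer ({z} : Set G)))).hom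
    (O := orb M ω) (M := M) fun x hx => smul_mem_orb hx
  have hχ : ∀ x : M, χ x ^ (2 * N) = 1 → ∏ ω' ∈ orb M ω, coc φ x ω' = 1 := fun x hx => by
    refine Subtype.ext ?_
    rw [SubmonoidClass.coe_finsetProd, OneMemClass.coe_one, ← hx]
    exact Finset.prod_pow _ _ _
  have hi2 : M.relIndex (M ⊔ E) = 2 := by
    refine relIndex_eq_two_of (mem_sup_right ha) haM fun s hs hsM => ?_
    obtain ⟨b, hb, c, hc, rfl⟩ := (mem_sup_of_le_normalizer hMN).mp hs
    rw [mul_assoc]
    exact mul_mem hb (mul_mem_of_relIndex_two hi hc ha (fun h1 => hsM (mul_mem hb h1)) haM)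
  refine ⟨fun y hy => hχ ⟨_, mul_mem (inv_mem hy) (by
    simpa using (conj_mem_iff_of_relIndex_two hi2 (mem_sup_left hy)
      (mem_sup_right (inv_mem ha))).mpr hy)⟩ (key h hMN hi (inv_mem ha)
        (fun h1 => haM (inv_mem_iff.mp h1)) χ hN' (u := ⟨y⁻¹, inv_mem hy⟩) (by simp [mul_assoc])),
    hχ ⟨_, mul_self_mem_of_relIndex_two hi ha⟩ ?_⟩
  rw [pow_mul, pow_two, ← map_mul, show (⟨a * a, _⟩ * ⟨a * a, _⟩ : M) = 1 from
    Subtype.ext (h.pow_four ha), map_one, one_pow]

end Cfsg.Agent.S3301
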