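import Cfsg.Statements.S3302
import Cfsg.Agent.H5.HS5

set_option autoImplicit false
open Cfsg

namespace Cfsg.Agent.S3302

open Subgroup Cfsg.Agent.H5 Cfsg.Agent.H5.HS Cfsg.Agent.H8

/-- Let m > 1 be odd, F the field with 3^m elements, and 𝒞 the centralizer in PSp₄(F) of an element of order 3 lying in the centre of a Sylow 3-subgroup. Let G be a finite group with an element α of order 3 such that C_G(α) ≅ 𝒞 and C_G(z) = C_G(α) for every non-identity element z of the centre of C_G(α). Let P be a Sylow 3-subgroup of G and M ≤ P an elementary abelian subgroup of order 3^{3m}, and suppose that N_G(M) normalizes P (so that P is a normal Sylow 3-subgroup of N_G(M)). Then G = C_G(Z)·N_G(M), where Z is the centre of C_G(α): every element of G is a product of an element centralizing Z and an element of N_G(M); and C_G(α) is a normal subgroup of G. -/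
theorem result {G : Type*} [Group G] [Finite G] {F : Type*} [Field F] [Fintype F] (m : ℕ) (hm : Odd m) (hm1 : 1 < m) (hF : Fintype.card F = 3 ^ m) (U : Sylow 3 (Cfsg.PSp 2 F)) (x : Cfsg.PSp 2 F) (hx : orderOf x = 3) (hxU : x ∈ (U : Subgroup (Cfsg.PSp 2 F))) (hxc : ∀ u ∈ (U : Subgroup (Cfsg.PSp 2 F)), u * x = x * u) (α : G) (hα : orderOf α = 3) (e : ↥(Subgroup.centralizer ({α} : Set G)) ≃* ↥(Subgroup.centralizer ({x} : Set (Cfsg.PSp 2 F)))) (hb : ∀ z : G, z ≠ 1 → z ∈ Subgroup.centralizer ({α} : Set G) → (∀ c ∈ Subgroup.centralizer ({α} : Set G), c * z = z * c) → Subgroup.centralizer ({z} : Set G) = Subgroup.centralizer ({α} : Set G)) (P : Sylow 3 G) (M : Subgroup G) (hMP : M ≤ (P : Subgroup G)) (hMel : Cfsg.IsElementaryAbelian 3 M) (hMcard : Nat.card M = 3 ^ (3 * m)) (hB : Subgroup.normalizer (M : Set G) ≤ Subgroup.normalizer ((P : Subgroup G) : Set G)) : (∀ g : G, ∃ c k : G, c ∈ Subgroup.centralizer {z : G | z ∈ Subgroup.centralizer ({α} : Set G) ∧ ∀ c' ∈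 Subgroup.centralizer ({α} : Set G), c' * z = z * c'} ∧ k ∈ Subgroup.normalizer (M : Set G) ∧ g = c * k) ∧ (Subgroup.centralizer ({α} : Set G)).Normal := by
  haveI : Fact (Nat.Prime 3) := ⟨Nat.prime_three⟩
  haveI : CharP F 3 := charP_of_card_eq_prime_pow hF
  obtain ⟨ι0, S0, h0⟩ := exists_setup (by norm_num) hF U hx hxc e hb
  obtain ⟨k, -, hk⟩ := (S0.sylowP 3).exists_cj_eq (isSylowIn_top P)
  have S := S0.conj k
  set ι := (MulAut.conj k).toMonoidHom.comp ι0
  have hP : (PP F).map ι = P := by rw [← hk, H8.cj, map_map]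
  have hM : M = (MM F).map ι := S.eq_M (hP ▸ hMP) (fun a ha b hb => congrArg Subtype.val
    (hMel.1.is_comm.comm ⟨a, ha⟩ ⟨b, hb⟩)) (by rw [hMcard, Nat.card_eq_fintype_card, hF, ← pow_mul, mul_comm])
  have C : Cl ι := ⟨S, hM ▸ hP ▸ hB, fun y hy => by
    refine FiniteField.isSquare_neg_one_iff.1 ⟨y, hy.symm⟩ ?_
    obtain ⟨j, rfl⟩ := hm
    rw [hF, pow_succ, pow_mul, Nat.mul_mod, Nat.pow_mod]; simp, by
    rw [Nat.card_eq_fintype_card, hF]
    calc 9 < 3 ^ 3 := by norm_num
      _ ≤ 3 ^ m := Nat.pow_le_pow_right (by norm_num) (by obtain ⟨j, rfl⟩ := hm; omega)⟩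
  have hN := C.normal_C
  have hr : ι.range = centralizer {α} := by
    have : H8.cj k (centralizer {α}) = ι.range := by rw [← h0, MonoidHom.range_comp]
    rw [← cj_inv_cj k (centralizer {α}), this, cj_eq_self (le_normalizer_of_normal (mem_top _))]
  refine ⟨fun g => ?_, hr ▸ hN⟩
  obtain ⟨c, hc, h⟩ := ((S.sylowP 3).of_le (map_le_range _ _) le_top).frattini (g := g)
    (le_normalizer_of_normal (mem_top _))
  exact ⟨c⁻¹, c * g, fun z hz => (hz.2 _ (hr ▸ inv_mem hc)).symm, hM ▸ S.NP_le_NM h, by group⟩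

end Cfsg.Agent.S3302
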