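import Cfsg.Statements.S3303
import Cfsg.Agent.H5.RankOne

set_option autoImplicit false
open Cfsg

namespace Cfsg.Agent.S3303

/-- Let G be a finite solvable group in which the intersection of any two distinct Sylow 2-subgroups is cyclic. Then G/O(G) has a normal Sylow 2-subgroup, where O(G) is the largest normal subgroup of odd order. -/
theorem result {G : Type*} [Group G] [Finite G] (hs : Group.IsSolvable G)
    (hC : ∀ S T : Sylow 2 G, S ≠ T → IsCyclic ↥((S : Subgroup G) ⊓ (T : Subgroup G))) :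
    ∃ P : Sylow 2 (G ⧸ Cfsg.oddCore G), (P : Subgroup (G ⧸ Cfsg.oddCore G)).Normal := by
  by_contra h
  obtain ⟨S, T, hST⟩ := H5.exists_sylow_ne_of_not_normal h
  obtain ⟨S₀, T₀, h1, h2⟩ := H5.exists_sylow_pair_lift (QuotientGroup.mk' (Cfsg.oddCore G))
    (QuotientGroup.mk'_surjective _) hST
  have h3 := H5.isCyclic_map (QuotientGroup.mk' (Cfsg.oddCore G)) (hC S₀ T₀ h1)
  rw [h2] at h3
  have h4 : IsCyclic (Cfsg.pCore 2 (G ⧸ Cfsg.oddCore G)) :=
    Subgroup.isCyclic_of_le (le_inf (L0.pCore_le_sylow S) (L0.pCore_le_sylow T))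
  exact h (H5.exists_normal_sylow_of_isPGroup (H5.isPGroup_two_of_isCyclic_pCore
    (H5.centralizer_pCore_quotient_le_of_solvable hs) h4))

end Cfsg.Agent.S3303
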