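import Cfsg.Statements.S3304
import Cfsg.Agent.H5.Q8Ext
import Cfsg.Agent.H9.Extra

set_option autoImplicit false
open Cfsg

namespace Cfsg.Agent.S3304

/-- Let G be a finite solvable group in which the intersection of any two distinct Sylow 2-subgroups has 2-rank at most 1 (contains no Klein four-group). Write Q = G/O(G), O(G) the largest normal subgroup of odd order. Then Q has a normal Sylow 2-subgroup; or Q is isomorphic to GL(2,3); or Q has order 48, centre of order 2 with central quotient isomorphic to the symmetric group of degree 4, and generalized quaternion Sylow 2-subgroups of order 16 (the binary octahedral group). The last two are the two representation groups of the symmetric group of degree 4. -/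
theorem result {G : Type*} [Group G] [Finite G] (hs : Group.IsSolvable G)
    (hI : ∀ S T : Sylow 2 G, S ≠ T → Cfsg.PRankLE 2 1 ↥((S : Subgroup G) ⊓ (T : Subgroup G))) :
    (∃ P : Sylow 2 (G ⧸ Cfsg.oddCore G), (P : Subgroup (G ⧸ Cfsg.oddCore G)).Normal) ∨
    Nonempty ((G ⧸ Cfsg.oddCore G) ≃* GL (Fin 2) (ZMod 3)) ∨
    (Nat.card (G ⧸ Cfsg.oddCore G) = 48 ∧ Nat.card ↥(Subgroup.center (G ⧸ Cfsg.oddCore G)) = 2 ∧
      Nonempty ((G ⧸ Cfsg.oddCore G) ⧸ Subgroup.center (G ⧸ Cfsg.oddCore G) ≃* Equiv.Perm (Fin 4)) ∧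
      ∀ P : Sylow 2 (G ⧸ Cfsg.oddCore G), Nonempty (↥(P : Subgroup (G ⧸ Cfsg.oddCore G)) ≃* QuaternionGroup 4)) := by
  by_cases h : ∃ P : Sylow 2 (G ⧸ Cfsg.oddCore G), (P : Subgroup (G ⧸ Cfsg.oddCore G)).Normal
  · exact Or.inl h
  right
  obtain ⟨S, T, hST⟩ := H5.exists_sylow_ne_of_not_normal h
  let f := QuotientGroup.mk' (Cfsg.oddCore G)
  obtain ⟨S₀, T₀, h1, h2⟩ := H5.exists_sylow_pair_lift f (QuotientGroup.mk'_surjective _) hST
  have hc := H5.centralizer_pCore_quotient_le_of_solvable (p := 2) hs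
  have hk : ¬ 2 ∣ Nat.card f.ker := H5.not_dvd_card_ker_mk_pPrimeCore
  set R := (S₀ : Subgroup G) ⊓ T₀ with hR
  have hR2 : IsPGroup 2 R := S₀.2.to_inf_left
  have hdis : Disjoint R f.ker := L0.disjoint_of_isPGroup_of_not_dvd hR2 hk
  have hinj : Function.Injective (f.subgroupMap R) := by
    rw [injective_iff_map_eq_one]
    intro x hx
    have h1 : f x = 1 := congrArg Subtype.val hx
    exact Subtype.ext (Subgroup.disjoint_def.mp hdis x.2 h1)
  let e' := MulEquiv.ofBijective (f.subgroupMap R) ⟨hinj, f.subgroupMap_surjective R⟩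
  have hle : Cfsg.pCore 2 (G ⧸ Cfsg.pPrimeCore 2 G) ≤ R.map f :=
    h2 ▸ le_inf (L0.pCore_le_sylow S) (L0.pCore_le_sylow T)
  have hu : ∀ x ∈ R.map f, ∀ y ∈ R.map f, orderOf x = 2 → orderOf y = 2 → x = y := by
    rcases H5.cyclic_or_quaternion_of_pRankLE_one hR2 (hI S₀ T₀ h1) with h3 | ⟨-, n, ⟨e⟩⟩
    · intro x hx y hy hx2 hy2
      exact H9.eq_of_isCyclic_of_mul_self (H5.isCyclic_map f h3) hx hy
        (H4.mul_self_of_orderOf_two hx2) (H4.mul_self_of_orderOf_two hy2)
        (H4.ne_one_of_orderOf_two hx2) (H4.ne_one_of_orderOf_two hy2)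
    · haveI : NeZero (2 ^ (n + 1)) := ⟨pow_ne_zero _ two_ne_zero⟩
      exact H5.unique_involution_of_equiv_quaternion (e'.symm.trans e)
  rcases H5.isPGroup_or_quaternion_of_unique_involution hc
    (fun x hx y hy => hu x (hle hx) y (hle hy)) with h3 | ⟨⟨e⟩, h3⟩
  · exact absurd (H5.exists_normal_sylow_of_isPGroup h3) h
  obtain ⟨hG, i, j, d, t, hrel, hi, ht⟩ := H5.exists_rel48 hc e h3 h
  rcases ht with ht | ht
  · exact Or.inl (hrel.nonempty_equiv_GL hi hG ht)
  · exact Or.inr ⟨hG, (hrel.center_and_quotient hi hG (Or.inr ht)).1,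
      (hrel.center_and_quotient hi hG (Or.inr ht)).2, hrel.sylow_equiv_quaternion hi hG ht⟩

end Cfsg.Agent.S3304
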