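import Cfsg.Statements.S3306
import Cfsg.Agent.S3305
import Cfsg.Agent.FT.Main
import Cfsg.Agent.H7.ZStar
import Cfsg.Agent.H4.Scn3
import Cfsg.Agent.H4.Dihedral
import Cfsg.Agent.H8.Coprime

set_option autoImplicit false
open Cfsg

namespace Cfsg.Agent.S3306

open Subgroup Cfsg.Agent.L0
open scoped commutatorElement Pointwise

/-- in a nilpotent group, an element conjugate to one of its commutators is trivial -/
theorem eq_one_of_conj_comm {S : Type*} [Group S] [Group.IsNilpotent S] {u s t : S}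
    (h : ⁅u, s⁆ = t * u * t⁻¹) : u = 1 := by
  have key : ∀ n, u ∈ (⊤ : Subgroup S).lowerCentralSeries n := by
    intro n
    induction n with
    | zero => simp
    | succ n ih =>
      have h1 : t * u * t⁻¹ ∈ (⊤ : Subgroup S).lowerCentralSeries (n + 1) := h ▸ commutator_mem_commutator ih (mem_top s)
      have h2 := (inferInstance : ((⊤ : Subgroup S).lowerCentralSeries (n + 1)).Normal).conj_mem _ h1 t⁻¹
      simpa [mul_assoc] using h2
  obtain ⟨n, hn⟩ := Subgroup.nilpotent_iff_lowerCentralSeries.1 (inferInstance : Group.IsNilpotent S)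
  simpa [hn] using key n

theorem isPGroup_zpowers_two {Q : Type*} [Group Q] {x : Q} (hx : orderOf x = 2) : IsPGroup 2 (zpowers x) :=
  IsPGroup.of_card (n := 1) (by rw [Nat.card_zpowers, hx, pow_one])

theorem exists_sylow_pair {Q : Type*} [Group Q] {x y : Q} (hx : orderOf x = 2) (hy : orderOf y = 2)
    (h : Commute x y) : ∃ T : Sylow 2 Q, x ∈ (T : Subgroup Q) ∧ y ∈ (T : Subgroup Q) := by
  have h1 := H4.isPGroup_two_closure_involutions (H4.mul_self_of_orderOf_two hx) (H4.mul_self_of_orderOf_two hy)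
    ⟨1, by rw [pow_one, h.mul_pow, sq, sq, H4.mul_self_of_orderOf_two hx, H4.mul_self_of_orderOf_two hy, one_mul]⟩
  obtain ⟨T, hT⟩ := h1.exists_le_sylow
  exact ⟨T, hT (subset_closure (by simp)), hT (subset_closure (by simp))⟩

/-- the fusion argument, in the quotient by the cyclic 2-core -/
theorem core {Q : Type*} [Group Q] [Finite Q] (h0 : pPrimeCore 2 Q = ⊥) (h2 : pCore 2 Q = ⊥)
    (C : Subgroup Q) [hCn : C.Normal] (hC : 2 ∣ Nat.card C) (P : Q → Prop)
    (hP : ∀ x g, P x → P (g * x * g⁻¹))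
    (hab : ∀ x ∈ C, ∀ y ∈ C, orderOf x = 2 → orderOf y = 2 → Commute x y → (P x ↔ P y) → P (x * y))
    (hU : ∀ S T : Sylow 2 Q, S ≠ T → ∀ x ∈ (S : Subgroup Q), x ∈ (T : Subgroup Q) → orderOf x = 2 → x ∈ C ∧ ¬ P x)
    (S : Sylow 2 Q) {u : Q} (huS : u ∈ (S : Subgroup Q)) (hu : orderOf u = 2)
    (hN : ∀ g ∈ normalizer (S : Set Q), ∃ s ∈ (S : Subgroup Q), g * u * g⁻¹ = s * u * s⁻¹) :
    u ∈ C ∧ ¬ P u := by
  by_contra hu'
  have hcore : ∀ t : Q, orderOf t = 2 → t ∉ pCore 2 Q := fun t ht h => by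
    rw [h2, mem_bot] at h
    exact H4.ne_one_of_orderOf_two ht h
  have hiso : ∀ t : Q, orderOf t = 2 → ∃ g, Commute t (g * t * g⁻¹) ∧ g * t * g⁻¹ ≠ t := fun t ht => by
    by_contra h
    push Not at h
    have h1 := (H7.Isolated.of_commute (H4.mul_self_of_orderOf_two ht) h).mem_center h0
    refine hcore t ht (le_pCore ⟨fun x hx g => ?_⟩ (isPGroup_zpowers_two ht) (mem_zpowers t))
    rwa [mem_center_iff.1 (zpowers_le.2 h1 hx) g, mul_inv_cancel_right]
  have hoc : ∀ {x : Q} (g : Q), orderOf x = 2 → orderOf (g * x * g⁻¹) = 2 := fun {x} g hx =>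
    ((MulAut.conj g).orderOf_eq x).trans hx
  have hom : ∀ {x y : Q}, orderOf x = 2 → orderOf y = 2 → Commute x y → y ≠ x → orderOf (x * y) = 2 :=
    fun {x y} hx hy h hne => by
      refine H4.orderOf_eq_two_of ?_ fun e => hne ?_
      · rw [← sq, h.mul_pow, sq, sq, H4.mul_self_of_orderOf_two hx, H4.mul_self_of_orderOf_two hy, one_mul]
      · rw [← H4.inv_eq_of_mul_self (H4.mul_self_of_orderOf_two hx), eq_inv_of_mul_eq_one_right e]
  -- good involutions lie in one Sylow subgroup only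
  have hcom : ∀ (T : Sylow 2 Q) {x y : Q}, orderOf x = 2 → ¬ (x ∈ C ∧ ¬ P x) → x ∈ (T : Subgroup Q) →
      orderOf y = 2 → Commute x y → y ∈ (T : Subgroup Q) := fun T {x y} hx hg hT hy h => by
    obtain ⟨T', h3, h4⟩ := exists_sylow_pair hx hy h
    by_cases e : T = T'
    · exact e ▸ h4
    · exact (hg (hU T T' e x hT h3 hx)).elim
  have hfus : ∀ g : Q, g * u * g⁻¹ ∈ (S : Subgroup Q) → ∃ s ∈ (S : Subgroup Q), g * u * g⁻¹ = s * u * s⁻¹ :=
    fun g hg => by
      refine hN g (inv_mem_iff.1 (Sylow.smul_eq_iff_mem_normalizer.1 ?_))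
      by_contra e
      refine hu' (hU _ _ e u ?_ huS hu)
      rw [Sylow.coe_subgroup_smul, mem_pointwise_smul_iff_inv_smul_mem]
      simpa using hg
  have hM : ∀ y ∈ C, orderOf y = 2 → P y → IsConj u y := fun y hyC hy hPy => by
    by_contra hnc
    obtain ⟨g, hg⟩ : ∃ g, g * y * g⁻¹ ∉ (S : Subgroup Q) := by
      by_contra h
      push Not at h
      exact hcore y hy (by rw [pCore_eq_normalCore_sylow S]; exact h)
    have hnc' : ¬ IsConj u (g * y * g⁻¹) := fun h => hnc (h.trans (isConj_iff.2 ⟨g, rfl⟩).symm)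
    have hy' := hoc g hy
    have hPy' := hP y g hPy
    have hyC' := hCn.conj_mem y hyC g
    generalize g * y * g⁻¹ = z at *
    obtain ⟨T, hT⟩ := (isPGroup_zpowers_two hy').exists_le_sylow
    have hzT : z ∈ (T : Subgroup Q) := hT (mem_zpowers z)
    obtain ⟨c, -, hc, h1, h3, h4⟩ := H4.exists_involution_commute_of_not_isConj hu hy' hnc'
    have h5 := hU S T (fun e => hg (e ▸ hzT)) c (hcom S hu hu' huS hc h1.symm)
      (hcom T hy' (fun h => h.2 hPy') hzT hc h3.symm) hc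
    have h6 : P (z * c) ∧ orderOf (z * c) = 2 := by
      rcases h4 with ⟨-, h4⟩ | ⟨-, h4⟩
      · obtain ⟨k, hk⟩ := isConj_iff.1 h4
        exact hk ▸ ⟨hP z k hPy', hoc k hy'⟩
      · obtain ⟨k, hk⟩ := isConj_iff.1 h4
        have h7 : u ∈ C := by
          have := hCn.conj_mem _ (mul_mem hyC' h5.1) k⁻¹
          rw [← hk] at this
          simpa [mul_assoc] using this
        exact hk ▸ ⟨hP u k (by_contra fun e => hu' ⟨h7, e⟩), hoc k hu⟩
    have h7 := hab z hyC' (z * c) (mul_mem hyC' h5.1) hy' h6.2 ((Commute.refl z).mul_right h3.symm)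
      (iff_of_true hPy' h6.1)
    rw [← mul_assoc, H4.mul_self_of_orderOf_two hy', one_mul] at h7
    exact h5.2 h7
  by_cases huC : u ∈ C
  · have hPu : P u := by_contra fun e => hu' ⟨huC, e⟩
    obtain ⟨g, h1, h3⟩ := hiso u hu
    have h4 := hcom S hu hu' huS (hoc g hu) h1
    obtain ⟨k, hk⟩ := isConj_iff.1 (hM _ (mul_mem huC (hCn.conj_mem u huC g)) (hom hu (hoc g hu) h1 h3)
      (hab u huC _ (hCn.conj_mem u huC g) hu (hoc g hu) h1 (iff_of_true hPu (hP u g hPu))))
    obtain ⟨s, hs, e1⟩ := hfus g h4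
    obtain ⟨t, ht, e2⟩ := hfus k (hk ▸ mul_mem huS h4)
    have := S.isPGroup'.isNilpotent
    have h5 := eq_one_of_conj_comm (S := (S : Subgroup Q)) (u := ⟨u, huS⟩) (s := ⟨s, hs⟩) (t := ⟨t, ht⟩) (by
      ext
      change u * s * u⁻¹ * s⁻¹ = t * u * t⁻¹
      rw [← e2, hk, e1, H4.inv_eq_of_mul_self (H4.mul_self_of_orderOf_two hu)]
      group)
    exact H4.ne_one_of_orderOf_two hu (congrArg Subtype.val h5)
  · have hno : ∀ y ∈ C, orderOf y = 2 → ¬ P y := fun y hyC hy hPy => by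
      obtain ⟨k, hk⟩ := isConj_iff.1 (hM y hyC hy hPy).symm
      exact huC (hk ▸ hCn.conj_mem y hyC k)
    obtain ⟨⟨z, hzC⟩, hz⟩ := exists_prime_orderOf_dvd_card' 2 hC
    rw [← orderOf_coe] at hz
    obtain ⟨g, h1, h3⟩ := hiso z hz
    have h4 := hCn.conj_mem z hzC g
    exact hno _ (mul_mem hzC h4) (hom hz (hoc g hz) h1 h3)
      (hab z hzC _ h4 hz (hoc g hz) h1 (iff_of_false (hno z hzC hz) (hno _ h4 (hoc g hz))))

/-- an element of 2-power order outside `C` whose involution is fused only inside `S` -/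
theorem exists_elt {Q : Type*} [Group Q] [Finite Q] (C : Subgroup Q) [hCn : C.Normal] (hC : C ≠ ⊤)
    (hodd : ∀ x : Q, ∃ k, x ^ 2 ^ k ∈ C) (S : Sylow 2 Q) :
    ∃ t ∈ (S : Subgroup Q), t ∉ C ∧ ∀ g ∈ normalizer (S : Set Q), ∃ s ∈ (S : Subgroup Q), ∃ d, Commute d t ∧ g = s * d := by
  have hS : ¬ (S : Subgroup Q) ≤ C := fun h => by
    have h1 : IsPGroup 2 (Q ⧸ C) := fun x => by
      obtain ⟨x, rfl⟩ := QuotientGroup.mk_surjective x
      obtain ⟨k, hk⟩ := hodd x
      exact ⟨k, (QuotientGroup.eq_one_iff _).2 hk⟩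
    exact hC (top_le_iff.1 (pResidual_sup_sylow S ▸ sup_le (pResidual_le_of_isPGroup_quotient h1) h))
  have hcop : (Nat.card ((S : Subgroup Q).subgroupOf (normalizer (S : Set Q)))).Coprime
      ((S : Subgroup Q).subgroupOf (normalizer (S : Set Q))).index := by
    obtain ⟨n, hn⟩ := (S.isPGroup'.comap_subtype (K := normalizer (S : Set Q))).exists_card_eq
    change Nat.card ((S : Subgroup Q).subgroupOf _) = _ at hn
    rw [hn]
    refine Nat.Coprime.pow_left n ((Nat.Prime.coprime_iff_not_dvd Nat.prime_two).2 fun h => S.not_dvd_index ?_)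
    exact h.trans (relIndex_dvd_index_of_le le_normalizer)
  have : ((S : Subgroup Q).subgroupOf (normalizer (S : Set Q))).Normal := normal_in_normalizer
  obtain ⟨D, hD⟩ := exists_right_complement'_of_coprime hcop
  have hDc : ¬ 2 ∣ Nat.card (D.map (normalizer (S : Set Q)).subtype) := by
    rw [card_map_of_injective (subtype_injective _), ← hD.symm.index_eq_card]
    exact fun h => S.not_dvd_index (h.trans (relIndex_dvd_index_of_le le_normalizer))
  have hA := H8.CopAct.of_pgroup_right hDc S.isPGroup' (map_subtype_le D)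
  have hDC : D.map (normalizer (S : Set Q)).subtype ≤ C := fun d hd => by
    obtain ⟨k, hk⟩ := hodd d
    have h1 : (orderOf d).Coprime (2 ^ k) := Nat.Coprime.pow_right k ((Nat.Prime.coprime_iff_not_dvd
      Nat.prime_two).2 fun h => hDc (h.trans (orderOf_dvd_natCard _ hd))).symm
    obtain ⟨m, hm⟩ := exists_pow_eq_self_of_coprime h1.symm
    exact hm ▸ pow_mem hk m
  have h1 : ¬ (S : Subgroup Q) ⊓ centralizer (D.map (normalizer (S : Set Q)).subtype : Set Q) ≤ C := fun h =>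
    hS (hA.commutator_sup_centralizer ▸ sup_le ((commutator_mono le_top hDC).trans (commutator_le_right _ _)) h)
  obtain ⟨t, ht, htC⟩ := SetLike.not_le_iff_exists.1 h1
  refine ⟨t, ht.1, htC, fun g hg => ?_⟩
  obtain ⟨⟨s, d⟩, e⟩ := (hD.existsUnique ⟨g, hg⟩).exists
  exact ⟨s, s.2, d, ht.2 _ ⟨d, d.2, rfl⟩, (congrArg Subtype.val e).symm⟩

section

variable {G : Type*} [Group G] [Finite G]

theorem le_core (h0 : pPrimeCore 2 G = ⊥) (hV : IsCyclic (pCore 2 G)) (N : Subgroup G) [hn : N.Normal]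
    (hN : Group.IsSolvable N) : N ≤ pCore 2 G := by
  refine le_pCore hn (H5.isPGroup_two_of_isCyclic_pCore (IsPSolvable.centralizer_pCore_le
    isPSolvable_of_isSolvable ?_) ?_)
  · rw [← map_pPrimeCore_eq_bot_iff, eq_bot_iff, ← h0]
    exact map_pPrimeCore_le_of_normal N
  · have := isCyclic_of_le (map_pCore_le_of_normal (p := 2) N)
    exact isCyclic_of_surjective _ ((pCore 2 N).equivMapOfInjective _ (subtype_injective N)).symm.surjective

omit [Finite G] in
theorem mul_sq {v x y : G} {n : ℕ} (hv : orderOf v = 2 ^ (n + 2)) (hx : Commute x v) (hy : Commute y v) {i j k : ℤ}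
    (hi : x * x = v ^ i) (hj : y * y = v ^ j) (hk : y * x * y⁻¹ = x * v ^ k) :
    ∃ l : ℤ, x * y * (x * y) = v ^ (i + j + 2 * l) := by
  have h1 : v ^ (2 * k) = 1 := by
    have h2 : y * (x * x) * y⁻¹ = x * x := by rw [hi, (hy.zpow_right i).eq, mul_inv_cancel_right]
    have h3 : y * (x * x) * y⁻¹ = x * x * v ^ (2 * k) := by
      calc y * (x * x) * y⁻¹ = (y * x * y⁻¹) * (y * x * y⁻¹) := by group
        _ = x * (v ^ k * x) * v ^ k := by rw [hk]; group
        _ = _ := by rw [← (hx.zpow_right k).eq]; group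
    rw [h2] at h3
    exact (left_eq_mul.1 h3)
  obtain ⟨l, hl⟩ : (2 : ℤ) ∣ k := by
    have h2 := orderOf_dvd_iff_zpow_eq_one.2 h1
    rw [hv] at h2
    have h3 : (2 * 2 : ℤ) ∣ 2 * k := Dvd.dvd.trans ⟨2 ^ n, by push_cast; ring⟩ h2
    exact (mul_dvd_mul_iff_left two_ne_zero).1 h3
  refine ⟨l, ?_⟩
  calc x * y * (x * y) = x * (y * x * y⁻¹) * (y * y) := by group
    _ = (x * x) * v ^ k * (y * y) := by rw [hk]; group
    _ = _ := by rw [hi, hj, hl]; group

theorem core_le_center (hns : ¬ Group.IsSolvable G) (h0 : pPrimeCore 2 G = ⊥) (hV : IsCyclic (pCore 2 G))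
    (hC : ∀ S T : Sylow 2 G, S ≠ T → IsCyclic ↥((S : Subgroup G) ⊓ (T : Subgroup G))) :
    pCore 2 G ≤ center G := by
  by_contra hc
  obtain ⟨v, hv⟩ := (Subgroup.isCyclic_iff_exists_zpowers_eq_top _).1 hV
  have hvV : v ∈ pCore 2 G := hv ▸ mem_zpowers v
  have hvc : v ∉ center G := fun h => hc (hv ▸ zpowers_le.2 h)
  have huniq : ∀ {K : Subgroup G}, IsCyclic K → ∀ x ∈ K, ∀ y ∈ K, orderOf x = 2 → orderOf y = 2 → x = y :=
    fun {K} hK x hx y hy h1 h2 => congrArg Subtype.val (H4.eq_of_orderOf_two_of_isCyclic (C := K) (x := ⟨x, hx⟩)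
      (y := ⟨y, hy⟩) (by rwa [← orderOf_coe]) (by rwa [← orderOf_coe]))
  obtain ⟨n, hn⟩ : ∃ n, orderOf v = 2 ^ (n + 2) := by
    obtain ⟨m, hm⟩ := (pCore_isPGroup (p := 2) (G := G)).exists_card_eq
    rw [← hv, Nat.card_zpowers] at hm
    match m, hm with
    | 0, hm => exact (hvc (orderOf_eq_one_iff.1 hm ▸ one_mem _)).elim
    | 1, hm =>
      refine (hvc (mem_center_iff.2 fun g => mul_inv_eq_iff_eq_mul.1 ?_)).elim
      exact huniq hV _ ((inferInstance : (pCore 2 G).Normal).conj_mem v hvV g) v hvV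
        (((MulAut.conj g).orderOf_eq v).trans hm) hm
    | m + 2, hm => exact ⟨m, hm⟩
  set π := QuotientGroup.mk' (pCore 2 G) with hπ
  have hsurj : Function.Surjective π := QuotientGroup.mk'_surjective _
  have hker : ∀ x, π x = 1 ↔ ∃ i : ℤ, x = v ^ i := fun x => by
    rw [hπ, QuotientGroup.mk'_apply, QuotientGroup.eq_one_iff, ← hv, mem_zpowers_iff]
    exact exists_congr fun _ => eq_comm
  have hmem : ∀ x, π x ∈ (centralizer (pCore 2 G : Set G)).map π ↔ Commute x v := fun x => by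
    rw [← mem_comap, comap_map_eq_self (by rw [hπ, QuotientGroup.ker_mk']; exact le_centralizer _), ← hv,
      H8.centralizer_zpowers, mem_centralizer_singleton_iff]
    rfl
  have hCn : ((centralizer (pCore 2 G : Set G)).map π).Normal := Normal.map inferInstance π hsurj
  set C := (centralizer (pCore 2 G : Set G)).map π
  have h0' : pPrimeCore 2 (G ⧸ pCore 2 G) = ⊥ := by
    have h1 : Group.IsSolvable (pPrimeCore 2 (G ⧸ pCore 2 G)) :=
      FT.odd_solvable (Nat.not_even_iff_odd.1 fun h => not_dvd_card_pPrimeCore h.two_dvd)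
    have h2 : Group.IsSolvable (pCore 2 G) := H8.solvable_of_pgroup (pCore_isPGroup (p := 2))
    have h3 := le_core h0 hV ((pPrimeCore 2 (G ⧸ pCore 2 G)).comap π) (by
      rw [← map_comap_eq_self_of_surjective hsurj (pPrimeCore 2 _)] at h1
      refine Group.isSolvable_of_ker_le_range (inclusion (H := pCore 2 G) fun x hx => ?_) (π.subgroupMap _) ?_
      · rw [mem_comap, show π x = 1 from (QuotientGroup.eq_one_iff x).2 hx]; exact one_mem _
      · intro x hx
        exact ⟨⟨x, (QuotientGroup.eq_one_iff _).1 (congrArg Subtype.val hx)⟩, rfl⟩)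
    rw [← map_comap_eq_self_of_surjective hsurj (pPrimeCore 2 _), Subgroup.map_eq_bot_iff, hπ, QuotientGroup.ker_mk']
    exact h3
  have hodd : ∀ x : G ⧸ pCore 2 G, ∃ k, x ^ 2 ^ k ∈ C := fun x => by
    obtain ⟨x, rfl⟩ := hsurj x
    obtain ⟨k, m, hm, e⟩ := Nat.exists_eq_two_pow_mul_odd (orderOf_pos x).ne'
    refine ⟨k, _, H5.mem_centralizer_of_odd_of_isCyclic pCore_isPGroup hV
      (by rw [normalizer_eq_top]; exact mem_top _) (hm.of_dvd_nat ?_), map_pow π x _⟩
    rw [orderOf_dvd_iff_pow_eq_one, ← pow_mul, ← e, pow_orderOf_eq_one]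
  have hC2 : 2 ∣ Nat.card C := by
    by_contra h
    have h1 : C = ⊥ := eq_bot_iff.2 (h0' ▸ le_pPrimeCore' hCn h)
    have h2 : IsPGroup 2 (G ⧸ pCore 2 G) := fun x => by simpa [h1] using hodd x
    have h3 := H8.solvable_of_pgroup h2
    have h4 : Group.IsSolvable (pCore 2 G) := H8.solvable_of_pgroup (pCore_isPGroup (p := 2))
    exact hns (Group.isSolvable_of_ker_le_range (pCore 2 G).subtype π (by simp [hπ]))
  have hsq : ∀ x, orderOf (π x) = 2 → ∃ i : ℤ, x * x = v ^ i := fun x hx =>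
    (hker _).1 (by rw [map_mul, H4.mul_self_of_orderOf_two hx])
  have hPi : ∀ x (i : ℤ), Commute x v → x * x = v ^ i → ((∃ y, π y = π x ∧ y * y = 1) ↔ Even i) := fun x i hx hi => by
    constructor
    · rintro ⟨y, hy, hy1⟩
      obtain ⟨j, hj⟩ := (hker (y⁻¹ * x)).1 (by rw [map_mul, map_inv, hy, inv_mul_cancel])
      have h1 : y = x * v ^ (-j) := by rw [zpow_neg, ← hj]; group
      have h2 : v ^ (i - 2 * j) = 1 := by
        rw [← hy1, h1, ← sq, (hx.zpow_right _).mul_pow, sq, hi]; group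
      have h3 := orderOf_dvd_iff_zpow_eq_one.2 h2
      rw [hn] at h3
      obtain ⟨l, hl⟩ : (2 : ℤ) ∣ i - 2 * j := Dvd.dvd.trans ⟨2 ^ (n + 1), by push_cast; ring⟩ h3
      exact ⟨l + j, by omega⟩
    · rintro ⟨j, rfl⟩
      refine ⟨x * v ^ (-j), by rw [map_mul, (hker _).2 ⟨_, rfl⟩, mul_one], ?_⟩
      rw [← sq, (hx.zpow_right _).mul_pow, sq, hi]; group
  obtain ⟨S⟩ : Nonempty (Sylow 2 (G ⧸ pCore 2 G)) := inferInstance
  obtain ⟨t, htS, htC, ht⟩ := exists_elt C (fun e => hvc (mem_center_iff.2 fun g =>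
    (hmem g).1 (e ▸ mem_top _))) hodd S
  obtain ⟨k, hk⟩ : ∃ k, orderOf (t ^ k) = 2 := by
    obtain ⟨m, hm⟩ := IsPGroup.iff_orderOf.1 S.isPGroup' ⟨t, htS⟩
    rw [← orderOf_coe] at hm
    match m, hm with
    | 0, hm => exact (htC ((orderOf_eq_one_iff.1 hm : t = 1) ▸ one_mem _)).elim
    | m + 1, hm => exact ⟨_, by
        have := orderOf_pow_orderOf_div (x := t) (n := 2) (orderOf_pos t).ne' (hm ▸ dvd_pow_self 2 m.succ_ne_zero)
        exact this⟩
  have key := core h0' pCore_quotient_pCore C hC2 (fun x => ∃ y, π y = x ∧ y * y = 1) ?_ ?_ ?_ S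
    (pow_mem htS k) hk ?_
  · obtain ⟨t, rfl⟩ := hsurj t
    rw [← map_pow] at hk key
    obtain ⟨i, hi⟩ := hsq _ hk
    obtain ⟨j, hj⟩ := Int.not_even_iff_odd.1 (mt (hPi _ i ((hmem _).1 key.1) hi).2 key.2)
    have h1 : Commute t (v ^ i) := hi ▸ (Commute.self_pow t k).mul_right (Commute.self_pow t k)
    have h2 : v ∈ zpowers (v ^ i) := mem_zpowers_zpow_iff.2 (by
      rw [hn, Int.isCoprime_iff_gcd_eq_one.symm]
      push_cast
      exact IsCoprime.pow_right ⟨1, -j, by rw [hj]; ring⟩)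
    obtain ⟨l, hl⟩ := mem_zpowers_iff.1 h2
    exact htC ((hmem t).2 (hl ▸ h1.zpow_right l))
  · rintro _ g ⟨y, rfl, hy⟩
    obtain ⟨g, rfl⟩ := hsurj g
    refine ⟨g * y * g⁻¹, by simp, ?_⟩
    calc g * y * g⁻¹ * (g * y * g⁻¹) = g * (y * y) * g⁻¹ := by group
      _ = 1 := by rw [hy]; group
  · intro x hx y hy h1 h2 h3 h4
    obtain ⟨x, rfl⟩ := hsurj x
    obtain ⟨y, rfl⟩ := hsurj y
    rw [hmem] at hx hy
    obtain ⟨i, hi⟩ := hsq x h1
    obtain ⟨j, hj⟩ := hsq y h2
    obtain ⟨l, hl⟩ := (hker (x⁻¹ * (y * x * y⁻¹))).1 (by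
      simp only [map_mul, map_inv]; rw [← h3.eq]; group)
    obtain ⟨m, hm⟩ := mul_sq hn hx hy hi hj (k := l) (by rw [← hl]; group)
    rw [hPi x i hx hi, hPi y j hy hj] at h4
    rw [← map_mul, hPi _ _ (hx.mul_left hy) hm]
    exact (Int.even_add.2 h4).add (even_two_mul m)
  · intro S T hST x hS hT hx
    have hk : IsPGroup 2 π.ker := by rw [hπ, QuotientGroup.ker_mk']; exact pCore_isPGroup
    have hr : ∀ U : Sylow 2 (G ⧸ pCore 2 G), (U : Subgroup _) ≤ π.range := fun U => by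
      rw [MonoidHom.range_eq_top.2 hsurj]; exact le_top
    have h1 := hC (S.comapOfKerIsPGroup π hk (hr S)) (T.comapOfKerIsPGroup π hk (hr T)) fun e =>
      hST (Sylow.ext (comap_injective hsurj (congrArg Sylow.toSubgroup e)))
    have h2 : ∀ y, π y = x → y ∈ (S.comapOfKerIsPGroup π hk (hr S) : Subgroup G) ⊓ T.comapOfKerIsPGroup π hk (hr T) :=
      fun y hy => ⟨mem_comap.2 (hy ▸ hS), mem_comap.2 (hy ▸ hT)⟩
    have h3 : pCore 2 G ≤ (S.comapOfKerIsPGroup π hk (hr S) : Subgroup G) ⊓ T.comapOfKerIsPGroup π hk (hr T) :=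
      le_inf (pCore_le_sylow _) (pCore_le_sylow _)
    constructor
    · obtain ⟨y, rfl⟩ := hsurj x
      exact (hmem y).2 (congrArg Subtype.val (h1.isMulCommutative.is_comm.comm ⟨y, h2 y rfl⟩ ⟨v, h3 hvV⟩))
    · rintro ⟨y, hy, hy1⟩
      have h4 : orderOf (v ^ (orderOf v / 2)) = 2 :=
        orderOf_pow_orderOf_div (orderOf_pos v).ne' (hn ▸ dvd_pow_self 2 n.succ.succ_ne_zero)
      have h5 := huniq h1 y (h2 y hy) _ (h3 (pow_mem hvV _)) (H4.orderOf_eq_two_of hy1 fun e =>
        H4.ne_one_of_orderOf_two hx (by rw [← hy, e, map_one])) h4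
      exact H4.ne_one_of_orderOf_two hx (by rw [← hy, h5]; exact (hker _).2 ⟨_, (zpow_natCast _ _).symm⟩)
  · intro g hg
    obtain ⟨s, hs, d, hd, rfl⟩ := ht g hg
    exact ⟨s, hs, by rw [mul_assoc s d, (hd.pow_right k).eq]; group⟩

end

/-- Let G be a finite nonsolvable group in which any two distinct Sylow 2-subgroups intersect in a cyclic group, and let N be a solvable normal subgroup of G. Then the image of N in G/O(G) is a cyclic 2-group contained in the centre of G/O(G) (O(G) the largest normal subgroup of odd order). In other words the solvable radical of G is V·O(G) with V a cyclic 2-group central modulo O(G). -/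
theorem result {G : Type*} [Group G] [Finite G] (hns : ¬ Group.IsSolvable G)
    (hC : ∀ S T : Sylow 2 G, S ≠ T → IsCyclic ↥((S : Subgroup G) ⊓ (T : Subgroup G)))
    (N : Subgroup G) [N.Normal] (hN : Group.IsSolvable ↥N) :
    IsCyclic ↥(N.map (QuotientGroup.mk' (Cfsg.oddCore G))) ∧ IsPGroup 2 ↥(N.map (QuotientGroup.mk' (Cfsg.oddCore G))) ∧
      N.map (QuotientGroup.mk' (Cfsg.oddCore G)) ≤ Subgroup.center (G ⧸ Cfsg.oddCore G) := by
  have hC' := S3305.result hC (oddCore G)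
  have hns' : ¬ Group.IsSolvable (G ⧸ oddCore G) := fun h => by
    have h1 : Group.IsSolvable (oddCore G) :=
      FT.odd_solvable (Nat.not_even_iff_odd.1 fun h => not_dvd_card_pPrimeCore h.two_dvd)
    exact hns (Group.isSolvable_of_ker_le_range (oddCore G).subtype (QuotientGroup.mk' (oddCore G)) (by simp))
  have h0 : pPrimeCore 2 (G ⧸ oddCore G) = ⊥ := pPrimeCore_quotient_pPrimeCore
  have hV : IsCyclic (pCore 2 (G ⧸ oddCore G)) := by
    obtain ⟨S, T, hST⟩ := H5.exists_sylow_ne_of_not_normal (p := 2) (G := G ⧸ oddCore G) fun ⟨P, hP⟩ => by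
      have h1 : Group.IsSolvable (P : Subgroup (G ⧸ oddCore G)) := H8.solvable_of_pgroup P.isPGroup'
      have h2 : Group.IsSolvable ((G ⧸ oddCore G) ⧸ (P : Subgroup (G ⧸ oddCore G))) :=
        FT.odd_solvable (Nat.not_even_iff_odd.1 fun h => P.not_dvd_index h.two_dvd)
      exact hns' (Group.isSolvable_of_ker_le_range (P : Subgroup (G ⧸ oddCore G)).subtype
        (QuotientGroup.mk' (P : Subgroup (G ⧸ oddCore G))) (by simp))
    have := hC' S T hST
    exact isCyclic_of_le (le_inf (pCore_le_sylow S) (pCore_le_sylow T))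
  have hn : (N.map (QuotientGroup.mk' (oddCore G))).Normal :=
    Normal.map inferInstance _ (QuotientGroup.mk'_surjective _)
  have h1 := le_core h0 hV _ (H8.solvable_map hN (QuotientGroup.mk' (oddCore G)))
  exact ⟨isCyclic_of_le h1, pCore_isPGroup.to_le h1, h1.trans (core_le_center hns' h0 hV hC')⟩

end Cfsg.Agent.S3306
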