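import Cfsg.Statements.S3307
import Cfsg.Agent.H5.GWc3

set_option autoImplicit false
open Cfsg

namespace Cfsg.Agent.S3307

open Subgroup GW H5 H7

/-- Let G be a finite nonsolvable group whose Sylow 2-subgroups are generalized quaternion and in which any two distinct Sylow 2-subgroups intersect in a cyclic group. Then the Sylow 2-subgroups are quaternion of order 8, and G has a normal subgroup G₁ of odd index containing O(G) (the largest normal subgroup of odd order) with G₁/O(G) isomorphic to SL(2,q) for some prime power q > 3 with q ≡ 3 or 5 mod 8. -/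
theorem result {G : Type*} [Group G] [Finite G] (hns : ¬ Group.IsSolvable G)
    (hQ : ∀ S : Sylow 2 G, ∃ n : ℕ, Nonempty (↥(S : Subgroup G) ≃* QuaternionGroup (2 ^ (n + 1))))
    (hC : ∀ S T : Sylow 2 G, S ≠ T → IsCyclic ↥((S : Subgroup G) ⊓ (T : Subgroup G))) :
    (∀ S : Sylow 2 G, Nonempty (↥(S : Subgroup G) ≃* QuaternionGroup 2)) ∧
    ∃ (G₁ : Subgroup G) (_ : G₁.Normal) (_ : ((Cfsg.oddCore G).subgroupOf G₁).Normal),
      Odd G₁.index ∧ Cfsg.oddCore G ≤ G₁ ∧
      ∃ (F : Type) (_ : Field F) (_ : Fintype F), (Fintype.card F % 8 = 3 ∨ Fintype.card F % 8 = 5) ∧ 3 < Fintype.card F ∧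
        Nonempty (↥G₁ ⧸ (Cfsg.oddCore G).subgroupOf G₁ ≃* Matrix.SpecialLinearGroup (Fin 2) F) := by
  obtain ⟨P⟩ := (inferInstance : Nonempty (Sylow 2 G))
  obtain ⟨n, ⟨eP⟩⟩ := hQ P
  have hO := L0.not_dvd_card_pPrimeCore (p := 2) (G := G)
  obtain ⟨z, hn, h⟩ := exists_dc P (unique_involution_of_equiv_quaternion eP) (by
    refine Dvd.dvd.trans ?_ (card_subgroup_dvd_card (P : Subgroup G))
    rw [Nat.card_congr eP.toEquiv, Nat.card_eq_fintype_card, QuaternionGroup.card]
    exact Dvd.dvd.mul_right (by norm_num) _)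
  set π := QuotientGroup.mk' (zpowers z)
  set φ := QuotientGroup.mk' (oddCore G)
  have hφ : Function.Surjective φ := QuotientGroup.mk'_surjective _
  have hns' : ¬ Group.IsSolvable ((G ⧸ oddCore G) ⧸ zpowers z) := fun _ => by
    haveI : Group.IsSolvable (G ⧸ oddCore G) := Group.isSolvable_of_ker_le_range (zpowers z).subtype π
      (by rw [QuotientGroup.ker_mk', range_subtype])
    haveI := solvable_of_odd hO
    exact hns (Group.isSolvable_of_ker_le_range (oddCore G).subtype φ
      (by rw [QuotientGroup.ker_mk', range_subtype]))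
  obtain ⟨h1, hs, hc⟩ := layer_of_ds h.ds hns' (h.pPrimeCore_eq_bot L0.pPrimeCore_quotient_pPrimeCore)
  obtain ⟨S⟩ := (inferInstance : Nonempty (Sylow 2 ((G ⧸ oddCore G) ⧸ zpowers z)))
  obtain ⟨h4, hSE⟩ := sylow_four_of_isCyclic_inf h.ds h1 (fun S T hST => by
    obtain ⟨S₀, T₀, h2, h3⟩ := exists_sylow_pair_lift (π.comp φ) (h.surj.comp hφ) hST
    exact h3 ▸ isCyclic_map _ (hC _ _ h2)) S
  have hnE : (layerOf (⊤ : Subgroup ((G ⧸ oddCore G) ⧸ zpowers z))).Normal :=
    layerOf_top (G := (G ⧸ oddCore G) ⧸ zpowers z) ▸ inferInstance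
  generalize layerOf (⊤ : Subgroup ((G ⧸ oddCore G) ⧸ zpowers z)) = E at *
  have hi := H6.sylow_two_index_odd S
  have hE : Nat.card E = 4 * (S : Subgroup _).relIndex E := by
    rw [← h4, relIndex, ← ((S : Subgroup _).subgroupOf E).card_mul_index,
      Nat.card_congr (subgroupOfEquivOfLe hSE).toEquiv]
  have hE2 : Odd ((S : Subgroup _).relIndex E) := hi.of_dvd_nat (relIndex_dvd_index_of_le hSE)
  refine ⟨fun T => ?_, (E.comap π).comap φ, inferInstance, inferInstance, ?_,
    fun x hx => ?_, ?_⟩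
  · obtain ⟨k, ⟨e⟩⟩ := hQ T
    have h5 := H6.sylow_card_of (p := 2) (k := 3) (m := S.1.index * Nat.card (oddCore G))
      (by rw [card_eq_card_quotient_mul_card_subgroup (oddCore G), h.card,
        ← S.1.card_mul_index, h4]; ring)
      (Nat.prime_two.not_dvd_mul hi.not_two_dvd_nat hO) T
    rw [Nat.card_congr e.toEquiv, Nat.card_eq_fintype_card, QuaternionGroup.card] at h5
    obtain rfl : k = 0 := by
      rcases k with _ | k
      · rfl
      · rw [pow_succ, pow_succ] at h5; omega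
    exact ⟨e⟩
  · rw [index_comap_of_surjective _ hφ, index_comap_of_surjective _ h.surj]
    exact hi.of_dvd_nat (index_dvd_of_le hSE)
  · rw [mem_comap, show φ x = 1 from (QuotientGroup.eq_one_iff x).2 hx]
    exact one_mem _
  obtain ⟨z', h'⟩ := h.restrict E
  rcases gw_psl hc h'.ds with ⟨F, i1, i2, h3, ⟨e⟩⟩ | h3
  · obtain ⟨e'⟩ := h'.equiv_SL (two_ne_zero_of_odd_card h3) e
      (H7.quasisimple_iff.mp (H7.QS.of_isSimpleGroup hc)).1 (two_dvd_card_of_simple hc)
    refine ⟨F, i1, i2, mod_eight_of_card h3 hE2 ?_, three_lt_card hc h3 e, ⟨?_⟩⟩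
    · rw [← card_SL2, ← Nat.card_congr e'.toEquiv, h'.card, hE]; ring
    · refine (QuotientGroup.quotientMulEquivOfEq ?_).trans ((QuotientGroup.quotientKerEquivOfSurjective _
        (φ.subgroupComap_surjective_of_surjective (E.comap π) hφ)).trans e')
      ext x
      rw [MonoidHom.mem_ker, Subtype.ext_iff, mem_subgroupOf]
      exact (QuotientGroup.eq_one_iff _).symm
  · have := h3.symm.trans hE
    rw [Nat.odd_iff] at hE2
    omega

end Cfsg.Agent.S3307
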