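import Cfsg.Statements.S3313
import Cfsg.Agent.H5.Extra32
import Cfsg.Agent.H5.A5Facts
import Cfsg.Agent.H7.FStar

set_option autoImplicit false
open Cfsg

namespace Cfsg.Agent.S3313

open Subgroup H5

section
variable {G : Type*} [Group G] [Finite G] {Q : Subgroup G} {z : G}

/-- Elements of `Q` centralized by `k` modulo `z`. -/
def fixMod (h : H9.ES Q z) {k : G} (hk : k ∈ normalizer (Q : Set G)) : Subgroup G where
  carrier := {q | q ∈ Q ∧ (k * q * k⁻¹ = q ∨ k * q * k⁻¹ = q * z)}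
  one_mem' := ⟨one_mem _, Or.inl (by simp)⟩
  mul_mem' := by
    rintro a b ⟨ha, ha'⟩ ⟨hb, hb'⟩
    refine ⟨mul_mem ha hb, ?_⟩
    rw [← conj_mul]
    rcases ha' with h1 | h1 <;> rcases hb' with h2 | h2 <;> rw [h1, h2]
    · exact Or.inl rfl
    · exact Or.inr (mul_assoc _ _ _).symm
    · right; rw [mul_assoc, ← h.cz b hb, mul_assoc]
    · left; rw [mul_assoc, ← mul_assoc z, ← h.cz b hb, mul_assoc b, h.sq, mul_one]
  inv_mem' := by
    rintro a ⟨ha, ha'⟩
    refine ⟨inv_mem ha, ?_⟩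
    rw [← conj_inv]
    rcases ha' with h1 | h1 <;> rw [h1]
    · exact Or.inl rfl
    · right; rw [mul_inv_rev, h.toC2.inv, h.cz _ (inv_mem ha)]

theorem mem_fixMod (h : H9.ES Q z) {k : G} (hk : k ∈ normalizer (Q : Set G)) {q : G} :
    q ∈ fixMod h hk ↔ q ∈ Q ∧ (k * q * k⁻¹ = q ∨ k * q * k⁻¹ = q * z) := Iff.rfl

theorem card_fixMod_le {k g : G} (hk : k ∈ normalizer (Q : Set G)) (hg : g ∈ normalizer (Q : Set G))
    (h : Five Q z (k * (g * k * g⁻¹))) : Nat.card (fixMod h.es hk) ≤ 8 := by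
  have hk' : g * k * g⁻¹ ∈ normalizer (Q : Set G) := mul_mem (mul_mem hg hk) (inv_mem hg)
  set P := fixMod h.es hk
  set P' := fixMod h.es hk'
  have hz := h.es.conj_z hg
  have hc : Nat.card P ≤ Nat.card P' := by
    rw [← H8.card_cj g P]
    apply card_le_of_le
    rintro _ ⟨q, ⟨hq, hq'⟩, rfl⟩
    refine ⟨H9.conj_mem_of_mem_normalizer hg hq, ?_⟩
    change g * k * g⁻¹ * (g * q * g⁻¹) * (g * k * g⁻¹)⁻¹ = g * q * g⁻¹ ∨
      g * k * g⁻¹ * (g * q * g⁻¹) * (g * k * g⁻¹)⁻¹ = g * q * g⁻¹ * z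
    have : g * k * g⁻¹ * (g * q * g⁻¹) * (g * k * g⁻¹)⁻¹ = g * (k * q * k⁻¹) * g⁻¹ := by group
    rw [this]
    rcases hq' with h1 | h1 <;> rw [h1]
    · exact Or.inl rfl
    · right; rw [← conj_mul, hz]
  have hn : P' ≤ normalizer (P : Set G) := by
    intro x hx
    apply mem_normalizer_of_conj_mem
    intro y hy
    rcases h.es.toC2.conj_eq hx.1 hy.1 with e | e <;> rw [e]
    · exact hy
    · exact mul_mem hy ⟨h.es.mem, Or.inl (h.es.conj_z hk)⟩
  have h1 := card_sup_mul_card_inf hn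
  have h2 : Nat.card ↥(P ⊔ P') ≤ 32 := h.card ▸ card_le_of_le (sup_le (fun _ h => h.1) fun _ h => h.1)
  have h3 : Nat.card ↥(P ⊓ P') ≤ 2 := by
    refine (H9.card_le_of_subset (s := {1, z}) (Set.toFinite _) fun x hx => ?_).trans
      ((Set.ncard_insert_le _ _).trans (by simp))
    refine h.fixed' hx.1.1 ?_
    have : k * (g * k * g⁻¹) * x * (k * (g * k * g⁻¹))⁻¹ =
      k * ((g * k * g⁻¹) * x * (g * k * g⁻¹)⁻¹) * k⁻¹ := by group
    rw [this]
    rcases hx.2.2 with e | e <;> rw [e]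
    · exact hx.1.2
    · rw [← conj_mul, h.es.conj_z hk]
      rcases hx.1.2 with e | e <;> rw [e]
      · exact Or.inr rfl
      · left; rw [mul_assoc, h.es.sq, mul_one]
  have h4 := Nat.mul_le_mul h2 h3
  nlinarith

theorem inverted_eq {k g : G} (hk : k ∈ normalizer (Q : Set G)) (hg : g ∈ normalizer (Q : Set G))
    (hkk : k * k = 1) (h : Five Q z (k * (g * k * g⁻¹))) :
    {q | q ∈ Q ∧ k * q * k⁻¹ = q⁻¹} = (fixMod h.es hk : Set G) ∧ Nat.card (fixMod h.es hk) = 8 := by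
  have hle := card_fixMod_le hk hg h
  have hz := h.es.conj_z hk
  have hkinv : k⁻¹ = k := inv_eq_of_mul_eq_one_left hkk
  have hsub : {q | q ∈ Q ∧ k * q * k⁻¹ = q⁻¹} ⊆ (fixMod h.es hk : Set G) := by
    rintro q ⟨hq, hq'⟩
    refine ⟨hq, ?_⟩
    rw [hq']
    rcases h.es.sq_eq hq with e | e
    · exact Or.inl (inv_eq_of_mul_eq_one_left e)
    · right; rw [inv_eq_iff_mul_eq_one, ← mul_assoc, e, h.es.sq]
  have hb := H6.ncard_le_mul_of_fibers (fun p : G × Fin 2 => p.1⁻¹ * (k * p.1 * k⁻¹) * z ^ p.2.val)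
    ((Q : Set G) ×ˢ Set.univ) {q | q ∈ Q ∧ k * q * k⁻¹ = q⁻¹} (m := 8) (by
      rintro ⟨r, e⟩ ⟨hr, -⟩
      have hr' := H9.conj_mem_of_mem_normalizer hk hr
      refine ⟨mul_mem (mul_mem (inv_mem hr) hr') (pow_mem h.es.mem _), ?_⟩
      have h1 : k * (k * r * k⁻¹) * k⁻¹ = r := by
        calc k * (k * r * k⁻¹) * k⁻¹ = (k * k) * r * (k * k)⁻¹ := by group
          _ = r := by rw [hkk]; group
      have h2 : Commute (z ^ e.val) ((k * r * k⁻¹)⁻¹ * r) :=
        (show Commute _ z from h.es.cz _ (mul_mem (inv_mem hr') hr)).symm.pow_left _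
      change k * (r⁻¹ * (k * r * k⁻¹) * z ^ e.val) * k⁻¹ = (r⁻¹ * (k * r * k⁻¹) * z ^ e.val)⁻¹
      rw [← conj_mul, ← conj_mul, h1, ← conj_pow, hz, ← conj_inv, ← h2.eq,
        mul_inv_rev _ (z ^ e.val), ← inv_pow, h.es.toC2.inv]
      group) (by
      intro q hq
      rcases Set.eq_empty_or_nonempty {a : G × Fin 2 | a ∈ (Q : Set G) ×ˢ Set.univ ∧
        a.1⁻¹ * (k * a.1 * k⁻¹) * z ^ a.2.val = q} with h0 | ⟨⟨r₀, e₀⟩, ⟨hr₀, -⟩, h0⟩
      · rw [h0]; simp
      refine le_trans (Set.ncard_le_ncard_of_injOn (fun p => p.1 * r₀⁻¹)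
        (t := (fixMod h.es hk : Set G)) ?_ ?_) ((H6.ncard_subgroup _).trans_le hle)
      · rintro ⟨r, e⟩ ⟨⟨hr, -⟩, h1⟩
        refine ⟨mul_mem hr (inv_mem hr₀), ?_⟩
        have h2 : k * (r * r₀⁻¹) * k⁻¹ = r * (z ^ e₀.val * (z ^ e.val)⁻¹) * r₀⁻¹ := by
          have h3 : k * r * k⁻¹ = r * q * (z ^ e.val)⁻¹ := by rw [← h1]; group
          have h4 : k * r₀ * k⁻¹ = r₀ * q * (z ^ e₀.val)⁻¹ := by rw [← h0]; group
          have h5 : Commute q (z ^ e₀.val * (z ^ e.val)⁻¹) :=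
            ((show Commute q z from h.es.cz q hq.1).pow_right _).mul_right
              ((show Commute q z from h.es.cz q hq.1).pow_right _).inv_right
          calc k * (r * r₀⁻¹) * k⁻¹ = (k * r * k⁻¹) * (k * r₀ * k⁻¹)⁻¹ := by group
            _ = r * (q * (z ^ e₀.val * (z ^ e.val)⁻¹)) * q⁻¹ * r₀⁻¹ := by rw [h3, h4]; group
            _ = _ := by rw [h5.eq]; group
        change k * (r * r₀⁻¹) * k⁻¹ = r * r₀⁻¹ ∨ k * (r * r₀⁻¹) * k⁻¹ = r * r₀⁻¹ * z
        rw [h2]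
        have h6 := h.es.cz _ (inv_mem hr₀)
        fin_cases e <;> fin_cases e₀ <;> simp [h.es.toC2.inv, h.es.sq, mul_assoc, h6]
      · rintro ⟨r, e⟩ ⟨-, h1⟩ ⟨r', e'⟩ ⟨-, h2⟩ h3
        have h4 : r = r' := mul_right_cancel h3
        subst h4
        have h5 : z ^ e.val = z ^ e'.val := mul_left_cancel (h1.trans h2.symm)
        have := h.es.ne
        fin_cases e <;> fin_cases e' <;> simp_all)
  rw [Set.ncard_prod, H6.ncard_subgroup, h.card, Set.ncard_univ, Nat.card_fin] at hb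
  have h8 := Set.ncard_le_ncard hsub (Set.toFinite _)
  rw [H6.ncard_subgroup] at h8
  exact ⟨Set.eq_of_subset_of_ncard_le hsub (by rw [H6.ncard_subgroup]; omega) (Set.toFinite _),
    by omega⟩

theorem ncard_fiber {k g q : G} (hk : k ∈ normalizer (Q : Set G)) (hg : g ∈ normalizer (Q : Set G))
    (hkk : k * k = 1) (h : Five Q z (k * (g * k * g⁻¹))) (hkQ : k ∉ Q) (hq : q ∈ Q)
    (hy : q * k * (q * k) = 1) :
    {x | (x ∈ Q ∧ x * x = 1 ∧ x ≠ 1) ∧ z ∈ zpowers (x * (q * k))}.ncard = 8 := by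
  obtain ⟨h1, h2⟩ := inverted_eq hk hg hkk h
  have hinv : ∀ r, r ∈ fixMod h.es hk ↔ r ∈ Q ∧ k * r * k⁻¹ = r⁻¹ := fun r =>
    (Set.ext_iff.mp h1 r).symm
  have hkinv : k⁻¹ = k := inv_eq_of_mul_eq_one_left hkk
  set P := fixMod h.es hk
  have hzP : z ∈ P := ⟨h.es.mem, Or.inl (h.es.conj_z hk)⟩
  have hPc : ∀ a ∈ P, ∀ b ∈ P, a * b = b * a := by
    intro a ha b hb
    have := ((hinv _).mp (mul_mem ha hb)).2
    rw [← conj_mul, ((hinv _).mp ha).2, ((hinv _).mp hb).2, ← mul_inv_rev, inv_inj] at this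
    exact this.symm
  have hqP : q ∈ P := (hinv q).mpr ⟨hq, by
    rw [hkinv]; apply eq_inv_of_mul_eq_one_right; rw [← hy]; group⟩
  obtain ⟨x₀, hx₀P, hx₀⟩ := exists_mem_invols_of_comm h.es (R := P) (fun _ h => h.1) hzP hPc (by omega)
  have hx₀z : x₀ * z ∈ invols Q z := by
    refine ⟨mul_mem hx₀.1 h.es.mem, ?_, fun e => hx₀.2.2.2 ?_, fun e => hx₀.2.2.1 (by simpa using e)⟩
    · rw [mul_assoc, ← mul_assoc z, ← h.es.cz _ hx₀.1, mul_assoc, h.es.sq, mul_one, hx₀.2.1]
    · rw [← h.es.toC2.inv]; exact eq_inv_of_mul_eq_one_left e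
  have hset : {x | (x ∈ Q ∧ x * x = 1 ∧ x ≠ 1) ∧ z ∈ zpowers (x * (q * k))} =
      invols Q z \ {x₀, x₀ * z} := by
    ext x
    constructor
    · rintro ⟨⟨hx, hxx, hx1⟩, hz⟩
      have key : x ∉ P := by
        intro hxP
        have e1 : k * x = x * k := by
          rw [← mul_inv_eq_iff_eq_mul, ((hinv x).mp hxP).2]; exact inv_eq_of_mul_eq_one_left hxx
        have e2 : x * (q * k) * (x * (q * k)) = 1 := by
          calc x * (q * k) * (x * (q * k)) = x * q * (k * x) * (q * k) := by group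
            _ = x * (q * x) * k * (q * k) := by rw [e1]; group
            _ = (x * x) * (q * k * (q * k)) := by rw [hPc q hqP x hxP]; group
            _ = 1 := by rw [hxx, hy, one_mul]
        rcases (H9.mem_zpowers_of_mul_self e2).mp hz with e | e
        · exact h.es.ne e
        · apply hkQ
          have : k = (x * q)⁻¹ * z := by rw [e]; group
          rw [this]; exact mul_mem (inv_mem (mul_mem hx hq)) h.es.mem
      refine ⟨⟨hx, hxx, hx1, fun e => key (e ▸ hzP)⟩, ?_⟩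
      rintro (e | e) <;> apply key <;> rw [e]
      exacts [hx₀P, mul_mem hx₀P hzP]
    · rintro ⟨hx, hx'⟩
      refine ⟨⟨hx.1, hx.2.1, hx.2.2.1⟩, ?_⟩
      have hxP : x ∉ P := fun hxP => hx' (h.eq_of_commute hx₀ hx (hPc _ hx₀P _ hxP))
      set y := q * k with hydef
      have hyN : y ∈ normalizer (Q : Set G) := mul_mem (le_normalizer hq) hk
      have hyz := h.es.conj_z hyN
      have hx2 : y * x * y⁻¹ ∈ invols Q z := by
        refine ⟨H9.conj_mem_of_mem_normalizer hyN hx.1, by rw [conj_mul, hx.2.1]; simp,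
          fun e => hx.2.2.1 (by simpa using e), fun e => hx.2.2.2 ?_⟩
        rw [← hyz] at e; simpa using e
      have hnc : x * (y * x * y⁻¹) ≠ (y * x * y⁻¹) * x := by
        intro e
        apply hxP
        refine ⟨hx.1, ?_⟩
        have e1 : k * x * k⁻¹ = q⁻¹ * (y * x * y⁻¹) * q⁻¹⁻¹ := by rw [hydef]; group
        rw [e1]
        rcases h.es.toC2.conj_eq (inv_mem hq) hx2.1 with e2 | e2 <;> rw [e2] <;>
          rcases h.eq_of_commute hx hx2 e with e3 | e3 <;> rw [e3]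
        · exact Or.inl rfl
        · exact Or.inr rfl
        · exact Or.inr rfl
        · left; rw [mul_assoc, h.es.sq, mul_one]
      have e1 := h.es.toC2.mul_sq_of_ne hx.1 hx2.1 hnc
      rw [hx.2.1, hx2.2.1, one_mul, one_mul] at e1
      rw [← e1, inv_eq_of_mul_eq_one_left hy]
      refine ⟨4, ?_⟩
      change (x * y) ^ (4 : ℤ) = _
      simp only [zpow_ofNat, pow_succ, pow_zero]; group
  rw [hset, Set.ncard_sdiff (by rintro _ (rfl | rfl); exacts [hx₀, hx₀z]), (h.invols_eq_orb hx₀).2,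
    Set.ncard_pair (fun e => h.es.ne (by simpa using e))]

theorem ncard_invol {K : Subgroup G} (e : K ≃* alternatingGroup (Fin 5)) :
    {k | k ∈ K ∧ k ≠ 1 ∧ k * k = 1}.ncard = 15 := by
  rw [← a5_card_invol, ← Set.ncard_coe_finset]
  symm
  refine Set.ncard_congr (fun a _ => (e.symm a : G)) ?_ ?_ ?_
  · intro a ha
    simp only [Finset.coe_filter, Finset.mem_univ, true_and, Set.mem_ofPred_eq] at ha
    refine ⟨(e.symm a).2, fun h => ha.1 (e.symm.map_eq_one_iff.mp (Subtype.ext h)), ?_⟩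
    rw [← coe_mul, ← map_mul, ha.2, map_one, coe_one]
  · intro a b _ _ h
    exact e.symm.injective (Subtype.ext h)
  · rintro k ⟨hk, h1, h2⟩
    refine ⟨e ⟨k, hk⟩, ?_, by simp⟩
    simp only [Finset.coe_filter, Finset.mem_univ, true_and, Set.mem_ofPred_eq]
    exact ⟨fun h => h1 (congrArg Subtype.val (e.map_eq_one_iff.mp h)),
      by rw [← map_mul, e.map_eq_one_iff]; exact Subtype.ext h2⟩

theorem ncard_odd {K : Subgroup G} (e : K ≃* alternatingGroup (Fin 5)) {x : G} (hx : x ∈ K)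
    (hx1 : x ≠ 1) (hxx : x * x = 1) :
    {b | b ∈ K ∧ b ≠ 1 ∧ b * b = 1 ∧ ((x * b) ^ 3 = 1 ∨ (x * b) ^ 5 = 1)}.ncard = 13 := by
  rw [← a5_card_odd_product (e ⟨x, hx⟩) (fun h => hx1 (congrArg Subtype.val (e.map_eq_one_iff.mp h)))
    (by rw [← map_mul, e.map_eq_one_iff]; exact Subtype.ext hxx), ← Set.ncard_coe_finset]
  have key : ∀ (b : K) (n : ℕ), (e ⟨x, hx⟩ * e b) ^ n = 1 ↔ (x * b) ^ n = 1 := by
    intro b n
    rw [← map_mul, ← map_pow, e.map_eq_one_iff, Subtype.ext_iff]; rfl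
  symm
  refine Set.ncard_congr (fun a _ => (e.symm a : G)) ?_ ?_ ?_
  · intro a ha
    simp only [Finset.coe_filter, Finset.mem_univ, true_and, Set.mem_ofPred_eq] at ha
    refine ⟨(e.symm a).2, fun h => ha.1 (e.symm.map_eq_one_iff.mp (Subtype.ext h)), ?_, ?_⟩
    · rw [← coe_mul, ← map_mul, ha.2.1, map_one, coe_one]
    · rw [← key, ← key, e.apply_symm_apply]; exact ha.2.2
  · intro a b _ _ h
    exact e.symm.injective (Subtype.ext h)
  · rintro k ⟨hk, h1, h2, h3⟩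
    refine ⟨e ⟨k, hk⟩, ?_, by simp⟩
    simp only [Finset.coe_filter, Finset.mem_univ, true_and, Set.mem_ofPred_eq]
    exact ⟨fun h => h1 (congrArg Subtype.val (e.map_eq_one_iff.mp h)),
      by rw [← map_mul, e.map_eq_one_iff]; exact Subtype.ext h2, by rw [key, key]; exact h3⟩

end

/-- The order of a simple group with the involution pattern of the Hall–Janko group. Let G be a non-abelian finite simple group with exactly two conjugacy classes of involutions, represented by z and t, such that: F*(C_G(z)) is an extraspecial 2-group; Q = O₂(C_G(z)) has order 32 and C_G(z) is the semidirect product of Q by a subgroup isomorphic to A₅; every involution of Q is conjugate to z and every other involution of C_G(z) is conjugate to t; C_G(t) is an internal direct product V × B with V a four-group containing t and B ≅ A₅; every involution of B is conjugate to z and every other involution of C_G(t) is conjugate to t. Then |G| = 604800. -/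
theorem result {G : Type*} [Group G] [Finite G]
    [IsSimpleGroup G] (hna : ¬ IsMulCommutative G) (z t : G) (hz : orderOf z = 2) (ht : orderOf t = 2)
    (hzt : ¬ IsConj z t) (hcl : ∀ x : G, orderOf x = 2 → IsConj x z ∨ IsConj x t)
    (hex : Cfsg.IsExtraspecial 2 ↥(Cfsg.generalizedFittingSubgroup ↥(Subgroup.centralizer ({z} : Set G))))
    (hQ : Nat.card ↥(Cfsg.pCore 2 ↥(Subgroup.centralizer ({z} : Set G))) = 32)
    (K : Subgroup G) (hK : Nonempty (↥K ≃* alternatingGroup (Fin 5)))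
    (hKC : K ⊔ (Cfsg.pCore 2 ↥(Subgroup.centralizer ({z} : Set G))).map (Subgroup.centralizer ({z} : Set G)).subtype = Subgroup.centralizer ({z} : Set G))
    (hKQ : K ⊓ (Cfsg.pCore 2 ↥(Subgroup.centralizer ({z} : Set G))).map (Subgroup.centralizer ({z} : Set G)).subtype = ⊥)
    (hQz : ∀ x ∈ (Cfsg.pCore 2 ↥(Subgroup.centralizer ({z} : Set G))).map (Subgroup.centralizer ({z} : Set G)).subtype, orderOf x = 2 → IsConj x z)
    (hCz : ∀ x ∈ Subgroup.centralizer ({z} : Set G), orderOf x = 2 →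
      x ∉ (Cfsg.pCore 2 ↥(Subgroup.centralizer ({z} : Set G))).map (Subgroup.centralizer ({z} : Set G)).subtype → IsConj x t)
    (V B : Subgroup G) (hVB : Cfsg.IsInternalDirectProduct V B (Subgroup.centralizer ({t} : Set G)))
    (hV : Nat.card ↥V = 4) (hV2 : ∀ v ∈ V, v ^ 2 = 1) (htV : t ∈ V) (hB : Nonempty (↥B ≃* alternatingGroup (Fin 5)))
    (hBz : ∀ x ∈ B, orderOf x = 2 → IsConj x z)
    (hCt : ∀ x ∈ Subgroup.centralizer ({t} : Set G), orderOf x = 2 → x ∉ B → IsConj x t) :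
    Nat.card G = 604800 := by
  classical
  obtain ⟨eK⟩ := hK
  obtain ⟨eB⟩ := hB
  have hzz := H9.mul_self_of_orderOf_two hz
  have htt := H9.mul_self_of_orderOf_two ht
  have hF : generalizedFittingSubgroup ↥(centralizer ({z} : Set G)) = pCore 2 _ :=
    H7.fstar_eq_pCore_iff_isPGroup.mpr hex.1.1
  have hcen := centralizer_pCore_le_iff_map.mp (H7.fstar_eq_pCore_iff_centralizer_le.mp hF)
  rw [hF] at hex
  obtain ⟨z', hz'⟩ := H9.exists_es_of_isExtraspecial hex
  have hes0 := hz'.map (centralizer ({z} : Set G)).subtype_injective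
  have hNQ := L0.le_normalizer_map_pCore (p := 2) (centralizer ({z} : Set G))
  have hQle : (pCore 2 ↥(centralizer ({z} : Set G))).map (centralizer ({z} : Set G)).subtype ≤
    centralizer {z} := map_subtype_le _
  rw [← L0.card_map_subtype] at hQ
  set Q := (pCore 2 ↥(centralizer ({z} : Set G))).map (centralizer ({z} : Set G)).subtype
  have hzc : ∀ q ∈ Q, q * z = z * q := fun q hq => mem_centralizer_singleton_iff.mp (hQle hq)
  have hzC : z ∈ centralizer ({z} : Set G) := mem_centralizer_singleton_iff.mpr rfl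
  have hes : H9.ES Q z := hes0.eq_of_central (hcen ⟨hzc, hzC⟩) (H9.ne_one_of_orderOf_two hz) hzc
  have hKle : K ≤ centralizer {z} := hKC ▸ le_sup_left
  have hKN : K ≤ normalizer (Q : Set G) := hKle.trans hNQ
  have hKQ' : ∀ k ∈ K, k ∈ Q → k = 1 := fun k h1 h2 => mem_bot.mp (hKQ ▸ (⟨h1, h2⟩ : k ∈ K ⊓ Q))
  have hfive : ∀ k ∈ K, k ≠ 1 → k * k = 1 → ∃ g ∈ K, Five Q z (k * (g * k * g⁻¹)) := by
    intro k hk hk1 hkk
    obtain ⟨g, hg1, hg2⟩ := a5_exists_order_five (eK ⟨k, hk⟩)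
      (fun h => hk1 (congrArg Subtype.val (eK.map_eq_one_iff.mp h)))
      (by rw [← map_mul, eK.map_eq_one_iff]; exact Subtype.ext hkk)
    obtain ⟨g, rfl⟩ := eK.surjective g
    rw [← map_inv, ← map_mul, ← map_mul, ← map_mul] at hg1 hg2
    rw [← map_pow, eK.map_eq_one_iff] at hg2
    have hm : k * (g * k * (g : G)⁻¹) ∈ K := mul_mem hk (mul_mem (mul_mem g.2 hk) (inv_mem g.2))
    have hne : k * (g * k * (g : G)⁻¹) ≠ 1 := fun h => hg1 (eK.map_eq_one_iff.mpr (Subtype.ext h))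
    haveI : Fact (Nat.Prime 5) := ⟨Nat.prime_five⟩
    exact ⟨g, g.2, hes, hQ, orderOf_eq_prime (congrArg Subtype.val hg2) hne, hKN hm,
      fun h => hne (hKQ' _ hm (hcen ⟨h, hKle hm⟩))⟩
  have hdec : ∀ y ∈ centralizer ({z} : Set G), ∃ q ∈ Q, ∃ k ∈ K, q * k = y := fun y hy =>
    (H9.mem_sup_of_le_normalizer' hKN).mp (by rw [sup_comm, hKC]; exact hy)
  have hdec2 : ∀ q ∈ Q, ∀ k ∈ K, q * k * (q * k) = 1 → k * k = 1 := by
    intro q hq k hk h
    refine hKQ' _ (mul_mem hk hk) ?_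
    have : k * k = (q * (k * q * k⁻¹))⁻¹ * (q * k * (q * k)) := by group
    rw [this, h, mul_one]
    exact inv_mem (mul_mem hq (H9.conj_mem_of_mem_normalizer (hKN hk) hq))
  -- the count for `z`
  have hY : {y | y ∈ centralizer ({z} : Set G) ∧ y ∉ Q ∧ y * y = 1}.ncard = 120 := by
    have := H6.ncard_mul_eq_of_rel {y | y ∈ centralizer ({z} : Set G) ∧ y ∉ Q ∧ y * y = 1}
      {k | k ∈ K ∧ k ≠ 1 ∧ k * k = 1} (fun y k => y * k⁻¹ ∈ Q) (m := 1) (n := 8) (by
        rintro y ⟨hy, hyQ, hyy⟩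
        obtain ⟨q, hq, k, hk, rfl⟩ := hdec y hy
        rw [Set.ncard_eq_one]
        refine ⟨k, Set.eq_singleton_iff_unique_mem.mpr ⟨⟨⟨hk, fun e => hyQ (by simpa [e] using hq),
          hdec2 q hq k hk hyy⟩, by simpa using hq⟩, fun k' hk' => ?_⟩⟩
        have h1 : k * k'⁻¹ ∈ Q := by
          have := mul_mem (inv_mem hq) hk'.2
          simpa [mul_assoc] using this
        exact (mul_inv_eq_one.mp (hKQ' _ (mul_mem hk (inv_mem hk'.1.1)) h1)).symm) (by
        rintro k ⟨hk, hk1, hkk⟩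
        obtain ⟨g, hg, h5⟩ := hfive k hk hk1 hkk
        obtain ⟨h1, h2⟩ := inverted_eq (hKN hk) (hKN hg) hkk h5
        have hkinv : k⁻¹ = k := inv_eq_of_mul_eq_one_left hkk
        rw [← h2, ← H6.ncard_subgroup, ← h1]
        refine Set.ncard_congr (fun y _ => y * k⁻¹) ?_ ?_ ?_
        · rintro y ⟨⟨-, -, hyy⟩, hy⟩
          refine ⟨hy, ?_⟩
          rw [mul_inv_rev, inv_inv, inv_eq_of_mul_eq_one_left hyy, mul_assoc, mul_assoc, hkinv, hkk,
            mul_one]
        · intro a b _ _ h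
          exact mul_right_cancel h
        · rintro q ⟨hq, hq'⟩
          refine ⟨q * k, ⟨⟨mul_mem (hQle hq) (hKle hk), fun h => hk1 (hKQ' k hk
            ((mul_mem_cancel_left hq).mp h)), ?_⟩, by simpa using hq⟩, by simp⟩
          rw [hkinv] at hq'
          calc q * k * (q * k) = q * (k * q * k) := by group
            _ = 1 := by rw [hq', mul_inv_cancel])
    rw [ncard_invol eK] at this
    omega
  have az : (thompsonPairs z t z).ncard = 960 := by
    have key : ∀ p ∈ thompsonPairs z t z, (p.1 ∈ Q ∧ p.1 * p.1 = 1 ∧ p.1 ≠ 1) ∧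
        p.2 ∈ centralizer ({z} : Set G) ∧ p.2 ∉ Q ∧ p.2 * p.2 = 1 := by
      rintro ⟨x, y⟩ ⟨h1, h2, h3⟩
      have o1 := (H6.orderOf_eq_of_isConj h1).symm.trans hz
      have o2 := (H6.orderOf_eq_of_isConj h2).symm.trans ht
      have hxx := H9.mul_self_of_orderOf_two o1
      have hyy := H9.mul_self_of_orderOf_two o2
      obtain ⟨c1, c2⟩ := commute_of_mem_zpowers_mul hxx hyy hzz h3
      refine ⟨⟨?_, hxx, H9.ne_one_of_orderOf_two o1⟩, mem_centralizer_singleton_iff.mpr c2,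
        fun h => hzt ((hQz y h o2).symm.trans h2.symm), hyy⟩
      by_contra h
      exact hzt (h1.trans (hCz x (mem_centralizer_singleton_iff.mpr c1) o1 h))
    rw [H6.ncard_eq_mul_of_fibers Prod.snd (thompsonPairs z t z)
      {y | y ∈ centralizer ({z} : Set G) ∧ y ∉ Q ∧ y * y = 1} (fun p hp => (key p hp).2) (m := 8), hY]
    rintro y ⟨hy, hyQ, hyy⟩
    obtain ⟨q, hq, k, hk, rfl⟩ := hdec y hy
    have hk1 : k ≠ 1 := fun e => hyQ (by simpa [e] using hq)
    have hkk := hdec2 q hq k hk hyy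
    obtain ⟨g, hg, h5⟩ := hfive k hk hk1 hkk
    rw [← ncard_fiber (hKN hk) (hKN hg) hkk h5 (fun h => hk1 (hKQ' k hk h)) hq hyy]
    refine Set.ncard_congr (fun p _ => p.1) ?_ ?_ ?_
    · rintro ⟨x, y⟩ ⟨hp, rfl⟩
      exact ⟨(key _ hp).1, hp.2.2⟩
    · rintro ⟨x, y⟩ ⟨x', y'⟩ ⟨-, rfl⟩ ⟨-, h⟩ h'
      exact Prod.ext h' h.symm
    · rintro x ⟨⟨hx, hxx, hx1⟩, h⟩
      exact ⟨(x, q * k), ⟨⟨(hQz x hx (H9.orderOf_two_of hx1 hxx)).symm,
        (hCz _ hy (H9.orderOf_two_of (fun e => hyQ (e ▸ one_mem _)) hyy) hyQ).symm, h⟩, rfl⟩, rfl⟩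
  -- the count for `t`
  obtain ⟨hVle, hBle, hc, hVB, hsup⟩ := hVB
  have hVB' : ∀ v ∈ V, v ∈ B → v = 1 := fun k h1 h2 => mem_bot.mp (hVB ▸ (⟨h1, h2⟩ : k ∈ V ⊓ B))
  have hBN : B ≤ normalizer (V : Set G) := fun b hb => mem_normalizer_of_conj_mem fun v hv => by
    rw [← hc v hv b hb]; simpa using hv
  have at' : (thompsonPairs z t t).ncard = 195 := by
    have key : ∀ p ∈ thompsonPairs z t t, (p.1 ∈ B ∧ p.1 ≠ 1 ∧ p.1 * p.1 = 1) ∧
        ∃ b, (b ∈ B ∧ b ≠ 1 ∧ b * b = 1 ∧ ((p.1 * b) ^ 3 = 1 ∨ (p.1 * b) ^ 5 = 1)) ∧ p.2 = t * b := by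
      rintro ⟨x, y⟩ ⟨h1, h2, h3⟩
      have o1 := (H6.orderOf_eq_of_isConj h1).symm.trans hz
      have o2 := (H6.orderOf_eq_of_isConj h2).symm.trans ht
      have hxx := H9.mul_self_of_orderOf_two o1
      have hyy := H9.mul_self_of_orderOf_two o2
      have hx1 := H9.ne_one_of_orderOf_two o1
      obtain ⟨c1, c2⟩ := commute_of_mem_zpowers_mul hxx hyy htt h3
      have hxB : x ∈ B := by
        by_contra h
        exact hzt (h1.trans (hCt x (mem_centralizer_singleton_iff.mpr c1) o1 h))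
      refine ⟨⟨hxB, hx1, hxx⟩, ?_⟩
      obtain ⟨v, hv, b, hb, rfl⟩ := (H9.mem_sup_of_le_normalizer' hBN).mp
        (hsup ▸ mem_centralizer_singleton_iff.mpr c2 : y ∈ V ⊔ B)
      have hvv : v * v = 1 := by rw [← sq]; exact hV2 v hv
      have hbb : b * b = 1 := by
        calc b * b = v * (v * b) * b := by rw [← mul_assoc, hvv, one_mul]
          _ = v * b * (v * b) := by conv_lhs => rw [hc v hv b hb]
                                    group
          _ = 1 := hyy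
      obtain ⟨n, hn⟩ := (mem_zpowers_iff_mem_range_orderOf.mp h3 |> Finset.mem_image.mp)
      have hn' : (x * (v * b)) ^ n = t := hn.2
      have hxb := mul_mem hxB hb
      have e1 : x * (v * b) = v * (x * b) := by rw [← mul_assoc, ← hc v hv x hxB, mul_assoc]
      rw [e1, (show Commute v (x * b) from hc v hv _ hxb).mul_pow] at hn'
      have e2 : (x * b) ^ n = 1 := hVB' _ (by
        have : (x * b) ^ n = (v ^ n)⁻¹ * t := by rw [← hn']; group
        rw [this]; exact mul_mem (inv_mem (pow_mem hv n)) htV) (pow_mem hxb n)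
      rw [e2, mul_one] at hn'
      obtain ⟨m, hm | hm⟩ := Nat.even_or_odd' n
      · rw [hm, pow_mul, hV2 v hv, one_pow] at hn'
        exact absurd hn'.symm (H9.ne_one_of_orderOf_two ht)
      rw [hm, pow_succ, pow_mul, hV2 v hv, one_pow, one_mul] at hn'
      have e3 : (x * b) ^ 2 = 1 → x * b = 1 := fun h => by
        rwa [hm, pow_succ, pow_mul, h, one_pow, one_mul] at e2
      refine ⟨b, ⟨hb, fun h => hx1 (by simpa [h] using e3 (by rw [h, mul_one, sq, hxx])), hbb, ?_⟩,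
        by rw [hn']⟩
      have e4 : ∀ n : ℕ, eB ⟨x * b, hxb⟩ ^ n = 1 → (x * b) ^ n = 1 := fun n h => by
        rw [← map_pow, eB.map_eq_one_iff] at h; exact congrArg Subtype.val h
      rcases a5_pow_eq_one (eB ⟨x * b, hxb⟩) with h | h | h
      · left; rw [e3 (e4 2 h), one_pow]
      · exact Or.inl (e4 3 h)
      · exact Or.inr (e4 5 h)
    rw [H6.ncard_eq_mul_of_fibers Prod.fst (thompsonPairs z t t)
      {x | x ∈ B ∧ x ≠ 1 ∧ x * x = 1} (fun p hp => (key p hp).1) (m := 13), ncard_invol eB]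
    rintro x ⟨hx, hx1, hxx⟩
    rw [← ncard_odd eB hx hx1 hxx]
    symm
    refine Set.ncard_congr (fun b _ => (x, t * b)) ?_ ?_ ?_
    · rintro b ⟨hb, hb1, hbb, h⟩
      have htb := hc t htV b hb
      have hB' : t * b ∉ B := fun h => H9.ne_one_of_orderOf_two ht
        (hVB' t htV ((mul_mem_cancel_right hb).mp h))
      refine ⟨⟨(hBz x hx (H9.orderOf_two_of hx1 hxx)).symm, (hCt _ (mul_mem (hVle htV) (hBle hb))
        (H9.orderOf_two_of (fun e => hB' (e ▸ one_mem _)) ?_) hB').symm, 15, ?_⟩, rfl⟩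
      · calc t * b * (t * b) = t * (b * t) * b := by group
          _ = 1 := by rw [← htb, ← mul_assoc, htt, one_mul, hbb]
      · change (x * (t * b)) ^ (15 : ℤ) = t
        have e1 : x * (t * b) = t * (x * b) := by rw [← mul_assoc, ← hc t htV x hx, mul_assoc]
        have e2 : (x * b) ^ 15 = 1 := by
          rcases h with h | h
          · rw [show 15 = 3 * 5 from rfl, pow_mul, h, one_pow]
          · rw [show 15 = 5 * 3 from rfl, pow_mul, h, one_pow]
        rw [zpow_ofNat, e1, (show Commute t (x * b) from hc t htV _ (mul_mem hx hb)).mul_pow, e2,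
          mul_one, show 15 = 2 * 7 + 1 from rfl, pow_succ, pow_mul, sq, htt, one_pow, one_mul]
    · intro a b _ _ h
      exact mul_left_cancel (congrArg Prod.snd h)
    · rintro ⟨x', y⟩ ⟨hp, rfl⟩
      obtain ⟨b, hb, e⟩ := (key _ hp).2
      exact ⟨b, hb, Prod.ext rfl e.symm⟩
  have c1 := card_sup_mul_card_inf hBN
  rw [hsup, hVB, card_bot, hV, Nat.card_congr eB.toEquiv, a5_card] at c1
  have c2 := card_sup_mul_card_inf hKN
  rw [sup_comm, hKC, inf_comm, hKQ, card_bot, hQ, Nat.card_congr eK.toEquiv, a5_card] at c2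
  rw [thompson_order_formula hz ht hzt hcl, az, at']
  omega

end Cfsg.Agent.S3313
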