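import Cfsg.Statements.S3315
import Cfsg.Agent.H1.U3b

set_option autoImplicit false
open Cfsg

namespace Cfsg.Agent.S3315

/-- Let S be a Sylow 2-subgroup of SU₃(2ⁿ), n ≥ 2 (realised over the field with 4ⁿ elements). If a finite 2-group R contains a subgroup S' of index 2 isomorphic to S, then the centre of S' is contained in the centre of R. -/
theorem result {R : Type*} [Group R] [Finite R]
    (hR : IsPGroup 2 R) (n : ℕ) (hn : 2 ≤ n) {F : Type*} [Field F] [Fintype F] (hF : Fintype.card F = 4 ^ n)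
    (P : Sylow 2 ↥(Cfsg.SU 3 F (2 ^ n))) (S' : Subgroup R) (hS : Nonempty (↥S' ≃* ↥(P : Subgroup ↥(Cfsg.SU 3 F (2 ^ n)))))
    (hidx : S'.index = 2) :
    (Subgroup.center ↥S').map S'.subtype ≤ Subgroup.center R := by
  obtain ⟨σ, hσ, hq⟩ := H1.U3.exists_ctx (by omega) hF
  obtain ⟨e1⟩ := hS
  obtain ⟨e2⟩ := H1.U3.nonempty_sylow_equiv hq P
  have hn : S'.Normal := Subgroup.normal_of_index_eq_two hidx
  let e := e1.trans e2
  rintro _ ⟨z, hz, rfl⟩
  rw [Subgroup.mem_center_iff]
  intro r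
  let α : MulAut (H1.U3.US σ) := MulAut.congr e (MulAut.conjNormal r)
  have hα : ∀ s : S', α (e s) = e (MulAut.conjNormal r s) := by
    intro s; simp [α]
  have h2 : r * r ∈ S' := Subgroup.mul_self_mem_of_index_two hidx r
  have h3 : ∀ u, (α (α u)).a = u.a := by
    intro u
    obtain ⟨s, rfl⟩ := e.surjective u
    rw [hα, hα]
    have : MulAut.conjNormal r (MulAut.conjNormal r s) = ⟨r * r, h2⟩ * s * ⟨r * r, h2⟩⁻¹ := by
      apply Subtype.ext; simp [mul_assoc]
    rw [this, map_mul, map_mul, map_inv]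
    simp
  have h4 := H1.U3.aut_fixes_center α h3 (u := e z)
    (H1.U3.mem_center_iff.mp ((MulEquivClass.apply_mem_center_iff e).mpr hz))
  rw [hα] at h4
  have h5 := congrArg Subtype.val (e.injective h4)
  simp only [MulAut.conjNormal_apply] at h5
  change r * (z : R) = z * r
  rw [← mul_inv_eq_iff_eq_mul, h5]

end Cfsg.Agent.S3315
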